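import Mathlib
import Cfsg.Prelude.Def_Transfer
import Cfsg.Prelude.Def_CaseTheorems

/-!
# Piece CL2 for S4330 (helper13): Hall's `E * R` structure gives class two and `Ω₁` closed
-/

set_option autoImplicit false

namespace Cfsg.Agent.Lib.Helper55.FumCL2

open scoped commutatorElement

/-- In a group where `c` is central and `y * x = c * x * y`: `y ^ n * x = c ^ n * x * y ^ n`. -/
theorem pow_mul_central {G : Type*} [Group G] (x y c : G) (hc : ∀ g : G, c * g = g * c)
    (hyx : y * x = c * x * y) (n : ℕ) : y ^ n * x = c ^ n * x * y ^ n := by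
  have hcn : ∀ (m : ℕ) (g : G), c ^ m * g = g * c ^ m := fun m g =>
    ((show Commute c g from hc g).pow_left m).eq
  induction n with
  | zero => simp
  | succ n ih =>
    rw [pow_succ', mul_assoc, ih, ← mul_assoc, ← mul_assoc, ← hcn n y, mul_assoc (c ^ n) y x, hyx,
      pow_succ]
    simp only [mul_assoc]

/-- In a group where `c` is central and `y * x = c * x * y`:
`(x * y) ^ n = x ^ n * y ^ n * c ^ (n.choose 2)`. -/
theorem mul_pow_central {G : Type*} [Group G] (x y c : G) (hc : ∀ g : G, c * g = g * c)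
    (hyx : y * x = c * x * y) (n : ℕ) : (x * y) ^ n = x ^ n * y ^ n * c ^ (n.choose 2) := by
  have hcn : ∀ (m : ℕ) (g : G), c ^ m * g = g * c ^ m := fun m g =>
    ((show Commute c g from hc g).pow_left m).eq
  induction n with
  | zero => simp
  | succ n ih =>
    have hch : (n + 1).choose 2 = n + n.choose 2 := by
      rw [Nat.choose_succ_succ' n 1, Nat.choose_one_right]
    have hA := pow_mul_central x y c hc hyx n
    calc (x * y) ^ (n + 1) = x ^ n * y ^ n * c ^ (n.choose 2) * (x * y) := by rw [pow_succ, ih]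
      _ = x ^ n * (y ^ n * x) * y * c ^ (n.choose 2) := by
          rw [mul_assoc (x ^ n * y ^ n), hcn (n.choose 2) (x * y)]
          simp only [mul_assoc]
      _ = x ^ n * (c ^ n * x * y ^ n) * y * c ^ (n.choose 2) := by rw [hA]
      _ = x ^ n * x * (y ^ n * y) * (c ^ n * c ^ (n.choose 2)) := by
          have e1 : c ^ n * x * y ^ n = x * y ^ n * c ^ n := by
            rw [mul_assoc, hcn n (x * y ^ n)]
          have e2 : c ^ n * (y * c ^ (n.choose 2)) = y * (c ^ n * c ^ (n.choose 2)) := by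
            rw [← mul_assoc, hcn n y, mul_assoc]
          rw [e1]
          simp only [mul_assoc]
          rw [e2]
      _ = x ^ (n + 1) * y ^ (n + 1) * c ^ ((n + 1).choose 2) := by
          rw [hch, pow_add c, pow_succ, pow_succ]

theorem class_two_of_hall {G : Type*} [Group G] [Finite G] {p : ℕ} [Fact p.Prime] (hp : p ≠ 2)
    (hall : ∃ E R : Subgroup G, (∀ e ∈ E, ∀ r ∈ R, e * r = r * e) ∧ E ⊔ R = ⊤ ∧
      (E = ⊥ ∨ Cfsg.IsExtraspecial p ↥E) ∧
      (IsCyclic R ∨ (p = 2 ∧ 16 ≤ Nat.card R ∧ ((∃ m : ℕ, Nonempty (↥R ≃* DihedralGroup m)) ∨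
        (∃ m : ℕ, Nonempty (↥R ≃* QuaternionGroup m)) ∨ Cfsg.IsQuasiDihedral ↥R)))) :
    (∀ x y t : G, (x * y * x⁻¹ * y⁻¹) * t = t * (x * y * x⁻¹ * y⁻¹)) ∧
    (∀ x y : G, x ^ p = 1 → y ^ p = 1 → (x * y) ^ p = 1) := by
  obtain ⟨E, R, hER, hsup, hE, hR⟩ := hall
  have hRc : IsCyclic R := by
    rcases hR with h | ⟨h, -⟩
    · exact h
    · exact absurd h hp
  -- `R` is abelian
  have hRab : ∀ r ∈ R, ∀ r' ∈ R, r * r' = r' * r := by
    intro r hr r' hr'
    have h := mul_comm' (⟨r, hr⟩ : R) ⟨r', hr'⟩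
    exact congrArg Subtype.val h
  -- a general principle: commuting with `E` and `R` means central
  have hcent : ∀ c : G, (∀ e ∈ E, c * e = e * c) → (∀ r ∈ R, c * r = r * c) →
      ∀ g : G, c * g = g * c := by
    intro c h1 h2 g
    have hle : E ⊔ R ≤ Subgroup.centralizer ({c} : Set G) := by
      refine sup_le ?_ ?_
      · intro e he
        rw [Subgroup.mem_centralizer_iff]
        intro d hd
        rw [Set.mem_singleton_iff] at hd
        subst hd
        exact h1 e he
      · intro r hr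
        rw [Subgroup.mem_centralizer_iff]
        intro d hd
        rw [Set.mem_singleton_iff] at hd
        subst hd
        exact h2 r hr
    have hg : g ∈ Subgroup.centralizer ({c} : Set G) := hle (hsup ▸ Subgroup.mem_top g)
    rw [Subgroup.mem_centralizer_iff] at hg
    exact hg c rfl
  -- `R` is central
  have hRcent : ∀ r ∈ R, ∀ g : G, r * g = g * r := by
    intro r hr
    exact hcent r (fun e he => (hER e he r hr).symm) (fun r' hr' => hRab r hr r' hr')
  -- every element is `e * r`
  have hdec : ∀ g : G, ∃ e ∈ E, ∃ r ∈ R, g = e * r := by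
    let S : Subgroup G :=
      { carrier := {g | ∃ e ∈ E, ∃ r ∈ R, g = e * r}
        one_mem' := ⟨1, E.one_mem, 1, R.one_mem, by simp⟩
        mul_mem' := by
          rintro _ _ ⟨e, he, r, hr, rfl⟩ ⟨e', he', r', hr', rfl⟩
          refine ⟨e * e', E.mul_mem he he', r * r', R.mul_mem hr hr', ?_⟩
          rw [mul_assoc e r, ← mul_assoc r e', hRcent r hr e']
          simp only [mul_assoc]
        inv_mem' := by
          rintro _ ⟨e, he, r, hr, rfl⟩
          refine ⟨e⁻¹, E.inv_mem he, r⁻¹, R.inv_mem hr, ?_⟩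
          rw [mul_inv_rev, hRcent r⁻¹ (R.inv_mem hr) e⁻¹] }
    have hle : E ⊔ R ≤ S := by
      refine sup_le ?_ ?_
      · intro e he
        exact ⟨e, he, 1, R.one_mem, by simp⟩
      · intro r hr
        exact ⟨1, E.one_mem, r, hr, by simp⟩
    intro g
    exact hle (hsup ▸ Subgroup.mem_top g)
  -- commutators of elements of `E` are central
  have hEcomm : ∀ e ∈ E, ∀ e' ∈ E, ∀ g : G,
      (e * e' * e⁻¹ * e'⁻¹) * g = g * (e * e' * e⁻¹ * e'⁻¹) := by
    intro e he e' he'
    rcases hE with hE | hE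
    · rw [hE, Subgroup.mem_bot] at he he'
      subst he; subst he'
      intro g; simp
    · have hcomm : commutator ↥E = Subgroup.center ↥E := hE.1.2.2
      have hmem : ⁅(⟨e, he⟩ : ↥E), (⟨e', he'⟩ : ↥E)⁆ ∈ Subgroup.center ↥E := by
        rw [← hcomm, commutator_def]
        exact Subgroup.commutator_mem_commutator (Subgroup.mem_top _) (Subgroup.mem_top _)
      rw [Subgroup.mem_center_iff] at hmem
      have hcE : e * e' * e⁻¹ * e'⁻¹ ∈ E :=
        E.mul_mem (E.mul_mem (E.mul_mem he he') (E.inv_mem he)) (E.inv_mem he')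
      refine hcent _ ?_ ?_
      · intro d hd
        have h := hmem ⟨d, hd⟩
        have h' := congrArg Subtype.val h
        simp only [commutatorElement_def, Subgroup.coe_mul, Subgroup.coe_inv] at h'
        exact h'.symm
      · intro r hr
        exact hER _ hcE r hr
  -- all commutators are central
  have hclass : ∀ x y t : G, (x * y * x⁻¹ * y⁻¹) * t = t * (x * y * x⁻¹ * y⁻¹) := by
    intro x y t
    obtain ⟨e, he, r, hr, rfl⟩ := hdec x
    obtain ⟨e', he', r', hr', rfl⟩ := hdec y
    have h1 : e * r * (e' * r') = e * e' * (r * r') := by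
      rw [mul_assoc e r, ← mul_assoc r e', hRcent r hr e']
      simp only [mul_assoc]
    have h2 : e' * r' * (e * r) = e' * e * (r * r') := by
      rw [mul_assoc e' r', ← mul_assoc r' e, hRcent r' hr' e, hRab r hr r' hr']
      simp only [mul_assoc]
    have h3 : e * r * (e' * r') * (e * r)⁻¹ * (e' * r')⁻¹ = e * e' * e⁻¹ * e'⁻¹ := by
      have : e * r * (e' * r') * (e * r)⁻¹ * (e' * r')⁻¹ =
          (e * r * (e' * r')) * (e' * r' * (e * r))⁻¹ := by group
      rw [this, h1, h2]
      group
    rw [h3]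
    exact hEcomm e he e' he' t
  refine ⟨hclass, ?_⟩
  intro x y hx hy
  have hc : ∀ g : G, (y * x * y⁻¹ * x⁻¹) * g = g * (y * x * y⁻¹ * x⁻¹) := fun g => hclass y x g
  have hyx : y * x = (y * x * y⁻¹ * x⁻¹) * x * y := by group
  have hcp : (y * x * y⁻¹ * x⁻¹) ^ p = 1 := by
    have h := pow_mul_central x y _ hc hyx p
    rw [hy, one_mul, mul_one] at h
    have h' : (y * x * y⁻¹ * x⁻¹) ^ p * x = 1 * x := by rw [one_mul]; exact h.symm
    exact mul_right_cancel h'
  have hpr : p.Prime := Fact.out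
  have hdvd : p ∣ p.choose 2 := by
    apply hpr.dvd_choose_self (by norm_num)
    have := hpr.two_le
    omega
  obtain ⟨m, hm⟩ := hdvd
  rw [mul_pow_central x y _ hc hyx p, hx, hy, hm, pow_mul, hcp]
  simp

end Cfsg.Agent.Lib.Helper55.FumCL2
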