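import Cfsg.Agent.Lib.Helper3.BG12Defs
import Cfsg.Agent.Lib.Helper32.BG10Main
import Cfsg.Agent.Lib.Helper3.BG12a

/-!
# B&G Section 12, piece P16T (helper55, for helper3): `q ∈ τ₂(M)` from a `q`-subgroup whose
normalizer lies in `M`, and elementary abelian subgroups of order `q ^ 2` in a Sylow subgroup
-/

set_option autoImplicit false

open Cfsg Cfsg.Agent.Lib.Helper32 Cfsg.Agent.Lib.Helper32.BG10 Cfsg.Agent.Lib.Helper3.BG12

namespace Cfsg.Agent.Lib.Helper55.BG12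

universe u

variable {G : Type u} [Group G] [Finite G]

theorem mem_tau2_of_normalizer_le (hG : IsMinSimpleOddOrder G) {M : Subgroup G} (hM : IsCoatom M)
    {q : ℕ} [Fact q.Prime] (hq : q ∉ sigma M) {X : Subgroup G} (hXq : IsPGroup q X) (hX1 : X ≠ ⊥)
    (hNX : Subgroup.normalizer (X : Set G) ≤ M) : q ∈ tau2 M := by
  have hqp : q.Prime := Fact.out
  have hq2 : q ≠ 2 := by
    rintro rfl
    have hodd : Odd (Nat.card X) := minSimple_odd_sub hG X
    obtain ⟨k, hk⟩ := IsPGroup.iff_card.mp hXq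
    have hk0 : k ≠ 0 := by
      rintro rfl
      rw [pow_zero] at hk
      exact hX1 (Subgroup.card_eq_one.mp hk)
    rw [hk] at hodd
    exact (Nat.not_even_iff_odd.mpr hodd) (Nat.even_pow.mpr ⟨even_two, hk0⟩)
  refine ⟨hqp, hq, ?_, ?_⟩
  · by_contra h
    exact hq (alpha_sub_sigma hG (ut_of hG) hM ⟨hqp, h⟩)
  · intro h1
    have hXM : X ≤ M := Subgroup.le_normalizer.trans hNX
    obtain ⟨S, hS, hXS⟩ := exists_sylSet_ge hXq hXM
    have hSq : IsPGroup q S := isPGroup_of_mem_sylSet hS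
    have hcyc : IsCyclic S := by
      by_contra hnc
      have h2 := not_rankLE_one_of_not_cyclic hq2 hSq hnc
      obtain ⟨r, E, hr, hES, hEc, hEp, hEcard⟩ := exists_elemAb_of_not_rankLE S 1 h2
      have hEq : IsPGroup q E := hSq.to_le hES
      obtain ⟨k, hk⟩ := IsPGroup.iff_card.mp hEq
      have hrq : r = q := by
        have h3 : r ∣ q ^ k := by
          rw [← hk, hEcard]
          exact dvd_pow_self r (by norm_num)
        exact (Nat.prime_dvd_prime_iff_eq hr hqp).mp (hr.dvd_of_dvd_pow h3)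
      subst hrq
      refine not_prankLE_of_le (hES.trans hS.1) hEc hEp ?_ h1
      rw [hEcard]
      exact Nat.pow_lt_pow_right hr.one_lt (by norm_num)
    have hNS : Subgroup.normalizer (S : Set G) ≤ M :=
      (normalizer_le_normalizer_of_cyclic hcyc hXS).trans hNX
    have hS1 : S ≠ ⊥ := by
      rintro rfl
      exact hX1 (le_bot_iff.mp hXS)
    exact hq (mem_sigma_of_normalizer_le hS hS1 hNS)

theorem exists_elemAb2_le_sylSet {q : ℕ} [Fact q.Prime] {M S : Subgroup G}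
    (h : ¬ PRankLE q 1 ↥M) (hS : S ∈ sylSet q M) :
    ∃ A : Subgroup G, A ≤ S ∧ IsElementaryAbelian q A ∧ Nat.card A = q ^ 2 := by
  have hqp : q.Prime := Fact.out
  obtain ⟨E, hEM, hEc, hEp, hEcard⟩ := exists_of_not_prankLE h
  have hEq : IsPGroup q E := by
    intro g
    refine ⟨1, ?_⟩
    rw [pow_one]
    exact Subtype.ext (by simpa using hEp g.1 g.2)
  obtain ⟨k, hk⟩ := IsPGroup.iff_card.mp hEq
  have hk2 : 2 ≤ k := by
    by_contra hlt
    push Not at hlt
    have h1 : q ^ k ≤ q ^ 1 := Nat.pow_le_pow_right hqp.pos (by omega)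
    omega
  obtain ⟨E₂', hE₂'⟩ := Sylow.exists_subgroup_card_pow_prime (G := E) q (n := 2)
    (by rw [hk]; exact pow_dvd_pow q hk2)
  have hE₂E : E₂'.map E.subtype ≤ E := by
    rintro x ⟨y, -, rfl⟩
    exact y.2
  have hE₂card : Nat.card (E₂'.map E.subtype) = q ^ 2 := by
    rw [← Nat.card_congr (E₂'.equivMapOfInjective E.subtype E.subtype_injective).toEquiv, hE₂']
  have hE₂q : IsPGroup q (E₂'.map E.subtype) := hEq.to_le hE₂E
  obtain ⟨R, hR, hE₂R⟩ := exists_sylSet_ge hE₂q (hE₂E.trans hEM)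
  obtain ⟨n, -, hn⟩ := sylSet_conj hR hS
  refine ⟨cj n (E₂'.map E.subtype), ?_, ⟨⟨⟨?_⟩⟩, ?_⟩, ?_⟩
  · rw [← hn]
    exact cj_mono n hE₂R
  · rintro ⟨a, ha⟩ ⟨b, hb⟩
    rw [mem_cj] at ha hb
    have hab := hEc _ (hE₂E ha) _ (hE₂E hb)
    apply Subtype.ext
    show a * b = b * a
    have h1 : a * b = n * ((n⁻¹ * a * n) * (n⁻¹ * b * n)) * n⁻¹ := by group
    have h2 : b * a = n * ((n⁻¹ * b * n) * (n⁻¹ * a * n)) * n⁻¹ := by group
    rw [h1, h2, hab]
  · intro a ha
    rw [mem_cj] at ha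
    have h1 := hEp _ (hE₂E ha)
    have h2 : (n⁻¹ * a * n) ^ q = n⁻¹ * a ^ q * n := by
      have h3 := conj_pow (a := n⁻¹) (b := a) (i := q)
      simpa using h3
    rw [h2] at h1
    have h4 : a ^ q = n * (n⁻¹ * a ^ q * n) * n⁻¹ := by group
    rw [h4, h1]
    group
  · rw [card_cj, hE₂card]

end Cfsg.Agent.Lib.Helper55.BG12
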