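import Cfsg.Agent.Lib.Helper41.TW5
import Cfsg.Agent.Lib.Helper41.TW6
import Cfsg.Agent.Lib.Helper41.PSub
set_option autoImplicit false
namespace Cfsg.Agent.Lib.Helper55.WBP
open Cfsg Cfsg.Agent.Lib.Helper66 Cfsg.Agent.Lib.Helper41 Cfsg.Agent.Lib.Helper41.TW

theorem le_ker_of_fitting_bot {K P : Type*} [Group K] [Group P] (φ : K →* P) (H N : Subgroup K)
    (hF : fittingSubgroup ↥(H.map φ) = ⊥) (hNH : N ≤ H) (hn : H ≤ Subgroup.normalizer (N : Set K))
    (hnil : Group.IsNilpotent ↥N) : N ≤ φ.ker := by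
  have hle : N.map φ ≤ H.map φ := Subgroup.map_mono hNH
  have hnorm : ((N.map φ).subgroupOf (H.map φ)).Normal := by
    apply Subgroup.normal_subgroupOf_of_le_normalizer
    rintro _ ⟨h, hh, rfl⟩
    have hh' := hn hh
    rw [Subgroup.mem_normalizer_iff] 
    intro y
    constructor
    · rintro ⟨n, hn', rfl⟩
      refine ⟨h * n * h⁻¹, ?_, by simp⟩
      exact (Subgroup.mem_normalizer_iff.mp hh' n).mp hn'
    · intro hy
      obtain ⟨m, hm, hme⟩ := hy
      have hm' : h⁻¹ * m * h ∈ N := by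
        have := (Subgroup.mem_normalizer_iff.mp (inv_mem hh') m).mp hm
        simpa using this
      refine ⟨h⁻¹ * m * h, hm', ?_⟩
      rw [map_mul, map_mul, hme, map_inv]
      group
  have hnilmap : Group.IsNilpotent ↥(N.map φ) :=
    Group.nilpotent_of_surjective (φ.subgroupMap N) (MonoidHom.subgroupMap_surjective φ N)
  have hnil2 : Group.IsNilpotent ↥((N.map φ).subgroupOf (H.map φ)) :=
    (Group.isNilpotent_congr (Subgroup.subgroupOfEquivOfLe hle)).mpr hnilmap
  have hfit : (N.map φ).subgroupOf (H.map φ) ≤ fittingSubgroup ↥(H.map φ) := by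
    unfold fittingSubgroup
    exact le_sSup ⟨hnorm, hnil2⟩
  rw [hF] at hfit
  intro n hnN
  rw [MonoidHom.mem_ker]
  have hmem : (⟨φ n, Subgroup.mem_map_of_mem φ (hNH hnN)⟩ : ↥(H.map φ)) ∈
      (N.map φ).subgroupOf (H.map φ) := by
    rw [Subgroup.mem_subgroupOf]
    exact Subgroup.mem_map_of_mem φ hnN
  have := hfit hmem
  rw [Subgroup.mem_bot] at this
  exact congrArg Subtype.val this

end Cfsg.Agent.Lib.Helper55.WBP
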