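import Cfsg.Agent.Lib.Helper41.TW5
import Cfsg.Agent.Lib.Helper41.TW6
import Cfsg.Agent.Lib.Helper41.PSub
set_option autoImplicit false
namespace Cfsg.Agent.Lib.Helper55.WBP
open Cfsg Cfsg.Agent.Lib.Helper66 Cfsg.Agent.Lib.Helper41 Cfsg.Agent.Lib.Helper41.TW

theorem ker_toPermHom_orbit {G Ω : Type*} [Group G] [MulAction G Ω] (a b : Ω) (x : ↥(MulAction.stabilizer G a))
    (hx : x ∈ (MulAction.toPermHom (MulAction.stabilizer G a)
      (MulAction.orbit (MulAction.stabilizer G a) b)).ker) :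
    ∀ k ∈ MulAction.stabilizer G a, k * (x : G) * k⁻¹ ∈ MulAction.stabilizer G b := by
  intro k hk
  rw [MonoidHom.mem_ker] at hx
  have hk' : k⁻¹ ∈ MulAction.stabilizer G a := inv_mem hk
  have hc : ((⟨k⁻¹, hk'⟩ : ↥(MulAction.stabilizer G a)) • b) ∈
      MulAction.orbit (MulAction.stabilizer G a) b := MulAction.mem_orbit _ _
  have h1 := congrArg (fun σ => σ ⟨_, hc⟩) hx
  simp only [MulAction.toPermHom_apply, MulAction.toPerm_apply, Equiv.Perm.coe_one, id_eq] at h1
  have h2 := congrArg Subtype.val h1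
  simp only [MulAction.orbit.coe_smul] at h2
  rw [MulAction.mem_stabilizer_iff]
  have h3 : (x : G) • k⁻¹ • b = k⁻¹ • b := h2
  rw [mul_smul, mul_smul, h3, smul_inv_smul]

end Cfsg.Agent.Lib.Helper55.WBP
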