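import Cfsg.Agent.Lib.Helper41.TW5
import Cfsg.Agent.Lib.Helper41.TW6
import Cfsg.Agent.Lib.Helper41.PSub
set_option autoImplicit false
namespace Cfsg.Agent.Lib.Helper55.WBP
open Cfsg Cfsg.Agent.Lib.Helper66 Cfsg.Agent.Lib.Helper41 Cfsg.Agent.Lib.Helper41.TW

theorem perm_coatom {G Ω : Type*} [Group G] [MulAction G Ω] [FaithfulSMul G Ω] [Nontrivial Ω]
    (hprim : MulAction.IsPreprimitive G Ω) (a : Ω) :
    IsCoatom (MulAction.stabilizer G a) ∧ (MulAction.stabilizer G a).normalCore = ⊥ := by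
  have := hprim
  have : MulAction.IsPretransitive G Ω := hprim.toIsPretransitive
  refine ⟨MulAction.IsPreprimitive.isCoatom_stabilizer_of_isPreprimitive (G := G) a, ?_⟩
  rw [eq_bot_iff]
  intro x hx
  rw [Subgroup.mem_bot]
  have hx' : ∀ g : G, g * x * g⁻¹ ∈ MulAction.stabilizer G a := hx
  apply FaithfulSMul.eq_of_smul_eq_smul (α := Ω)
  intro c
  obtain ⟨g, rfl⟩ := MulAction.exists_smul_eq G a c
  have h := hx' g⁻¹
  rw [MulAction.mem_stabilizer_iff, inv_inv, mul_smul, mul_smul, inv_smul_eq_iff] at h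
  rw [one_smul]; exact h

end Cfsg.Agent.Lib.Helper55.WBP
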