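import Cfsg.Agent.Lib.Helper41.TW5
import Cfsg.Agent.Lib.Helper41.TW6
import Cfsg.Agent.Lib.Helper41.PSub
set_option autoImplicit false
namespace Cfsg.Agent.Lib.Helper55.WBP
open Cfsg Cfsg.Agent.Lib.Helper66 Cfsg.Agent.Lib.Helper41 Cfsg.Agent.Lib.Helper41.TW

theorem perm_relIndex {G Ω : Type*} [Group G] [MulAction G Ω] (a b : Ω) :
    (MulAction.stabilizer G b).relIndex (MulAction.stabilizer G a) =
      Nat.card (MulAction.orbit (MulAction.stabilizer G a) b) := by
  have h : (MulAction.stabilizer G b).subgroupOf (MulAction.stabilizer G a) =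
      MulAction.stabilizer ↥(MulAction.stabilizer G a) b := by
    ext ⟨x, hx⟩
    rw [Subgroup.mem_subgroupOf, MulAction.mem_stabilizer_iff, MulAction.mem_stabilizer_iff]
    rfl
  unfold Subgroup.relIndex
  rw [h, MulAction.index_stabilizer, Nat.card_coe_set_eq]

end Cfsg.Agent.Lib.Helper55.WBP
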