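import Mathlib

set_option autoImplicit false

/-!
# Explicit dihedral subgroups of odd index in `A_n`, `4 ≤ n ≤ 7` (helper55, piece K3 for helper70)
-/

namespace Cfsg.Agent.Lib.Helper55

/-- A group generated by two involutions `a`, `b` with `(a * b) ^ n = 1` has at most `2 * n`
elements. -/
theorem altdih_card_le {Γ : Type*} [Group Γ] [Finite Γ] (a b : Γ) (n : ℕ) (hn : 0 < n)
    (ha : a * a = 1) (hb : b * b = 1) (hab : (a * b) ^ n = 1) :
    Nat.card (Subgroup.closure ({a, b} : Set Γ)) ≤ 2 * n := by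
  classical
  have hai : a⁻¹ = a := (eq_inv_of_mul_eq_one_left ha).symm
  have hbi : b⁻¹ = b := (eq_inv_of_mul_eq_one_left hb).symm
  set R : Subgroup Γ := Subgroup.zpowers (a * b) with hR
  -- `a` normalises `R`
  have hconj : ∀ y ∈ R, a * y * a ∈ R := by
    intro y hy
    obtain ⟨k, rfl⟩ := Subgroup.mem_zpowers_iff.mp hy
    have h1 : a * (a * b) ^ k * a = (a * (a * b) * a⁻¹) ^ k := by
      rw [conj_zpow, hai]
    rw [h1]
    have h2 : a * (a * b) * a⁻¹ = (a * b)⁻¹ := by
      rw [mul_inv_rev, hai, hbi, ← mul_assoc, ha, one_mul]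
    rw [h2]
    exact Subgroup.zpow_mem _ (Subgroup.inv_mem _ (Subgroup.mem_zpowers _)) k
  -- every element of the closure is in `R` or in `a R`
  have hmem : ∀ x ∈ Subgroup.closure ({a, b} : Set Γ), x ∈ R ∨ a * x ∈ R := by
    intro x hx
    induction hx using Subgroup.closure_induction with
    | mem x hx =>
      rcases hx with rfl | rfl
      · right; rw [ha]; exact Subgroup.one_mem _
      · right; exact Subgroup.mem_zpowers _
    | one => left; exact Subgroup.one_mem _
    | mul x y _ _ hx hy =>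
      rcases hx with hx | hx <;> rcases hy with hy | hy
      · left; exact Subgroup.mul_mem _ hx hy
      · right
        have h : a * (x * y) = (a * x * a) * (a * y) := by
          simp only [mul_assoc]
          rw [← mul_assoc a a y, ha, one_mul]
        rw [h]; exact Subgroup.mul_mem _ (hconj x hx) hy
      · right; rw [← mul_assoc]; exact Subgroup.mul_mem _ hx hy
      · left
        have h : x * y = (a * (a * x) * a) * (a * y) := by
          simp only [mul_assoc]
          rw [← mul_assoc a a y, ha, one_mul, ← mul_assoc a a, ha, one_mul]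
        rw [h]; exact Subgroup.mul_mem _ (hconj _ hx) hy
    | inv x _ hx =>
      rcases hx with hx | hx
      · left; exact Subgroup.inv_mem _ hx
      · right
        have h : a * x⁻¹ = a * (a * x)⁻¹ * a := by
          rw [mul_inv_rev, hai, mul_assoc, mul_assoc, ha, mul_one]
        rw [h]; exact hconj _ (Subgroup.inv_mem _ hx)
  have hsub : ((Subgroup.closure ({a, b} : Set Γ) : Subgroup Γ) : Set Γ) ⊆
      (R : Set Γ) ∪ (fun y => a * y) '' (R : Set Γ) := by
    intro x hx
    rcases hmem x hx with h | h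
    · exact Or.inl h
    · refine Or.inr ⟨a * x, h, ?_⟩
      show a * (a * x) = x
      rw [← mul_assoc, ha, one_mul]
  have hRcard : (R : Set Γ).ncard ≤ n := by
    have h1 : (R : Set Γ).ncard = orderOf (a * b) := by
      rw [← Nat.card_coe_set_eq]
      exact Nat.card_zpowers (a * b)
    rw [h1]
    exact Nat.le_of_dvd hn (orderOf_dvd_of_pow_eq_one hab)
  calc Nat.card (Subgroup.closure ({a, b} : Set Γ))
      = ((Subgroup.closure ({a, b} : Set Γ) : Subgroup Γ) : Set Γ).ncard :=
        (Nat.card_coe_set_eq _)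
    _ ≤ ((R : Set Γ) ∪ (fun y => a * y) '' (R : Set Γ)).ncard :=
        Set.ncard_le_ncard hsub (Set.toFinite _)
    _ ≤ (R : Set Γ).ncard + ((fun y => a * y) '' (R : Set Γ)).ncard := Set.ncard_union_le _ _
    _ ≤ (R : Set Γ).ncard + (R : Set Γ).ncard :=
        Nat.add_le_add_left (Set.ncard_image_le (Set.toFinite _)) _
    _ ≤ 2 * n := by omega

/-- The order of the subgroup generated by two involutions whose product has order `m ∈ {2, 4}`. -/
theorem altdih_core {Γ : Type*} [Group Γ] [Finite Γ] (s t : Γ) (m : ℕ) (hm : m = 2 ∨ m = 4)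
    (hs : s * s = 1) (ht : t * t = 1) (hs1 : s ≠ 1) (ht1 : t ≠ 1) (hst : s ≠ t)
    (ho : orderOf (s * t) = m) (hnc : m = 4 → s * t ≠ t * s) :
    Nat.card (Subgroup.closure ({s, t} : Set Γ)) = 2 * m := by
  classical
  have : Fact (Nat.Prime 2) := ⟨Nat.prime_two⟩
  set H : Subgroup Γ := Subgroup.closure ({s, t} : Set Γ) with hH
  have hsH : s ∈ H := Subgroup.subset_closure (Set.mem_insert _ _)
  have htH : t ∈ H := Subgroup.subset_closure (Set.mem_insert_of_mem _ rfl)
  have hmpos : 0 < m := by rcases hm with rfl | rfl <;> norm_num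
  have hle : Nat.card H ≤ 2 * m :=
    altdih_card_le s t m hmpos hs ht (by rw [← ho]; exact pow_orderOf_eq_one _)
  have hdvd : m ∣ Nat.card H := by
    have h1 : Subgroup.zpowers (s * t) ≤ H :=
      (Subgroup.zpowers_le).2 (Subgroup.mul_mem _ hsH htH)
    have h2 := Subgroup.card_dvd_of_le h1
    rwa [Nat.card_zpowers, ho] at h2
  have hpos : 0 < Nat.card H := Nat.card_pos
  have hne : Nat.card H ≠ m := by
    rcases hm with rfl | rfl
    · have h3 : 2 < Nat.card H := by
        let _ : Fintype H := Fintype.ofFinite H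
        rw [Nat.card_eq_fintype_card]
        refine Fintype.two_lt_card_iff.mpr ⟨⟨1, Subgroup.one_mem _⟩, ⟨s, hsH⟩, ⟨t, htH⟩, ?_, ?_, ?_⟩
        · intro h; exact hs1 (congrArg Subtype.val h).symm
        · intro h; exact ht1 (congrArg Subtype.val h).symm
        · intro h; exact hst (congrArg Subtype.val h)
      omega
    · intro h4
      have h5 : Nat.card H = 2 ^ 2 := by rw [h4]; norm_num
      have hc := IsPGroup.isMulCommutative_of_card_eq_prime_sq (p := 2) h5
      have h6 : (⟨s, hsH⟩ : H) * ⟨t, htH⟩ = ⟨t, htH⟩ * ⟨s, hsH⟩ := hc.is_comm.comm _ _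
      exact hnc rfl (congrArg Subtype.val h6)
  obtain ⟨k, hk⟩ := hdvd
  have hk1 : k ≠ 1 := by
    rintro rfl
    rw [mul_one] at hk
    exact hne hk
  have hk0 : k ≠ 0 := by
    rintro rfl
    rw [mul_zero] at hk
    omega
  have hk2 : k ≤ 2 := by
    by_contra hcon
    push Not at hcon
    have : m * 3 ≤ m * k := Nat.mul_le_mul_left m hcon
    omega
  have hk' : k = 2 := by omega
  rw [hk, hk']; ring

/-- Index computation. -/
theorem altdih_index {Γ : Type*} [Group Γ] [Finite Γ] (H : Subgroup Γ) (c N : ℕ)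
    (hc : Nat.card H = c) (hN : Nat.card Γ = c * N) (hc0 : 0 < c) (hodd : ¬ 2 ∣ N) :
    ¬ 2 ∣ H.index := by
  have h := H.card_mul_index
  rw [hc, hN] at h
  have h2 : H.index = N := Nat.eq_of_mul_eq_mul_left hc0 h
  rwa [h2]

theorem altdih_card_alt (n : ℕ) (hn : 2 ≤ n) :
    Nat.card (alternatingGroup (Fin n)) = n.factorial / 2 := by
  haveI : Nontrivial (Fin n) := Fin.nontrivial_iff_two_le.mpr hn
  rw [nat_card_alternatingGroup, Nat.card_eq_fintype_card, Fintype.card_fin]

/-- Assembly from explicit permutations. -/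
theorem altdih_build (n : ℕ) (hn : 2 ≤ n) (σ τ : Equiv.Perm (Fin n)) (m N : ℕ)
    (hm : m = 2 ∨ m = 4)
    (hσ : σ ∈ alternatingGroup (Fin n)) (hτ : τ ∈ alternatingGroup (Fin n))
    (h1 : σ * σ = 1) (h2 : τ * τ = 1) (h3 : σ ≠ 1) (h4 : τ ≠ 1) (h5 : σ ≠ τ)
    (h6 : m = 2 → (σ * τ) * (σ * τ) = 1 ∧ σ * τ ≠ 1)
    (h7 : m = 4 → (σ * τ * (σ * τ)) * (σ * τ * (σ * τ)) = 1 ∧ σ * τ * (σ * τ) ≠ 1 ∧
      σ * τ ≠ τ * σ)
    (hN : n.factorial / 2 = 2 * m * N) (hodd : ¬ 2 ∣ N) :
    ∃ (s t : alternatingGroup (Fin n)) (m : ℕ), orderOf s = 2 ∧ orderOf t = 2 ∧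
      ((m = 2 ∧ orderOf (s * t) = 2) ∨ (m = 4 ∧ orderOf (s * t * (s * t)) = 2)) ∧
      Nat.card (Subgroup.closure ({s, t} : Set (alternatingGroup (Fin n)))) = 2 * m ∧
      ¬ 2 ∣ (Subgroup.closure ({s, t} : Set (alternatingGroup (Fin n)))).index := by
  have : Fact (Nat.Prime 2) := ⟨Nat.prime_two⟩
  have hss : (⟨σ, hσ⟩ : alternatingGroup (Fin n)) * ⟨σ, hσ⟩ = 1 := Subtype.ext h1
  have htt : (⟨τ, hτ⟩ : alternatingGroup (Fin n)) * ⟨τ, hτ⟩ = 1 := Subtype.ext h2
  have hs1 : (⟨σ, hσ⟩ : alternatingGroup (Fin n)) ≠ 1 := fun h => h3 (congrArg Subtype.val h)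
  have ht1 : (⟨τ, hτ⟩ : alternatingGroup (Fin n)) ≠ 1 := fun h => h4 (congrArg Subtype.val h)
  have hst : (⟨σ, hσ⟩ : alternatingGroup (Fin n)) ≠ ⟨τ, hτ⟩ :=
    fun h => h5 (congrArg Subtype.val h)
  have hmpos : 0 < 2 * m := by rcases hm with rfl | rfl <;> norm_num
  have ho : orderOf ((⟨σ, hσ⟩ : alternatingGroup (Fin n)) * ⟨τ, hτ⟩) = m := by
    rcases hm with rfl | rfl
    · obtain ⟨ha, hb⟩ := h6 rfl
      refine orderOf_eq_prime ?_ (fun h => hb (congrArg Subtype.val h))
      rw [pow_two]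
      exact Subtype.ext ha
    · obtain ⟨ha, hb, _⟩ := h7 rfl
      have e := orderOf_eq_prime_pow (p := 2) (n := 1)
        (x := (⟨σ, hσ⟩ : alternatingGroup (Fin n)) * ⟨τ, hτ⟩) ?_ ?_
      · rw [e]; norm_num
      · rw [pow_one, pow_two]
        exact fun h => hb (congrArg Subtype.val h)
      · have h22 : (2 : ℕ) ^ (1 + 1) = 2 + 2 := by norm_num
        rw [h22, pow_add, pow_two]
        exact Subtype.ext ha
  have hcard := altdih_core (⟨σ, hσ⟩ : alternatingGroup (Fin n)) ⟨τ, hτ⟩ m hm hss htt hs1 ht1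
    hst ho (fun h hc => (h7 h).2.2 (congrArg Subtype.val hc))
  refine ⟨⟨σ, hσ⟩, ⟨τ, hτ⟩, m, orderOf_eq_prime (by rw [pow_two]; exact hss) hs1,
    orderOf_eq_prime (by rw [pow_two]; exact htt) ht1, ?_, hcard, ?_⟩
  · rcases hm with rfl | rfl
    · exact Or.inl ⟨rfl, ho⟩
    · obtain ⟨ha, hb, _⟩ := h7 rfl
      refine Or.inr ⟨rfl, orderOf_eq_prime ?_ (fun h => hb (congrArg Subtype.val h))⟩
      rw [pow_two]
      exact Subtype.ext ha
  · refine altdih_index _ (2 * m) N hcard ?_ hmpos hodd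
    rw [altdih_card_alt n hn, hN]

theorem altdih_sign {n : ℕ} (a b c d : Fin n) (hab : a ≠ b) (hcd : c ≠ d) :
    Equiv.swap a b * Equiv.swap c d ∈ alternatingGroup (Fin n) := by
  rw [Equiv.Perm.mem_alternatingGroup, Equiv.Perm.sign_mul, Equiv.Perm.sign_swap hab,
    Equiv.Perm.sign_swap hcd]
  rfl

/-- **Piece K3.** Explicit dihedral subgroups of odd index in `A_n`, `4 ≤ n ≤ 7`. -/
theorem alt_dihedral_odd_index (n : ℕ) (h4 : 4 ≤ n) (h7 : n ≤ 7) :
    ∃ (s t : alternatingGroup (Fin n)) (m : ℕ), orderOf s = 2 ∧ orderOf t = 2 ∧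
      ((m = 2 ∧ orderOf (s * t) = 2) ∨ (m = 4 ∧ orderOf (s * t * (s * t)) = 2)) ∧
      Nat.card (Subgroup.closure ({s, t} : Set (alternatingGroup (Fin n)))) = 2 * m ∧
      ¬ 2 ∣ (Subgroup.closure ({s, t} : Set (alternatingGroup (Fin n)))).index := by
  interval_cases n
  · exact altdih_build 4 (by norm_num) (Equiv.swap 0 1 * Equiv.swap 2 3)
      (Equiv.swap 0 2 * Equiv.swap 1 3) 2 3 (Or.inl rfl)
      (altdih_sign _ _ _ _ (by decide) (by decide)) (altdih_sign _ _ _ _ (by decide) (by decide))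
      (by decide) (by decide) (by decide) (by decide) (by decide)
      (fun _ => ⟨by decide, by decide⟩) (fun h => absurd h (by norm_num)) (by decide)
      (by norm_num)
  · exact altdih_build 5 (by norm_num) (Equiv.swap 0 1 * Equiv.swap 2 3)
      (Equiv.swap 0 2 * Equiv.swap 1 3) 2 15 (Or.inl rfl)
      (altdih_sign _ _ _ _ (by decide) (by decide)) (altdih_sign _ _ _ _ (by decide) (by decide))
      (by decide) (by decide) (by decide) (by decide) (by decide)
      (fun _ => ⟨by decide, by decide⟩) (fun h => absurd h (by norm_num)) (by decide)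
      (by norm_num)
  · exact altdih_build 6 (by norm_num) (Equiv.swap 0 1 * Equiv.swap 2 3)
      (Equiv.swap 0 2 * Equiv.swap 4 5) 4 45 (Or.inr rfl)
      (altdih_sign _ _ _ _ (by decide) (by decide)) (altdih_sign _ _ _ _ (by decide) (by decide))
      (by decide) (by decide) (by decide) (by decide) (by decide)
      (fun h => absurd h (by norm_num)) (fun _ => ⟨by decide, by decide, by decide⟩) (by decide)
      (by norm_num)
  · exact altdih_build 7 (by norm_num) (Equiv.swap 0 1 * Equiv.swap 2 3)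
      (Equiv.swap 0 2 * Equiv.swap 4 5) 4 315 (Or.inr rfl)
      (altdih_sign _ _ _ _ (by decide) (by decide)) (altdih_sign _ _ _ _ (by decide) (by decide))
      (by decide) (by decide) (by decide) (by decide) (by decide)
      (fun h => absurd h (by norm_num)) (fun _ => ⟨by decide, by decide, by decide⟩) (by decide)
      (by norm_num)

end Cfsg.Agent.Lib.Helper55
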