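import Cfsg.Agent.Lib.Helper32.BG10Basic

/-!
# B&G Section 10, piece Q11T (for S1414): a maximal elementary abelian subgroup of order `p ^ 2`
in a Sylow `p`-subgroup of `M`, for `p ∈ α(M)` not ideal
-/

set_option autoImplicit false

open Cfsg Cfsg.Agent.Lib.Helper32 Cfsg.Agent.Lib.Helper32.BG10

namespace Cfsg.Agent.Lib.Helper55.BG10

universe u

variable {G : Type u} [Group G] [Finite G]

theorem elemAb_iff {Γ : Type*} [Group Γ] (p : ℕ) (A : Subgroup Γ) :
    IsElementaryAbelian p A ↔ (∀ a ∈ A, ∀ b ∈ A, a * b = b * a) ∧ ∀ a ∈ A, a ^ p = 1 := by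
  constructor
  · rintro ⟨hc, hp⟩
    exact ⟨fun a ha b hb => congrArg Subtype.val (hc.is_comm.comm ⟨a, ha⟩ ⟨b, hb⟩), hp⟩
  · rintro ⟨hc, hp⟩
    exact ⟨⟨⟨fun a b => Subtype.ext (hc a.1 a.2 b.1 b.2)⟩⟩, hp⟩

theorem elemAb_map {Γ Δ : Type*} [Group Γ] [Group Δ] (p : ℕ) (f : Γ →* Δ) {A : Subgroup Γ}
    (h : IsElementaryAbelian p A) : IsElementaryAbelian p (A.map f) := by
  rw [elemAb_iff] at h ⊢
  refine ⟨?_, ?_⟩
  · rintro _ ⟨a, ha, rfl⟩ _ ⟨b, hb, rfl⟩
    rw [← map_mul, ← map_mul, h.1 a ha b hb]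
  · rintro _ ⟨a, ha, rfl⟩
    rw [← map_pow, h.2 a ha, map_one]

theorem elemAb_comap {Γ Δ : Type*} [Group Γ] [Group Δ] (p : ℕ) (f : Γ →* Δ)
    (hf : Function.Injective f) {A : Subgroup Δ}
    (h : IsElementaryAbelian p A) : IsElementaryAbelian p (A.comap f) := by
  rw [elemAb_iff] at h ⊢
  refine ⟨?_, ?_⟩
  · intro a ha b hb
    apply hf
    rw [map_mul, map_mul]
    exact h.1 _ ha _ hb
  · intro a ha
    apply hf
    rw [map_pow, map_one]
    exact h.2 _ ha

theorem card_comap_of_le_range {Γ Δ : Type*} [Group Γ] [Group Δ] (f : Γ →* Δ)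
    (hf : Function.Injective f) {A : Subgroup Δ} (hA : A ≤ f.range) :
    Nat.card (A.comap f) = Nat.card A := by
  have h1 : (A.comap f).map f = A := by
    rw [Subgroup.map_comap_eq]; exact inf_eq_right.mpr hA
  rw [← Subgroup.card_map_of_injective hf (K := A.comap f), h1]

theorem max_E2_sylow_of_not_ideal (hG : IsMinSimpleOddOrder G) (hUT : UT G) {M : Subgroup G}
    (hM : IsCoatom M) {p : ℕ} [Fact p.Prime] (hpa : p ∈ alpha M) (hni : ¬ IsIdealPrime p G)
    (S : Sylow p ↥M) :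
    ¬ PRankLE p 2 ↥(S : Subgroup ↥M) ∧ ∃ E : Subgroup ↥(S : Subgroup ↥M),
      IsElementaryAbelian p E ∧ Nat.card E = p ^ 2 ∧
        ∀ B : Subgroup ↥(S : Subgroup ↥M), IsElementaryAbelian p B → E ≤ B → B = E := by
  have hp : p.Prime := Fact.out
  set S' : Subgroup G := (S : Subgroup ↥M).map M.subtype with hS'
  have hS'M : S' ∈ sylSet p M := mem_sylSet_of_sylow S
  have hS'G : S' ∈ sylSet p ⊤ := (sigma_sylow (alpha_sub_sigma hG hUT hM hpa) S).2
  let f : ↥(S : Subgroup ↥M) →* G := M.subtype.comp (S : Subgroup ↥M).subtype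
  have hf : Function.Injective f := fun a b h => Subtype.ext (Subtype.ext h)
  have hrange : f.range = S' := by
    ext x
    constructor
    · rintro ⟨y, rfl⟩
      exact ⟨y.1, y.2, rfl⟩
    · rintro ⟨m, hm, rfl⟩
      exact ⟨⟨m, hm⟩, rfl⟩
  have hM3 : ¬ PRankLE p 2 ↥M := hpa.2
  have hS'3 : ¬ PRankLE p 2 ↥S' := fun h => hM3 (prankLE_of_sylSet hS'M 2 h)
  refine ⟨?_, ?_⟩
  · intro h
    obtain ⟨E0, hE0S, hE0c, hE0p, hE0card⟩ := exists_of_not_prankLE hS'3
    have hE0 : IsElementaryAbelian p E0 := (elemAb_iff p E0).mpr ⟨hE0c, hE0p⟩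
    have hE := elemAb_comap p f hf hE0
    have hc := card_comap_of_le_range f hf (hrange ▸ hE0S)
    have := h (E0.comap f) hE.1 hE.2
    omega
  · have hG3 : ¬ PRankLE p 2 G := by
      intro h
      obtain ⟨E0, -, hE0c, hE0p, hE0card⟩ := exists_of_not_prankLE hM3
      have hE0 : IsElementaryAbelian p E0 := (elemAb_iff p E0).mpr ⟨hE0c, hE0p⟩
      have := h E0 hE0.1 hE0.2
      omega
    have hni' : ∃ (P : Sylow p G) (A : Subgroup G), A ≤ (P : Subgroup G) ∧
        IsElementaryAbelian p A ∧ Nat.card A = p ^ 2 ∧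
        ¬ ∃ B : Subgroup G, B ≤ (P : Subgroup G) ∧ IsElementaryAbelian p B ∧ A < B := by
      by_contra hcon
      apply hni
      refine ⟨hp, hG3, ?_⟩
      intro P A hAP hA hAc
      by_contra hB
      exact hcon ⟨P, A, hAP, hA, hAc, hB⟩
    obtain ⟨P, A, hAP, hA, hAc, hAmax⟩ := hni'
    have hPG : (P : Subgroup G) ∈ sylSet p ⊤ := by
      refine ⟨le_top, ?_⟩
      rw [Subgroup.card_top]
      exact P.card_eq_multiplicity
    obtain ⟨n, -, hn⟩ := sylSet_conj hPG hS'G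
    have hA'S : cj n A ≤ S' := hn ▸ cj_mono n hAP
    have hA' : IsElementaryAbelian p (cj n A) := elemAb_map p _ hA
    have hA'c : Nat.card (cj n A) = p ^ 2 := by rw [card_cj]; exact hAc
    have hA'max : ∀ B' : Subgroup G, B' ≤ S' → IsElementaryAbelian p B' → cj n A ≤ B' →
        B' = cj n A := by
      intro B' hB'S hB' hAB'
      have h1 : cj n⁻¹ B' ≤ (P : Subgroup G) := by
        have := cj_mono n⁻¹ hB'S
        rwa [← hn, cj_inv_cj] at this
      have h2 : IsElementaryAbelian p (cj n⁻¹ B') := elemAb_map p _ hB'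
      have h3 : A ≤ cj n⁻¹ B' := by
        have := cj_mono n⁻¹ hAB'
        rwa [cj_inv_cj] at this
      have h4 : A = cj n⁻¹ B' := by
        by_contra hne
        exact hAmax ⟨_, h1, h2, lt_of_le_of_ne h3 hne⟩
      rw [h4, cj_cj_inv]
    refine ⟨(cj n A).comap f, elemAb_comap p f hf hA', ?_, ?_⟩
    · rw [card_comap_of_le_range f hf (hrange ▸ hA'S)]
      exact hA'c
    · intro B hB hEB
      have hmapE : ((cj n A).comap f).map f = cj n A := by
        rw [Subgroup.map_comap_eq, hrange]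
        exact inf_eq_right.mpr hA'S
      have h1 : B.map f ≤ S' := by
        rw [← hrange]
        rintro _ ⟨b, -, rfl⟩
        exact ⟨b, rfl⟩
      have h2 : cj n A ≤ B.map f := by
        rw [← hmapE]
        exact Subgroup.map_mono hEB
      have h3 := hA'max (B.map f) h1 (elemAb_map p f hB) h2
      apply Subgroup.map_injective hf
      rw [h3, hmapE]

end Cfsg.Agent.Lib.Helper55.BG10
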