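import Mathlib
import Cfsg.Prelude.Def_Blocks
import Cfsg.Agent.Lib.Helper83.Ct2

set_option autoImplicit false

namespace Cfsg.Agent.Lib.Helper55.Ct

open scoped ComplexConjugate
open Cfsg Cfsg.Agent.Lib Cfsg.Agent.Lib.Helper83

variable {H : Type*} [Group H] {A : Type*} [CommGroup A] {C : Type*} [Group C]

theorem ctForm_central [Fintype C] [DecidableEq C] [DecidableEq A] (χ₁ : H → ℂ)
    (Z₁ : Subgroup H) (lam₁ : Z₁ →* ℂˣ) (β : C →* (A →* ℂˣ)) (c : ℂ)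
    (hcen₁ : ∀ (z : Z₁) (h : H), χ₁ ((z : H) * h) = ((lam₁ z : ℂˣ) : ℂ) * χ₁ h)
    (z : ↥(ctZ (A := A) (C := C) Z₁)) (w : (H × A) ≀ᵣ C) :
    ctForm χ₁ β c ((z : (H × A) ≀ᵣ C) * w) =
      ((ctLam Z₁ lam₁ β z : ℂˣ) : ℂ) * ctForm χ₁ β c w := by
  have hr : ((z : (H × A) ≀ᵣ C) * w).right = w.right := by
    rw [RegularWreathProduct.mul_right, z.2.1, one_mul]
  have hl : ∀ q, ((z : (H × A) ≀ᵣ C) * w).left q = z.1.left q * w.left q :=
    fun q => ctZ_mul_left Z₁ z.1 z.2.1 w q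
  rw [ctForm_def, ctForm_def, hr]
  by_cases h : w.right = 1
  · rw [if_pos h, if_pos h]
    have h1 : ∏ y, (((z : (H × A) ≀ᵣ C) * w).left y).2 = ∏ y, (w.left y).2 := by
      simp only [hl, Prod.snd_mul, Finset.prod_mul_distrib, z.2.2.2, one_mul]
    have h2 : ∏ y, χ₁ (((z : (H × A) ≀ᵣ C) * w).left y).1 =
        (∏ y, ((lam₁ ⟨(z.1.left y).1, z.2.2.1 y⟩ : ℂˣ) : ℂ)) * ∏ y, χ₁ (w.left y).1 := by
      rw [← Finset.prod_mul_distrib]
      refine Finset.prod_congr rfl fun y _ => ?_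
      rw [hl]
      exact hcen₁ ⟨_, z.2.2.1 y⟩ _
    have h3 : ∏ y, ((β y (((z : (H × A) ≀ᵣ C) * w).left y).2 : ℂˣ) : ℂ) =
        (∏ y, ((β y (z.1.left y).2 : ℂˣ) : ℂ)) * ∏ y, ((β y (w.left y).2 : ℂˣ) : ℂ) := by
      rw [← Finset.prod_mul_distrib]
      refine Finset.prod_congr rfl fun y _ => ?_
      rw [hl, Prod.snd_mul, map_mul, Units.val_mul]
    rw [h1, h2, h3, ctLam_apply, Units.val_mul, Units.coe_prod, Units.coe_prod]
    ring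
  · rw [if_neg h, if_neg h, mul_zero]

end Cfsg.Agent.Lib.Helper55.Ct
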