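import Mathlib
import Cfsg.Prelude.Def_Blocks
import Cfsg.Agent.Lib.Helper83.Ct2

set_option autoImplicit false

namespace Cfsg.Agent.Lib.Helper55.Ct

open scoped ComplexConjugate
open Cfsg Cfsg.Agent.Lib Cfsg.Agent.Lib.Helper83

variable {G : Type*} [Group G] (N : Subgroup G) [N.Normal] {H : Type*} [Group H] {A : Type*}
  [CommGroup A]

theorem ctF_quasi [Fintype (G ⧸ N)] (F₁ : N → H) (Z₁ : Subgroup H)
    (hq₁ : ∀ g g' : N, (F₁ (g * g'))⁻¹ * (F₁ g * F₁ g') ∈ Z₁) (g g' : G) :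
    (ctF (A := A) N F₁ (g * g'))⁻¹ * (ctF N F₁ g * ctF N F₁ g') ∈
      ctZ (A := A) (C := G ⧸ N) Z₁ := by
  have hl : ∀ q, ((ctF (A := A) N F₁ (g * g'))⁻¹ * (ctF N F₁ g * ctF N F₁ g')).left q =
      ((F₁ (kkC N (g * g') (((g * g' : G) : G ⧸ N) * q)))⁻¹ *
        (F₁ (kkC N g (((g * g' : G) : G ⧸ N) * q)) *
          F₁ (kkC N g' ((g : G ⧸ N)⁻¹ * (((g * g' : G) : G ⧸ N) * q)))), 1) := by
    intro q
    rw [RegularWreathProduct.mul_left, RegularWreathProduct.inv_left,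
      RegularWreathProduct.inv_right, RegularWreathProduct.mul_left]
    show ((F₁ (kkC N (g * g') (((g * g' : G) : G ⧸ N) * q)), (1 : A)))⁻¹ *
      ((F₁ (kkC N g ((((g * g' : G) : G ⧸ N)⁻¹)⁻¹ * q)), (1 : A)) *
        (F₁ (kkC N g' ((g : G ⧸ N)⁻¹ * ((((g * g' : G) : G ⧸ N)⁻¹)⁻¹ * q))), (1 : A))) = _
    rw [inv_inv]
    ext
    · rfl
    · show (1 : A)⁻¹ * (1 * 1) = 1
      simp
  refine ⟨?_, fun q => ?_, ?_⟩
  · rw [RegularWreathProduct.mul_right, RegularWreathProduct.inv_right,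
      RegularWreathProduct.mul_right]
    show ((g * g' : G) : G ⧸ N)⁻¹ * ((g : G ⧸ N) * (g' : G ⧸ N)) = 1
    rw [QuotientGroup.mk_mul, inv_mul_cancel]
  · rw [hl]
    show (F₁ (kkC N (g * g') (((g * g' : G) : G ⧸ N) * q)))⁻¹ *
        (F₁ (kkC N g (((g * g' : G) : G ⧸ N) * q)) *
          F₁ (kkC N g' ((g : G ⧸ N)⁻¹ * (((g * g' : G) : G ⧸ N) * q)))) ∈ Z₁
    rw [kkC_mul]
    exact hq₁ _ _
  · refine Finset.prod_eq_one (fun q _ => ?_)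
    rw [hl]

theorem ctF_inj [Fintype (G ⧸ N)] (F₁ : N → H) (Z₁ : Subgroup H)
    (hinj₁ : ∀ g : N, F₁ g ∈ Z₁ → g = 1) (g : G)
    (hg : ctF (A := A) N F₁ g ∈ ctZ (A := A) (C := G ⧸ N) Z₁) : g = 1 := by
  obtain ⟨h1, h2, -⟩ := hg
  have h1' : (g : G ⧸ N) = 1 := h1
  have h3 : F₁ (kkC N g 1) ∈ Z₁ := h2 1
  have h4 : ((kkC N g 1 : N) : G) = 1 := congrArg Subtype.val (hinj₁ _ h3)
  change (kkT N 1)⁻¹ * g * kkT N ((g : G ⧸ N)⁻¹ * 1) = 1 at h4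
  rw [h1', inv_one, one_mul] at h4
  have h5 : g = kkT N 1 * ((kkT N 1)⁻¹ * g * kkT N 1) * (kkT N 1)⁻¹ := by group
  rw [h5, h4, mul_one, mul_inv_cancel]

end Cfsg.Agent.Lib.Helper55.Ct
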