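import Mathlib
import Cfsg.Prelude.Def_Blocks
import Cfsg.Agent.Lib.Helper83.Ct2

set_option autoImplicit false

namespace Cfsg.Agent.Lib.Helper55.Ct

open scoped ComplexConjugate
open Cfsg Cfsg.Agent.Lib Cfsg.Agent.Lib.Helper83

variable {H : Type*} [Group H] {A : Type*} [CommGroup A] {C : Type*} [Group C]

theorem ctLam_pow [Fintype C] (Z₁ : Subgroup H) (lam₁ : Z₁ →* ℂˣ) (β : C →* (A →* ℂˣ))
    (m : ℕ) (hm₁ : ∀ z : Z₁, lam₁ z ^ m = 1) (hmA : ∀ a : A, a ^ m = 1)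
    (z : ↥(ctZ (A := A) (C := C) Z₁)) : ctLam Z₁ lam₁ β z ^ m = 1 := by
  rw [ctLam_apply, mul_pow, ← Finset.prod_pow, ← Finset.prod_pow]
  rw [Finset.prod_eq_one (fun q _ => hm₁ _), one_mul]
  refine Finset.prod_eq_one (fun q _ => ?_)
  rw [← map_pow, hmA, map_one]

theorem ctLam_single [Fintype C] (Z₁ : Subgroup H) (lam₁ : Z₁ →* ℂˣ) (β : C →* (A →* ℂˣ))
    (z₁ : Z₁) : ∃ z : ↥(ctZ (A := A) (C := C) Z₁), ctLam Z₁ lam₁ β z = lam₁ z₁ := by
  classical
  let f : C → H × A := fun q => if q = 1 then ((z₁ : H), 1) else 1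
  have hf1 : ∀ q, (f q).1 ∈ Z₁ := by
    intro q
    by_cases hq : q = 1
    · simp only [f, if_pos hq]; exact z₁.2
    · simp only [f, if_neg hq]; exact Z₁.one_mem
  have hf2 : ∀ q, (f q).2 = 1 := by
    intro q
    by_cases hq : q = 1
    · simp only [f, if_pos hq]
    · simp only [f, if_neg hq]; rfl
  have hmem : (⟨f, 1⟩ : (H × A) ≀ᵣ C) ∈ ctZ (A := A) (C := C) Z₁ :=
    ⟨rfl, hf1, Finset.prod_eq_one (fun q _ => hf2 q)⟩
  refine ⟨⟨⟨f, 1⟩, hmem⟩, ?_⟩
  rw [ctLam_apply]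
  have h2 : ∏ q, β q (f q).2 = 1 := by
    refine Finset.prod_eq_one (fun q _ => ?_)
    rw [hf2, map_one]
  have h1 : ∏ q, lam₁ ⟨(f q).1, hf1 q⟩ = lam₁ z₁ := by
    rw [Finset.prod_eq_single (1 : C)]
    · congr 1
      apply Subtype.ext
      show (f 1).1 = (z₁ : H)
      simp only [f, if_pos rfl]
    · intro q _ hq
      have : (⟨(f q).1, hf1 q⟩ : Z₁) = 1 := by
        apply Subtype.ext
        show (f q).1 = 1
        simp only [f, if_neg hq]; rfl
      rw [this, map_one]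
    · intro h
      exact absurd (Finset.mem_univ _) h
  show (∏ q, lam₁ ⟨(f q).1, hf1 q⟩) * ∏ q, β q (f q).2 = lam₁ z₁
  rw [h1, h2, mul_one]

theorem ctLam_pair [Fintype C] (Z₁ : Subgroup H) (lam₁ : Z₁ →* ℂˣ) (β : C →* (A →* ℂˣ))
    (q₁ : C) (hq₁ : q₁ ≠ 1) (a : A) :
    ∃ z : ↥(ctZ (A := A) (C := C) Z₁), ctLam Z₁ lam₁ β z = β q₁ a := by
  classical
  let u : C → A := fun q => if q = q₁ then a else 1
  let v : C → A := fun q => if q = 1 then a⁻¹ else 1
  let f : C → H × A := fun q => (1, u q * v q)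
  have hu : ∏ q, u q = a := by
    rw [Finset.prod_eq_single q₁]
    · simp only [u, if_pos rfl]
    · intro q _ hq
      simp only [u, if_neg hq]
    · intro h
      exact absurd (Finset.mem_univ _) h
  have hv : ∏ q, v q = a⁻¹ := by
    rw [Finset.prod_eq_single (1 : C)]
    · simp only [v, if_pos rfl]
    · intro q _ hq
      simp only [v, if_neg hq]
    · intro h
      exact absurd (Finset.mem_univ _) h
  have hf1 : ∀ q, (f q).1 ∈ Z₁ := fun q => Z₁.one_mem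
  have hmem : (⟨f, 1⟩ : (H × A) ≀ᵣ C) ∈ ctZ (A := A) (C := C) Z₁ := by
    refine ⟨rfl, hf1, ?_⟩
    show ∏ q, u q * v q = 1
    rw [Finset.prod_mul_distrib, hu, hv, mul_inv_cancel]
  refine ⟨⟨⟨f, 1⟩, hmem⟩, ?_⟩
  rw [ctLam_apply]
  have h1 : ∏ q, lam₁ ⟨(f q).1, hf1 q⟩ = 1 := by
    refine Finset.prod_eq_one (fun q _ => ?_)
    have : (⟨(f q).1, hf1 q⟩ : Z₁) = 1 := Subtype.ext rfl
    rw [this, map_one]
  have hβu : ∏ q, β q (u q) = β q₁ a := by
    rw [Finset.prod_eq_single q₁]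
    · simp only [u, if_pos rfl]
    · intro q _ hq
      simp only [u, if_neg hq, map_one]
    · intro h
      exact absurd (Finset.mem_univ _) h
  have hβv : ∏ q, β q (v q) = 1 := by
    refine Finset.prod_eq_one (fun q _ => ?_)
    by_cases hq : q = 1
    · subst hq
      rw [map_one]
      rfl
    · simp only [v, if_neg hq, map_one]
  have h2 : ∏ q, β q (f q).2 = β q₁ a := by
    show ∏ q, β q (u q * v q) = β q₁ a
    simp only [map_mul]
    rw [Finset.prod_mul_distrib, hβu, hβv, mul_one]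
  show (∏ q, lam₁ ⟨(f q).1, hf1 q⟩) * ∏ q, β q (f q).2 = β q₁ a
  rw [h1, h2, one_mul]

end Cfsg.Agent.Lib.Helper55.Ct
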