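import Mathlib
import Cfsg.Prelude.Def_Blocks
import Cfsg.Agent.Lib.Helper83.Ct2

set_option autoImplicit false

namespace Cfsg.Agent.Lib.Helper55.Ct

open scoped ComplexConjugate
open Cfsg Cfsg.Agent.Lib Cfsg.Agent.Lib.Helper83

variable {H : Type*} [Group H] {A : Type*} [CommGroup A] {C : Type*} [Group C]

theorem ctForm_vanish [Fintype C] [DecidableEq C] [DecidableEq A] (χ₁ : H → ℂ)
    (Z₁ : Subgroup H) (β : C →* (A →* ℂˣ)) (c : ℂ)
    (hvan₁ : ∀ h : H, h ∉ Z₁ → χ₁ h = 0)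
    (w : (H × A) ≀ᵣ C) (hw : w ∉ ctZ (A := A) (C := C) Z₁) :
    ctForm χ₁ β c w = 0 := by
  rw [ctForm_def]
  by_cases h1 : w.right = 1
  · rw [if_pos h1]
    by_cases h2 : ∏ y, (w.left y).2 = 1
    · have h3 : ∃ q, (w.left q).1 ∉ Z₁ := by
        by_contra hcon
        push Not at hcon
        exact hw ⟨h1, hcon, h2⟩
      obtain ⟨q, hq⟩ := h3
      have h4 : ∏ y, χ₁ (w.left y).1 = 0 :=
        Finset.prod_eq_zero (Finset.mem_univ q) (hvan₁ _ hq)
      rw [h4, mul_zero, zero_mul]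
    · rw [if_neg h2, zero_mul, zero_mul]
  · rw [if_neg h1]

end Cfsg.Agent.Lib.Helper55.Ct
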