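import Mathlib
import Cfsg.Prelude.Def_Blocks
import Cfsg.Agent.Lib.Helper83.Ct2

set_option autoImplicit false

namespace Cfsg.Agent.Lib.Helper55.Ct

open scoped ComplexConjugate
open Cfsg Cfsg.Agent.Lib Cfsg.Agent.Lib.Helper83

variable {H : Type*} [Group H] {A : Type*} [CommGroup A] {C : Type*} [Group C]

theorem ctZ_normal [Fintype C] (Z₁ : Subgroup H) [Z₁.Normal] :
    (ctZ (A := A) (C := C) Z₁).Normal := by
  constructor
  intro n hn g
  obtain ⟨hn1, hn2, hn3⟩ := hn
  have hl : ∀ q, (g * n * g⁻¹).left q = g.left q * n.left (g.right⁻¹ * q) * (g.left q)⁻¹ := by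
    intro q
    rw [RegularWreathProduct.mul_left, RegularWreathProduct.mul_left,
      RegularWreathProduct.inv_left, RegularWreathProduct.mul_right, hn1, mul_one]
    show g.left q * n.left (g.right⁻¹ * q) * (g.left (g.right * (g.right⁻¹ * q)))⁻¹ = _
    rw [mul_inv_cancel_left]
  refine ⟨?_, fun q => ?_, ?_⟩
  · rw [RegularWreathProduct.mul_right, RegularWreathProduct.mul_right,
      RegularWreathProduct.inv_right, hn1, mul_one, mul_inv_cancel]
  · rw [hl]
    show (g.left q).1 * (n.left (g.right⁻¹ * q)).1 * ((g.left q).1)⁻¹ ∈ Z₁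
    exact Subgroup.Normal.conj_mem inferInstance _ (hn2 _) _
  · have h2 : ∀ q, ((g * n * g⁻¹).left q).2 = (n.left (g.right⁻¹ * q)).2 := by
      intro q
      rw [hl]
      show (g.left q).2 * (n.left (g.right⁻¹ * q)).2 * ((g.left q).2)⁻¹ = _
      exact mul_inv_cancel_comm _ _
    simp only [h2]
    rw [← hn3]
    exact Fintype.prod_equiv (Equiv.mulLeft g.right⁻¹) _ _ (fun q => rfl)

end Cfsg.Agent.Lib.Helper55.Ct
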