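import Mathlib
import Cfsg.Prelude.Def_CaseTheorems
import Cfsg.Agent.Lib.Helper55.Syl
import Cfsg.Agent.Lib.Helper31.Basic

/-!
# Piece A for S3304 (helper55, for helper61)

The hypothesis "distinct Sylow 2-subgroups meet in 2-rank at most 1" passes from `G` to
`G ⧸ O(G)`.
-/

set_option autoImplicit false

namespace Cfsg.Agent.Lib.Helper55.GL23A

open Cfsg.Agent.Lib.Helper55

variable {G : Type*} [Group G] [Finite G]

/-- A `2`-subgroup `P` of `G` whose image lies in a Sylow `2`-subgroup `S'` of `G ⧸ N` lies in a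
Sylow `2`-subgroup of `G` with image `S'`. -/
theorem exists_sylow_over (N : Subgroup G) [N.Normal] (S' : Sylow 2 (G ⧸ N)) (P : Subgroup G)
    (hP : IsPGroup 2 P) (hPS : P.map (QuotientGroup.mk' N) ≤ S') :
    ∃ S : Sylow 2 G, P ≤ S ∧ (S : Subgroup G).map (QuotientGroup.mk' N) = S' := by
  have : Fact (Nat.Prime 2) := ⟨Nat.prime_two⟩
  have hπ := QuotientGroup.mk'_surjective N
  obtain ⟨S₁, hS₁⟩ := Sylow.mapSurjective_surjective hπ 2 S'
  have hS₁' : (S₁ : Subgroup G).map (QuotientGroup.mk' N) = S' := by rw [← hS₁]; rfl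
  have hS₁V : (S₁ : Subgroup G) ≤ (S' : Subgroup (G ⧸ N)).comap (QuotientGroup.mk' N) := by
    rw [← Subgroup.map_le_iff_le_comap, hS₁']
  have hPV : P ≤ (S' : Subgroup (G ⧸ N)).comap (QuotientGroup.mk' N) :=
    Subgroup.map_le_iff_le_comap.mp hPS
  obtain ⟨v, hv, hPv⟩ := (sylIn_of_sylow S₁ hS₁V).exists_le_cj hPV hP
  have hcj : IsPGroup 2 (cj v (S₁ : Subgroup G)) := cj_isPGroup S₁.isPGroup'
  have hidx : ¬ 2 ∣ (cj v (S₁ : Subgroup G)).index := by
    have h1 : (cj v (S₁ : Subgroup G)).index = (S₁ : Subgroup G).index :=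
      Subgroup.index_map_equiv (S₁ : Subgroup G) (MulAut.conj v)
    rw [h1]
    exact S₁.not_dvd_index
  refine ⟨hcj.toSylow hidx, hPv, ?_⟩
  have hle : (cj v (S₁ : Subgroup G)).map (QuotientGroup.mk' N) ≤ S' := by
    rintro _ ⟨_, ⟨s, hs, rfl⟩, rfl⟩
    have h1 : QuotientGroup.mk' N s ∈ (S' : Subgroup (G ⧸ N)) := hS₁V hs
    have h2 : QuotientGroup.mk' N v ∈ (S' : Subgroup (G ⧸ N)) := hv
    have h3 : QuotientGroup.mk' N ((MulAut.conj v).toMonoidHom s)
        = QuotientGroup.mk' N v * QuotientGroup.mk' N s * (QuotientGroup.mk' N v)⁻¹ := by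
      simp [MulAut.conj_apply]
    rw [h3]
    exact Subgroup.mul_mem _ (Subgroup.mul_mem _ h2 h1) (Subgroup.inv_mem _ h2)
  have hmax := ((hcj.toSylow hidx).mapSurjective hπ).is_maximal' S'.isPGroup' hle
  exact hmax.symm

/-- **Piece A.** Passage to `G ⧸ O(G)`. -/
theorem quot_inter_rank {G : Type*} [Group G] [Finite G]
    (hI : ∀ S T : Sylow 2 G, S ≠ T → Cfsg.PRankLE 2 1 ↥((S : Subgroup G) ⊓ (T : Subgroup G))) :
    ∀ S T : Sylow 2 (G ⧸ Cfsg.oddCore G), S ≠ T →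
      Cfsg.PRankLE 2 1
        ↥((S : Subgroup (G ⧸ Cfsg.oddCore G)) ⊓ (T : Subgroup (G ⧸ Cfsg.oddCore G))) := by
  have : Fact (Nat.Prime 2) := ⟨Nat.prime_two⟩
  intro S' T' hne A hAc hA2
  have hπ := QuotientGroup.mk'_surjective (Cfsg.oddCore G)
  have hNodd : (Nat.card (Cfsg.oddCore G)).Coprime 2 :=
    Cfsg.Agent.Lib.Helper31.pPrimeCore_coprime (G := G) 2
  -- the image of `A` in `G ⧸ N`
  obtain ⟨B, hB⟩ : ∃ B : Subgroup (G ⧸ Cfsg.oddCore G), B = A.map (Subgroup.subtype _) :=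
    ⟨_, rfl⟩
  have hBle : B ≤ (S' : Subgroup (G ⧸ Cfsg.oddCore G)) ⊓ (T' : Subgroup (G ⧸ Cfsg.oddCore G)) := by
    rw [hB]
    rintro _ ⟨a, -, rfl⟩
    exact a.2
  have hBcard : Nat.card B = Nat.card A := by
    rw [hB]
    exact Subgroup.card_map_of_injective (Subgroup.subtype_injective _)
  have hAc' := (isMulCommutative_subgroup_iff A).mp hAc
  have hBcomm : ∀ x ∈ B, ∀ y ∈ B, x * y = y * x := by
    rw [hB]
    rintro _ ⟨a, ha, rfl⟩ _ ⟨b, hb, rfl⟩
    have := hAc' a ha b hb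
    exact congrArg Subtype.val this
  have hB2 : ∀ x ∈ B, x ^ 2 = 1 := by
    rw [hB]
    rintro _ ⟨a, ha, rfl⟩
    have := hA2 a ha
    exact congrArg Subtype.val this
  have hBp : IsPGroup 2 B := by
    rintro ⟨x, hx⟩
    exact ⟨1, Subtype.ext (by simpa using hB2 x hx)⟩
  -- a Sylow `2`-subgroup of the preimage of `B` mapping onto `B`
  obtain ⟨Q₀⟩ := (inferInstance : Nonempty (Sylow 2 B))
  have hQ₀ : (Q₀ : Subgroup B) = ⊤ := by
    have h1 : IsPGroup 2 (⊤ : Subgroup B) := IsPGroup.to_subgroup hBp ⊤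
    exact (Q₀.is_maximal' h1 le_top).symm
  have hφ := MonoidHom.subgroupComap_surjective_of_surjective (QuotientGroup.mk' (Cfsg.oddCore G))
    B hπ
  obtain ⟨P₀, hP₀⟩ := Sylow.mapSurjective_surjective hφ 2 Q₀
  have hP₀' : (P₀ : Subgroup (B.comap (QuotientGroup.mk' (Cfsg.oddCore G)))).map
      ((QuotientGroup.mk' (Cfsg.oddCore G)).subgroupComap B) = ⊤ := by
    rw [← hQ₀, ← hP₀]; rfl
  obtain ⟨P, hPdef⟩ : ∃ P : Subgroup G, P = (P₀ : Subgroup (B.comap
      (QuotientGroup.mk' (Cfsg.oddCore G)))).map (Subgroup.subtype _) := ⟨_, rfl⟩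
  have hPp : IsPGroup 2 P := by
    rw [hPdef]
    exact P₀.isPGroup'.map _
  have hPmem : ∀ x ∈ P, QuotientGroup.mk' (Cfsg.oddCore G) x ∈ B := by
    rw [hPdef]
    rintro _ ⟨u, -, rfl⟩
    exact u.2
  have hPB : P.map (QuotientGroup.mk' (Cfsg.oddCore G)) = B := by
    apply le_antisymm
    · rintro _ ⟨x, hx, rfl⟩
      exact hPmem x hx
    · intro b hb
      have h1 : (⟨b, hb⟩ : B) ∈ (⊤ : Subgroup B) := Subgroup.mem_top _
      rw [← hP₀'] at h1
      obtain ⟨u, hu, hub⟩ := h1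
      refine ⟨(u : G), ?_, ?_⟩
      · rw [hPdef]
        exact ⟨u, hu, rfl⟩
      · exact congrArg Subtype.val hub
  -- `π` is injective on `P`
  have hinj : ∀ x ∈ P, QuotientGroup.mk' (Cfsg.oddCore G) x = 1 → x = 1 := by
    intro x hx hx1
    have hxN : x ∈ Cfsg.oddCore G := by
      rw [QuotientGroup.mk'_apply, QuotientGroup.eq_one_iff] at hx1
      exact hx1
    obtain ⟨k, hk⟩ := hPp ⟨x, hx⟩
    have hk' : x ^ 2 ^ k = 1 := by
      have := congrArg Subtype.val hk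
      simpa using this
    have h1 : orderOf x ∣ 2 ^ k := orderOf_dvd_of_pow_eq_one hk'
    have h2 : orderOf x ∣ Nat.card (Cfsg.oddCore G) := by
      have := orderOf_dvd_natCard (⟨x, hxN⟩ : Cfsg.oddCore G)
      rwa [Subgroup.orderOf_mk] at this
    have h3 : Nat.Coprime (orderOf x) (Nat.card (Cfsg.oddCore G)) :=
      Nat.Coprime.coprime_dvd_left h1 (Nat.Coprime.pow_left k hNodd.symm)
    exact orderOf_eq_one_iff.mp (Nat.Coprime.eq_one_of_dvd h3 h2)
  have hPcomm : ∀ x ∈ P, ∀ y ∈ P, x * y = y * x := by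
    intro x hx y hy
    have h1 := hBcomm _ (hPmem x hx) _ (hPmem y hy)
    have h2 : QuotientGroup.mk' (Cfsg.oddCore G) (x * y * (y * x)⁻¹) = 1 := by
      rw [map_mul, map_mul, map_inv, map_mul, h1, mul_inv_cancel]
    have h3 := hinj _ (Subgroup.mul_mem _ (Subgroup.mul_mem _ hx hy)
      (Subgroup.inv_mem _ (Subgroup.mul_mem _ hy hx))) h2
    exact mul_inv_eq_one.mp h3
  have hP2 : ∀ x ∈ P, x ^ 2 = 1 := by
    intro x hx
    apply hinj _ (Subgroup.pow_mem _ hx 2)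
    rw [map_pow]
    exact hB2 _ (hPmem x hx)
  have hPcard : Nat.card P = Nat.card B := by
    have e1 : Nat.card P = (P : Set G).ncard := Nat.card_coe_set_eq (P : Set G)
    have e2 : Nat.card (P.map (QuotientGroup.mk' (Cfsg.oddCore G)))
        = ((P.map (QuotientGroup.mk' (Cfsg.oddCore G)) : Subgroup (G ⧸ Cfsg.oddCore G)) :
          Set (G ⧸ Cfsg.oddCore G)).ncard := Nat.card_coe_set_eq _
    rw [← hPB, e1, e2, Subgroup.coe_map]
    symm
    apply Set.InjOn.ncard_image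
    intro x hx y hy hxy
    have h2 : QuotientGroup.mk' (Cfsg.oddCore G) (x * y⁻¹) = 1 := by
      rw [map_mul, map_inv, hxy, mul_inv_cancel]
    have h3 := hinj _ (Subgroup.mul_mem _ hx (Subgroup.inv_mem _ hy)) h2
    exact mul_inv_eq_one.mp h3
  -- lift the two Sylow subgroups
  obtain ⟨S, hPS, hS⟩ := exists_sylow_over (Cfsg.oddCore G) S' P hPp
    (by rw [hPB]; exact hBle.trans inf_le_left)
  obtain ⟨T, hPT, hT⟩ := exists_sylow_over (Cfsg.oddCore G) T' P hPp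
    (by rw [hPB]; exact hBle.trans inf_le_right)
  have hST : S ≠ T := by
    rintro rfl
    exact hne (Sylow.ext (hS.symm.trans hT))
  have hPle : P ≤ (S : Subgroup G) ⊓ (T : Subgroup G) := le_inf hPS hPT
  have hrank := hI S T hST (P.subgroupOf ((S : Subgroup G) ⊓ (T : Subgroup G)))
    ((isMulCommutative_subgroup_iff _).mpr (fun a ha b hb =>
      Subtype.ext (hPcomm _ (Subgroup.mem_subgroupOf.mp ha) _ (Subgroup.mem_subgroupOf.mp hb))))
    (fun a ha => Subtype.ext (by simpa using hP2 _ (Subgroup.mem_subgroupOf.mp ha)))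
  have hcard' : Nat.card (P.subgroupOf ((S : Subgroup G) ⊓ (T : Subgroup G))) = Nat.card P :=
    Nat.card_congr (Subgroup.subgroupOfEquivOfLe hPle).toEquiv
  rw [← hBcard, ← hPcard, ← hcard']
  exact hrank

end Cfsg.Agent.Lib.Helper55.GL23A
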