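import Cfsg.Agent.Lib.Helper6.OddGr1

/-!
Piece OG-B2 for S3265 (poster helper6): block B2.
-/

set_option autoImplicit false
set_option linter.unusedSectionVars false
set_option linter.unusedVariables false

namespace Cfsg.Agent.Lib.Helper55.OddGr

open Equiv Cfsg.Agent.Lib.Helper6.OddGr

variable {Ω : Type*} [Fintype Ω] [DecidableEq Ω] {x y : Perm Ω}

theorem blockB2 (hx : x * x = 1) (hy : y * y = 1) {e g : Ω} (he : y e = e)
    (hbe : Even (per x y e)) (hg : x g = g) (hbg : Even (per x y g)) (hge : g ∉ Orb x y e) :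
    ∃ κ : Perm Ω, Solves x y κ (Orb x y e ∪ Orb x y g) := by
  have hl1 : 0 < per x y e := per_pos x y e
  have hl2 : 0 < per x y g := per_pos x y g
  have hl1' : 2 ≤ per x y e := by
    obtain ⟨r, hr⟩ := hbe; omega
  have hl2' : 2 ≤ per x y g := by
    obtain ⟨r, hr⟩ := hbg; omega
  have hcyg : (x * y) (y g) = g := by
    rw [c_apply, apply_apply_of_sq hy, hg]
  have hyg_ne : y g ≠ g := by
    intro h
    have h1 : ((x * y) ^ 1) g = g := by rw [pow_one, c_apply, h, hg]
    rw [pow_apply_eq_self_iff] at h1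
    have h2 := Nat.le_of_dvd one_pos h1
    omega
  have hdisj : Disjoint (Orb x y g) (Orb x y e) := orb_disjoint hx hy hge
  have hne_of_mem : ∀ {s t : Ω}, s ∈ Orb x y g → t ∈ Orb x y e → s ≠ t := by
    intro s t hs ht hst
    subst hst
    exact Set.disjoint_left.1 hdisj hs ht
  have hg_mem : g ∈ Orb x y g := mem_orb_self x y g
  have he_mem : e ∈ Orb x y e := mem_orb_self x y e
  have hyg_mem : y g ∈ Orb x y g := orb_y hx hy hg_mem
  have hge' : g ≠ e := hne_of_mem hg_mem he_mem
  have hyge : y g ≠ e := hne_of_mem hyg_mem he_mem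
  -- the permutation
  set κ : Perm Ω := c3 g e (y g) with hκ
  have hκg : κ g = e := c3_apply_1 hge' (Ne.symm hyg_ne)
  have hκe : κ e = y g := c3_apply_2 (Ne.symm hyg_ne) (Ne.symm hyge)
  have hκyg : κ (y g) = g := c3_apply_3 g e (y g)
  have hκfix : ∀ s, s ≠ g → s ≠ e → s ≠ y g → κ s = s :=
    fun s h1 h2 h3 => c3_apply_of_ne h1 h2 h3
  have hσ : ∀ s, (x * y * κ) s = (x * y) (κ s) := fun s => rfl
  have hpowe : ∀ k : ℕ, ((x * y) ^ k) e ∈ Orb x y e := by
    intro k
    have h1 := zpow_mem_orb x y e (k : ℤ)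
    rwa [zpow_natCast] at h1
  have hpowg : ∀ k : ℕ, ((x * y) ^ k) g ∈ Orb x y g := by
    intro k
    have h1 := zpow_mem_orb x y g (k : ℤ)
    rwa [zpow_natCast] at h1
  have hsucc : ∀ (k : ℕ) (s : Ω), (x * y) (((x * y) ^ k) s) = ((x * y) ^ (k + 1)) s := by
    intro k s
    rw [pow_succ']
    rfl
  -- σ on the e-cycle
  have hσe : ∀ k : ℕ, 0 < k → k < per x y e →
      (x * y * κ) (((x * y) ^ k) e) = ((x * y) ^ (k + 1)) e := by
    intro k hk0 hk
    rw [hσ, hκfix, hsucc]
    · exact (hne_of_mem hg_mem (hpowe k)).symm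
    · intro h
      rw [pow_apply_eq_self_iff] at h
      have h2 := Nat.le_of_dvd hk0 h
      omega
    · exact (hne_of_mem hyg_mem (hpowe k)).symm
  -- y g as a power
  have hyg_pow : ((x * y) ^ (per x y g - 1)) g = y g := by
    apply (x * y).injective
    rw [hsucc, hcyg, Nat.sub_add_cancel hl2, pow_per_apply]
  -- σ on the g-cycle
  have hσg : ∀ k : ℕ, 0 < k → k < per x y g - 1 →
      (x * y * κ) (((x * y) ^ k) g) = ((x * y) ^ (k + 1)) g := by
    intro k hk0 hk
    rw [hσ, hκfix, hsucc]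
    · intro h
      rw [pow_apply_eq_self_iff] at h
      have h2 := Nat.le_of_dvd hk0 h
      omega
    · exact hne_of_mem (hpowg k) he_mem
    · intro h
      rw [← hyg_pow] at h
      have h2 : ((x * y) ^ (((per x y g - 1 : ℕ)) : ℤ)) g = ((x * y) ^ ((k : ℤ))) g := by
        rw [zpow_natCast, zpow_natCast]; exact h.symm
      rw [zpow_apply_eq_zpow_apply_iff] at h2
      have h4 : (0 : ℤ) < ((per x y g - 1 : ℕ) : ℤ) - (k : ℤ) := by omega
      have h5 := Int.le_of_dvd h4 h2
      omega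
  -- walk 1
  let q1 : ℕ → Ω := fun i => if i = 0 then e else if i = 1 then g else ((x * y) ^ (i - 1)) e
  have q1_0 : q1 0 = e := by simp [q1]
  have q1_1 : q1 1 = g := by simp [q1]
  have q1_ge : ∀ i, 2 ≤ i → q1 i = ((x * y) ^ (i - 1)) e := by
    intro i hi
    simp only [q1]
    rw [if_neg (by omega), if_neg (by omega)]
  have hw1 : ∀ i, i ≤ per x y e + 1 → OP (x * y * κ) (q1 i) := by
    apply op_of_walk (x * y * κ) q1 (per x y e + 1) (Even.add_one hbe)
    · intro i hi
      rcases Nat.eq_zero_or_pos i with h0 | h0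
      · subst h0
        rw [q1_0, zero_add, q1_1, hσ, hκe, hcyg]
      · rcases Nat.eq_or_lt_of_le (Nat.succ_le_of_lt h0) with h1 | h1
        · have h2 : i = 1 := h1.symm
          subst h2
          rw [q1_1, q1_ge 2 (le_refl 2), hσ, hκg]
          simp
        · rw [q1_ge i (by omega), q1_ge (i + 1) (by omega), hσe (i - 1) (by omega) (by omega),
            Nat.sub_add_cancel (by omega), Nat.add_sub_cancel]
    · rw [q1_0, q1_ge _ (by omega), Nat.add_sub_cancel, pow_per_apply]
  -- walk 2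
  let q2 : ℕ → Ω := fun i => if i = per x y g - 1 then (x * y) g else ((x * y) ^ (i + 1)) g
  have q2_last : q2 (per x y g - 1) = (x * y) g := by simp [q2]
  have q2_lt : ∀ i, i < per x y g - 1 → q2 i = ((x * y) ^ (i + 1)) g := by
    intro i hi
    simp only [q2]
    rw [if_neg (by omega)]
  have hw2 : ∀ i, i ≤ per x y g - 1 → OP (x * y * κ) (q2 i) := by
    apply op_of_walk (x * y * κ) q2 (per x y g - 1) (Nat.Even.sub_odd (by omega) hbg odd_one)
    · intro i hi
      rw [q2_lt i hi]
      rcases Nat.lt_or_ge (i + 1) (per x y g - 1) with h1 | h1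
      · rw [q2_lt (i + 1) h1, hσg (i + 1) (Nat.succ_pos i) h1]
      · have e1 : i + 1 = per x y g - 1 := by omega
        rw [e1, q2_last, hyg_pow, hσ, hκyg]
    · rw [q2_last, q2_lt 0 (by omega)]
      simp
  refine ⟨κ, ?_, ?_, ⟨3, ⟨1, by norm_num⟩, c3_pow_three hge' (Ne.symm hyg_ne) (Ne.symm hyge)⟩, ?_⟩
  · intro s hs
    apply hκfix
    · intro h; exact hs (Or.inr (h ▸ hg_mem))
    · intro h; exact hs (Or.inl (h ▸ he_mem))
    · intro h; exact hs (Or.inr (h ▸ hyg_mem))
  · rw [hκ, c3_conj_invol hy, c3_inv, he, apply_apply_of_sq hy]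
  · intro s hs
    rcases hs with hs | hs
    · obtain ⟨k, hk, rfl⟩ := (mem_orb_of_yfix' he).1 hs
      rcases Nat.eq_zero_or_pos k with h0 | h0
      · subst h0
        have h1 := hw1 0 (Nat.zero_le _)
        rw [q1_0] at h1
        simpa using h1
      · have h1 := hw1 (k + 1) (by omega)
        rw [q1_ge (k + 1) (by omega), Nat.add_sub_cancel] at h1
        exact h1
    · obtain ⟨k, hk, rfl⟩ := (mem_orb_of_xfix' hg).1 hs
      rcases Nat.eq_zero_or_pos k with h0 | h0
      · subst h0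
        have h1 := hw1 1 (by omega)
        rw [q1_1] at h1
        simpa using h1
      · have h1 := hw2 (k - 1) (by omega)
        rw [q2_lt (k - 1) (by omega), Nat.sub_add_cancel h0] at h1
        exact h1

end Cfsg.Agent.Lib.Helper55.OddGr
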