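import Cfsg.Agent.Lib.Helper6.OddGr1

/-!
Piece OG-B6 for S3265 (poster helper6): block B6.
-/

set_option autoImplicit false
set_option linter.unusedSectionVars false
set_option linter.unusedVariables false

namespace Cfsg.Agent.Lib.Helper55.OddGr

open Equiv Cfsg.Agent.Lib.Helper6.OddGr

variable {Ω : Type*} [Fintype Ω] [DecidableEq Ω] {x y : Perm Ω}

theorem blockB6 (hx : x * x = 1) (hy : y * y = 1) {a w : Ω} (hcta : CT x y a)
    (hpa : per x y a = 2) (hctw : CT x y w) (hoddw : Odd (per x y w)) (hw : w ∉ Orb x y a) :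
    ∃ κ : Perm Ω, Solves x y κ (Orb x y a ∪ Orb x y w) := by
  have hm : 0 < per x y w := per_pos x y w
  obtain ⟨n1, n2, n3, n4, n5, n6⟩ := hcta.four_ne hx hy hpa
  have hdisj : Disjoint (Orb x y w) (Orb x y a) := orb_disjoint hx hy hw
  have hne : ∀ {s t : Ω}, s ∈ Orb x y w → t ∈ Orb x y a → s ≠ t := by
    intro s t hs ht hst
    subst hst
    exact Set.disjoint_left.1 hdisj hs ht
  have ma : a ∈ Orb x y a := mem_orb_self x y a
  have mxa : x a ∈ Orb x y a := x_mem_orb_self x y a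
  have mca : (x * y) a ∈ Orb x y a := orb_c ma
  have mya : y a ∈ Orb x y a := orb_y hx hy ma
  have mw : w ∈ Orb x y w := mem_orb_self x y w
  have myw : y w ∈ Orb x y w := orb_y hx hy mw
  have nyw : y w ≠ w := hctw.y_ne hx
  -- the six points are distinct
  have d_w_a : w ≠ a := hne mw ma
  have d_w_xa : w ≠ x a := hne mw mxa
  have d_w_ca : w ≠ (x * y) a := hne mw mca
  have d_w_ya : w ≠ y a := hne mw mya
  have d_yw_a : y w ≠ a := hne myw ma
  have d_yw_xa : y w ≠ x a := hne myw mxa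
  have d_yw_ca : y w ≠ (x * y) a := hne myw mca
  have d_yw_ya : y w ≠ y a := hne myw mya
  -- the permutation
  set κ₁ : Perm Ω := c3 a (x a) (y w) with hκ₁
  set κ₂ : Perm Ω := c3 ((x * y) a) (y a) w with hκ₂
  have k1a : κ₁ a = x a := c3_apply_1 (Ne.symm n1) (Ne.symm d_yw_a)
  have k1xa : κ₁ (x a) = y w := c3_apply_2 (Ne.symm d_yw_a) (Ne.symm d_yw_xa)
  have k1yw : κ₁ (y w) = a := c3_apply_3 _ _ _
  have k1o : ∀ s, s ≠ a → s ≠ x a → s ≠ y w → κ₁ s = s :=
    fun s h1 h2 h3 => c3_apply_of_ne h1 h2 h3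
  have k2ca : κ₂ ((x * y) a) = y a := c3_apply_1 (Ne.symm n6) (Ne.symm d_w_ca)
  have k2ya : κ₂ (y a) = w := c3_apply_2 (Ne.symm d_w_ca) (Ne.symm d_w_ya)
  have k2w : κ₂ w = (x * y) a := c3_apply_3 _ _ _
  have k2o : ∀ s, s ≠ (x * y) a → s ≠ y a → s ≠ w → κ₂ s = s :=
    fun s h1 h2 h3 => c3_apply_of_ne h1 h2 h3
  have hκ : ∀ s, (κ₁ * κ₂) s = κ₁ (κ₂ s) := fun s => rfl
  have ka : (κ₁ * κ₂) a = x a := by
    rw [hκ, k2o a (Ne.symm n2) (Ne.symm n3) (Ne.symm d_w_a), k1a]
  have kxa : (κ₁ * κ₂) (x a) = y w := by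
    rw [hκ, k2o (x a) (Ne.symm n4) (Ne.symm n5) (Ne.symm d_w_xa), k1xa]
  have kyw : (κ₁ * κ₂) (y w) = a := by
    rw [hκ, k2o (y w) d_yw_ca d_yw_ya nyw, k1yw]
  have kca : (κ₁ * κ₂) ((x * y) a) = y a := by
    rw [hκ, k2ca, k1o (y a) n3 n5 (Ne.symm d_yw_ya)]
  have kya : (κ₁ * κ₂) (y a) = w := by
    rw [hκ, k2ya, k1o w d_w_a d_w_xa (Ne.symm nyw)]
  have kw : (κ₁ * κ₂) w = (x * y) a := by
    rw [hκ, k2w, k1o ((x * y) a) n2 n4 (Ne.symm d_yw_ca)]
  have ko : ∀ s, s ≠ a → s ≠ x a → s ≠ y w → s ≠ (x * y) a → s ≠ y a → s ≠ w →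
      (κ₁ * κ₂) s = s := by
    intro s h1 h2 h3 h4 h5 h6
    rw [hκ, k2o s h4 h5 h6, k1o s h1 h2 h3]
  have hσ : ∀ s, (x * y * (κ₁ * κ₂)) s = (x * y) ((κ₁ * κ₂) s) := fun s => rfl
  have hsucc : ∀ (k : ℕ) (s : Ω), (x * y) (((x * y) ^ k) s) = ((x * y) ^ (k + 1)) s := by
    intro k s
    rw [pow_succ']
    rfl
  have hpoww : ∀ k : ℕ, ((x * y) ^ k) w ∈ Orb x y w := by
    intro k
    have h1 := zpow_mem_orb x y w (k : ℤ)
    rwa [zpow_natCast] at h1
  have hpowv : ∀ k : ℕ, ((x * y) ^ k) (x w) ∈ Orb x y w := by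
    intro k
    have h1 := zpow_x_mem_orb x y w (k : ℤ)
    rwa [zpow_natCast] at h1
  have hperx : per x y (x w) = per x y w := per_x_apply hx hy w
  -- y w as a power
  have hcyw : (x * y) (y w) = x w := by rw [c_apply, apply_apply_of_sq hy]
  have hyw_pow : ((x * y) ^ (per x y w - 1)) (x w) = y w := by
    apply (x * y).injective
    rw [hsucc, hcyw, Nat.sub_add_cancel hm, ← hperx, pow_per_apply]
  -- σ on the six points
  have sa : (x * y * (κ₁ * κ₂)) a = y a := by rw [hσ, ka, c_x_of_per_two hx hy hpa]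
  have sxa : (x * y * (κ₁ * κ₂)) (x a) = x w := by rw [hσ, kxa, hcyw]
  have syw : (x * y * (κ₁ * κ₂)) (y w) = (x * y) a := by rw [hσ, kyw]
  have sca : (x * y * (κ₁ * κ₂)) ((x * y) a) = x a := by
    rw [hσ, kca, c_y_of_per_two hx hy hpa]
  have sya : (x * y * (κ₁ * κ₂)) (y a) = (x * y) w := by rw [hσ, kya]
  have sw : (x * y * (κ₁ * κ₂)) w = a := by rw [hσ, kw, c_c_of_per_two hpa]
  -- σ on the w-cycle
  have sW : ∀ k : ℕ, 0 < k → k < per x y w →
      (x * y * (κ₁ * κ₂)) (((x * y) ^ k) w) = ((x * y) ^ (k + 1)) w := by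
    intro k hk0 hk
    rw [hσ, ko, hsucc]
    · exact hne (hpoww k) ma
    · exact hne (hpoww k) mxa
    · intro h
      rw [y_apply hx hy w, ← zpow_natCast] at h
      exact hctw.zpow_ne _ _ h
    · exact hne (hpoww k) mca
    · exact hne (hpoww k) mya
    · intro h
      rw [pow_apply_eq_self_iff] at h
      have h2 := Nat.le_of_dvd hk0 h
      omega
  -- σ on the (x w)-cycle
  have sV : ∀ k : ℕ, k < per x y w - 1 →
      (x * y * (κ₁ * κ₂)) (((x * y) ^ k) (x w)) = ((x * y) ^ (k + 1)) (x w) := by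
    intro k hk
    rw [hσ, ko, hsucc]
    · exact hne (hpowv k) ma
    · exact hne (hpowv k) mxa
    · intro h
      rw [← hyw_pow] at h
      have h2 : ((x * y) ^ (((per x y w - 1 : ℕ)) : ℤ)) (x w) = ((x * y) ^ ((k : ℤ))) (x w) := by
        rw [zpow_natCast, zpow_natCast]; exact h.symm
      rw [zpow_apply_eq_zpow_apply_iff, hperx] at h2
      have h4 : (0 : ℤ) < ((per x y w - 1 : ℕ) : ℤ) - (k : ℤ) := by omega
      have h5 := Int.le_of_dvd h4 h2
      omega
    · exact hne (hpowv k) mca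
    · exact hne (hpowv k) mya
    · intro h
      have h2 := hctw.zpow_ne 0 (k : ℤ)
      rw [zpow_zero, zpow_natCast] at h2
      exact h2 h.symm
  -- walk 1 : a, y a, c w, ..., c^m w = w, a
  let q1 : ℕ → Ω := fun i =>
    if i = 0 then a else if i = 1 then y a else if i = per x y w + 2 then a
    else ((x * y) ^ (i - 1)) w
  have q1_0 : q1 0 = a := by simp [q1]
  have q1_1 : q1 1 = y a := by simp [q1]
  have q1_last : q1 (per x y w + 2) = a := by simp [q1]
  have q1_mid : ∀ i, 2 ≤ i → i ≤ per x y w + 1 → q1 i = ((x * y) ^ (i - 1)) w := by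
    intro i h1 h2
    simp only [q1]
    rw [if_neg (by omega), if_neg (by omega), if_neg (by omega)]
  have hw1 : ∀ i, i ≤ per x y w + 2 → OP (x * y * (κ₁ * κ₂)) (q1 i) := by
    apply op_of_walk (x * y * (κ₁ * κ₂)) q1 (per x y w + 2)
      (by obtain ⟨r, hr⟩ := hoddw; exact ⟨r + 1, by omega⟩)
    · intro i hi
      rcases Nat.eq_zero_or_pos i with h0 | h0
      · subst h0
        rw [q1_0, zero_add, q1_1, sa]
      · rcases Nat.eq_or_lt_of_le (Nat.succ_le_of_lt h0) with h1 | h1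
        · have h2 : i = 1 := h1.symm
          subst h2
          rw [q1_1, q1_mid 2 (le_refl 2) (by omega), sya]
          simp
        · rcases Nat.eq_or_lt_of_le (Nat.le_of_lt_succ hi) with h3 | h3
          · -- i = m + 1
            subst h3
            rw [q1_mid _ (by omega) (le_refl _), Nat.add_sub_cancel, pow_per_apply, q1_last, sw]
          · rw [q1_mid i (by omega) (by omega), q1_mid (i + 1) (by omega) (by omega),
              sW (i - 1) (by omega) (by omega), Nat.sub_add_cancel (by omega), Nat.add_sub_cancel]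
    · rw [q1_0, q1_last]
  -- walk 2 : x a, x w, c (x w), ..., c^(m-1) (x w) = y w, c a, x a
  let q2 : ℕ → Ω := fun i =>
    if i = 0 then x a else if i = per x y w + 1 then (x * y) a
    else if i = per x y w + 2 then x a else ((x * y) ^ (i - 1)) (x w)
  have q2_0 : q2 0 = x a := by simp [q2]
  have q2_m1 : q2 (per x y w + 1) = (x * y) a := by simp [q2]
  have q2_last : q2 (per x y w + 2) = x a := by simp [q2]
  have q2_mid : ∀ i, 1 ≤ i → i ≤ per x y w → q2 i = ((x * y) ^ (i - 1)) (x w) := by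
    intro i h1 h2
    simp only [q2]
    rw [if_neg (by omega), if_neg (by omega), if_neg (by omega)]
  have hw2 : ∀ i, i ≤ per x y w + 2 → OP (x * y * (κ₁ * κ₂)) (q2 i) := by
    apply op_of_walk (x * y * (κ₁ * κ₂)) q2 (per x y w + 2)
      (by obtain ⟨r, hr⟩ := hoddw; exact ⟨r + 1, by omega⟩)
    · intro i hi
      rcases Nat.eq_zero_or_pos i with h0 | h0
      · subst h0
        rw [q2_0, zero_add, q2_mid 1 (le_refl 1) (by omega), sxa]
        simp
      · rcases Nat.eq_or_lt_of_le (Nat.le_of_lt_succ hi) with h3 | h3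
        · -- i = m + 1
          subst h3
          rw [q2_m1, q2_last, sca]
        · rcases Nat.eq_or_lt_of_le (Nat.le_of_lt_succ h3) with h4 | h4
          · -- i = m
            subst h4
            rw [q2_mid _ (by omega) (le_refl _), hyw_pow, q2_m1, syw]
          · rw [q2_mid i (by omega) (by omega), q2_mid (i + 1) (by omega) (by omega),
              sV (i - 1) (by omega), Nat.sub_add_cancel (by omega), Nat.add_sub_cancel]
    · rw [q2_0, q2_last]
  have hcomm : Commute κ₁ κ₂ :=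
    c3_commute (Ne.symm n2) (Ne.symm n3) (Ne.symm d_w_a) (Ne.symm n4) (Ne.symm n5)
      (Ne.symm d_w_xa) d_yw_ca d_yw_ya nyw
  refine ⟨κ₁ * κ₂, ?_, ?_, ⟨3, ⟨1, by norm_num⟩, ?_⟩, ?_⟩
  · intro s hs
    apply ko
    · intro h; exact hs (Or.inl (h ▸ ma))
    · intro h; exact hs (Or.inl (h ▸ mxa))
    · intro h; exact hs (Or.inr (h ▸ myw))
    · intro h; exact hs (Or.inl (h ▸ mca))
    · intro h; exact hs (Or.inl (h ▸ mya))
    · intro h; exact hs (Or.inr (h ▸ mw))
  · have e1 : y * (κ₁ * κ₂) * y = (y * κ₁ * y) * (y * κ₂ * y) := by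
      have e2 : (y * κ₁ * y) * (y * κ₂ * y) = y * κ₁ * (y * y) * κ₂ * y := by group
      rw [e2, hy]; group
    have e3 : y * κ₁ * y = κ₂⁻¹ := by
      rw [hκ₁, hκ₂, c3_conj_invol hy, c3_inv, apply_apply_of_sq hy,
        c3_rotate d_w_ya d_w_ca n6]
      congr 1
      rw [c_apply, xy_eq_yx_of_per_two hx hy hpa]
    have e4 : y * κ₂ * y = κ₁⁻¹ := by
      rw [hκ₁, hκ₂, c3_conj_invol hy, c3_inv, apply_apply_of_sq hy,
        y_c_of_per_two hx hy hpa, c3_rotate d_yw_xa d_yw_a n1]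
    rw [e1, e3, e4, mul_inv_rev]
  · rw [hcomm.mul_pow, c3_pow_three (Ne.symm n1) (Ne.symm d_yw_a) (Ne.symm d_yw_xa),
      c3_pow_three (Ne.symm n6) (Ne.symm d_w_ca) (Ne.symm d_w_ya), one_mul]
  · intro s hs
    rcases hs with hs | hs
    · rw [orb_of_per_two hx hy hpa] at hs
      simp only [Set.mem_insert_iff, Set.mem_singleton_iff] at hs
      rcases hs with rfl | rfl | rfl | rfl
      · have h1 := hw1 0 (Nat.zero_le _)
        rwa [q1_0] at h1
      · have h1 := hw2 0 (Nat.zero_le _)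
        rwa [q2_0] at h1
      · have h1 := hw2 (per x y w + 1) (by omega)
        rwa [q2_m1] at h1
      · have h1 := hw1 1 (by omega)
        rwa [q1_1] at h1
    · rcases (mem_orb_iff' hx hy).1 hs with ⟨k, hk, rfl⟩ | ⟨k, hk, rfl⟩
      · rcases Nat.eq_zero_or_pos k with h0 | h0
        · subst h0
          have h1 := hw1 (per x y w + 1) (by omega)
          rw [q1_mid _ (by omega) (le_refl _), Nat.add_sub_cancel, pow_per_apply] at h1
          simpa using h1
        · have h1 := hw1 (k + 1) (by omega)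
          rw [q1_mid (k + 1) (by omega) (by omega), Nat.add_sub_cancel] at h1
          exact h1
      · have h1 := hw2 (k + 1) (by omega)
        rw [q2_mid (k + 1) (by omega) (by omega), Nat.add_sub_cancel] at h1
        exact h1

end Cfsg.Agent.Lib.Helper55.OddGr
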