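import Mathlib
import Cfsg.Agent.Lib.Helper44.PU3Defs
import Cfsg.Agent.Lib.Helper55.QSLMain

/-! Piece LIFT of the PU3 project (helper44, S2784 + S2786). -/

set_option autoImplicit false

namespace Cfsg.Agent.Lib.Helper44.PU3

open Cfsg.Agent.Lib.Helper55.QSL

theorem pu3_lift {G : Type*} [Group G] [Finite G] {p : ℕ} [Fact p.Prime]
    (V H : Subgroup G) (hV : Cfsg.IsElementaryAbelian p V)
    (hHV : H ≤ Subgroup.normalizer (V : Set G))
    (hf : H ⊓ Subgroup.centralizer (V : Set G) = ⊥) {P : Type*} [Group P]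
    (f : ↥H →* P) (hsurj : Function.Surjective f) (n r : ℕ) (hr : r.Prime) (hrp : r ≠ p)
    (hprim : ∀ d : ℕ, 1 ≤ d → r ∣ p ^ d - 1 → 6 * n ≤ d)
    (s : ↥H) (g₁ g₂ : P)
    (hord : orderOf (f s * (g₁ * f s * g₁⁻¹) * (g₂ * f s * g₂⁻¹)) = r) :
    (p ^ n) ^ 6 ≤ Nat.card V ∧
      (p ^ n) ^ 2 ≤ (Subgroup.centralizer ({H.subtype s} : Set G)).relIndex V := by
  classical
  have hp : p.Prime := Fact.out
  obtain ⟨h₁, rfl⟩ := hsurj g₁
  obtain ⟨h₂, rfl⟩ := hsurj g₂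
  have hfw : f (s * (h₁ * s * h₁⁻¹) * (h₂ * s * h₂⁻¹)) =
      f s * (f h₁ * f s * (f h₁)⁻¹) * (f h₂ * f s * (f h₂)⁻¹) := by
    simp only [map_mul, map_inv]
  have hord2 : r ∣ orderOf (s * (h₁ * s * h₁⁻¹) * (h₂ * s * h₂⁻¹)) := by
    rw [← hord, ← hfw]
    exact orderOf_map_dvd f _
  have hord3 : r ^ (0 + 1) ∣ orderOf (H.subtype s * (H.subtype h₁ * H.subtype s *
      (H.subtype h₁)⁻¹) * (H.subtype h₂ * H.subtype s * (H.subtype h₂)⁻¹)) := by
    rw [zero_add, pow_one]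
    rw [← Subgroup.orderOf_coe] at hord2
    simpa using hord2
  have hprim' : ∀ d : ℕ, 1 ≤ d → r ^ (0 + 1) ∣ p ^ d - 1 → 2 * (3 * n) ≤ d := by
    intro d hd h
    rw [zero_add, pow_one] at h
    have := hprim d hd h
    omega
  have hgH : H.subtype s * (H.subtype h₁ * H.subtype s * (H.subtype h₁)⁻¹) *
      (H.subtype h₂ * H.subtype s * (H.subtype h₂)⁻¹) ∈ H :=
    H.mul_mem (H.mul_mem s.2 (H.mul_mem (H.mul_mem h₁.2 s.2) (H.inv_mem h₁.2)))
      (H.mul_mem (H.mul_mem h₂.2 s.2) (H.inv_mem h₂.2))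
  have h2 := pow_le_cV_of_order hV hHV hf hr hrp hprim' hgH hord3
  have e6 : (p ^ n) ^ 6 = p ^ (2 * (3 * n)) := by
    rw [← pow_mul]
    congr 1
    ring
  constructor
  · rw [e6]
    exact h2.trans (Nat.le_of_dvd Nat.card_pos (Subgroup.relIndex_dvd_card _ _))
  · have e4 : (Subgroup.centralizer ({H.subtype s * (H.subtype h₁ * H.subtype s *
        (H.subtype h₁)⁻¹) * (H.subtype h₂ * H.subtype s * (H.subtype h₂)⁻¹)} : Set G)).relIndex V ≤
        (Subgroup.centralizer ({H.subtype s} : Set G)).relIndex V *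
          (Subgroup.centralizer ({H.subtype s} : Set G)).relIndex V *
          (Subgroup.centralizer ({H.subtype s} : Set G)).relIndex V := by
      refine (cV_mul_le V _ _).trans ?_
      rw [cV_conj V (h := H.subtype h₂) (hHV h₂.2) (H.subtype s)]
      refine Nat.mul_le_mul_right _ ((cV_mul_le V _ _).trans ?_)
      rw [cV_conj V (h := H.subtype h₁) (hHV h₁.2) (H.subtype s)]
    have e5 : ((p ^ n) ^ 2) ^ 3 ≤
        ((Subgroup.centralizer ({H.subtype s} : Set G)).relIndex V) ^ 3 := by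
      have e7 : ((p ^ n) ^ 2) ^ 3 = p ^ (2 * (3 * n)) := by
        rw [← pow_mul, ← pow_mul]
        congr 1
        ring
      rw [e7]
      refine (h2.trans e4).trans (le_of_eq ?_)
      ring
    exact (Nat.pow_le_pow_iff_left (by norm_num)).mp e5

end Cfsg.Agent.Lib.Helper44.PU3
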