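import Cfsg.Agent.Lib.Helper55.TudDefs

/-!
# TUD piece `TudNc` (S3385, odd case)

Proved (helper33); helper lemmas are prefixed `dNc_`.  Mathlib + `TutBasic` only.
-/

set_option autoImplicit false

namespace Cfsg.Agent.Lib.Helper55.TUT

open scoped Pointwise

variable {G : Type*} [Group G]

theorem dNc_conj_eq (N : Subgroup G) (hN : N ≤ Subgroup.center G) (a : G) :
    MulAut.conj a • N = N := by
  have hfix : ∀ y ∈ N, a * y * a⁻¹ = y := by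
    intro y hy
    have h := Subgroup.mem_center_iff.1 (hN hy) a
    rw [h, mul_inv_cancel_right]
  ext x
  rw [Subgroup.mem_smul_pointwise_iff_exists]
  constructor
  · rintro ⟨y, hy, rfl⟩
    rw [MulAut.smul_def, MulAut.conj_apply, hfix y hy]
    exact hy
  · intro hx
    refine ⟨x, hx, ?_⟩
    rw [MulAut.smul_def, MulAut.conj_apply, hfix x hx]

theorem dNc_aux1 (k y h : G) (hc : y * (k * h * k⁻¹) = (k * h * k⁻¹) * y) :
    (k⁻¹ * y * k) * h = h * (k⁻¹ * y * k) := by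
  calc (k⁻¹ * y * k) * h = k⁻¹ * (y * (k * h * k⁻¹)) * k := by group
    _ = k⁻¹ * ((k * h * k⁻¹) * y) * k := by rw [hc]
    _ = h * (k⁻¹ * y * k) := by group

theorem dNc_aux2 (k y : G) (h : k⁻¹ * y * k = 1) : y = 1 := by
  have e : y = k * (k⁻¹ * y * k) * k⁻¹ := by group
  rw [e, h]
  group

theorem dNc_aux3 (k y : G) (h : k * y * k⁻¹ = 1) : y = 1 := by
  have e : y = k⁻¹ * (k * y * k⁻¹) * k := by group
  rw [e, h]
  group

theorem dNc_aux4 (k h : G) : k⁻¹ * (k * h * k⁻¹) * k = h := by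
  group

/-- No inner `x_l` (`1 ≤ l ≤ s - 1`) commutes with all of `x_0, ..., x_s` (directed version; here
`H` and `H_1` generate `G`).

Proof.  Suppose `x_l` commutes with `x_i` for all `0 ≤ i ≤ s` (by_contra + push Not).  By
`commute_Xint`, `x_l` commutes with every element of `Xint g x₀ 0 (s-1) = Hn H g (s-1)` (`hX`) and of
`Xint g x₀ 1 s`, and `Xint g x₀ 1 s = conj g • Xint g x₀ 0 (s-1)` (`conj_Xint` with `k = 1`, `zpow_one`)
`= conj g • Hn H g (s-1) = Hn H g s` (`conj_Hn`).  Now `Hn H g (s-1) ⊔ Hn H g s =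
conj (g ^ (s-1)) • (H ⊔ Hn H g 1) = ⊤` (`conj_Hn`, `Hn_zero`, `Subgroup.smul_sup`/or elementwise:
the centraliser `Subgroup.centralizer {x_l}` contains both `Hn H g (s-1)` and `Hn H g s`; conjugating
by `g ^ (s-1)`, the centraliser of `z := (g ^ (s-1))⁻¹ * x_l * g ^ (s-1)` contains `H` and `Hn H g 1`,
hence `H ⊔ Hn H g 1 = ⊤`).  So `z` is central in `G`; and `z ∈ H` because
`x_l ∈ Xint g x₀ 0 (s-1) = Hn H g (s-1)` (`xs_mem_Xint`, `mem_Hn`).  Let `N := Subgroup.zpowers z`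
(or `Subgroup.center G ⊓ H`): `N ≤ H`, and `conj a • N = N` for every `a : G` since `N` is central.
`hyp.core` gives `N = ⊥`, so `z = 1`, so `x_l = 1`, so `x₀ = 1` (`xs` is a conjugate of `x₀`),
contradicting `hx1`. -/
theorem d_xs_not_central [Finite G] {H : Subgroup G} {g : G} (hyp : HypD H g)
    (htop : H ⊔ Hn H g 1 = ⊤) (s : ℕ) (hs : 2 ≤ s) (x₀ : G)
    (hx1 : x₀ ≠ 1) (hx : x₀ ∈ Arc H g 0 ((s : ℤ) - 1))
    (hX : Xint g x₀ 0 ((s : ℤ) - 1) = Hn H g ((s : ℤ) - 1))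
    (l : ℤ) (hl1 : 1 ≤ l) (hl2 : l ≤ (s : ℤ) - 1) :
    ∃ i : ℤ, 0 ≤ i ∧ i ≤ (s : ℤ) ∧ xs g x₀ l * xs g x₀ i ≠ xs g x₀ i * xs g x₀ l := by
  by_contra hcon
  push Not at hcon
  have h1 : ∀ z ∈ Xint g x₀ 0 ((s : ℤ) - 1), xs g x₀ l * z = z * xs g x₀ l :=
    commute_Xint (fun i hi1 hi2 => hcon i hi1 (by omega))
  have h2 : ∀ z ∈ Xint g x₀ 1 (s : ℤ), xs g x₀ l * z = z * xs g x₀ l :=
    commute_Xint (fun i hi1 hi2 => hcon i (by omega) hi2)
  have hX2 : Xint g x₀ 1 (s : ℤ) = Hn H g (s : ℤ) := by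
    have h := conj_Xint g x₀ 0 ((s : ℤ) - 1) 1
    rw [hX, conj_Hn] at h
    have e1 : ((s : ℤ) - 1) + 1 = s := by ring
    have e2 : (0 : ℤ) + 1 = 1 := by norm_num
    rw [e1, e2] at h
    exact h.symm
  rw [hX] at h1
  rw [hX2] at h2
  have hzH : (g ^ ((s : ℤ) - 1))⁻¹ * xs g x₀ l * g ^ ((s : ℤ) - 1) ∈ H := by
    have hm : xs g x₀ l ∈ Xint g x₀ 0 ((s : ℤ) - 1) := xs_mem_Xint (by omega) hl2
    rw [hX] at hm
    exact mem_Hn.1 hm
  have hcz : H ⊔ Hn H g 1 ≤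
      Subgroup.centralizer {(g ^ ((s : ℤ) - 1))⁻¹ * xs g x₀ l * g ^ ((s : ℤ) - 1)} := by
    refine sup_le ?_ ?_
    · intro h hh
      rw [Subgroup.mem_centralizer_iff]
      intro w hw
      rw [Set.mem_singleton_iff.1 hw]
      apply dNc_aux1
      apply h1
      rw [mem_Hn, dNc_aux4]
      exact hh
    · intro h hh
      rw [Subgroup.mem_centralizer_iff]
      intro w hw
      rw [Set.mem_singleton_iff.1 hw]
      apply dNc_aux1
      apply h2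
      have hm : g ^ ((s : ℤ) - 1) * h * (g ^ ((s : ℤ) - 1))⁻¹ ∈ Hn H g (1 + ((s : ℤ) - 1)) :=
        conj_mem_Hn.2 hh
      have e : (1 : ℤ) + ((s : ℤ) - 1) = s := by ring
      rw [e] at hm
      exact hm
  rw [htop] at hcz
  have hzc : (g ^ ((s : ℤ) - 1))⁻¹ * xs g x₀ l * g ^ ((s : ℤ) - 1) ∈ Subgroup.center G := by
    rw [Subgroup.mem_center_iff]
    intro a
    exact (Subgroup.mem_centralizer_iff.1 (hcz (Subgroup.mem_top a)) _ rfl).symm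
  have hNc : Subgroup.zpowers ((g ^ ((s : ℤ) - 1))⁻¹ * xs g x₀ l * g ^ ((s : ℤ) - 1)) ≤
      Subgroup.center G := (Subgroup.zpowers_le).2 hzc
  have hNH : Subgroup.zpowers ((g ^ ((s : ℤ) - 1))⁻¹ * xs g x₀ l * g ^ ((s : ℤ) - 1)) ≤ H :=
    (Subgroup.zpowers_le).2 hzH
  have hbot := hyp.core _ hNH (fun h _ => dNc_conj_eq _ hNc h) (dNc_conj_eq _ hNc g)
  have hz1 : (g ^ ((s : ℤ) - 1))⁻¹ * xs g x₀ l * g ^ ((s : ℤ) - 1) = 1 := by
    have hm : (g ^ ((s : ℤ) - 1))⁻¹ * xs g x₀ l * g ^ ((s : ℤ) - 1) ∈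
        Subgroup.zpowers ((g ^ ((s : ℤ) - 1))⁻¹ * xs g x₀ l * g ^ ((s : ℤ) - 1)) :=
      Subgroup.mem_zpowers _
    rw [hbot] at hm
    exact Subgroup.mem_bot.1 hm
  have hy1 : xs g x₀ l = 1 := dNc_aux2 _ _ hz1
  exact hx1 (dNc_aux3 (g ^ l) x₀ hy1)

end Cfsg.Agent.Lib.Helper55.TUT
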