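import Cfsg.Agent.Lib.Helper55.TudDefs

/-!
# TUD piece `TudOdd` (S3385, odd case)

PLACEHOLDER: replace the `sorry` in this ONE file; keep the statement, name and namespace
unchanged; you may add helper lemmas here with names prefixed `dOdd_`.  Mathlib only.
-/

set_option autoImplicit false

namespace Cfsg.Agent.Lib.Helper55.TUT

open scoped Pointwise

variable {G : Type*} [Group G]

theorem dOdd_conj_pow (K : Subgroup G) (n : G) (hnK : MulAut.conj n • K = K) (m : ℕ) :
    MulAut.conj (n ^ m) • K = K := by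
  induction m with
  | zero => rw [pow_zero, map_one, one_smul]
  | succ m ih => rw [pow_succ, map_mul, mul_smul, hnK, ih]

/-- If no `t` normalising `K` has `t ∉ K`, `t * t ∈ K`, then every `n` normalising `K` has an odd
power in `K`.

Proof.  `G` is finite, so `n ^ orderOf n = 1 ∈ K` with `0 < orderOf n`; let `r` be the least positive
natural with `n ^ r ∈ K` (`Nat.find`).  If `r` were even, `r = 2 * m` with `0 < m < r`; `t := n ^ m`
normalises `K` (induction on `m` from `hnK`, using `MulAut.conj (a * b) • K = conj a • conj b • K`,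
i.e. `map_mul` + `mul_smul`), and `t * t = n ^ r ∈ K`, so `hodd` gives `n ^ m ∈ K`, contradicting
minimality.  So `r` is odd (`Nat.not_even_iff_odd`). -/
theorem d_odd_pow [Finite G] (K : Subgroup G) (n : G) (hnK : MulAut.conj n • K = K)
    (hodd : ∀ t : G, MulAut.conj t • K = K → t * t ∈ K → t ∈ K) :
    ∃ r : ℕ, Odd r ∧ n ^ r ∈ K := by
  classical
  have hex : ∃ r : ℕ, 0 < r ∧ n ^ r ∈ K :=
    ⟨orderOf n, orderOf_pos n, by rw [pow_orderOf_eq_one]; exact K.one_mem⟩
  have hr : 0 < Nat.find hex ∧ n ^ Nat.find hex ∈ K := Nat.find_spec hex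
  refine ⟨Nat.find hex, ?_, hr.2⟩
  rw [← Nat.not_even_iff_odd]
  rintro ⟨m, hm⟩
  have hm0 : 0 < m := by omega
  have hlt : m < Nat.find hex := by omega
  have ht : n ^ m ∈ K := by
    apply hodd _ (dOdd_conj_pow K n hnK m)
    rw [← pow_add, ← hm]
    exact hr.2
  exact Nat.find_min hex hlt ⟨hm0, ht⟩

end Cfsg.Agent.Lib.Helper55.TUT
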