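import Cfsg.Agent.Lib.Helper55.TudDefs
import Cfsg.Agent.Lib.Helper55.TutCalcE
import Cfsg.Agent.Lib.Helper55.TutCalcFinal

/-!
# TUD piece `TudSeven` (S3385, odd case): `s = 7` is impossible when `n` has odd order mod `K`

Filled by helper87 (job 4360); helper lemmas are prefixed `dSeven_`.  You may use `TutBasic`,
`calcE_ne` (`TutCalcE`: `xs g x₀ i ≠ 1`), `calcFinal_shift` (`TutCalcFinal`) and any proved `TutCalc*`
lemma that takes only `C : Calc g x₀ s` (do not use the field `Calc.rev`: it is being removed).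
-/

set_option autoImplicit false

namespace Cfsg.Agent.Lib.Helper55.TUT

open scoped Pointwise

variable {G : Type*} [Group G]

theorem dSeven_conjV {a b c : G} (haa : a * a = 1) (hbb : b * b = 1)
    (hcc : c * c = 1)
    (hc : (c * a * c = a ∧ c * b * c = b) ∨ (c * a * c = a * b ∧ c * b * c = b) ∨
      (c * a * c = a ∧ c * b * c = a * b)) (w : G)
    (hw : w = 1 ∨ w = a ∨ w = b ∨ w = a * b) :
    c * w * c = 1 ∨ c * w * c = a ∨ c * w * c = b ∨ c * w * c = a * b := by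
  have hprod : c * (a * b) * c = (c * a * c) * (c * b * c) := by
    calc c * (a * b) * c = c * a * 1 * b * c := by group
      _ = c * a * (c * c) * b * c := by rw [hcc]
      _ = (c * a * c) * (c * b * c) := by group
  rcases hw with h | h | h | h
  · left
    rw [h, mul_one, hcc]
  · rw [h]
    rcases hc with ⟨h1, _⟩ | ⟨h1, _⟩ | ⟨h1, _⟩
    · right; left; exact h1
    · right; right; right; exact h1
    · right; left; exact h1
  · rw [h]
    rcases hc with ⟨_, h2⟩ | ⟨_, h2⟩ | ⟨_, h2⟩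
    · right; right; left; exact h2
    · right; right; left; exact h2
    · right; right; right; exact h2
  · rw [h, hprod]
    rcases hc with ⟨h1, h2⟩ | ⟨h1, h2⟩ | ⟨h1, h2⟩
    · right; right; right; rw [h1, h2]
    · right; left; rw [h1, h2, mul_assoc, hbb, mul_one]
    · right; right; left; rw [h1, h2, ← mul_assoc, haa, one_mul]

/-- the elements normalising the set `{1, a, b, a * b}` -/
def dSeven_NV (a b : G) : Subgroup G where
  carrier := {z | ∀ w : G, (w = 1 ∨ w = a ∨ w = b ∨ w = a * b) →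
    ((z * w * z⁻¹ = 1 ∨ z * w * z⁻¹ = a ∨ z * w * z⁻¹ = b ∨ z * w * z⁻¹ = a * b) ∧
     (z⁻¹ * w * z = 1 ∨ z⁻¹ * w * z = a ∨ z⁻¹ * w * z = b ∨ z⁻¹ * w * z = a * b))}
  one_mem' := by
    intro w hw
    simp only [one_mul, inv_one, mul_one]
    exact ⟨hw, hw⟩
  mul_mem' := by
    intro z z' hz hz' w hw
    have e1 : z * z' * w * (z * z')⁻¹ = z * (z' * w * z'⁻¹) * z⁻¹ := by group
    have e2 : (z * z')⁻¹ * w * (z * z') = z'⁻¹ * (z⁻¹ * w * z) * z' := by group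
    rw [e1, e2]
    exact ⟨(hz _ (hz' w hw).1).1, (hz' _ (hz w hw).2).2⟩
  inv_mem' := by
    intro z hz w hw
    rw [inv_inv]
    exact ⟨(hz w hw).2, (hz w hw).1⟩

theorem dSeven_mem_NV_iff {a b z : G} : z ∈ dSeven_NV a b ↔
    ∀ w : G, (w = 1 ∨ w = a ∨ w = b ∨ w = a * b) →
    ((z * w * z⁻¹ = 1 ∨ z * w * z⁻¹ = a ∨ z * w * z⁻¹ = b ∨ z * w * z⁻¹ = a * b) ∧
     (z⁻¹ * w * z = 1 ∨ z⁻¹ * w * z = a ∨ z⁻¹ * w * z = b ∨ z⁻¹ * w * z = a * b)) := Iff.rfl

theorem dSeven_mem_NV {a b c : G} (haa : a * a = 1) (hbb : b * b = 1)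
    (hcc : c * c = 1)
    (hc : (c * a * c = a ∧ c * b * c = b) ∨ (c * a * c = a * b ∧ c * b * c = b) ∨
      (c * a * c = a ∧ c * b * c = a * b)) : c ∈ dSeven_NV a b := by
  rw [dSeven_mem_NV_iff]
  intro w hw
  have hci : c⁻¹ = c := inv_eq_of_mul_eq_one_left hcc
  rw [hci]
  exact ⟨dSeven_conjV haa hbb hcc hc w hw, dSeven_conjV haa hbb hcc hc w hw⟩

/-- Write `x_i := xs g x₀ i` (involutions, `g x_i g⁻¹ = x_{i+1}`), `Hx := Xint g x₀ (-6) 0`,
`Kx := Xint g x₀ (-5) 0`, `n := g * h` with `h ∈ Hx`, `n` normalises `Kx`, `n ^ r ∈ Kx`, `r` odd.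

Proof.  Shifting `hcomm`/`h4` by conjugation (`calcFinal_shift`, `xs_conj`):
`x_a x_{a+4} x_a x_{a+4} = x_{a+2}` for all `a : ℤ`.  Put `p := x_{-3}`, `q := x_{-2}`.
1. `p` commutes with `x_i` for `-6 ≤ i ≤ 0` (`hcomm`, `|i + 3| < 4`), hence with all of `Hx`
   (`commute_Xint`), in particular with `h` and with all of `Kx ≤ Hx` (`Xint_mono`).  `q` commutes
   with `x_i` for `-5 ≤ i ≤ 0`, hence with all of `Kx`.
2. `n p n⁻¹ = g (h p h⁻¹) g⁻¹ = g p g⁻¹ = q` (`xs_conj` with `k = 1`).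
3. Let `W : Subgroup G := Subgroup.closure {x_{-4}, x_{-2}}`; its elements are `1, x_{-4}, x_{-2},
   x_{-4} x_{-2}` (commuting involutions).  Every `x_i`, `-6 ≤ i ≤ 0`, normalises `W`: for
   `-5 ≤ i ≤ -1` it commutes with both generators; `x_0 x_{-4} x_0 = x_{-4} x_{-2}` (from
   `x_{-4} x_0 x_{-4} x_0 = x_{-2}`) and `x_0` commutes with `x_{-2}`; `x_{-6} x_{-2} x_{-6} =
   x_{-4} x_{-2}` (from `x_{-6} x_{-2} x_{-6} x_{-2} = x_{-4}`) and `x_{-6}` commutes with `x_{-4}`.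
   So `Hx ≤ W.normalizer` (`Xint_le`), and `h q h⁻¹ ∈ W`, i.e. `h q h⁻¹ ∈ {1, x_{-4}, x_{-2},
   x_{-4} x_{-2}}`; conjugating by `g`: `n q n⁻¹ ∈ {1, x_{-3}, x_{-1}, x_{-3} x_{-1}}`.
4. `n q n⁻¹` commutes with `x_{-5}`: `n⁻¹ x_{-5} n ∈ Kx` (`hnK`) commutes with `q` (step 1).
   But `x_{-1}` does not commute with `x_{-5}` (`x_{-5} x_{-1} x_{-5} x_{-1} = x_{-3} ≠ 1`,
   `calcE_ne`), nor does `x_{-3} x_{-1}` (as `x_{-3}` does), and `n q n⁻¹ ≠ 1` (as `q ≠ 1`).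
   Hence `n q n⁻¹ = x_{-3} = p`.
5. So `n p n⁻¹ = q` and `n q n⁻¹ = p`; by induction `n ^ (2 * k + 1) * p * (n ^ (2 * k + 1))⁻¹ = q`.
   With `r = 2 * k + 1`: `n ^ r ∈ Kx` commutes with `p` (step 1), so `q = p`, i.e. `x_{-2} = x_{-3}`;
   conjugating by `g ^ 3`: `x_1 = x_0`, hence `x_4 = x_0` (all `x_i` equal: `xs_conj`), and then
   `x_2 = x_0 x_4 x_0 x_4 = 1` (`xs_mul_self C.inv`), contradicting `calcE_ne C 2`. -/
theorem d_seven_false [Finite G] {g x₀ : G} (C : Calc g x₀ 7)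
    (hcomm : ∀ i j : ℤ, |i - j| < 4 → xs g x₀ i * xs g x₀ j = xs g x₀ j * xs g x₀ i)
    (h4 : xs g x₀ 0 * xs g x₀ 4 * xs g x₀ 0 * xs g x₀ 4 = xs g x₀ 2)
    (h : G) (hh : h ∈ Xint g x₀ (-6) 0)
    (hnK : ∀ k ∈ Xint g x₀ (-5) 0, (g * h)⁻¹ * k * (g * h) ∈ Xint g x₀ (-5) 0)
    (r : ℕ) (hr : Odd r) (hnr : (g * h) ^ r ∈ Xint g x₀ (-5) 0) : False := by
  have hsq : ∀ i : ℤ, xs g x₀ i * xs g x₀ i = 1 := xs_mul_self C.inv
  have hne : ∀ i : ℤ, xs g x₀ i ≠ 1 := calcE_ne C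
  have hc' : ∀ i j : ℤ, -4 < i - j → i - j < 4 →
      xs g x₀ i * xs g x₀ j = xs g x₀ j * xs g x₀ i :=
    fun i j h1 h2 => hcomm i j (abs_lt.2 ⟨h1, h2⟩)
  have hR : ∀ a b c : ℤ, b = a + 4 → c = a + 2 →
      xs g x₀ a * xs g x₀ b * xs g x₀ a * xs g x₀ b = xs g x₀ c := by
    intro a b c hb hc
    have h1 := calcFinal_shift g x₀ 0 4 a
    rw [h4, xs_conj] at h1
    have e1 : (0 : ℤ) + a = a := zero_add a
    have e2 : (4 : ℤ) + a = b := by rw [hb]; ring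
    have e3 : (2 : ℤ) + a = c := by rw [hc]; ring
    rw [e1, e2, e3] at h1
    exact h1.symm
  have hconj : ∀ i j : ℤ, j = i + 1 → g * xs g x₀ i * g⁻¹ = xs g x₀ j := by
    intro i j hj
    have h1 := xs_conj g x₀ i 1
    rw [zpow_one] at h1
    rw [hj]
    exact h1
  -- Step 1
  have hpH : ∀ z ∈ Xint g x₀ (-6) 0, xs g x₀ (-3) * z = z * xs g x₀ (-3) :=
    commute_Xint (fun l h1 h2 => hc' (-3) l (by linarith) (by linarith))
  have hqK : ∀ z ∈ Xint g x₀ (-5) 0, xs g x₀ (-2) * z = z * xs g x₀ (-2) :=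
    commute_Xint (fun l h1 h2 => hc' (-2) l (by linarith) (by linarith))
  have hKH : Xint g x₀ (-5) 0 ≤ Xint g x₀ (-6) 0 := Xint_mono (by norm_num) le_rfl
  -- Step 2
  have hph : xs g x₀ (-3) * h = h * xs g x₀ (-3) := hpH h hh
  have hgp : g * xs g x₀ (-3) = xs g x₀ (-2) * g := by
    have h1 := hconj (-3) (-2) (by norm_num)
    calc g * xs g x₀ (-3) = (g * xs g x₀ (-3) * g⁻¹) * g := by group
      _ = xs g x₀ (-2) * g := by rw [h1]
  have E1 : (g * h) * xs g x₀ (-3) = xs g x₀ (-2) * (g * h) := by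
    calc (g * h) * xs g x₀ (-3) = g * (h * xs g x₀ (-3)) := by group
      _ = g * (xs g x₀ (-3) * h) := by rw [hph]
      _ = (g * xs g x₀ (-3)) * h := by group
      _ = xs g x₀ (-2) * g * h := by rw [hgp]
      _ = xs g x₀ (-2) * (g * h) := by group
  -- Step 3
  have haa := hsq (-4)
  have hbb := hsq (-2)
  have hgen : ∀ l : ℤ, -6 ≤ l → l ≤ 0 →
      xs g x₀ l ∈ dSeven_NV (xs g x₀ (-4)) (xs g x₀ (-2)) := by
    intro l h1 h2
    apply dSeven_mem_NV haa hbb (hsq l)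
    have hcase : l = 0 ∨ l = -6 ∨ (-5 ≤ l ∧ l ≤ -1) := by omega
    rcases hcase with rfl | rfl | ⟨h3, h5⟩
    · right; left
      have hcb : xs g x₀ 0 * xs g x₀ (-2) = xs g x₀ (-2) * xs g x₀ 0 :=
        hc' 0 (-2) (by norm_num) (by norm_num)
      have hr0 := hR (-4) 0 (-2) (by norm_num) (by norm_num)
      constructor
      · calc xs g x₀ 0 * xs g x₀ (-4) * xs g x₀ 0
            = (xs g x₀ (-4) * xs g x₀ (-4)) * xs g x₀ 0 * xs g x₀ (-4) * xs g x₀ 0 := by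
              rw [haa, one_mul]
          _ = xs g x₀ (-4) * (xs g x₀ (-4) * xs g x₀ 0 * xs g x₀ (-4) * xs g x₀ 0) := by group
          _ = xs g x₀ (-4) * xs g x₀ (-2) := by rw [hr0]
      · rw [hcb, mul_assoc, hsq 0, mul_one]
    · right; right
      have hca : xs g x₀ (-6) * xs g x₀ (-4) = xs g x₀ (-4) * xs g x₀ (-6) :=
        hc' (-6) (-4) (by norm_num) (by norm_num)
      have hr0 := hR (-6) (-2) (-4) (by norm_num) (by norm_num)
      constructor
      · rw [hca, mul_assoc, hsq (-6), mul_one]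
      · calc xs g x₀ (-6) * xs g x₀ (-2) * xs g x₀ (-6)
            = xs g x₀ (-6) * xs g x₀ (-2) * xs g x₀ (-6) * (xs g x₀ (-2) * xs g x₀ (-2)) := by
              rw [hbb, mul_one]
          _ = (xs g x₀ (-6) * xs g x₀ (-2) * xs g x₀ (-6) * xs g x₀ (-2)) * xs g x₀ (-2) := by
              group
          _ = xs g x₀ (-4) * xs g x₀ (-2) := by rw [hr0]
    · left
      have hca : xs g x₀ l * xs g x₀ (-4) = xs g x₀ (-4) * xs g x₀ l :=
        hc' l (-4) (by linarith) (by linarith)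
      have hcb : xs g x₀ l * xs g x₀ (-2) = xs g x₀ (-2) * xs g x₀ l :=
        hc' l (-2) (by linarith) (by linarith)
      constructor
      · rw [hca, mul_assoc, hsq l, mul_one]
      · rw [hcb, mul_assoc, hsq l, mul_one]
  have hHN : Xint g x₀ (-6) 0 ≤ dSeven_NV (xs g x₀ (-4)) (xs g x₀ (-2)) := Xint_le hgen
  have hV := (dSeven_mem_NV_iff.1 (hHN hh) (xs g x₀ (-2)) (Or.inr (Or.inr (Or.inl rfl)))).1
  -- Step 4
  have hk5 : xs g x₀ (-5) ∈ Xint g x₀ (-5) 0 := xs_mem_Xint le_rfl (by norm_num)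
  have hq5 := hqK _ (hnK _ hk5)
  have hu5 : ((g * h) * xs g x₀ (-2) * (g * h)⁻¹) * xs g x₀ (-5) =
      xs g x₀ (-5) * ((g * h) * xs g x₀ (-2) * (g * h)⁻¹) := by
    calc ((g * h) * xs g x₀ (-2) * (g * h)⁻¹) * xs g x₀ (-5)
        = (g * h) * (xs g x₀ (-2) * ((g * h)⁻¹ * xs g x₀ (-5) * (g * h))) * (g * h)⁻¹ := by
          group
      _ = (g * h) * (((g * h)⁻¹ * xs g x₀ (-5) * (g * h)) * xs g x₀ (-2)) * (g * h)⁻¹ := by
          rw [hq5]
      _ = xs g x₀ (-5) * ((g * h) * xs g x₀ (-2) * (g * h)⁻¹) := by group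
  have hu : (g * h) * xs g x₀ (-2) * (g * h)⁻¹ = g * (h * xs g x₀ (-2) * h⁻¹) * g⁻¹ := by
    group
  have h15 : xs g x₀ (-1) * xs g x₀ (-5) ≠ xs g x₀ (-5) * xs g x₀ (-1) := by
    intro hc
    have hr0 := hR (-5) (-1) (-3) (by norm_num) (by norm_num)
    apply hne (-3)
    rw [← hr0]
    calc xs g x₀ (-5) * xs g x₀ (-1) * xs g x₀ (-5) * xs g x₀ (-1)
        = xs g x₀ (-5) * (xs g x₀ (-1) * xs g x₀ (-5)) * xs g x₀ (-1) := by group
      _ = xs g x₀ (-5) * (xs g x₀ (-5) * xs g x₀ (-1)) * xs g x₀ (-1) := by rw [hc]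
      _ = (xs g x₀ (-5) * xs g x₀ (-5)) * (xs g x₀ (-1) * xs g x₀ (-1)) := by group
      _ = 1 := by rw [hsq, hsq, one_mul]
  have E2 : (g * h) * xs g x₀ (-2) = xs g x₀ (-3) * (g * h) := by
    have hup : (g * h) * xs g x₀ (-2) * (g * h)⁻¹ = xs g x₀ (-3) := by
      rcases hV with hV | hV | hV | hV
      · exfalso
        apply hne (-2)
        calc xs g x₀ (-2) = h⁻¹ * (h * xs g x₀ (-2) * h⁻¹) * h := by group
          _ = 1 := by rw [hV]; group
      · rw [hu, hV]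
        exact hconj (-4) (-3) (by norm_num)
      · exfalso
        rw [hu, hV, hconj (-2) (-1) (by norm_num)] at hu5
        exact h15 hu5
      · exfalso
        have e : g * (xs g x₀ (-4) * xs g x₀ (-2)) * g⁻¹ = xs g x₀ (-3) * xs g x₀ (-1) := by
          calc g * (xs g x₀ (-4) * xs g x₀ (-2)) * g⁻¹
              = (g * xs g x₀ (-4) * g⁻¹) * (g * xs g x₀ (-2) * g⁻¹) := by group
            _ = xs g x₀ (-3) * xs g x₀ (-1) := by
              rw [hconj (-4) (-3) (by norm_num), hconj (-2) (-1) (by norm_num)]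
        rw [hu, hV, e] at hu5
        have h35 : xs g x₀ (-3) * xs g x₀ (-5) = xs g x₀ (-5) * xs g x₀ (-3) :=
          hc' (-3) (-5) (by norm_num) (by norm_num)
        apply h15
        apply mul_left_cancel (a := xs g x₀ (-3))
        calc xs g x₀ (-3) * (xs g x₀ (-1) * xs g x₀ (-5))
            = xs g x₀ (-3) * xs g x₀ (-1) * xs g x₀ (-5) := by group
          _ = xs g x₀ (-5) * (xs g x₀ (-3) * xs g x₀ (-1)) := hu5
          _ = (xs g x₀ (-5) * xs g x₀ (-3)) * xs g x₀ (-1) := by group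
          _ = (xs g x₀ (-3) * xs g x₀ (-5)) * xs g x₀ (-1) := by rw [h35]
          _ = xs g x₀ (-3) * (xs g x₀ (-5) * xs g x₀ (-1)) := by group
    calc (g * h) * xs g x₀ (-2) = ((g * h) * xs g x₀ (-2) * (g * h)⁻¹) * (g * h) := by group
      _ = xs g x₀ (-3) * (g * h) := by rw [hup]
  -- Step 5
  obtain ⟨k, rfl⟩ := hr
  have hpow : ∀ k : ℕ, (g * h) ^ (2 * k + 1) * xs g x₀ (-3) =
      xs g x₀ (-2) * (g * h) ^ (2 * k + 1) := by
    intro k
    induction k with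
    | zero =>
      rw [Nat.mul_zero, Nat.zero_add, pow_one]
      exact E1
    | succ k ih =>
      have e : 2 * (k + 1) + 1 = (2 * k + 1) + 1 + 1 := by ring
      rw [e, pow_succ', pow_succ']
      calc (g * h) * ((g * h) * (g * h) ^ (2 * k + 1)) * xs g x₀ (-3)
          = (g * h) * ((g * h) * ((g * h) ^ (2 * k + 1) * xs g x₀ (-3))) := by
            simp only [mul_assoc]
        _ = (g * h) * ((g * h) * (xs g x₀ (-2) * (g * h) ^ (2 * k + 1))) := by rw [ih]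
        _ = (g * h) * (((g * h) * xs g x₀ (-2)) * (g * h) ^ (2 * k + 1)) := by
            simp only [mul_assoc]
        _ = (g * h) * ((xs g x₀ (-3) * (g * h)) * (g * h) ^ (2 * k + 1)) := by rw [E2]
        _ = ((g * h) * xs g x₀ (-3)) * ((g * h) * (g * h) ^ (2 * k + 1)) := by
            simp only [mul_assoc]
        _ = (xs g x₀ (-2) * (g * h)) * ((g * h) * (g * h) ^ (2 * k + 1)) := by rw [E1]
        _ = xs g x₀ (-2) * ((g * h) * ((g * h) * (g * h) ^ (2 * k + 1))) := by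
            simp only [mul_assoc]
  have hk := hpow k
  have hpn : xs g x₀ (-3) * (g * h) ^ (2 * k + 1) = (g * h) ^ (2 * k + 1) * xs g x₀ (-3) :=
    hpH _ (hKH hnr)
  have hpq : xs g x₀ (-3) = xs g x₀ (-2) := by
    apply mul_right_cancel (b := (g * h) ^ (2 * k + 1))
    rw [hpn, hk]
  have hshift : ∀ i j : ℤ, xs g x₀ i = xs g x₀ j →
      ∀ m : ℤ, xs g x₀ (i + m) = xs g x₀ (j + m) := by
    intro i j hij m
    rw [← xs_conj g x₀ i m, ← xs_conj g x₀ j m, hij]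
  have h01 : xs g x₀ 0 = xs g x₀ 1 := by
    have h0 := hshift _ _ hpq 3
    have e1 : (-3 : ℤ) + 3 = 0 := by norm_num
    have e2 : (-2 : ℤ) + 3 = 1 := by norm_num
    rw [e1, e2] at h0
    exact h0
  have h12 : xs g x₀ 1 = xs g x₀ 2 := by
    have h0 := hshift _ _ hpq 4
    have e1 : (-3 : ℤ) + 4 = 1 := by norm_num
    have e2 : (-2 : ℤ) + 4 = 2 := by norm_num
    rw [e1, e2] at h0
    exact h0
  have h23 : xs g x₀ 2 = xs g x₀ 3 := by
    have h0 := hshift _ _ hpq 5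
    have e1 : (-3 : ℤ) + 5 = 2 := by norm_num
    have e2 : (-2 : ℤ) + 5 = 3 := by norm_num
    rw [e1, e2] at h0
    exact h0
  have h34 : xs g x₀ 3 = xs g x₀ 4 := by
    have h0 := hshift _ _ hpq 6
    have e1 : (-3 : ℤ) + 6 = 3 := by norm_num
    have e2 : (-2 : ℤ) + 6 = 4 := by norm_num
    rw [e1, e2] at h0
    exact h0
  have h20 : xs g x₀ 2 = xs g x₀ 0 := (h01.trans h12).symm
  have h40 : xs g x₀ 4 = xs g x₀ 0 := ((h01.trans h12).trans (h23.trans h34)).symm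
  rw [h40, h20, hsq 0, one_mul, hsq 0] at h4
  exact hne 0 h4.symm

end Cfsg.Agent.Lib.Helper55.TUT
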