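import Cfsg.Agent.Lib.Helper55.TudDefs

/-!
# TUD piece `TudTop` (S3385, odd case)

Filled by helper51 (helper lemma `dTop_mem_conj`).  Mathlib + `TutBasic` only.
-/

set_option autoImplicit false

namespace Cfsg.Agent.Lib.Helper55.TUT

open scoped Pointwise

variable {G : Type*} [Group G]

theorem dTop_mem_conj (n x : G) (H : Subgroup G) :
    x ∈ MulAut.conj n • H ↔ n⁻¹ * x * n ∈ H := by
  rw [Subgroup.mem_smul_pointwise_iff_exists]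
  constructor
  · rintro ⟨s, hs, rfl⟩
    rw [MulAut.smul_def, MulAut.conj_apply]
    have e : n⁻¹ * (n * s * n⁻¹) * n = s := by group
    rw [e]
    exact hs
  · intro h
    refine ⟨n⁻¹ * x * n, h, ?_⟩
    rw [MulAut.smul_def, MulAut.conj_apply]
    group

/-- From an element `n` normalising `K = H ∩ nHn⁻¹` (index 3 in the maximal subgroup `H`) to the
directed hypotheses for `g := n * h₀`, `h₀ ∈ H ∖ K`.

Proof.  `K ≠ H` (as `K.relIndex H = 3 ≠ 1`), and `K ≤ H`, so pick `h₀ ∈ H`, `h₀ ∉ K`.  Put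
`g := n * h₀`, `h := h₀⁻¹` (so `n = g * h`, `h ∈ H`).
* `Hn H g 1 = conj (g ^ 1) • H = conj n • (conj h₀ • H) = conj n • H` (`mem_Hn`, or ext:
  `x ∈ Hn H g 1 ↔ g⁻¹ x g ∈ H ↔ h₀⁻¹ (n⁻¹ x n) h₀ ∈ H ↔ n⁻¹ x n ∈ H`).  Hence `H ⊓ Hn H g 1 = K`:
  `idx` is `hidx`.
* `flip` with `y := h₀`: `y ∈ H`; `y ∉ Hn H g 1` since `y ∉ K = H ⊓ conj n • H`.  First
  `H ⊓ conj n⁻¹ • H = K`: apply `conj n⁻¹` to `hnK`/`hK` (`conj n⁻¹ • K = K` and
  `conj n⁻¹ • (H ⊓ conj n • H) = conj n⁻¹ • H ⊓ H`); elementwise: `x ∈ K ↔ n x n⁻¹ ∈ K` (from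
  `hnK`), so for `x ∈ H`: `n x n⁻¹ ∈ H ↔ x ∈ K` (if `n x n⁻¹ ∈ H`: `n x n⁻¹ ∈ H ⊓ conj n • H = K`
  so `x ∈ K`; conversely `x ∈ K → n x n⁻¹ ∈ K ≤ H`).  Now for `x ∈ H`:
  `x ∈ Hn H g (-1) ↔ g x g⁻¹ ∈ H` (`mem_Hn` with `g ^ (-1 : ℤ) = g⁻¹`)
  `↔ n (h₀ x h₀⁻¹) n⁻¹ ∈ H ↔ h₀ x h₀⁻¹ ∈ K` (as `h₀ x h₀⁻¹ ∈ H`) `↔ h₀ x h₀⁻¹ ∈ conj n • H = Hn H g 1`.
* `core`: if `N ≤ H` is normalised by `H` and by `g`, then `conj n • N = conj g • (conj h₀⁻¹ • N) = N`,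
  so `hcore` applies.
* `H ⊔ Hn H g 1 = ⊤`: `hmax.2 : ∀ b, H < b → b = ⊤`.  If not `H < H ⊔ conj n • H` then
  `conj n • H ≤ H`, so `K = H ⊓ conj n • H = conj n • H` has the same (finite) cardinality as `H`,
  so `K = H` and `K.relIndex H = 1`, contradiction. -/
theorem d_hyp_of_n [Finite G] (H K : Subgroup G) (n : G) (hmax : IsCoatom H)
    (hK : K = H ⊓ MulAut.conj n • H) (hidx : K.relIndex H = 3) (hnK : MulAut.conj n • K = K)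
    (hcore : ∀ N : Subgroup G, N ≤ H → (∀ h ∈ H, MulAut.conj h • N = N) →
      MulAut.conj n • N = N → N = ⊥) :
    ∃ g h : G, HypD H g ∧ Hn H g 1 = MulAut.conj n • H ∧ H ⊔ Hn H g 1 = ⊤ ∧ h ∈ H ∧ n = g * h := by
  have hKH : K ≤ H := by
    rw [hK]
    exact inf_le_left
  have hmemK : ∀ x, x ∈ K ↔ (x ∈ H ∧ n⁻¹ * x * n ∈ H) := by
    intro x
    rw [hK, Subgroup.mem_inf, dTop_mem_conj]
  have hKconj : ∀ x, x ∈ K ↔ n⁻¹ * x * n ∈ K := by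
    intro x
    rw [← dTop_mem_conj, hnK]
  have hne : K ≠ H := by
    intro h
    rw [h, Subgroup.relIndex_self] at hidx
    omega
  obtain ⟨h₀, hh₀, hh₀K⟩ := SetLike.exists_of_lt (lt_of_le_of_ne hKH hne)
  have hF7 : ∀ x ∈ H, (n * x * n⁻¹ ∈ H ↔ x ∈ K) := by
    intro x hx
    have e : n⁻¹ * (n * x * n⁻¹) * n = x := by group
    constructor
    · intro h
      have h1 : n * x * n⁻¹ ∈ K := (hmemK _).mpr ⟨h, by rw [e]; exact hx⟩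
      have h2 := (hKconj _).mp h1
      rwa [e] at h2
    · intro h
      have h1 : n * x * n⁻¹ ∈ K := (hKconj _).mpr (by rw [e]; exact h)
      exact hKH h1
  have hHn : Hn H (n * h₀) 1 = MulAut.conj n • H := by
    ext x
    rw [mem_Hn, dTop_mem_conj, zpow_one]
    have e : (n * h₀)⁻¹ * x * (n * h₀) = h₀⁻¹ * (n⁻¹ * x * n) * h₀ := by group
    rw [e, H.mul_mem_cancel_right hh₀, H.mul_mem_cancel_left (H.inv_mem hh₀)]
  refine ⟨n * h₀, h₀⁻¹, ⟨?_, ?_, ?_⟩, hHn, ?_, H.inv_mem hh₀, (mul_inv_cancel_right n h₀).symm⟩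
  · rw [hHn, ← hK]
    exact hidx
  · refine ⟨h₀, hh₀, ?_, ?_⟩
    · intro h
      rw [hHn] at h
      apply hh₀K
      rw [hK]
      exact ⟨hh₀, h⟩
    · intro x hx
      rw [mem_Hn, hHn, dTop_mem_conj]
      have e1 : ((n * h₀) ^ (-1 : ℤ))⁻¹ * x * (n * h₀) ^ (-1 : ℤ) =
          n * (h₀ * x * h₀⁻¹) * n⁻¹ := by
        rw [zpow_neg_one]
        group
      rw [e1]
      have hx' : h₀ * x * h₀⁻¹ ∈ H := H.mul_mem (H.mul_mem hh₀ hx) (H.inv_mem hh₀)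
      rw [hF7 _ hx', hmemK]
      exact ⟨fun h => h.2, fun h => ⟨hx', h⟩⟩
  · intro N hN hNH hNg
    apply hcore N hN hNH
    have hn_eq : MulAut.conj n = MulAut.conj (n * h₀) * MulAut.conj h₀⁻¹ := by
      rw [← map_mul, mul_inv_cancel_right]
    rw [hn_eq, mul_smul, hNH h₀⁻¹ (H.inv_mem hh₀), hNg]
  · apply hmax.2
    refine lt_of_le_of_ne le_sup_left ?_
    intro heq
    have hle : Hn H (n * h₀) 1 ≤ H := sup_eq_left.mp heq.symm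
    apply hh₀K
    apply (hF7 h₀ hh₀).mp
    apply hle
    rw [hHn, dTop_mem_conj]
    have e : n⁻¹ * (n * h₀ * n⁻¹) * n = h₀ := by group
    rw [e]
    exact hh₀

end Cfsg.Agent.Lib.Helper55.TUT
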