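import Cfsg.Agent.Lib.Helper55.TudChain
import Cfsg.Agent.Lib.Helper55.TudTop
import Cfsg.Agent.Lib.Helper55.TudOdd
import Cfsg.Agent.Lib.Helper55.TudNc
import Cfsg.Agent.Lib.Helper55.TudSeven
import Cfsg.Agent.Lib.Helper55.TutCalcAsm
import Cfsg.Agent.Lib.Helper55.TutGXmem

/-!
# Project TUD (Part III of S3385, the odd case): assembly

`tutte_odd`: if `K = H ∩ nHn⁻¹` has index 3 in the maximal subgroup `H`, `n` normalises `K`, no
`t ∈ N_G(K) ∖ K` has `t * t ∈ K`, and no nontrivial subgroup of `H` is normalised by `H` and `n`, then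
`|K| = 2^k` with `k ≤ 4`.
-/

set_option autoImplicit false

namespace Cfsg.Agent.Lib.Helper55.TUT

open scoped Pointwise

variable {G : Type*} [Group G]

/-- The directed Tutte bound for the pair `(H, g)`, `n = g * h`. -/
theorem d_hyp_bound [Finite G] {H : Subgroup G} {g : G} (hyp : HypD H g)
    (htop : H ⊔ Hn H g 1 = ⊤) (h : G) (hh : h ∈ H)
    (hnK : MulAut.conj (g * h) • (H ⊓ Hn H g 1) = H ⊓ Hn H g 1)
    (r : ℕ) (hr : Odd r) (hnr : (g * h) ^ r ∈ H ⊓ Hn H g 1) :
    ∃ k : ℕ, k ≤ 4 ∧ Nat.card (H ⊓ Hn H g 1 : Subgroup G) = 2 ^ k := by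
  obtain ⟨s, hs1, hbot, hcard⟩ := d_exists_reg hyp
  have hK : Nat.card (H ⊓ Hn H g 1 : Subgroup G) = 2 ^ (s - 1) := by
    rw [← Arc_zero_one]
    have h1 := hcard 1 le_rfl hs1
    rw [Nat.cast_one] at h1
    exact h1
  by_cases h5 : s ≤ 5
  · exact ⟨s - 1, by omega, hK⟩
  · exfalso
    have hs6 : 6 ≤ s := by omega
    have hc2 : Nat.card (Arc H g 0 ((s : ℤ) - 1)) = 2 := by
      have h1 := hcard (s - 1) (by omega) (by omega)
      have e : ((s - 1 : ℕ) : ℤ) = (s : ℤ) - 1 := by omega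
      rw [e] at h1
      rw [h1]
      have e2 : s - (s - 1) = 1 := by omega
      rw [e2, pow_one]
    obtain ⟨x₀, hx1, hxx, hx⟩ := exists_x0 s hc2
    have hXH := d_Xint_eq_Hn hyp s (by omega) hbot hcard x₀ hx1 hx
    have hXA := d_Xint_eq_Arc hyp s (by omega) hbot hcard x₀ hx1 hx
    have C : Calc g x₀ s :=
      { inv := hxx
        card := by
          intro m hm
          rw [hXA m hm]
          have h1 := card_Arc_shift H g 0 ((s : ℤ) - 1 - m) m
          rw [zero_add, sub_add_cancel] at h1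
          rw [h1]
          have h2 := hcard (s - 1 - m) (by omega) (by omega)
          have e : ((s - 1 - m : ℕ) : ℤ) = (s : ℤ) - 1 - m := by omega
          rw [e] at h2
          rw [h2]
          congr 1
          omega
        nc := fun l hl1 hl2 => d_xs_not_central hyp htop s (by omega) x₀ hx1 hx hXH l hl1 hl2 }
    obtain ⟨h7, hcomm, h4⟩ := seven_struct C hs6
    subst h7
    have e6 : ((7 : ℕ) : ℤ) - 1 = 6 := by norm_num
    have e5 : ((5 : ℕ) : ℤ) = 5 := by norm_num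
    rw [e6] at hXH
    have hA5 : Xint g x₀ 0 5 = Arc H g 5 6 := by
      have h1 := hXA 5 (by norm_num)
      rw [e6, e5] at h1
      exact h1
    have a1 : (0 : ℤ) + -6 = -6 := by norm_num
    have a2 : (6 : ℤ) + -6 = 0 := by norm_num
    have a3 : (5 : ℤ) + -5 = 0 := by norm_num
    have a4 : (6 : ℤ) + -5 = 1 := by norm_num
    have a5 : (0 : ℤ) + -5 = -5 := by norm_num
    have hH : Xint g x₀ (-6) 0 = H := by
      have h1 := conj_Xint g x₀ 0 6 (-6)
      rw [hXH, conj_Hn, a1, a2, Hn_zero] at h1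
      exact h1.symm
    have hKx : Xint g x₀ (-5) 0 = H ⊓ Hn H g 1 := by
      have h1 := conj_Xint g x₀ 0 5 (-5)
      rw [hA5, conj_Arc, a3, a4, a5, Arc_zero_one] at h1
      exact h1.symm
    have hh' : h ∈ Xint g x₀ (-6) 0 := by rw [hH]; exact hh
    have hnK' : ∀ k ∈ Xint g x₀ (-5) 0, (g * h)⁻¹ * k * (g * h) ∈ Xint g x₀ (-5) 0 := by
      rw [hKx]
      intro k hk
      have hk' : k ∈ MulAut.conj (g * h) • (H ⊓ Hn H g 1) := by rw [hnK]; exact hk
      rw [Subgroup.mem_smul_pointwise_iff_exists] at hk'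
      obtain ⟨z, hz, rfl⟩ := hk'
      rw [MulAut.smul_def, MulAut.conj_apply]
      have e : (g * h)⁻¹ * ((g * h) * z * (g * h)⁻¹) * (g * h) = z := by group
      rw [e]
      exact hz
    have hnr' : (g * h) ^ r ∈ Xint g x₀ (-5) 0 := by rw [hKx]; exact hnr
    exact d_seven_false C hcomm h4 h hh' hnK' r hr hnr'

/-- **The odd case of Sims' theorem in group form** (Part III of S3385). -/
theorem tutte_odd {G : Type*} [Group G] [Finite G] (H K : Subgroup G) (n : G) (hmax : IsCoatom H)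
    (hK : K = H ⊓ MulAut.conj n • H) (hidx : K.relIndex H = 3) (hnK : MulAut.conj n • K = K)
    (hodd : ∀ t : G, MulAut.conj t • K = K → t * t ∈ K → t ∈ K)
    (hcore : ∀ N : Subgroup G, N ≤ H → (∀ h ∈ H, MulAut.conj h • N = N) →
      MulAut.conj n • N = N → N = ⊥) :
    ∃ k : ℕ, k ≤ 4 ∧ Nat.card K = 2 ^ k := by
  obtain ⟨g, h, hyp, hg1, htop, hh, hn⟩ := d_hyp_of_n H K n hmax hK hidx hnK hcore
  obtain ⟨r, hr, hnr⟩ := d_odd_pow K n hnK hodd
  have hK' : K = H ⊓ Hn H g 1 := by rw [hg1]; exact hK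
  rw [hK', hn] at hnK
  rw [hK', hn] at hnr
  rw [hK']
  exact d_hyp_bound hyp htop h hh hnK r hr hnr

end Cfsg.Agent.Lib.Helper55.TUT
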