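import Cfsg.Agent.Lib.Helper81.SimsBridge
import Cfsg.Agent.Lib.Helper55.TudMain

/-!
# Sims' theorem (S3385): bridge from `tutte_odd` (directed Tutte calculus) to helper81's `OddStmt`
-/

set_option autoImplicit false

namespace Cfsg.Agent.Lib.Helper55.TUT

open Subgroup
open scoped Pointwise
open Cfsg.Agent.Lib.Helper81.Sims

universe u

/-- Part III of S3385 (the odd case), in the form required by `GT_of_tutte_odd`. -/
theorem oddStmt_of_tutte_odd : OddStmt.{u} := by
  intro G _ _ H c hco hcore hc hcard hN hodd
  obtain ⟨n, hn, hnH⟩ := exists_mem_normalizer_notMem hco hcore hc hcard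
  have hinf := inf_cj_eq hco hcore hcard hn hnH
  have hKH : H ⊓ cj c H ≤ H := inf_le_left
  have key : ∃ k : ℕ, k ≤ 4 ∧ Nat.card ↥(H ⊓ cj c H) = 2 ^ k := by
    refine tutte_odd H (H ⊓ cj c H) n hco ?_ ?_ ?_ ?_ ?_
    · rw [smul_eq_cj, hinf]
    · exact relIndex_eq_three hKH hcard
    · rw [smul_eq_cj]
      ext x
      rw [mem_cj]
      have h1 := mem_normalizer_iff.mp hn (n⁻¹ * x * n)
      have e : n * (n⁻¹ * x * n) * n⁻¹ = x := by group
      rw [e] at h1
      exact h1
    · intro t ht htt
      refine hodd t ?_ htt
      rw [smul_eq_cj] at ht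
      exact mem_normalizer_of_cj_eq ht
    · intro N hNH hH htN
      have hHn : H ≤ normalizer (N : Set G) := by
        intro x hx
        have := hH x hx
        rw [smul_eq_cj] at this
        exact mem_normalizer_of_cj_eq this
      have htn : n ∈ normalizer (N : Set G) := by
        rw [smul_eq_cj] at htN
        exact mem_normalizer_of_cj_eq htN
      have htop : normalizer (N : Set G) = ⊤ :=
        hco.2 _ (lt_of_le_of_ne hHn (fun e => hnH (by rw [e]; exact htn)))
      rw [eq_bot_iff]
      intro x hx
      have h1 : x ∈ H.normalCore := by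
        intro b
        have hb' : b ∈ normalizer (N : Set G) := by rw [htop]; exact mem_top b
        exact hNH ((mem_normalizer_iff.mp hb' x).mp hx)
      rw [hcore] at h1
      exact h1
  exact key

end Cfsg.Agent.Lib.Helper55.TUT
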