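import Mathlib
import Cfsg.Agent.Lib.Helper93.Sp4Defs
import Cfsg.Agent.Lib.Helper23.PresSURJ

/-!
# S2293, piece SP4-NF2: `n'' = ta⁻¹ * tb * ta` centralises `xb b` for all `b`
-/

set_option autoImplicit false

namespace Cfsg.Agent.Lib.Helper93.Sp4

open Polynomial Matrix

section level2

variable {F : Type*} [Field F] {P : Type*} [Group P] {ζ : F} {n : ℕ} {xa xb : F → P}
  {ha ta hb tb : P}

/-- NF2 -/
theorem nfact2 [Fintype F] (D : C2Root ζ n xa xb ha ta hb tb) (hζ0 : ζ ≠ 0)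
    (hζ : ∀ a : F, a ≠ 0 → ∃ j : ℕ, a = ζ ^ j) :
    ∀ b : F, ta⁻¹ * tb * ta * xb b * (ta⁻¹ * tb * ta)⁻¹ = xb b := by
  obtain ⟨N, hN⟩ : ∃ N : P, N = ta⁻¹ * tb * ta := ⟨_, rfl⟩
  rw [← hN]
  have hNhb : N * hb * N⁻¹ = hb := by
    have h1 : tb * (ha * hb) * tb⁻¹ = ha * hb := by
      have e : tb * (ha * hb) * tb⁻¹ = (tb * ha * tb⁻¹) * (tb * hb * tb⁻¹) := by group
      rw [e, D.tb_ha, D.tb_hb]
      group
    have h2 : ta⁻¹ * (ha * hb) * ta = hb := by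
      rw [← D.ta_hb]
      group
    have h3 : N * hb * N⁻¹ = ta⁻¹ * (tb * (ta * hb * ta⁻¹) * tb⁻¹) * ta := by
      rw [hN]
      group
    rw [h3, D.ta_hb, h1, h2]
  have hNhb' : N * hb⁻¹ * N⁻¹ = hb⁻¹ := by
    have e : N * hb⁻¹ * N⁻¹ = (N * hb * N⁻¹)⁻¹ := by group
    rw [e, hNhb]
  have hxb0 : xb 0 = 1 := by
    have h := D.addb 0 0
    rw [add_zero] at h
    exact mul_eq_left.mp h.symm
  have hC1 : N * xb 1 * N⁻¹ = xb 1 := by
    rw [hN]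
    exact D.n2
  have hCmul : ∀ b, N * xb b * N⁻¹ = xb b → N * xb (ζ ^ 2 * b) * N⁻¹ = xb (ζ ^ 2 * b) := by
    intro b hb'
    rw [← D.b_hb b]
    have e : N * (hb⁻¹ * xb b * hb) * N⁻¹ =
        (N * hb⁻¹ * N⁻¹) * (N * xb b * N⁻¹) * (N * hb * N⁻¹) := by group
    rw [e, hNhb', hb', hNhb]
  have hCadd : ∀ b c, N * xb b * N⁻¹ = xb b → N * xb c * N⁻¹ = xb c →
      N * xb (b + c) * N⁻¹ = xb (b + c) := by
    intro b c hb' hc'
    rw [D.addb]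
    have e : N * (xb b * xb c) * N⁻¹ = (N * xb b * N⁻¹) * (N * xb c * N⁻¹) := by group
    rw [e, hb', hc']
  have hpow : ∀ k : ℕ, N * xb (ζ ^ (2 * k)) * N⁻¹ = xb (ζ ^ (2 * k)) := by
    intro k
    induction k with
    | zero => simpa using hC1
    | succ k ih =>
      have e : ζ ^ (2 * (k + 1)) = ζ ^ 2 * ζ ^ (2 * k) := by ring
      rw [e]
      exact hCmul _ ih
  have hsq : ∀ c : F, N * xb (c ^ 2) * N⁻¹ = xb (c ^ 2) := by
    intro c
    by_cases hc : c = 0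
    · subst hc
      have e : (0 : F) ^ 2 = 0 := by ring
      rw [e, hxb0]
      group
    · obtain ⟨j, rfl⟩ := hζ c hc
      have e : (ζ ^ j) ^ 2 = ζ ^ (2 * j) := by ring
      rw [e]
      exact hpow j
  intro b
  obtain ⟨c, d, rfl⟩ := Cfsg.Agent.Lib.Helper93.Pres.h23_sum_two_sq b
  exact hCadd _ _ (hsq c) (hsq d)

end level2

end Cfsg.Agent.Lib.Helper93.Sp4
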