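import Mathlib
import Cfsg.Agent.S1137

/-! Project SZ2 (helper55): interface definitions for Higman's theorem on Suzuki 2-groups
(S1138): exponent 4 and order `q^2` or `q^3`. -/

set_option autoImplicit false

namespace Cfsg.Agent.Lib.Helper55.Sz2

/-- The configuration reached from a hypothetical element of order 8:
`M` plays the role of the second centre, `C` of its centraliser. -/
structure Conf {P : Type*} [Group P] {K : Type*} [CommGroup K] (φ : K →* MulAut P)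
    (M C : Subgroup P) : Prop where
  invol_central : ∀ x : P, x * x = 1 → x ∈ Subgroup.center P
  center_sq : ∀ z ∈ Subgroup.center P, z * z = 1
  free : ∀ k : K, ∀ x : P, x ≠ 1 → φ k x = x → k = 1
  trans : ∀ z z' : P, z ≠ 1 → z * z = 1 → z' ≠ 1 → z' * z' = 1 → ∃ k : K, φ k z = z'
  two : ∃ x y : P, x ≠ y ∧ x ≠ 1 ∧ x * x = 1 ∧ y ≠ 1 ∧ y * y = 1
  M_le : M ≤ C
  mem_C : ∀ y : P, y ∈ C ↔ ∀ m ∈ M, m * y = y * m
  M_inv : ∀ k : K, ∀ x ∈ M, φ k x ∈ M
  C_inv : ∀ k : K, ∀ x ∈ C, φ k x ∈ C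
  M_normal : M.Normal
  C_normal : C.Normal
  sq_mem : ∀ y : P, y * y ∈ C
  comm_sq : ∀ m ∈ M, ∀ y : P, (m⁻¹ * y⁻¹ * m * y) * (m⁻¹ * y⁻¹ * m * y) = 1
  M_exp : ∀ m ∈ M, (m * m) * (m * m) = 1
  sq_surj : ∀ z : P, z * z = 1 → ∃ m ∈ M, m * m = z
  invol_mem : ∀ z : P, z * z = 1 → z ∈ M
  C_four : ∀ x ∈ C, (x * x) * (x * x) = 1 → x ∈ M
  C_ne : ∃ y : P, y ∉ C

/-- Conjugation of an additive endomorphism of a field by the multiplication by `μ`:
`x ↦ μ * D (μ⁻¹ * x)`. -/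
def conjHom {F : Type*} [Field F] (μ : F) (D : F →+ F) : F →+ F :=
  (AddMonoidHom.mulLeft μ).comp (D.comp (AddMonoidHom.mulLeft μ⁻¹))

theorem conjHom_apply {F : Type*} [Field F] (μ : F) (D : F →+ F) (x : F) :
    conjHom μ D x = μ * D (μ⁻¹ * x) := rfl

end Cfsg.Agent.Lib.Helper55.Sz2
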