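import Mathlib
import Cfsg.Agent.S1137
import Cfsg.Agent.Lib.Helper55.Sz2Defs

/-! Project SZ2 (S1138), piece A0 (placeholder posted by helper55; the taker replaces the `sorry`).

Setting: `P` a finite 2-group, `K` a commutative group acting by `φ`, regular on the involutions
(`Cfsg.Agent.S1137.Reg φ`), at least two involutions, `P` non-abelian.
Tools on main (file `Cfsg/Agent/S1137.lean`, namespace `Cfsg.Agent.S1137`):
`invol_central hp hreg : ∀ x, x * x = 1 → x ∈ center P`,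
`hig _ P K φ rfl hp htwo hreg hnab : ∀ z ∈ center P, z * z = 1`, `Esub hc : Subgroup P`
(the subgroup `Z = {x | x * x = 1}`), `mem_Esub`.

PROOF of `exists_d0`.  Write `Z = {x | x * x = 1}` (= centre of `P`), `[a,b] = a⁻¹ * b⁻¹ * a * b`,
`Mset = {m | ∀ y, [m,y] ∈ Z}` (the preimage of the centre of `P ⧸ Z`).
1. For `m ∈ Mset` the map `y ↦ [m,y]` has central values and is a homomorphism `P → Z`
   (`[m, y₁ * y₂] = [m,y₂] * y₂⁻¹ * [m,y₁] * y₂ = [m,y₁] * [m,y₂]`), so `[m, y * y] = [m,y]^2 = 1`: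
   every square commutes with every element of `Mset`.  So the centraliser `S` of `Mset`
   (a normal subgroup of `P`, since `Mset` is invariant under conjugation; `Z ≤ S`) contains all squares.
2. `x₀ * x₀ ∈ S` and `x₀ * x₀ ∉ Z`.  So the image of `S` in the finite 2-group `Q = P ⧸ Z` is a
   nontrivial normal subgroup; a nontrivial normal subgroup of a finite p-group meets the centre
   nontrivially (conjugation action of `Q` on the normal subgroup and
   `IsPGroup.card_modEq_card_fixedPoints`: the fixed points are its intersection with the centre;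
   or: descend along `s ↦ [s,y]`, which stays in `S` and outside `Z`, using nilpotency).
   This gives `d ∈ S`, `d ∉ Z` (i.e. `d * d ≠ 1`) whose image in `Q` is central, i.e. `d ∈ Mset`.
3. `d ∈ S` means `m * d = d * m` for all `m ∈ Mset`. -/

set_option autoImplicit false

namespace Cfsg.Agent.Lib.Helper55.Sz2
open Cfsg.Agent.S1137

/-- a `p`-group `K` normalizing a nontrivial subgroup `M` of a finite `p`-group centralizes a
nontrivial element of `M`. -/
theorem a0_fix {G : Type*} [Group G] [Finite G] {p : ℕ} [Fact p.Prime] (hG : IsPGroup p G)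
    (K M : Subgroup G) (hnorm : ∀ k ∈ K, ∀ m ∈ M, k * m * k⁻¹ ∈ M) (hM : M ≠ ⊥) :
    ∃ x ∈ M, x ≠ 1 ∧ ∀ k ∈ K, k * x = x * k := by
  classical
  let _ : MulAction K M :=
    { smul := fun k m => ⟨k.1 * m.1 * k.1⁻¹, hnorm k.1 k.2 m.1 m.2⟩
      one_smul := fun m => by
        apply Subtype.ext
        show (1 : G) * m.1 * (1 : G)⁻¹ = m.1
        simp
      mul_smul := fun a b m => by
        apply Subtype.ext
        show (a.1 * b.1) * m.1 * (a.1 * b.1)⁻¹ = a.1 * (b.1 * m.1 * b.1⁻¹) * a.1⁻¹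
        group }
  have hK : IsPGroup p K := hG.to_subgroup K
  have hcard : p ∣ Nat.card M := by
    obtain ⟨n, hn⟩ := IsPGroup.iff_card.mp (hG.to_subgroup M)
    have hn0 : n ≠ 0 := by
      rintro rfl
      apply hM
      rw [pow_zero] at hn
      exact Subgroup.card_eq_one.mp hn
    rw [hn]; exact dvd_pow_self p hn0
  have h1 : (1 : M) ∈ MulAction.fixedPoints K M := by
    intro k
    apply Subtype.ext
    show k.1 * (1 : G) * k.1⁻¹ = 1
    simp
  obtain ⟨b, hb, hb1⟩ := hK.exists_fixed_point_of_prime_dvd_card_of_fixed_point M hcard h1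
  refine ⟨b.1, b.2, fun h => hb1 (Subtype.ext h.symm), fun k hk => ?_⟩
  have h2 : k * b.1 * k⁻¹ = b.1 := congrArg Subtype.val (hb ⟨k, hk⟩)
  calc k * b.1 = (k * b.1 * k⁻¹) * k := by group
    _ = b.1 * k := by rw [h2]

theorem exists_d0 {P : Type*} [Group P] [Finite P] {K : Type*} [CommGroup K] {φ : K →* MulAut P}
    (hp : IsPGroup 2 P) (hreg : Reg φ)
    (htwo : ∃ x y : P, x ≠ y ∧ x ≠ 1 ∧ x * x = 1 ∧ y ≠ 1 ∧ y * y = 1)
    (hnab : ∃ x y : P, x * y ≠ y * x) (x₀ : P) (hx₀ : (x₀ * x₀) * (x₀ * x₀) ≠ 1) :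
    ∃ d : P, d * d ≠ 1 ∧
      (∀ y : P, (d⁻¹ * y⁻¹ * d * y) * (d⁻¹ * y⁻¹ * d * y) = 1) ∧
      ∀ m : P, (∀ y : P, (m⁻¹ * y⁻¹ * m * y) * (m⁻¹ * y⁻¹ * m * y) = 1) → m * d = d * m := by
  classical
  have hc := invol_central hp hreg
  have hcs := hig _ P K φ rfl hp htwo hreg hnab
  have hQ : IsPGroup 2 (P ⧸ Subgroup.center P) := hp.to_quotient _
  have hπ1 : ∀ x : P, QuotientGroup.mk' (Subgroup.center P) x = 1 ↔ x ∈ Subgroup.center P :=
    fun x => QuotientGroup.eq_one_iff x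
  have hπs := QuotientGroup.mk'_surjective (Subgroup.center P)
  generalize hπ : QuotientGroup.mk' (Subgroup.center P) = π at *
  have hMp : ∀ m : P, (∀ y : P, m⁻¹ * y⁻¹ * m * y ∈ Subgroup.center P) ↔
      ∀ q : P ⧸ Subgroup.center P, q * π m = π m * q := by
    intro m
    constructor
    · intro h q
      obtain ⟨y, rfl⟩ := hπs q
      have h1 := (hπ1 _).mpr (h y)
      simp only [map_mul, map_inv] at h1
      calc π y * π m = π y * π m * ((π m)⁻¹ * (π y)⁻¹ * π m * π y) := by rw [h1, mul_one]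
        _ = π m * π y := by group
    · intro h y
      rw [← hπ1]
      simp only [map_mul, map_inv]
      rw [mul_assoc, ← h (π y)]; group
  let S : Subgroup P :=
    Subgroup.centralizer {m : P | ∀ y : P, m⁻¹ * y⁻¹ * m * y ∈ Subgroup.center P}
  have hSmem : ∀ s : P, s ∈ S ↔
      ∀ m : P, (∀ y : P, m⁻¹ * y⁻¹ * m * y ∈ Subgroup.center P) → m * s = s * m := by
    intro s; exact Subgroup.mem_centralizer_iff
  have hsq : ∀ y : P, y * y ∈ S := by
    intro y
    rw [hSmem]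
    intro m hm
    have hcZ := hm y
    have hc2 := hcs _ hcZ
    have hcomm := Subgroup.mem_center_iff.mp hcZ
    have e1 : m * y = y * m * (m⁻¹ * y⁻¹ * m * y) := by group
    calc m * (y * y) = (m * y) * y := by group
      _ = y * m * (m⁻¹ * y⁻¹ * m * y) * y := by rw [← e1]
      _ = y * m * ((m⁻¹ * y⁻¹ * m * y) * y) := by group
      _ = y * m * (y * (m⁻¹ * y⁻¹ * m * y)) := by rw [hcomm y]
      _ = y * (m * y) * (m⁻¹ * y⁻¹ * m * y) := by group
      _ = y * (y * m * (m⁻¹ * y⁻¹ * m * y)) * (m⁻¹ * y⁻¹ * m * y) := by rw [← e1]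
      _ = y * y * m * ((m⁻¹ * y⁻¹ * m * y) * (m⁻¹ * y⁻¹ * m * y)) := by group
      _ = y * y * m := by rw [hc2, mul_one]
  have hSconj : ∀ g s : P, s ∈ S → g * s * g⁻¹ ∈ S := by
    intro g s hs
    rw [hSmem] at hs ⊢
    intro m hm
    have hm' : ∀ y : P, (g⁻¹ * m * g)⁻¹ * y⁻¹ * (g⁻¹ * m * g) * y ∈ Subgroup.center P := by
      intro y
      have h1 := hm (g * y * g⁻¹)
      have e : (g⁻¹ * m * g)⁻¹ * y⁻¹ * (g⁻¹ * m * g) * y =
          g⁻¹ * (m⁻¹ * (g * y * g⁻¹)⁻¹ * m * (g * y * g⁻¹)) * g⁻¹⁻¹ := by group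
      rw [e]
      exact (inferInstance : (Subgroup.center P).Normal).conj_mem _ h1 g⁻¹
    have h3 := hs _ hm'
    calc m * (g * s * g⁻¹) = g * ((g⁻¹ * m * g) * s) * g⁻¹ := by group
      _ = g * (s * (g⁻¹ * m * g)) * g⁻¹ := by rw [h3]
      _ = g * s * g⁻¹ * m := by group
  have hnorm : ∀ k ∈ (⊤ : Subgroup (P ⧸ Subgroup.center P)), ∀ q ∈ S.map π,
      k * q * k⁻¹ ∈ S.map π := by
    rintro k - q ⟨s, hs, rfl⟩
    obtain ⟨g, rfl⟩ := hπs k
    exact ⟨g * s * g⁻¹, hSconj g s hs, by simp⟩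
  have hne : S.map π ≠ ⊥ := by
    intro hbot
    have h1 : π (x₀ * x₀) ∈ S.map π := ⟨x₀ * x₀, hsq x₀, rfl⟩
    rw [hbot, Subgroup.mem_bot, hπ1] at h1
    exact hx₀ (hcs _ h1)
  have : Fact (Nat.Prime 2) := ⟨Nat.prime_two⟩
  obtain ⟨q, ⟨d, hdS, rfl⟩, hq1, hqc⟩ := a0_fix hQ ⊤ (S.map π) hnorm hne
  have hdM : ∀ y : P, d⁻¹ * y⁻¹ * d * y ∈ Subgroup.center P :=
    (hMp d).mpr (fun q => hqc q trivial)
  refine ⟨d, fun hdd => hq1 ((hπ1 d).mpr (hc d hdd)), fun y => hcs _ (hdM y), fun m hm => ?_⟩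
  exact (hSmem d).mp hdS m (fun y => hc _ (hm y))

end Cfsg.Agent.Lib.Helper55.Sz2
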