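import Mathlib
import Cfsg.Agent.S1137
import Cfsg.Agent.Lib.Helper55.Sz2Defs

/-! Project SZ2 (S1138), piece A2 (placeholder posted by helper55; the taker replaces the `sorry`).

In a configuration `Conf φ M C` (see `Sz2Defs.lean`) the subgroup `C` is abelian.

PROOF.  Suppose `a b ∈ C` do not commute.  Apply `Cfsg.Agent.S1137.hig` to the group `↥C`:
`hig : ∀ n (P) [Group P] [Finite P] (K) [CommGroup K] (φ : K →* MulAut P), Nat.card P = n →
  IsPGroup 2 P → (∃ x y, x ≠ y ∧ x ≠ 1 ∧ x * x = 1 ∧ y ≠ 1 ∧ y * y = 1) → Reg φ →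
  (∃ x y, x * y ≠ y * x) → ∀ z ∈ center P, z * z = 1`
with the restricted action `ψ : K →* MulAut ↥C`, `ψ k ⟨x, _⟩ = ⟨φ k x, h.C_inv k x _⟩`
(inverse `ψ k⁻¹`).  Hypotheses: `IsPGroup 2 ↥C` (`hp.to_subgroup C`); two involutions of `↥C`
(`h.two`, they lie in `M ≤ C` by `h.invol_mem`, `h.M_le`); `Reg ψ`: existence from `h.trans`,
uniqueness from `h.free` (if `φ k x = φ k' x` with `x ≠ 1` then `φ (k⁻¹ * k') x = x`);
non-abelian: `a, b`.  Conclusion: every central element of `↥C` has square 1.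
But for an involution `u` (`h.two`) there is `m ∈ M` with `m * m = u` (`h.sq_surj`); `m ∈ C`
(`h.M_le`) and `⟨m, _⟩` is central in `↥C` since every element of `C` commutes with `m` (`h.mem_C`).
So `m * m = 1`, contradicting `u ≠ 1`. -/

set_option autoImplicit false

namespace Cfsg.Agent.Lib.Helper55.Sz2
open Cfsg.Agent.S1137

/-- the restricted action on a `K`-invariant subgroup -/
def sz2a2_res {P : Type*} [Group P] {K : Type*} [CommGroup K] (φ : K →* MulAut P)
    (C : Subgroup P) (hC : ∀ k : K, ∀ x ∈ C, φ k x ∈ C) : K →* MulAut ↥C where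
  toFun k :=
    { toFun := fun x => ⟨φ k x, hC k x x.2⟩
      invFun := fun x => ⟨φ k⁻¹ x, hC k⁻¹ x x.2⟩
      left_inv := by
        intro x
        apply Subtype.ext
        show φ k⁻¹ (φ k x) = x
        rw [map_inv, MulAut.inv_apply_self]
      right_inv := by
        intro x
        apply Subtype.ext
        show φ k (φ k⁻¹ x) = x
        rw [map_inv, MulAut.apply_inv_self]
      map_mul' := by
        intro x y
        apply Subtype.ext
        show φ k (x * y) = φ k x * φ k y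
        rw [map_mul] }
  map_one' := by
    apply MulEquiv.ext
    intro x
    apply Subtype.ext
    show φ 1 (x : P) = x
    rw [map_one, MulAut.one_apply]
  map_mul' := by
    intro k k'
    apply MulEquiv.ext
    intro x
    apply Subtype.ext
    show φ (k * k') (x : P) = φ k (φ k' x)
    rw [map_mul, MulAut.mul_apply]

theorem sz2a2_res_apply {P : Type*} [Group P] {K : Type*} [CommGroup K] (φ : K →* MulAut P)
    (C : Subgroup P) (hC : ∀ k : K, ∀ x ∈ C, φ k x ∈ C) (k : K) (x : ↥C) :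
    ((sz2a2_res φ C hC k x : ↥C) : P) = φ k x := rfl

theorem C_comm {P : Type*} [Group P] [Finite P] {K : Type*} [CommGroup K] {φ : K →* MulAut P}
    (hp : IsPGroup 2 P) {M C : Subgroup P} (h : Conf φ M C) :
    ∀ a ∈ C, ∀ b ∈ C, a * b = b * a := by
  intro a ha b hb
  by_contra hab
  have hMC : ∀ z : P, z * z = 1 → z ∈ C := fun z hz => h.M_le (h.invol_mem z hz)
  have htwo : ∃ x y : ↥C, x ≠ y ∧ x ≠ 1 ∧ x * x = 1 ∧ y ≠ 1 ∧ y * y = 1 := by
    obtain ⟨x, y, hxy, hx1, hx2, hy1, hy2⟩ := h.two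
    refine ⟨⟨x, hMC x hx2⟩, ⟨y, hMC y hy2⟩, ?_, ?_, ?_, ?_, ?_⟩
    · intro e
      exact hxy (congrArg Subtype.val e)
    · intro e
      exact hx1 (congrArg Subtype.val e)
    · exact Subtype.ext hx2
    · intro e
      exact hy1 (congrArg Subtype.val e)
    · exact Subtype.ext hy2
  have hreg : Reg (sz2a2_res φ C h.C_inv) := by
    intro x y hx1 hx2 hy1 hy2
    have hx1' : (x : P) ≠ 1 := fun e => hx1 (Subtype.ext e)
    have hy1' : (y : P) ≠ 1 := fun e => hy1 (Subtype.ext e)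
    have hx2' : (x : P) * (x : P) = 1 := congrArg Subtype.val hx2
    have hy2' : (y : P) * (y : P) = 1 := congrArg Subtype.val hy2
    obtain ⟨k, hk⟩ := h.trans (x : P) (y : P) hx1' hx2' hy1' hy2'
    refine ⟨k, Subtype.ext hk, ?_⟩
    intro k' hk'
    have hk'' : φ k' (x : P) = (y : P) := congrArg Subtype.val hk'
    have h1 : φ (k⁻¹ * k') (x : P) = (x : P) := by
      rw [map_mul, MulAut.mul_apply, hk'', ← hk, map_inv, MulAut.inv_apply_self]
    have h2 := h.free (k⁻¹ * k') (x : P) hx1' h1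
    exact (inv_mul_eq_one.mp h2).symm
  have hnab : ∃ x y : ↥C, x * y ≠ y * x :=
    ⟨⟨a, ha⟩, ⟨b, hb⟩, fun e => hab (congrArg Subtype.val e)⟩
  have hcen := hig (Nat.card ↥C) ↥C K (sz2a2_res φ C h.C_inv) rfl (hp.to_subgroup C) htwo hreg hnab
  obtain ⟨u, -, -, hu1, hu2, -, -⟩ := h.two
  obtain ⟨m, hm, hmm⟩ := h.sq_surj u hu2
  have hmc : (⟨m, h.M_le hm⟩ : ↥C) ∈ Subgroup.center ↥C := by
    rw [Subgroup.mem_center_iff]
    intro g
    apply Subtype.ext
    exact ((h.mem_C (g : P)).mp g.2 m hm).symm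
  have h3 := hcen _ hmc
  have h4 : m * m = 1 := congrArg Subtype.val h3
  rw [hmm] at h4
  exact hu1 h4

end Cfsg.Agent.Lib.Helper55.Sz2
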