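import Mathlib
import Cfsg.Agent.S1140

/-! Project SZ2 (S1138), piece D1 (placeholder posted by helper55; proved by helper16).

Finite field `F` of characteristic 2, `lam` a generator of the multiplicative group, `σ τ`
automorphisms.  Put `ν = lam / σ lam`, `ν' = lam / τ lam`.  If every polynomial with coefficients
in the prime field vanishing at `ν` vanishes at `ν'` (a polynomial over `ZMod 2` is a finite sum of
monomials `X^l`, `l ∈ S`), then `σ = τ`.

PROOF.  `letI : Algebra (ZMod 2) F := ZMod.algebra F 2`.  The hypothesis says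
`aeval ν p = 0 → aeval ν' p = 0` for all `p : (ZMod 2)[X]` (write `p` as the sum of `X^l` over its
support).  So `minpoly (ZMod 2) ν'` divides `minpoly (ZMod 2) ν`; both are monic irreducible, so
they are equal, i.e. `IsConjRoot (ZMod 2) ν ν'`; as `F` is normal (Galois) over `ZMod 2` there is
`r : F ≃ₐ[ZMod 2] F` with `r ν = ν'`.  Thus `lam * r (σ lam) = r lam * τ lam`.  Every nonzero `x`
is a power of `lam` and all maps are multiplicative, so `x * r (σ x) = r x * τ x` for ALL `x : F`.
Replacing `x` by `x + 1`: `x + r (σ x) = r x + τ x`, i.e. `id + rσ = r + τ` as functions `F → F`.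
* `r = id`: then `x * σ x = x * τ x`, so `σ = τ`.
* `τ = id`: then `rσ = r`, so `σ = id = τ`.
* `rσ = id` (and `r ≠ id`): then `r + τ = 0`, so `r = τ`, and `x * x = r x * r x`, so `r = id`:
  excluded.
* otherwise `id = rσ + r + τ` with `id ∉ {rσ, r, τ}`, against the Dedekind independence of
  distinct automorphisms (`Cfsg.Agent.S1140.result`, first component). -/

set_option autoImplicit false

namespace Cfsg.Agent.Lib.Helper55.Sz2

open Polynomial in
/-- over `ZMod 2`, evaluating a polynomial is summing the powers over its support -/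
private theorem d1_aeval {F : Type*} [Field F] [Algebra (ZMod 2) F] (x : F) (q : (ZMod 2)[X]) :
    Polynomial.aeval x q = ∑ l ∈ q.support, x ^ l := by
  rw [Polynomial.aeval_def, Polynomial.eval₂_eq_sum, Polynomial.sum_def]
  refine Finset.sum_congr rfl fun n hn => ?_
  have hc : q.coeff n = 1 := by
    have h01 : ∀ a : ZMod 2, a = 0 ∨ a = 1 := by decide
    rcases h01 (q.coeff n) with h0 | h1
    · exact absurd h0 (Polynomial.mem_support_iff.mp hn)
    · exact h1
  rw [hc, map_one, one_mul]

theorem nu_not_conj {F : Type*} [Field F] [Fintype F] [CharP F 2] (lam : F)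
    (hlam : ∀ u : F, u ≠ 0 → ∃ i : ℕ, u = lam ^ i) (σ τ : F ≃+* F)
    (h : ∀ S : Finset ℕ, ∑ l ∈ S, (lam / σ lam) ^ l = 0 → ∑ l ∈ S, (lam / τ lam) ^ l = 0) :
    σ = τ := by
  classical
  -- the degenerate case `lam = 0` (then `F` has two elements)
  by_cases hl0 : lam = 0
  · have hall : ∀ u : F, u = 0 ∨ u = 1 := by
      intro u
      by_cases hu : u = 0
      · exact Or.inl hu
      · right
        obtain ⟨i, hi⟩ := hlam u hu
        rw [hl0] at hi
        rcases Nat.eq_zero_or_pos i with h0 | h0
        · rw [h0, pow_zero] at hi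
          exact hi
        · rw [zero_pow h0.ne'] at hi
          exact absurd hi hu
    apply RingEquiv.ext
    intro x
    rcases hall x with rfl | rfl
    · rw [map_zero, map_zero]
    · rw [map_one, map_one]
  -- main case
  let _ : Algebra (ZMod 2) F := ZMod.algebra F 2
  have hσl : σ lam ≠ 0 := fun h0 => hl0 ((map_eq_zero_iff σ σ.injective).mp h0)
  have hτl : τ lam ≠ 0 := fun h0 => hl0 ((map_eq_zero_iff τ τ.injective).mp h0)
  have hint : IsIntegral (ZMod 2) (lam / σ lam) := Algebra.IsIntegral.isIntegral _
  have hroot : Polynomial.aeval (lam / τ lam) (minpoly (ZMod 2) (lam / σ lam)) = 0 := by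
    rw [d1_aeval]
    apply h
    rw [← d1_aeval]
    exact minpoly.aeval (ZMod 2) _
  have hconj : IsConjRoot (ZMod 2) (lam / σ lam) (lam / τ lam) :=
    minpoly.eq_of_irreducible_of_monic (minpoly.irreducible hint) hroot (minpoly.monic hint)
  obtain ⟨ρ, hρ⟩ := isConjRoot_iff_exists_algEquiv.mp hconj
  obtain ⟨r, hrdef⟩ : ∃ r : F ≃+* F, r = ρ.symm.toRingEquiv := ⟨_, rfl⟩
  have hrν : r (lam / σ lam) = lam / τ lam := by
    rw [hrdef]
    show ρ.symm (lam / σ lam) = lam / τ lam
    rw [← hρ, AlgEquiv.symm_apply_apply]
  have hrl : r (σ lam) ≠ 0 := fun h0 => hσl ((map_eq_zero_iff r r.injective).mp h0)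
  have Q0 : r lam * τ lam = lam * r (σ lam) := by
    rw [map_div₀] at hrν
    exact (div_eq_div_iff hrl hτl).mp hrν
  -- the multiplicative identity for all `x`
  have Q : ∀ x : F, x * r (σ x) = r x * τ x := by
    intro x
    by_cases hx : x = 0
    · simp [hx]
    · obtain ⟨i, rfl⟩ := hlam x hx
      simp only [map_pow]
      rw [← mul_pow, ← mul_pow, Q0]
  -- the additive identity
  have L : ∀ x : F, x + r (σ x) = r x + τ x := by
    intro x
    have h1 := Q (x + 1)
    simp only [map_add, map_one] at h1
    have h2 := Q x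
    linear_combination h1 - h2
  -- case `r = id`
  by_cases hr1 : ∀ x, r x = x
  · apply RingEquiv.ext
    intro x
    by_cases hx : x = 0
    · rw [hx, map_zero, map_zero]
    · have h3 := Q x
      rw [hr1, hr1] at h3
      exact mul_left_cancel₀ hx h3
  -- case `τ = id`
  by_cases hτ1 : ∀ x, τ x = x
  · apply RingEquiv.ext
    intro x
    have h3 := L x
    rw [hτ1, add_comm (r x) x] at h3
    have h4 : r (σ x) = r x := add_left_cancel h3
    rw [hτ1]
    exact r.injective h4
  -- case `r σ = id`
  by_cases hb1 : ∀ x, r (σ x) = x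
  · exfalso
    apply hr1
    intro x
    have hL := L x
    rw [hb1, CharTwo.add_self_eq_zero] at hL
    have hrt : r x = τ x := CharTwo.add_eq_zero.mp hL.symm
    have hQ := Q x
    rw [hb1, ← hrt] at hQ
    have h4 : (r x + x) * (r x + x) = 0 := by
      rw [CharTwo.add_mul_self, ← hQ, CharTwo.add_self_eq_zero]
    have h5 : r x + x = 0 := mul_self_eq_zero.mp h4
    exact CharTwo.add_eq_zero.mp h5
  -- the remaining case contradicts the independence of automorphisms
  exfalso
  have hli := (Cfsg.Agent.S1140.result (F := F)).1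
  have hιb : RingEquiv.refl F ≠ σ.trans r := by
    intro h0
    apply hb1
    intro x
    have h1 := congrArg (fun e : F ≃+* F => e x) h0
    exact h1.symm
  have hιr : RingEquiv.refl F ≠ r := by
    intro h0
    apply hr1
    intro x
    have h1 := congrArg (fun e : F ≃+* F => e x) h0
    exact h1.symm
  have hιτ : RingEquiv.refl F ≠ τ := by
    intro h0
    apply hτ1
    intro x
    have h1 := congrArg (fun e : F ≃+* F => e x) h0
    exact h1.symm
  have hnot := hli.notMem_span_image (s := ({σ.trans r, r, τ} : Set (F ≃+* F)))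
    (x := RingEquiv.refl F) (by
      simp only [Set.mem_insert_iff, Set.mem_singleton_iff, not_or]
      exact ⟨hιb, hιr, hιτ⟩)
  apply hnot
  have heq : (((RingEquiv.refl F : F ≃+* F) : F →+* F) : F → F) =
      (((σ.trans r : F ≃+* F) : F →+* F) : F → F) + (((r : F ≃+* F) : F →+* F) : F → F) +
        (((τ : F ≃+* F) : F →+* F) : F → F) := by
    funext x
    show x = r (σ x) + r x + τ x
    have hL := L x
    calc x = (x + r (σ x)) + r (σ x) := by
          rw [add_assoc, CharTwo.add_self_eq_zero, add_zero]
      _ = r (σ x) + r x + τ x := by rw [hL]; ring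
  rw [heq]
  refine Submodule.add_mem _ (Submodule.add_mem _ ?_ ?_) ?_
  · exact Submodule.subset_span (Set.mem_image_of_mem _ (by simp))
  · exact Submodule.subset_span (Set.mem_image_of_mem _ (by simp))
  · exact Submodule.subset_span (Set.mem_image_of_mem _ (by simp))

end Cfsg.Agent.Lib.Helper55.Sz2
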