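import Mathlib
import Cfsg.Agent.S1140
import Cfsg.Agent.Lib.Helper55.Sz2Defs
import Cfsg.Agent.Lib.Helper55.Sz2D1

/-! Project SZ2 (S1138), piece D2 (placeholder posted by helper55; filled by helper23).

Finite field `F` of characteristic 2, `lam` a generator of `Fˣ`.  `conjHom μ D = (x ↦ μ * D (μ⁻¹ * x))`
(`Sz2Defs.lean`, `conjHom_apply`).  Let `DD` be an additive subgroup of `F →+ F`, stable under all
`conjHom μ` (`μ ≠ 0`) and such that no nonzero element of `DD` is fixed by a `conjHom μ`, `μ ≠ 0, 1`.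
Then `DD` is generated by its "monomial" elements `x ↦ a * σ x` (`σ` an automorphism).

PROOF (direct, without induction on `DD`).  Coordinates `r D i` w.r.t. the automorphisms `e i`
(`Cfsg.Agent.S1140.exists_aut_basis`), unique by Dedekind.  The operator
`A_S D = ∑ l ∈ S, conjHom (lam ^ l) D` preserves `DD` and multiplies the `k`-th coordinate by
`∑ l ∈ S, ν_k ^ l`, `ν_k = lam / e k lam`.  By `nu_not_conj`, for `j ≠ i` there is `S` killing the
`j`-th coordinate but not the `i`-th one; composing these for all `j ≠ i` gives for `D ∈ DD` a monomial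
`x ↦ (c * r D i) * e i x` in `DD` with `c ≠ 0`.  By `hfree`, `μ ↦ μ / e i μ` is injective, hence
surjective, on the units, so with one nonzero monomial for `e i` all of them lie in `DD`; in particular
`x ↦ r D i * e i x`.  Finally `D` is the sum of these. -/

set_option autoImplicit false

namespace Cfsg.Agent.Lib.Helper55.Sz2

/-- the monomial map `x ↦ a * σ x` -/
def d2_mo {F : Type*} [Field F] (a : F) (σ : F ≃+* F) : F →+ F :=
  (AddMonoidHom.mulLeft a).comp ((σ : F →+* F) : F →+ F)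

theorem d2_mo_apply {F : Type*} [Field F] (a : F) (σ : F ≃+* F) (x : F) :
    d2_mo a σ x = a * σ x := rfl

theorem d2_mo_zero {F : Type*} [Field F] (σ : F ≃+* F) : d2_mo (0 : F) σ = 0 := by
  ext x
  rw [d2_mo_apply, zero_mul]
  rfl

theorem d2_conjHom_mo {F : Type*} [Field F] (μ a : F) (σ : F ≃+* F) :
    conjHom μ (d2_mo a σ) = d2_mo (μ * (σ μ)⁻¹ * a) σ := by
  ext x
  rw [conjHom_apply, d2_mo_apply, d2_mo_apply, map_mul, map_inv₀]
  ring

theorem mono_gen {F : Type*} [Field F] [Fintype F] [CharP F 2] (lam : F)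
    (hlam : ∀ u : F, u ≠ 0 → ∃ i : ℕ, u = lam ^ i)
    (DD : AddSubgroup (F →+ F))
    (hstab : ∀ D ∈ DD, ∀ μ : F, μ ≠ 0 → conjHom μ D ∈ DD)
    (hfree : ∀ D ∈ DD, D ≠ 0 → ∀ μ : F, μ ≠ 0 → conjHom μ D = D → μ = 1) :
    ∀ D ∈ DD, D ∈ AddSubgroup.closure
      {E : F →+ F | E ∈ DD ∧ ∃ (a : F) (σ : F ≃+* F), ∀ x, E x = a * σ x} := by
  classical
  obtain ⟨ι, _, _, e, he, r, hradd, hr⟩ := Cfsg.Agent.S1140.exists_aut_basis F
  have hli : LinearIndependent F (fun i : ι => (((e i : F ≃+* F) : F →+* F) : F → F)) :=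
    (Cfsg.Agent.S1140.result (F := F)).1.comp e he
  -- uniqueness of coordinates
  have uniq : ∀ (D : F →+ F) (c : ι → F), (∀ x, D x = ∑ i, c i * e i x) → ∀ i, r D i = c i := by
    intro D c hc i
    have h0 : ∑ i, (r D i - c i) • (((e i : F ≃+* F) : F →+* F) : F → F) = 0 := by
      funext x
      simp only [Finset.sum_apply, Pi.smul_apply, smul_eq_mul, Pi.zero_apply,
        RingEquiv.coe_toRingHom, sub_mul, Finset.sum_sub_distrib]
      rw [sub_eq_zero]
      exact (hr D x).symm.trans (hc x)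
    have := Fintype.linearIndependent_iff.mp hli (fun i => r D i - c i) h0 i
    exact sub_eq_zero.mp this
  have stab' : ∀ D ∈ DD, ∀ μ : F, conjHom μ D ∈ DD := by
    intro D hD μ
    by_cases hμ : μ = 0
    · have : conjHom μ D = 0 := by
        ext x
        rw [conjHom_apply, hμ, zero_mul]
        rfl
      rw [this]; exact DD.zero_mem
    · exact hstab D hD μ hμ
  -- the operators `A_S`
  have hAS : ∀ D ∈ DD, ∀ S : Finset ℕ, (∑ l ∈ S, conjHom (lam ^ l) D) ∈ DD ∧
      ∀ k, r (∑ l ∈ S, conjHom (lam ^ l) D) k = (∑ l ∈ S, (lam / e k lam) ^ l) * r D k := by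
    intro D hD S
    refine ⟨sum_mem (fun l _ => stab' D hD (lam ^ l)), ?_⟩
    refine uniq _ (fun k => (∑ l ∈ S, (lam / e k lam) ^ l) * r D k) ?_
    intro x
    rw [AddMonoidHom.finsetSum_apply]
    have h1 : ∀ l ∈ S, conjHom (lam ^ l) D x = ∑ i, ((lam / e i lam) ^ l * r D i) * e i x := by
      intro l _
      rw [conjHom_apply, hr D, Finset.mul_sum]
      apply Finset.sum_congr rfl
      intro i _
      rw [map_mul, map_inv₀, map_pow, div_pow, div_eq_mul_inv]
      ring
    rw [Finset.sum_congr rfl h1, Finset.sum_comm]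
    apply Finset.sum_congr rfl
    intro i _
    show _ = (∑ l ∈ S, (lam / e i lam) ^ l) * r D i * e i x
    rw [Finset.sum_mul, Finset.sum_mul]
  -- separation of two coordinates
  have hsep : ∀ i j : ι, i ≠ j → ∃ S : Finset ℕ, ∑ l ∈ S, (lam / e j lam) ^ l = 0 ∧
      ∑ l ∈ S, (lam / e i lam) ^ l ≠ 0 := by
    intro i j hij
    by_contra hcon
    push Not at hcon
    exact hij (he (nu_not_conj lam hlam (e j) (e i) hcon)).symm
  -- killing the coordinates in `J`
  have kill : ∀ (i : ι) (D : F →+ F), D ∈ DD → ∀ J : Finset ι, i ∉ J →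
      ∃ D' ∈ DD, ∃ c : F, c ≠ 0 ∧ r D' i = c * r D i ∧ ∀ k ∈ J, r D' k = 0 := by
    intro i D hD J
    induction J using Finset.induction_on with
    | empty =>
      intro _
      exact ⟨D, hD, 1, one_ne_zero, (one_mul _).symm, fun k hk => absurd hk (Finset.notMem_empty k)⟩
    | insert j J' hj ih =>
      intro hi
      rw [Finset.mem_insert, not_or] at hi
      obtain ⟨D'', hD'', c, hc, hci, hcJ⟩ := ih hi.2
      obtain ⟨S, hS0, hS1⟩ := hsep i j hi.1
      obtain ⟨hmem, hrr⟩ := hAS D'' hD'' S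
      refine ⟨_, hmem, (∑ l ∈ S, (lam / e i lam) ^ l) * c, mul_ne_zero hS1 hc, ?_, ?_⟩
      · rw [hrr i, hci, mul_assoc]
      · intro k hk
        rw [hrr k]
        rcases Finset.mem_insert.mp hk with rfl | hk'
        · rw [hS0, zero_mul]
        · rw [hcJ k hk', mul_zero]
  -- one nonzero monomial gives all of them
  have full : ∀ (i : ι) (a₀ : F), a₀ ≠ 0 → d2_mo a₀ (e i) ∈ DD → ∀ a : F, d2_mo a (e i) ∈ DD := by
    intro i a₀ ha₀ hmem a
    have hne : d2_mo a₀ (e i) ≠ 0 := by
      intro h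
      have h' := congrArg (fun f : F →+ F => f 1) h
      simp only [d2_mo_apply, map_one, mul_one, AddMonoidHom.zero_apply] at h'
      exact ha₀ h'
    let g : Fˣ → Fˣ := fun u => u * (Units.map ((e i : F ≃+* F) : F →* F) u)⁻¹
    have hgval : ∀ u : Fˣ, ((g u : Fˣ) : F) = (u : F) * (e i (u : F))⁻¹ := by
      intro u
      simp [g]
    have hginj : Function.Injective g := by
      intro u u' huu
      have h1 : (u : F) * (e i (u : F))⁻¹ = (u' : F) * (e i (u' : F))⁻¹ := by
        rw [← hgval, ← hgval, huu]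
      have hu0 : (u : F) ≠ 0 := u.ne_zero
      have hu0' : (u' : F) ≠ 0 := u'.ne_zero
      have heu : e i (u : F) ≠ 0 := (map_ne_zero (e i)).mpr hu0
      have heu' : e i (u' : F) ≠ 0 := (map_ne_zero (e i)).mpr hu0'
      have hw : ((u : F) * (u' : F)⁻¹) ≠ 0 := mul_ne_zero hu0 (inv_ne_zero hu0')
      have h3 : (u : F) * (u' : F)⁻¹ * (e i ((u : F) * (u' : F)⁻¹))⁻¹ = 1 := by
        rw [map_mul, map_inv₀, mul_inv, inv_inv]
        have : (u : F) * (u' : F)⁻¹ * ((e i (u : F))⁻¹ * e i (u' : F))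
            = ((u : F) * (e i (u : F))⁻¹) * ((u' : F)⁻¹ * e i (u' : F)) := by ring
        rw [this, h1]
        field_simp
      have h2 : conjHom ((u : F) * (u' : F)⁻¹) (d2_mo a₀ (e i)) = d2_mo a₀ (e i) := by
        rw [d2_conjHom_mo, h3, one_mul]
      have h4 := hfree _ hmem hne _ hw h2
      exact Units.ext ((mul_inv_eq_one₀ hu0').mp h4)
    have hgsurj : Function.Surjective g := Finite.injective_iff_surjective.mp hginj
    by_cases ha : a = 0
    · rw [ha, d2_mo_zero]; exact DD.zero_mem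
    · obtain ⟨u, hu⟩ := hgsurj (Units.mk0 (a * a₀⁻¹) (mul_ne_zero ha (inv_ne_zero ha₀)))
      have h5 : conjHom (u : F) (d2_mo a₀ (e i)) ∈ DD := hstab _ hmem _ u.ne_zero
      rw [d2_conjHom_mo] at h5
      have h6 : (u : F) * (e i (u : F))⁻¹ * a₀ = a := by
        rw [← hgval, hu, Units.val_mk0, mul_assoc, inv_mul_cancel₀ ha₀, mul_one]
      rwa [h6] at h5
  -- conclusion
  intro D hD
  have hcomp : ∀ i, d2_mo (r D i) (e i) ∈ DD := by
    intro i
    by_cases h0 : r D i = 0
    · rw [h0, d2_mo_zero]; exact DD.zero_mem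
    · obtain ⟨D', hD', c, hc, hci, hcJ⟩ :=
        kill i D hD (Finset.univ.erase i) (Finset.notMem_erase i _)
      have hD'eq : D' = d2_mo (c * r D i) (e i) := by
        ext x
        rw [hr D' x, d2_mo_apply, Finset.sum_eq_single i, hci]
        · intro k _ hki
          rw [hcJ k (Finset.mem_erase.mpr ⟨hki, Finset.mem_univ k⟩), zero_mul]
        · intro h; exact absurd (Finset.mem_univ i) h
      rw [hD'eq] at hD'
      exact full i (c * r D i) (mul_ne_zero hc h0) hD' (r D i)
  have hsum : D = ∑ i, d2_mo (r D i) (e i) := by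
    ext x
    rw [AddMonoidHom.finsetSum_apply, hr D x]
    rfl
  rw [hsum]
  exact sum_mem (fun i _ => AddSubgroup.subset_closure ⟨hcomp i, r D i, e i, fun x => rfl⟩)

end Cfsg.Agent.Lib.Helper55.Sz2
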