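import Mathlib
import Cfsg.Agent.S1137
import Cfsg.Agent.Lib.Helper60.SuzAlg
import Cfsg.Agent.Lib.Helper55.Sz2Defs
import Cfsg.Agent.Lib.Helper55.Sz2D2

/-! Project SZ2 (S1138), piece C1 (helper55): in a configuration `Conf φ M C` with `C` of
exponent 4, identify `Z` with a finite field, turn `y ↦ [·, y]` into additive endomorphisms of
the field and use `mono_gen` to produce a generating set with the properties needed by C2. -/

set_option autoImplicit false

namespace Cfsg.Agent.Lib.Helper55.Sz2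

section basic
variable {P : Type*} [Group P] {K : Type*} [CommGroup K] {φ : K →* MulAut P} {M C : Subgroup P}

/-- the commutator in the convention of `Conf` -/
def cm (m y : P) : P := m⁻¹ * y⁻¹ * m * y

theorem cm_eq_one_iff (m y : P) : cm m y = 1 ↔ m * y = y * m := by
  unfold cm
  constructor
  · intro h
    have : m⁻¹ * y⁻¹ * m * y = 1 := h
    calc m * y = y * m * (m⁻¹ * y⁻¹ * m * y) := by group
      _ = y * m := by rw [this, mul_one]
  · intro h
    calc m⁻¹ * y⁻¹ * m * y = m⁻¹ * y⁻¹ * (m * y) := by group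
      _ = m⁻¹ * y⁻¹ * (y * m) := by rw [h]
      _ = 1 := by group

theorem cm_map (f : MulAut P) (m y : P) : f (cm m y) = cm (f m) (f y) := by
  unfold cm
  simp only [map_mul, map_inv]

theorem Conf.cm_center (h : Conf φ M C) {m : P} (hm : m ∈ M) (y : P) :
    cm m y ∈ Subgroup.center P :=
  h.invol_central _ (h.comm_sq m hm y)

theorem Conf.M_comm (h : Conf φ M C) {a b : P} (ha : a ∈ M) (hb : b ∈ M) : a * b = b * a :=
  (h.mem_C b).mp (h.M_le hb) a ha

theorem Conf.cm_mul_left (h : Conf φ M C) {m₁ : P} (hm₁ : m₁ ∈ M) (m₂ y : P) :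
    cm (m₁ * m₂) y = cm m₁ y * cm m₂ y := by
  have hc := Subgroup.mem_center_iff.mp (h.cm_center hm₁ y)
  have e : cm (m₁ * m₂) y = m₂⁻¹ * cm m₁ y * (y⁻¹ * m₂ * y) := by unfold cm; group
  rw [e, hc m₂⁻¹]
  unfold cm; group

theorem Conf.cm_mul_right (h : Conf φ M C) {m : P} (hm : m ∈ M) (y y' : P) :
    cm m (y * y') = cm m y * cm m y' := by
  have hc := Subgroup.mem_center_iff.mp (h.cm_center hm y)
  have e : cm m (y * y') = m⁻¹ * y'⁻¹ * m * (cm m y * y') := by unfold cm; group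
  rw [e, ← hc y']
  have e2 : m⁻¹ * y'⁻¹ * m * (y' * cm m y) = cm m y' * cm m y := by unfold cm; group
  rw [e2]
  have hc' := Subgroup.mem_center_iff.mp (h.cm_center hm y)
  exact (hc' (cm m y'))

theorem cm_mul_central (m y : P) {z : P} (hz : z ∈ Subgroup.center P) :
    cm (m * z) y = cm m y := by
  have hc := Subgroup.mem_center_iff.mp hz
  have e : cm (m * z) y = z⁻¹ * (m⁻¹ * y⁻¹ * m) * z * y := by unfold cm; group
  rw [e, mul_assoc z⁻¹, hc (m⁻¹ * y⁻¹ * m)]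
  unfold cm; group

theorem Conf.C_le_M (h : Conf φ M C) (hC4 : ∀ x ∈ C, (x * x) * (x * x) = 1) {x : P}
    (hx : x ∈ C) : x ∈ M := h.C_four x hx (hC4 x hx)

/-- a coset of `M` fixed by a nontrivial element of `K` is `M` itself -/
theorem Conf.mem_of_fixed_coset [Finite P] (h : Conf φ M C) (k : K) (hk : k ≠ 1) (y : P)
    (hy : y⁻¹ * φ k y ∈ M) : y ∈ M := by
  classical
  let g : ↥M → ↥M := fun b => ⟨(b : P) * (φ k b)⁻¹, M.mul_mem b.2 (M.inv_mem (h.M_inv k b b.2))⟩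
  have hinj : Function.Injective g := by
    intro b b' hbb
    have e : (b : P) * (φ k b)⁻¹ = (b' : P) * (φ k b')⁻¹ := congrArg Subtype.val hbb
    have hfix : φ k ((b : P) * (b' : P)⁻¹) = (b : P) * (b' : P)⁻¹ := by
      rw [map_mul, map_inv]
      have c1 := h.M_comm (M.inv_mem b'.2) (h.M_inv k b b.2)
      have e' : (φ k b) = (b' : P)⁻¹ * b * (φ k b') := by
        have : (b' : P)⁻¹ * ((b : P) * (φ k b)⁻¹) * (φ k b) = (b' : P)⁻¹ * ((b' : P) * (φ k b')⁻¹) * (φ k b) := by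
          rw [e]
        have l : (b' : P)⁻¹ * ((b : P) * (φ k b)⁻¹) * (φ k b) = (b' : P)⁻¹ * b := by group
        have r : (b' : P)⁻¹ * ((b' : P) * (φ k b')⁻¹) * (φ k b) = (φ k b')⁻¹ * (φ k b) := by group
        rw [l, r] at this
        calc φ k b = φ k b' * ((φ k b')⁻¹ * φ k b) := by group
          _ = φ k b' * ((b' : P)⁻¹ * b) := by rw [this]
          _ = (b' : P)⁻¹ * b * φ k b' :=
            (h.M_comm (h.M_inv k b' b'.2) (M.mul_mem (M.inv_mem b'.2) b.2))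
      rw [e']
      have c2 := h.M_comm (M.inv_mem b'.2) b.2
      calc (b' : P)⁻¹ * b * φ k b' * (φ k b')⁻¹ = (b' : P)⁻¹ * b := by group
        _ = b * (b' : P)⁻¹ := c2
    have h1 : (b : P) * (b' : P)⁻¹ = 1 := by
      by_contra hne
      exact hk (h.free k _ hne hfix)
    apply Subtype.ext
    calc (b : P) = (b : P) * (b' : P)⁻¹ * b' := by group
      _ = b' := by rw [h1, one_mul]
  have hsurj : Function.Surjective g := Finite.surjective_of_injective hinj
  obtain ⟨b, hb⟩ := hsurj ⟨y⁻¹ * φ k y, hy⟩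
  have e : (b : P) * (φ k b)⁻¹ = y⁻¹ * φ k y := congrArg Subtype.val hb
  have hfix : φ k (y * b) = y * b := by
    rw [map_mul]
    calc φ k y * φ k b = y * (y⁻¹ * φ k y) * φ k b := by group
      _ = y * ((b : P) * (φ k b)⁻¹) * φ k b := by rw [e]
      _ = y * b := by group
  have h1 : y * b = 1 := by
    by_contra hne
    exact hk (h.free k _ hne hfix)
  have : y = (b : P)⁻¹ := eq_inv_of_mul_eq_one_left h1
  rw [this]
  exact M.inv_mem b.2

end basic

section main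
variable {P : Type*} [Group P] [Finite P] {K : Type*} [CommGroup K] {φ : K →* MulAut P}
  {M C : Subgroup P}

theorem gens_of_field (h : Conf φ M C) (hC4 : ∀ x ∈ C, (x * x) * (x * x) = 1)
    {F : Type} [Field F] [Fintype F] [CharP F 2]
    (c : ↥(Subgroup.center P) → F) (lam : F) (ξ : K)
    (hcb : Function.Bijective c) (hadd : ∀ v w, c (v * w) = c v + c w)
    (hlam : ∀ v : ↥(Subgroup.center P),
      c ⟨φ ξ v, Cfsg.Agent.S1137.aut_center (φ ξ) v.2⟩ = lam * c v)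
    (hgen : ∀ u : F, u ≠ 0 → ∃ i : ℕ, u = lam ^ i)
    (hξ : ∀ k : K, ∃ i : ℕ, k = ξ ^ i)
    (hpow1 : ∀ i : ℕ, lam ^ i = 1 → ξ ^ i = 1) :
    ∃ S : Set P, Subgroup.closure S = ⊤ ∧
    (∀ y ∈ S, y ∉ M → ∀ m ∈ M, m * y = y * m → m * m = 1) ∧
    (∀ y ∈ S, y ∉ M → ∀ m₁ ∈ M, ∀ m₂ ∈ M, m₁⁻¹ * y⁻¹ * m₁ * y = m₁ * m₁ →
      m₂⁻¹ * y⁻¹ * m₂ * y = m₂ * m₂ → m₁ * m₁ ≠ 1 → m₂ * m₂ ≠ 1 → m₁ * m₁ = m₂ * m₂) ∧
    (∀ y ∈ S, y ∉ M → ∃ y' ∈ S, y' ∉ M ∧ y * y' ∈ S ∧ y * y' ∉ M ∧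
      ∀ m ∈ M, m⁻¹ * y⁻¹ * m * y = m * m → m⁻¹ * y'⁻¹ * m * y' = m * m → m * m = 1) := by
  classical
  have h2 : (2 : F) = 0 := CharTwo.two_eq_zero
  have hc1 : c 1 = 0 := by
    have := hadd 1 1
    rw [mul_one] at this
    exact left_eq_add.mp this
  have hc0 : ∀ v, c v = 0 → v = 1 := fun v hv => hcb.1 (hv.trans hc1.symm)
  -- squares and commutators as elements of the centre
  obtain ⟨zs, hzs⟩ : ∃ zs : ∀ m : P, m ∈ M → ↥(Subgroup.center P),
      ∀ m hm, ((zs m hm : ↥(Subgroup.center P)) : P) = m * m :=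
    ⟨fun m hm => ⟨m * m, h.invol_central _ (h.M_exp m hm)⟩, fun _ _ => rfl⟩
  obtain ⟨zc, hzc⟩ : ∃ zc : ∀ m : P, m ∈ M → P → ↥(Subgroup.center P),
      ∀ m hm y, ((zc m hm y : ↥(Subgroup.center P)) : P) = cm m y :=
    ⟨fun m hm y => ⟨cm m y, h.cm_center hm y⟩, fun _ _ _ => rfl⟩
  have hsurj : ∀ u : F, ∃ m, ∃ hm : m ∈ M, c (zs m hm) = u := by
    intro u
    obtain ⟨v, hv⟩ := hcb.2 u
    obtain ⟨m, hm, hmm⟩ := h.sq_surj v (h.center_sq v v.2)
    refine ⟨m, hm, ?_⟩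
    rw [← hv]
    congr 1
    exact Subtype.ext ((hzs m hm).trans hmm)
  -- well definedness
  have hwd : ∀ m hm m' hm' (y : P), zs m hm = zs m' hm' → zc m hm y = zc m' hm' y := by
    intro m hm m' hm' y he
    have he' : m * m = m' * m' := by rw [← hzs m hm, ← hzs m' hm', he]
    apply Subtype.ext
    rw [hzc, hzc]
    have hz2 : (m⁻¹ * m') * (m⁻¹ * m') = 1 := by
      have c1 := h.M_comm (M.inv_mem hm) hm'
      calc (m⁻¹ * m') * (m⁻¹ * m') = m⁻¹ * (m' * m⁻¹) * m' := by group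
        _ = m⁻¹ * (m⁻¹ * m') * m' := by rw [c1]
        _ = (m * m)⁻¹ * (m' * m') := by group
        _ = 1 := by rw [he']; group
    have hzc' := h.invol_central _ hz2
    have : m' = m * (m⁻¹ * m') := by group
    rw [this, cm_mul_central m y hzc']
  obtain ⟨Dfun, hDfun⟩ : ∃ Dfun : P → F → F, ∀ y m hm, Dfun y (c (zs m hm)) = c (zc m hm y) := by
    refine ⟨fun y u => c (zc (Classical.choose (hsurj u)) (Classical.choose_spec (hsurj u)).choose y),
      ?_⟩
    intro y m hm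
    have hspec := (Classical.choose_spec (hsurj (c (zs m hm)))).choose_spec
    have := hcb.1 hspec
    show c (zc _ _ y) = c (zc m hm y)
    rw [hwd _ _ m hm y this]
  have hDadd : ∀ y u u', Dfun y (u + u') = Dfun y u + Dfun y u' := by
    intro y u u'
    obtain ⟨m, hm, rfl⟩ := hsurj u
    obtain ⟨m', hm', rfl⟩ := hsurj u'
    have e1 : zs m hm * zs m' hm' = zs (m * m') (M.mul_mem hm hm') := by
      apply Subtype.ext
      rw [Subgroup.coe_mul, hzs, hzs, hzs]
      have c1 := h.M_comm hm hm'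
      calc m * m * (m' * m') = m * (m * m') * m' := by group
        _ = m * (m' * m) * m' := by rw [c1]
        _ = m * m' * (m * m') := by group
    have e2 : zc (m * m') (M.mul_mem hm hm') y = zc m hm y * zc m' hm' y := by
      apply Subtype.ext
      rw [Subgroup.coe_mul, hzc, hzc, hzc]
      exact h.cm_mul_left hm m' y
    rw [← hadd, e1, hDfun, hDfun, hDfun, e2, hadd]
  obtain ⟨D, hD⟩ : ∃ D : P → (F →+ F), ∀ y m hm, D y (c (zs m hm)) = c (zc m hm y) :=
    ⟨fun y => AddMonoidHom.mk' (Dfun y) (hDadd y), fun y m hm => hDfun y m hm⟩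
  have hDmul : ∀ y y', D (y * y') = D y + D y' := by
    intro y y'
    ext u
    obtain ⟨m, hm, rfl⟩ := hsurj u
    rw [AddMonoidHom.add_apply, hD, hD, hD, ← hadd]
    congr 1
    apply Subtype.ext
    rw [Subgroup.coe_mul, hzc, hzc, hzc]
    exact h.cm_mul_right hm y y'
  have hDzero : ∀ y, D y = 0 ↔ y ∈ M := by
    intro y
    constructor
    · intro hy
      apply h.C_le_M hC4
      rw [h.mem_C]
      intro m hm
      have h0 : c (zc m hm y) = 0 := by rw [← hD, hy]; rfl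
      have h1 := hc0 _ h0
      have h1' : cm m y = 1 := by rw [← hzc m hm y, h1]; rfl
      exact (cm_eq_one_iff m y).mp h1'
    · intro hy
      ext u
      obtain ⟨m, hm, rfl⟩ := hsurj u
      rw [hD]
      have h1 : cm m y = 1 := (cm_eq_one_iff m y).mpr (h.M_comm hm hy)
      have : zc m hm y = 1 := Subtype.ext ((hzc m hm y).trans h1)
      rw [this, hc1]; rfl
  have hD1 : D 1 = 0 := (hDzero 1).mpr M.one_mem
  have hDinv : ∀ y, D y⁻¹ = - D y := by
    intro y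
    have := hDmul y y⁻¹
    rw [mul_inv_cancel, hD1] at this
    exact (neg_eq_of_add_eq_zero_right this.symm).symm
  -- involution exists, lam ≠ 0
  obtain ⟨x₁, x₂, hx12, hx1, hx1', hx2, hx2'⟩ := h.two
  have hlam0 : lam ≠ 0 := by
    intro hl
    have hv := hlam ⟨x₁, h.invol_central _ hx1'⟩
    rw [hl, zero_mul] at hv
    have := congrArg Subtype.val (hc0 _ hv)
    simp at this
    exact hx1 this
  have hlam_pow : ∀ (i : ℕ) (v : ↥(Subgroup.center P)),
      c ⟨φ (ξ ^ i) v, Cfsg.Agent.S1137.aut_center (φ (ξ ^ i)) v.2⟩ = lam ^ i * c v := by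
    intro i
    induction i with
    | zero =>
      intro v
      have : (⟨φ (ξ ^ 0) v, Cfsg.Agent.S1137.aut_center (φ (ξ ^ 0)) v.2⟩ : ↥(Subgroup.center P)) = v := by
        apply Subtype.ext; simp
      rw [this, pow_zero, one_mul]
    | succ i ih =>
      intro v
      have : (⟨φ (ξ ^ (i + 1)) v, Cfsg.Agent.S1137.aut_center (φ (ξ ^ (i + 1))) v.2⟩ :
          ↥(Subgroup.center P)) =
          ⟨φ (ξ ^ i) (⟨φ ξ v, Cfsg.Agent.S1137.aut_center (φ ξ) v.2⟩ : ↥(Subgroup.center P)),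
            Cfsg.Agent.S1137.aut_center (φ (ξ ^ i)) (Cfsg.Agent.S1137.aut_center (φ ξ) v.2)⟩ := by
        apply Subtype.ext
        simp [pow_succ, map_mul]
      rw [this, ih, hlam, pow_succ, mul_assoc]
  have hDmap : ∀ (i : ℕ) (y : P), D (φ (ξ ^ i) y) = conjHom (lam ^ i) (D y) := by
    intro i y
    ext u
    rw [conjHom_apply]
    obtain ⟨m, hm, hmu⟩ := hsurj ((lam ^ i)⁻¹ * u)
    have hm₂ : φ (ξ ^ i) m ∈ M := h.M_inv _ m hm
    have e1 : zs (φ (ξ ^ i) m) hm₂ =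
        ⟨φ (ξ ^ i) (zs m hm), Cfsg.Agent.S1137.aut_center (φ (ξ ^ i)) (zs m hm).2⟩ := by
      apply Subtype.ext
      rw [hzs]
      show _ = φ (ξ ^ i) ((zs m hm : ↥(Subgroup.center P)) : P)
      rw [hzs, map_mul]
    have e2 : c (zs (φ (ξ ^ i) m) hm₂) = u := by
      rw [e1, hlam_pow, hmu, ← mul_assoc, mul_inv_cancel₀ (pow_ne_zero i hlam0), one_mul]
    have e3 : zc (φ (ξ ^ i) m) hm₂ (φ (ξ ^ i) y) =
        ⟨φ (ξ ^ i) (zc m hm y), Cfsg.Agent.S1137.aut_center (φ (ξ ^ i)) (zc m hm y).2⟩ := by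
      apply Subtype.ext
      rw [hzc]
      show _ = φ (ξ ^ i) ((zc m hm y : ↥(Subgroup.center P)) : P)
      rw [hzc, cm_map]
    rw [← e2, hD, e3, hlam_pow, ← hD, e2, hmu]
  -- the additive subgroup
  let DD : AddSubgroup (F →+ F) :=
    { carrier := Set.range D
      zero_mem' := ⟨1, hD1⟩
      add_mem' := by
        rintro _ _ ⟨y, rfl⟩ ⟨y', rfl⟩
        exact ⟨y * y', hDmul y y'⟩
      neg_mem' := by
        rintro _ ⟨y, rfl⟩
        exact ⟨y⁻¹, hDinv y⟩ }
  have hDD : ∀ E : F →+ F, E ∈ DD ↔ ∃ y, D y = E := fun E => Iff.rfl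
  have hstab : ∀ E ∈ DD, ∀ μ : F, μ ≠ 0 → conjHom μ E ∈ DD := by
    rintro _ ⟨y, rfl⟩ μ hμ
    obtain ⟨i, rfl⟩ := hgen μ hμ
    exact ⟨φ (ξ ^ i) y, hDmap i y⟩
  have hfree : ∀ E ∈ DD, E ≠ 0 → ∀ μ : F, μ ≠ 0 → conjHom μ E = E → μ = 1 := by
    rintro _ ⟨y, rfl⟩ hE μ hμ hfix
    obtain ⟨i, rfl⟩ := hgen μ hμ
    by_contra hne
    have hk : ξ ^ i ≠ 1 := by
      intro hk
      apply hne
      have hv := hlam_pow i ⟨x₁, h.invol_central _ hx1'⟩
      have e : (⟨φ (ξ ^ i) x₁, Cfsg.Agent.S1137.aut_center (φ (ξ ^ i)) (h.invol_central _ hx1')⟩ :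
          ↥(Subgroup.center P)) = ⟨x₁, h.invol_central _ hx1'⟩ := by
        apply Subtype.ext; simp [hk]
      rw [e] at hv
      have hne0 : c ⟨x₁, h.invol_central _ hx1'⟩ ≠ 0 := by
        intro h0
        have := congrArg Subtype.val (hc0 _ h0)
        exact hx1 this
      have : (1 : F) * c ⟨x₁, h.invol_central _ hx1'⟩ = lam ^ i * c ⟨x₁, h.invol_central _ hx1'⟩ := by
        rw [one_mul]; exact hv
      exact (mul_right_cancel₀ hne0 this).symm
    have hyM : y ∉ M := fun hy => hE ((hDzero y).mpr hy)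
    have h0 : D (y⁻¹ * φ (ξ ^ i) y) = 0 := by
      rw [hDmul, hDinv, hDmap, hfix, neg_add_cancel]
    exact hyM (h.mem_of_fixed_coset (ξ ^ i) hk y ((hDzero _).mp h0))
  have mono := mono_gen lam hgen DD hstab hfree
  -- the generating set
  let S : Set P := {y | ∃ (a : F) (σ : F ≃+* F), ∀ x, D y x = a * σ x}
  have hMS : ∀ y ∈ M, y ∈ S := by
    intro y hy
    refine ⟨0, RingEquiv.refl F, fun x => ?_⟩
    rw [(hDzero y).mpr hy, zero_mul]; rfl
  have hane : ∀ y, y ∉ M → ∀ (a : F) (σ : F ≃+* F), (∀ x, D y x = a * σ x) → a ≠ 0 := by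
    intro y hy a σ hyσ ha
    apply hy
    rw [← hDzero]
    ext x
    rw [hyσ, ha, zero_mul]; rfl
  have hfixσ : ∀ y, y ∉ M → ∀ (a : F) (σ : F ≃+* F), (∀ x, D y x = a * σ x) →
      ∀ μ : F, σ μ = μ → μ = 0 ∨ μ = 1 := by
    intro y hy a σ hyσ μ hμ
    by_cases h0 : μ = 0
    · exact Or.inl h0
    right
    refine hfree (D y) ⟨y, rfl⟩ (fun hz => hy ((hDzero y).mp hz)) μ h0 ?_
    ext x
    rw [conjHom_apply, hyσ, hyσ, map_mul, map_inv₀, hμ]
    field_simp
  refine ⟨S, ?_, ?_, ?_, ?_⟩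
  · -- generation
    have key : ∀ E ∈ AddSubgroup.closure
        {E : F →+ F | E ∈ DD ∧ ∃ (a : F) (σ : F ≃+* F), ∀ x, E x = a * σ x},
        ∀ y, D y = E → y ∈ Subgroup.closure S := by
      intro E hE
      refine AddSubgroup.closure_induction
        (p := fun E _ => ∀ y, D y = E → y ∈ Subgroup.closure S) ?_ ?_ ?_ ?_ hE
      · rintro E ⟨-, a, σ, hEσ⟩ y hy
        exact Subgroup.subset_closure ⟨a, σ, fun x => by rw [hy]; exact hEσ x⟩
      · intro y hy
        exact Subgroup.subset_closure (hMS y ((hDzero y).mp hy))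
      · intro E₁ E₂ hE₁ hE₂ ih₁ ih₂ y hy
        have hle : AddSubgroup.closure
            {E : F →+ F | E ∈ DD ∧ ∃ (a : F) (σ : F ≃+* F), ∀ x, E x = a * σ x} ≤ DD :=
          (AddSubgroup.closure_le DD).mpr (fun E hE => hE.1)
        obtain ⟨y₁, hy₁⟩ := hle hE₁
        obtain ⟨y₂, hy₂⟩ := hle hE₂
        have h0 : D (y * (y₁ * y₂)⁻¹) = 0 := by
          rw [hDmul, hDinv, hDmul, hy, hy₁, hy₂, add_neg_cancel]
        have hm := Subgroup.subset_closure (hMS _ ((hDzero _).mp h0))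
        have : y = (y * (y₁ * y₂)⁻¹) * (y₁ * y₂) := by group
        rw [this]
        exact Subgroup.mul_mem _ hm (Subgroup.mul_mem _ (ih₁ y₁ hy₁) (ih₂ y₂ hy₂))
      · intro E hE ih y hy
        have : D y⁻¹ = E := by rw [hDinv, hy, neg_neg]
        have := ih y⁻¹ this
        simpa using Subgroup.inv_mem _ this
    rw [eq_top_iff]
    intro y _
    exact key (D y) (mono (D y) ⟨y, rfl⟩) y rfl
  · -- p1
    rintro y ⟨a, σ, hyσ⟩ hyM m hm hcomm
    have ha := hane y hyM a σ hyσ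
    have h1 : cm m y = 1 := (cm_eq_one_iff m y).mpr hcomm
    have hz : zc m hm y = 1 := Subtype.ext ((hzc m hm y).trans h1)
    have h0 : D y (c (zs m hm)) = 0 := by rw [hD, hz, hc1]
    rw [hyσ] at h0
    have h0' : σ (c (zs m hm)) = 0 := (mul_eq_zero.mp h0).resolve_left ha
    have h0'' : c (zs m hm) = 0 := by
      have := congrArg σ.symm h0'
      simpa using this
    have := congrArg Subtype.val (hc0 _ h0'')
    rw [hzs] at this
    exact this
  · -- p2
    rintro y ⟨a, σ, hyσ⟩ hyM m₁ hm₁ m₂ hm₂ hf₁ hf₂ hn₁ hn₂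
    have ha := hane y hyM a σ hyσ
    have hu : ∀ m (hm : m ∈ M), m⁻¹ * y⁻¹ * m * y = m * m → a * σ (c (zs m hm)) = c (zs m hm) := by
      intro m hm hf
      rw [← hyσ, hD]
      congr 1
      apply Subtype.ext
      rw [hzc, hzs]
      exact hf
    have hne : ∀ m (hm : m ∈ M), m * m ≠ 1 → c (zs m hm) ≠ 0 := by
      intro m hm hn h0
      have := congrArg Subtype.val (hc0 _ h0)
      rw [hzs] at this
      exact hn this
    have hu₁ := hu m₁ hm₁ hf₁
    have hu₂ := hu m₂ hm₂ hf₂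
    have hne₁ := hne m₁ hm₁ hn₁
    have hne₂ := hne m₂ hm₂ hn₂
    have hσ₁ : σ (c (zs m₁ hm₁)) = c (zs m₁ hm₁) / a := by
      rw [eq_div_iff ha, mul_comm]; exact hu₁
    have hσ₂ : σ (c (zs m₂ hm₂)) = c (zs m₂ hm₂) / a := by
      rw [eq_div_iff ha, mul_comm]; exact hu₂
    have hq : σ (c (zs m₁ hm₁) / c (zs m₂ hm₂)) = c (zs m₁ hm₁) / c (zs m₂ hm₂) := by
      rw [map_div₀, hσ₁, hσ₂]
      field_simp
    rcases hfixσ y hyM a σ hyσ _ hq with h0 | h1
    · exact absurd ((div_eq_zero_iff.mp h0).resolve_right hne₂) hne₁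
    · have he : c (zs m₁ hm₁) = c (zs m₂ hm₂) := (div_eq_one_iff_eq hne₂).mp h1
      have := congrArg Subtype.val (hcb.1 he)
      rw [hzs, hzs] at this
      exact this
  · -- p3
    rintro y ⟨a, σ, hyσ⟩ hyM
    have ha := hane y hyM a σ hyσ
    obtain ⟨k, hk⟩ := h.trans x₁ x₂ hx1 hx1' hx2 hx2'
    have hk1 : k ≠ 1 := by
      intro h1
      rw [h1, map_one] at hk
      exact hx12 hk
    obtain ⟨i, rfl⟩ := hξ k
    have hμ0 : lam ^ i ≠ 0 := pow_ne_zero i hlam0
    have hσμ0 : σ (lam ^ i) ≠ 0 := by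
      intro h0
      apply hμ0
      have := congrArg σ.symm h0
      simpa using this
    have hy'σ : ∀ x, D (φ (ξ ^ i) y) x = (lam ^ i * a / σ (lam ^ i)) * σ x := by
      intro x
      rw [hDmap, conjHom_apply, hyσ, map_mul, map_inv₀]
      field_simp
    have hane' : lam ^ i * a / σ (lam ^ i) ≠ a := by
      intro he
      have : σ (lam ^ i) = lam ^ i := by
        rw [div_eq_iff hσμ0] at he
        have e' : a * σ (lam ^ i) = a * lam ^ i := by rw [← he, mul_comm]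
        exact mul_left_cancel₀ ha e'
      rcases hfixσ y hyM a σ hyσ _ this with h0 | h1
      · exact hμ0 h0
      · exact hk1 (hpow1 i h1)
    have ha' : lam ^ i * a / σ (lam ^ i) ≠ 0 := div_ne_zero (mul_ne_zero hμ0 ha) hσμ0
    have hy'M : φ (ξ ^ i) y ∉ M := by
      intro hm
      have h0 := (hDzero _).mpr hm
      have := hy'σ 1
      rw [h0, AddMonoidHom.zero_apply, map_one, mul_one] at this
      exact ha' this.symm
    have hsum : ∀ x, D (y * φ (ξ ^ i) y) x = (a + lam ^ i * a / σ (lam ^ i)) * σ x := by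
      intro x
      rw [hDmul, AddMonoidHom.add_apply, hyσ, hy'σ, add_mul]
    have hsum0 : a + lam ^ i * a / σ (lam ^ i) ≠ 0 := by
      intro h0
      apply hane'
      have : lam ^ i * a / σ (lam ^ i) = -a := by
        rw [eq_neg_iff_add_eq_zero, add_comm]; exact h0
      rw [this, CharTwo.neg_eq]
    refine ⟨φ (ξ ^ i) y, ⟨_, σ, hy'σ⟩, hy'M, ⟨_, σ, hsum⟩, ?_, ?_⟩
    · intro hm
      have h0 := (hDzero _).mpr hm
      have := hsum 1
      rw [h0, AddMonoidHom.zero_apply, map_one, mul_one] at this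
      exact hsum0 this.symm
    · intro m hm hf hf'
      have e1 : a * σ (c (zs m hm)) = c (zs m hm) := by
        rw [← hyσ, hD]
        congr 1
        apply Subtype.ext
        rw [hzc, hzs]
        exact hf
      have e2 : (lam ^ i * a / σ (lam ^ i)) * σ (c (zs m hm)) = c (zs m hm) := by
        rw [← hy'σ, hD]
        congr 1
        apply Subtype.ext
        rw [hzc, hzs]
        exact hf'
      have e3 : (a - lam ^ i * a / σ (lam ^ i)) * σ (c (zs m hm)) = 0 := by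
        rw [sub_mul, e1, e2, sub_self]
      have e4 : σ (c (zs m hm)) = 0 :=
        (mul_eq_zero.mp e3).resolve_left (sub_ne_zero.mpr (Ne.symm hane'))
      have e5 : c (zs m hm) = 0 := by
        have := congrArg σ.symm e4
        simpa using this
      have := congrArg Subtype.val (hc0 _ e5)
      rw [hzs] at this
      exact this

open scoped IsMulCommutative in
/-- Piece C1: the generating set needed by `exp4_of_gens`. -/
theorem exists_gens (hp : IsPGroup 2 P) [IsCyclic K] (h : Conf φ M C)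
    (hC4 : ∀ x ∈ C, (x * x) * (x * x) = 1) :
    ∃ S : Set P, Subgroup.closure S = ⊤ ∧
    (∀ y ∈ S, y ∉ M → ∀ m ∈ M, m * y = y * m → m * m = 1) ∧
    (∀ y ∈ S, y ∉ M → ∀ m₁ ∈ M, ∀ m₂ ∈ M, m₁⁻¹ * y⁻¹ * m₁ * y = m₁ * m₁ →
      m₂⁻¹ * y⁻¹ * m₂ * y = m₂ * m₂ → m₁ * m₁ ≠ 1 → m₂ * m₂ ≠ 1 → m₁ * m₁ = m₂ * m₂) ∧
    (∀ y ∈ S, y ∉ M → ∃ y' ∈ S, y' ∉ M ∧ y * y' ∈ S ∧ y * y' ∉ M ∧
      ∀ m ∈ M, m⁻¹ * y⁻¹ * m * y = m * m → m⁻¹ * y'⁻¹ * m * y' = m * m → m * m = 1) := by
  classical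
  obtain ⟨x₁, x₂, hx12, hx1, hx1', hx2, hx2'⟩ := h.two
  have hinj : Function.Injective (fun k : K => φ k x₁) := by
    intro a b hab
    have hab' : φ a x₁ = φ b x₁ := hab
    have hfix : φ (a⁻¹ * b) x₁ = x₁ := by
      rw [map_mul, MulAut.mul_apply, ← hab', ← MulAut.mul_apply, ← map_mul, inv_mul_cancel, map_one]
      rfl
    have := h.free _ x₁ hx1 hfix
    exact (inv_mul_eq_one.mp this)
  haveI : Finite K := Finite.of_injective _ hinj
  obtain ⟨ξ, hξ⟩ := IsCyclic.exists_generator (α := K)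
  have hξpow : ∀ k : K, ∃ i : ℕ, k = ξ ^ i := by
    intro k
    have h3 : k ∈ Submonoid.powers ξ :=
      (isOfFinOrder_of_finite ξ).mem_powers_iff_mem_zpowers.mpr (hξ k)
    obtain ⟨i, hi⟩ := h3
    exact ⟨i, hi.symm⟩
  let f : ↥(Subgroup.center P) →* ↥(Subgroup.center P) :=
    { toFun := fun v => ⟨φ ξ v, Cfsg.Agent.S1137.aut_center (φ ξ) v.2⟩
      map_one' := by apply Subtype.ext; simp
      map_mul' := by intro a b; apply Subtype.ext; simp }
  have hf : ∀ v : ↥(Subgroup.center P), ((f v : ↥(Subgroup.center P)) : P) = φ ξ v := fun _ => rfl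
  have hfiter : ∀ (i : ℕ) (v : ↥(Subgroup.center P)),
      ((f^[i] v : ↥(Subgroup.center P)) : P) = φ (ξ ^ i) v := by
    intro i
    induction i with
    | zero => intro v; simp
    | succ i ih =>
      intro v
      rw [Function.iterate_succ_apply, ih, hf, pow_succ, map_mul]
      rfl
  obtain ⟨v₀, hv₀val⟩ : ∃ v₀ : ↥(Subgroup.center P), (v₀ : P) = x₁ :=
    ⟨⟨x₁, h.invol_central _ hx1'⟩, rfl⟩
  have hv₀ : v₀ ≠ 1 := by
    intro h0
    apply hx1
    rw [← hv₀val, h0]; rfl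
  have htrans : ∀ v v' : ↥(Subgroup.center P), v ≠ 1 → v' ≠ 1 → ∃ i : ℕ, f^[i] v = v' := by
    intro v v' hv hv'
    obtain ⟨k, hk⟩ := h.trans v v' (fun h0 => hv (Subtype.ext h0)) (h.center_sq v v.2)
      (fun h0 => hv' (Subtype.ext h0)) (h.center_sq v' v'.2)
    obtain ⟨i, rfl⟩ := hξpow k
    exact ⟨i, Subtype.ext ((hfiter i v).trans hk)⟩
  obtain ⟨F, instF, instFt, c, lam, hcb, hadd, hcv₀, hclam⟩ :=
    Cfsg.Agent.Lib.Helper60.singer_group f v₀ hv₀ htrans
  letI := instF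
  letI := instFt
  have hc1 : c 1 = 0 := by
    have := hadd 1 1
    rw [mul_one] at this
    exact left_eq_add.mp this
  have h2 : (2 : F) = 0 := by
    have := hadd v₀ v₀
    have hv₀sq : v₀ * v₀ = 1 := by
      apply Subtype.ext
      rw [Subgroup.coe_mul, hv₀val]; exact hx1'
    rw [hv₀sq, hc1, hcv₀] at this
    rw [← one_add_one_eq_two]; exact this.symm
  have hchar : CharP F 2 := CharTwo.of_one_ne_zero_of_two_eq_zero one_ne_zero h2
  have hcpow : ∀ i : ℕ, c (f^[i] v₀) = lam ^ i := by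
    intro i
    induction i with
    | zero => simp [hcv₀]
    | succ i ih => rw [Function.iterate_succ_apply', hclam, ih, pow_succ, mul_comm]
  have hgen : ∀ u : F, u ≠ 0 → ∃ i : ℕ, u = lam ^ i := by
    intro u hu
    obtain ⟨v, rfl⟩ := hcb.2 u
    have hv : v ≠ 1 := by rintro rfl; exact hu hc1
    obtain ⟨i, hi⟩ := htrans v₀ v hv₀ hv
    exact ⟨i, by rw [← hi, hcpow]⟩
  have hpow1 : ∀ i : ℕ, lam ^ i = 1 → ξ ^ i = 1 := by
    intro i hi
    have e : c (f^[i] v₀) = c v₀ := by rw [hcpow, hi, hcv₀]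
    have e' := congrArg Subtype.val (hcb.1 e)
    rw [hfiter, hv₀val] at e'
    exact h.free _ x₁ hx1 e'
  exact gens_of_field h hC4 c lam ξ hcb hadd (fun v => hclam v) hgen hξpow hpow1

end main

end Cfsg.Agent.Lib.Helper55.Sz2
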