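import Mathlib

set_option linter.style.haveILetI false

/-! Project SZ2 (S1138), piece E (posted by helper55, filled by helper4).

A finite group `P` of exponent dividing 4 in which every element of square 1 is central has
`|P| ≤ |Z|^3`, where `Z = {x | x * x = 1}`.  (Chevalley-Warning; Mathlib only.)

PROOF.  `Z` is a central subgroup of exponent 2.  `Q := P ⧸ Z` has exponent 2 (`h4`), so it is
elementary abelian.  Squaring induces `s : Q → Z`, `s (x Z) = x * x` (well defined:
`(x*z)*(x*z) = x*x` for `z ∈ Z`), with `s q = 1 → q = 1`, and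
`s (q * q') = s q * s q' * b q q'` where `b` (the commutator) is biadditive `Q × Q → Z`.
View `Q`, `Z` as vector spaces over `ZMod 2` of dimensions `d`, `n`.  The coordinates of
`s (∑ x_i e_i)` are polynomials of total degree ≤ 2 in `d` variables.  If `d > 2 * n`,
`char_dvd_card_solutions_of_sum_lt` (Mathlib, Chevalley-Warning) gives that 2 divides the number
of common zeros; but the only common zero is `x = 0` (as `s q = 1 → q = 1`).
So `d ≤ 2 * n`, and `|P| = |Z| * 2^d ≤ |Z| * |Z|^2`. -/

set_option autoImplicit false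

namespace Cfsg.Agent.Lib.Helper55.Sz2

open MvPolynomial

/-- an additive function on `Fin d → ZMod 2` is a linear form -/
private theorem sz2e_lin (d : ℕ) (L : (Fin d → ZMod 2) → ZMod 2)
    (hadd : ∀ x y, L (x + y) = L x + L y) :
    ∀ x, L x = ∑ i, x i * L (Pi.single i 1) := by
  intro x
  have h0 : L 0 = 0 := by
    have h := hadd 0 0
    rw [add_zero] at h
    linear_combination (-1 : ZMod 2) * h
  obtain ⟨Lh, hLh⟩ : ∃ Lh : (Fin d → ZMod 2) →+ ZMod 2, ∀ y, Lh y = L y :=
    ⟨⟨⟨L, h0⟩, hadd⟩, fun y => rfl⟩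
  have hx : x = ∑ i, Pi.single i (x i) := (Finset.univ_sum_single x).symm
  have hcases : ∀ c : ZMod 2, c = 0 ∨ c = 1 := by decide
  calc L x = Lh (∑ i, Pi.single i (x i)) := by rw [hLh, ← hx]
    _ = ∑ i, Lh (Pi.single i (x i)) := map_sum Lh _ _
    _ = ∑ i, x i * L (Pi.single i 1) := by
      refine Finset.sum_congr rfl fun i _ => ?_
      rw [hLh]
      rcases hcases (x i) with h | h
      · rw [h, Pi.single_zero, h0, zero_mul]
      · rw [h, one_mul]

/-- a quadratic map `Fin d → ZMod 2` to `ZMod 2` is a polynomial of degree at most two -/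
private theorem sz2e_quad : ∀ (d : ℕ) (F : (Fin d → ZMod 2) → ZMod 2)
    (β : (Fin d → ZMod 2) → (Fin d → ZMod 2) → ZMod 2), F 0 = 0 →
    (∀ x y, F (x + y) = F x + F y + β x y) → (∀ x y z, β x (y + z) = β x y + β x z) →
    ∃ f : MvPolynomial (Fin d) (ZMod 2), f.totalDegree ≤ 2 ∧ ∀ x, MvPolynomial.eval x f = F x
  | 0, F, β, h0, _, _ => ⟨0, by simp, fun x => by rw [Subsingleton.elim x 0, h0]; simp⟩
  | d + 1, F, β, h0, hF, hβ => by
    have hcases : ∀ c : ZMod 2, c = 0 ∨ c = 1 := by decide
    have hcons0 : (Fin.cons 0 0 : Fin (d + 1) → ZMod 2) = 0 := by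
      funext i
      refine Fin.cases ?_ (fun k => ?_) i <;> simp
    have hconsadd : ∀ y y' : Fin d → ZMod 2,
        (Fin.cons 0 (y + y') : Fin (d + 1) → ZMod 2) = Fin.cons 0 y + Fin.cons 0 y' := by
      intro y y'
      funext i
      refine Fin.cases ?_ (fun k => ?_) i <;> simp
    have hβ0 : ∀ w, β 0 w = 0 := by
      intro w
      have h := hF 0 w
      rw [zero_add, h0, zero_add] at h
      linear_combination (-1 : ZMod 2) * h
    obtain ⟨f', hf'deg, hf'⟩ := sz2e_quad d (fun y => F (Fin.cons 0 y))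
      (fun y y' => β (Fin.cons 0 y) (Fin.cons 0 y'))
      (by show F (Fin.cons 0 0) = 0; rw [hcons0, h0])
      (by
        intro y y'
        show F (Fin.cons 0 (y + y')) = F (Fin.cons 0 y) + F (Fin.cons 0 y') +
          β (Fin.cons 0 y) (Fin.cons 0 y')
        rw [hconsadd, hF])
      (by
        intro y y' y''
        show β (Fin.cons 0 y) (Fin.cons 0 (y' + y'')) =
          β (Fin.cons 0 y) (Fin.cons 0 y') + β (Fin.cons 0 y) (Fin.cons 0 y'')
        rw [hconsadd, hβ])
    have hL := sz2e_lin d (fun y => β (Pi.single 0 1) (Fin.cons 0 y)) (by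
      intro y y'
      show β (Pi.single 0 1) (Fin.cons 0 (y + y')) =
        β (Pi.single 0 1) (Fin.cons 0 y) + β (Pi.single 0 1) (Fin.cons 0 y')
      rw [hconsadd, hβ])
    refine ⟨C (F (Pi.single 0 1)) * X 0 + rename Fin.succ f' +
      X 0 * ∑ i : Fin d, C (β (Pi.single 0 1) (Fin.cons 0 (Pi.single i 1))) * X (Fin.succ i),
      ?_, ?_⟩
    · refine (totalDegree_add _ _).trans (max_le ((totalDegree_add _ _).trans (max_le ?_ ?_)) ?_)
      · refine (totalDegree_mul _ _).trans ?_
        rw [totalDegree_C, totalDegree_X]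
        norm_num
      · exact (totalDegree_rename_le _ _).trans hf'deg
      · refine (totalDegree_mul _ _).trans ?_
        rw [totalDegree_X]
        have h1 : (∑ i : Fin d, C (β (Pi.single 0 1) (Fin.cons 0 (Pi.single i 1))) *
            X (Fin.succ i) : MvPolynomial (Fin (d + 1)) (ZMod 2)).totalDegree ≤ 1 := by
          refine totalDegree_finsetSum_le fun i _ => ?_
          refine (totalDegree_mul _ _).trans ?_
          rw [totalDegree_C, totalDegree_X]
        omega
    · intro x
      have hx : x = Pi.single 0 (x 0) + Fin.cons 0 (x ∘ Fin.succ) := by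
        funext i
        refine Fin.cases ?_ (fun k => ?_) i <;> simp
      have hFx : F x = F (Pi.single 0 (x 0)) + F (Fin.cons 0 (x ∘ Fin.succ)) +
          β (Pi.single 0 (x 0)) (Fin.cons 0 (x ∘ Fin.succ)) := by
        conv_lhs => rw [hx]
        exact hF _ _
      have hev : MvPolynomial.eval x (C (F (Pi.single 0 1)) * X 0 + rename Fin.succ f' +
          X 0 * ∑ i : Fin d, C (β (Pi.single 0 1) (Fin.cons 0 (Pi.single i 1))) * X (Fin.succ i))
          = F (Pi.single 0 1) * x 0 + F (Fin.cons 0 (x ∘ Fin.succ)) +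
            x 0 * ∑ i : Fin d, β (Pi.single 0 1) (Fin.cons 0 (Pi.single i 1)) * x (Fin.succ i) := by
        simp only [map_add, map_mul, eval_C, eval_X, eval_rename, map_sum]
        rw [hf']
      have hLx := hL (x ∘ Fin.succ)
      have hLx' : β (Pi.single 0 1) (Fin.cons 0 (x ∘ Fin.succ)) =
          ∑ i : Fin d, β (Pi.single 0 1) (Fin.cons 0 (Pi.single i 1)) * x (Fin.succ i) := by
        rw [show β (Pi.single 0 1) (Fin.cons 0 (x ∘ Fin.succ)) =
          ∑ i, (x ∘ Fin.succ) i * β (Pi.single 0 1) (Fin.cons 0 (Pi.single i 1)) from hLx]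
        refine Finset.sum_congr rfl fun i _ => ?_
        rw [mul_comm]
        rfl
      rw [hev, hFx, ← hLx']
      rcases hcases (x 0) with h | h
      · rw [h, Pi.single_zero, h0, hβ0]
        ring
      · rw [h]
        ring

/-- an anisotropic quadratic map between finite vector spaces over `ZMod 2` -/
private theorem sz2e_lin_core {V W : Type*} [AddCommGroup V] [Module (ZMod 2) V] [Finite V]
    [AddCommGroup W] [Module (ZMod 2) W] [Finite W] (S : V → W) (B : V → V → W)
    (hS0 : S 0 = 0) (hS : ∀ u v, S (u + v) = S u + S v + B u v)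
    (hB : ∀ u v v', B u (v + v') = B u v + B u v') (hani : ∀ v, S v = 0 → v = 0) :
    Module.finrank (ZMod 2) V ≤ 2 * Module.finrank (ZMod 2) W := by
  classical
  by_contra hlt
  push Not at hlt
  obtain ⟨bV, -⟩ : ∃ bV : Module.Basis (Fin (Module.finrank (ZMod 2) V)) (ZMod 2) V, True :=
    ⟨Module.finBasis (ZMod 2) V, trivial⟩
  obtain ⟨bW, -⟩ : ∃ bW : Module.Basis (Fin (Module.finrank (ZMod 2) W)) (ZMod 2) W, True :=
    ⟨Module.finBasis (ZMod 2) W, trivial⟩
  have hpoly : ∀ j : Fin (Module.finrank (ZMod 2) W),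
      ∃ f : MvPolynomial (Fin (Module.finrank (ZMod 2) V)) (ZMod 2), f.totalDegree ≤ 2 ∧
        ∀ x, MvPolynomial.eval x f = bW.repr (S (bV.equivFun.symm x)) j := by
    intro j
    refine sz2e_quad _ (fun x => bW.repr (S (bV.equivFun.symm x)) j)
      (fun x y => bW.repr (B (bV.equivFun.symm x) (bV.equivFun.symm y)) j) ?_ ?_ ?_
    · show bW.repr (S (bV.equivFun.symm 0)) j = 0
      rw [map_zero, hS0, map_zero]
      rfl
    · intro x y
      show bW.repr (S (bV.equivFun.symm (x + y))) j = bW.repr (S (bV.equivFun.symm x)) j +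
        bW.repr (S (bV.equivFun.symm y)) j +
        bW.repr (B (bV.equivFun.symm x) (bV.equivFun.symm y)) j
      rw [map_add, hS, map_add, map_add]
      rfl
    · intro x y z
      show bW.repr (B (bV.equivFun.symm x) (bV.equivFun.symm (y + z))) j =
        bW.repr (B (bV.equivFun.symm x) (bV.equivFun.symm y)) j +
        bW.repr (B (bV.equivFun.symm x) (bV.equivFun.symm z)) j
      rw [map_add, hB, map_add]
      rfl
  choose f hfdeg hfeval using hpoly
  have hsum : ∑ i ∈ (Finset.univ : Finset (Fin (Module.finrank (ZMod 2) W))),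
      (f i).totalDegree < Fintype.card (Fin (Module.finrank (ZMod 2) V)) := by
    calc ∑ i ∈ (Finset.univ : Finset (Fin (Module.finrank (ZMod 2) W))), (f i).totalDegree
        ≤ ∑ _i ∈ (Finset.univ : Finset (Fin (Module.finrank (ZMod 2) W))), 2 :=
          Finset.sum_le_sum fun i _ => hfdeg i
      _ = 2 * Module.finrank (ZMod 2) W := by
          rw [Finset.sum_const, Finset.card_univ, Fintype.card_fin, smul_eq_mul, mul_comm]
      _ < Fintype.card (Fin (Module.finrank (ZMod 2) V)) := by rw [Fintype.card_fin]; exact hlt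
  have hCW := char_dvd_card_solutions_of_sum_lt (K := ZMod 2) 2 hsum
  have hcard : ∀ inst : Fintype { x : Fin (Module.finrank (ZMod 2) V) → ZMod 2 //
      ∀ i ∈ (Finset.univ : Finset (Fin (Module.finrank (ZMod 2) W))),
        MvPolynomial.eval x (f i) = 0 }, @Fintype.card _ inst = 1 := by
    intro inst
    rw [Fintype.card_eq_one_iff]
    refine ⟨⟨0, fun i _ => ?_⟩, ?_⟩
    · rw [hfeval, map_zero, hS0, map_zero]
      rfl
    · rintro ⟨x, hx⟩
      apply Subtype.ext
      show x = 0
      have h1 : S (bV.equivFun.symm x) = 0 := by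
        apply bW.repr.injective
        ext j
        rw [← hfeval, hx j (Finset.mem_univ j)]
        simp
      have h2 := hani _ h1
      exact bV.equivFun.symm.injective (h2.trans (map_zero _).symm)
  rw [hcard] at hCW
  exact absurd hCW (by norm_num)

/-- the multiplicative form: an anisotropic quadratic map between finite groups of exponent 2 -/
private theorem sz2e_core {A C : Type*} [Group A] [Group C] [Finite A] [Finite C]
    (hA : ∀ a : A, a * a = 1) (hC : ∀ c : C, c * c = 1) (s : A → C) (b : A → A → C)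
    (hs1 : s 1 = 1) (hs : ∀ a a', s (a * a') = s a * s a' * b a a')
    (hb : ∀ a a' a'', b a (a' * a'') = b a a' * b a a'') (hani : ∀ a, s a = 1 → a = 1) :
    Nat.card A ≤ Nat.card C ^ 2 := by
  have hcommA : ∀ a a' : A, a * a' = a' * a := by
    intro a a'
    have hinv : ∀ a : A, a⁻¹ = a := fun a => inv_eq_of_mul_eq_one_left (hA a)
    calc a * a' = (a * a')⁻¹ := (hinv _).symm
      _ = a'⁻¹ * a⁻¹ := mul_inv_rev a a'
      _ = a' * a := by rw [hinv, hinv]
  have hcommC : ∀ c c' : C, c * c' = c' * c := by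
    intro c c'
    have hinv : ∀ c : C, c⁻¹ = c := fun c => inv_eq_of_mul_eq_one_left (hC c)
    calc c * c' = (c * c')⁻¹ := (hinv _).symm
      _ = c'⁻¹ * c⁻¹ := mul_inv_rev c c'
      _ = c' * c := by rw [hinv, hinv]
  letI : CommGroup A := { (inferInstance : Group A) with mul_comm := hcommA }
  letI : CommGroup C := { (inferInstance : Group C) with mul_comm := hcommC }
  have hA2 : ∀ x : Additive A, 2 • x = 0 := fun x =>
    congrArg Additive.ofMul ((pow_two x.toMul).trans (hA x.toMul))
  have hC2 : ∀ x : Additive C, 2 • x = 0 := fun x =>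
    congrArg Additive.ofMul ((pow_two x.toMul).trans (hC x.toMul))
  letI : Module (ZMod 2) (Additive A) := AddCommGroup.zmodModule (n := 2) hA2
  letI : Module (ZMod 2) (Additive C) := AddCommGroup.zmodModule (n := 2) hC2
  have hrank := sz2e_lin_core (V := Additive A) (W := Additive C)
    (fun v => Additive.ofMul (s v.toMul))
    (fun u v => Additive.ofMul (b u.toMul v.toMul))
    (congrArg Additive.ofMul hs1)
    (fun u v => congrArg Additive.ofMul (hs u.toMul v.toMul))
    (fun u v v' => congrArg Additive.ofMul (hb u.toMul v.toMul v'.toMul))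
    (fun v hv => congrArg Additive.ofMul (hani v.toMul (congrArg Additive.toMul hv)))
  have hcA : Nat.card A = 2 ^ Module.finrank (ZMod 2) (Additive A) := by
    rw [← Nat.card_congr (Additive.toMul (α := A)), Module.natCard_eq_pow_finrank (K := ZMod 2)]
    simp
  have hcC : Nat.card C = 2 ^ Module.finrank (ZMod 2) (Additive C) := by
    rw [← Nat.card_congr (Additive.toMul (α := C)), Module.natCard_eq_pow_finrank (K := ZMod 2)]
    simp
  rw [hcA, hcC, ← pow_mul]
  exact Nat.pow_le_pow_right (by norm_num) (by rw [mul_comm]; exact hrank)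

/-- products of central elements are central -/
private theorem sz2e_cen_mul {P : Type*} [Group P] (a b : P) (ha : ∀ g : P, g * a = a * g)
    (hb : ∀ g : P, g * b = b * g) : ∀ g : P, g * (a * b) = (a * b) * g := by
  intro g
  rw [← mul_assoc, ha g, mul_assoc, hb g, mul_assoc]

/-- commutators are central when squares are -/
private theorem sz2e_ucen {P : Type*} [Group P] (hsqc : ∀ x g : P, g * (x * x) = (x * x) * g)
    (x y : P) : ∀ g : P, g * (y⁻¹ * x⁻¹ * y * x) = (y⁻¹ * x⁻¹ * y * x) * g := by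
  have e : y⁻¹ * x⁻¹ * y * x = (y⁻¹ * y⁻¹) * ((y * x⁻¹) * (y * x⁻¹)) * (x * x) := by group
  rw [e]
  exact sz2e_cen_mul _ _ (sz2e_cen_mul _ _ (hsqc y⁻¹) (hsqc (y * x⁻¹))) (hsqc x)

private theorem sz2e_key1 {P : Type*} [Group P] (hsqc : ∀ x g : P, g * (x * x) = (x * x) * g)
    (h4 : ∀ x : P, (x * x) * (x * x) = 1) (x y : P) :
    (x * y) * (x * y) * (x * x) * (y * y) = y⁻¹ * x⁻¹ * y * x := by
  have hu := sz2e_ucen hsqc x y
  have e1 : (x * y) * (x * y) = (x * x) * (y * y) * (y⁻¹ * (y⁻¹ * x⁻¹ * y * x) * y) := by group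
  obtain ⟨u, hudef⟩ : ∃ u : P, u = y⁻¹ * x⁻¹ * y * x := ⟨_, rfl⟩
  rw [← hudef] at hu e1 ⊢
  have e2 : y⁻¹ * u * y = u := by
    calc y⁻¹ * u * y = y⁻¹ * (u * y) := mul_assoc _ _ _
      _ = y⁻¹ * (y * u) := by rw [hu y]
      _ = u := by group
  rw [e2] at e1
  rw [e1]
  have hX := hsqc x
  have hY := hsqc y
  have hX4 := h4 x
  have hY4 := h4 y
  obtain ⟨X, hXdef⟩ : ∃ X : P, X = x * x := ⟨_, rfl⟩
  obtain ⟨Y, hYdef⟩ : ∃ Y : P, Y = y * y := ⟨_, rfl⟩
  rw [← hXdef] at hX hX4 ⊢
  rw [← hYdef] at hY hY4 ⊢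
  calc X * Y * u * X * Y = X * (Y * u) * X * Y := by group
    _ = X * (u * Y) * X * Y := by rw [← hY u]
    _ = (X * u) * (Y * X) * Y := by group
    _ = (u * X) * (X * Y) * Y := by rw [← hX u, hX Y]
    _ = u * (X * X) * (Y * Y) := by group
    _ = u := by rw [hX4, hY4, mul_one, mul_one]

private theorem sz2e_key2 {P : Type*} [Group P] (hsqc : ∀ x g : P, g * (x * x) = (x * x) * g)
    (x y z : P) :
    (y * z)⁻¹ * x⁻¹ * (y * z) * x = (y⁻¹ * x⁻¹ * y * x) * (z⁻¹ * x⁻¹ * z * x) := by
  have hu := sz2e_ucen hsqc x y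
  calc (y * z)⁻¹ * x⁻¹ * (y * z) * x = z⁻¹ * (y⁻¹ * x⁻¹ * y * x) * (x⁻¹ * z * x) := by group
    _ = (y⁻¹ * x⁻¹ * y * x) * z⁻¹ * (x⁻¹ * z * x) := by rw [hu z⁻¹]
    _ = (y⁻¹ * x⁻¹ * y * x) * (z⁻¹ * x⁻¹ * z * x) := by group

theorem card_le_cube {P : Type*} [Group P] [Finite P]
    (hc : ∀ x : P, x * x = 1 → x ∈ Subgroup.center P)
    (h4 : ∀ x : P, (x * x) * (x * x) = 1) :
    Nat.card P ≤ Nat.card {x : P // x * x = 1} ^ 3 := by
  classical
  obtain ⟨Z, hZ⟩ : ∃ Z : Subgroup P, ∀ x, x ∈ Z ↔ x * x = 1 :=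
    ⟨{ carrier := {x | x * x = 1}
       one_mem' := mul_one 1
       mul_mem' := by
         intro x y hx hy
         have hyc : x * y = y * x := Subgroup.mem_center_iff.mp (hc y hy) x
         show (x * y) * (x * y) = 1
         calc (x * y) * (x * y) = x * (y * x) * y := by group
           _ = x * (x * y) * y := by rw [← hyc]
           _ = (x * x) * (y * y) := by group
           _ = 1 := by rw [show x * x = 1 from hx, show y * y = 1 from hy, mul_one]
       inv_mem' := by
         intro x hx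
         show x⁻¹ * x⁻¹ = 1
         rw [← mul_inv_rev, show x * x = 1 from hx, inv_one] }, fun x => Iff.rfl⟩
  have hZc : ∀ z ∈ Z, ∀ g : P, g * z = z * g := fun z hz g =>
    Subgroup.mem_center_iff.mp (hc z ((hZ z).mp hz)) g
  have hsqZ : ∀ x : P, x * x ∈ Z := fun x => (hZ _).mpr (h4 x)
  have hsqc : ∀ x g : P, g * (x * x) = (x * x) * g := fun x g => hZc _ (hsqZ x) g
  have hZn : Z.Normal := by
    constructor
    intro z hz g
    rw [hZc z hz g, mul_inv_cancel_right]
    exact hz
  have hQ2 : ∀ a : P ⧸ Z, a * a = 1 := by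
    intro a
    induction a using QuotientGroup.induction_on with
    | H x =>
      show ((x * x : P) : P ⧸ Z) = 1
      exact (QuotientGroup.eq_one_iff _).mpr (hsqZ x)
  have hZ2 : ∀ c : ↥Z, c * c = 1 := fun c => Subtype.ext ((hZ c).mp c.2)
  have hZcomm : ∀ c c' : ↥Z, c * c' = c' * c := fun c c' =>
    Subtype.ext (hZc c' c'.2 c)
  -- the squaring map
  obtain ⟨s, hsdef⟩ : ∃ s : P ⧸ Z → ↥Z, ∀ x : P, ((s (x : P ⧸ Z) : ↥Z) : P) = x * x := by
    refine ⟨fun q => Quotient.liftOn' q (fun x => (⟨x * x, hsqZ x⟩ : ↥Z)) ?_, fun x => rfl⟩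
    intro x y hxy
    rw [QuotientGroup.leftRel_apply] at hxy
    apply Subtype.ext
    show x * x = y * y
    obtain ⟨z, hzdef⟩ : ∃ z : P, z = x⁻¹ * y := ⟨_, rfl⟩
    rw [← hzdef] at hxy
    have hy : y = x * z := by rw [hzdef]; group
    have h2 := hZc z hxy x
    have h3 := (hZ z).mp hxy
    rw [hy]
    calc x * x = x * x * (z * z) := by rw [h3, mul_one]
      _ = x * (x * z) * z := by group
      _ = x * (z * x) * z := by rw [h2]
      _ = (x * z) * (x * z) := by group
  have hcore := sz2e_core (A := P ⧸ Z) (C := ↥Z) hQ2 hZ2 s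
    (fun a a' => s (a * a') * s a * s a') ?_ ?_ ?_ ?_
  · -- cardinalities
    have h1 : Nat.card P = Nat.card (P ⧸ Z) * Nat.card ↥Z :=
      Subgroup.card_eq_card_quotient_mul_card_subgroup Z
    have h2 : Nat.card {x : P // x * x = 1} = Nat.card ↥Z :=
      Nat.card_congr (Equiv.subtypeEquivRight fun x => (hZ x).symm)
    rw [h1, h2]
    calc Nat.card (P ⧸ Z) * Nat.card ↥Z ≤ Nat.card ↥Z ^ 2 * Nat.card ↥Z :=
          Nat.mul_le_mul_right _ hcore
      _ = Nat.card ↥Z ^ 3 := by ring
  · -- s 1 = 1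
    apply Subtype.ext
    have h := hsdef 1
    rw [QuotientGroup.mk_one] at h
    rw [h, mul_one]
    rfl
  · -- polarisation
    intro a a'
    obtain ⟨p, hp⟩ : ∃ p, p = s a := ⟨_, rfl⟩
    obtain ⟨q, hq⟩ : ∃ q, q = s a' := ⟨_, rfl⟩
    obtain ⟨r, hr⟩ : ∃ r, r = s (a * a') := ⟨_, rfl⟩
    rw [← hp, ← hq, ← hr]
    symm
    calc p * q * (r * p * q) = p * (q * r) * (p * q) := by group
      _ = p * (r * q) * (p * q) := by rw [hZcomm q r]
      _ = (p * r) * (q * p) * q := by group
      _ = (r * p) * (p * q) * q := by rw [hZcomm p r, hZcomm q p]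
      _ = r * (p * p) * (q * q) := by group
      _ = r := by rw [hZ2 p, hZ2 q, mul_one, mul_one]
  · -- biadditivity
    intro a a' a''
    induction a using QuotientGroup.induction_on with
    | H x =>
      induction a' using QuotientGroup.induction_on with
      | H y =>
        induction a'' using QuotientGroup.induction_on with
        | H z =>
          apply Subtype.ext
          have e1 : ∀ v w : P, ((s ((v : P ⧸ Z) * (w : P ⧸ Z)) * s (v : P ⧸ Z) * s (w : P ⧸ Z) :
              ↥Z) : P) = w⁻¹ * v⁻¹ * w * v := by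
            intro v w
            have h := hsdef (v * w)
            rw [QuotientGroup.mk_mul] at h
            rw [Subgroup.coe_mul, Subgroup.coe_mul, h, hsdef, hsdef]
            exact sz2e_key1 hsqc h4 v w
          have e2 := e1 x (y * z)
          rw [QuotientGroup.mk_mul] at e2
          have e3 := e1 x y
          have e4 := e1 x z
          have e5 : ((s ((x : P ⧸ Z) * (y : P ⧸ Z)) * s (x : P ⧸ Z) * s (y : P ⧸ Z) *
              (s ((x : P ⧸ Z) * (z : P ⧸ Z)) * s (x : P ⧸ Z) * s (z : P ⧸ Z)) : ↥Z) : P) =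
              (y⁻¹ * x⁻¹ * y * x) * (z⁻¹ * x⁻¹ * z * x) := by
            rw [Subgroup.coe_mul, e3, e4]
          exact (e2.trans (sz2e_key2 hsqc x y z)).trans e5.symm
  · -- anisotropy
    intro a ha
    induction a using QuotientGroup.induction_on with
    | H x =>
      have h := hsdef x
      rw [ha] at h
      exact (QuotientGroup.eq_one_iff _).mpr ((hZ x).mpr h.symm)

end Cfsg.Agent.Lib.Helper55.Sz2
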