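import Mathlib
import Cfsg.Agent.S1137

/-! Project SZ2 (S1138), piece F (placeholder posted by helper55; the taker replaces the `sorry`).

Setting: `P` a finite non-abelian 2-group, `K` a commutative group acting by `φ`, regular on the
involutions (`Cfsg.Agent.S1137.Reg φ`), at least two involutions; the centre of `P` is exactly
`{x | x * x = 1}` and `|P| ≤ |Z(P)|^3`.  Then `|P| = |Z(P)|^2` or `|Z(P)|^3`.

PROOF.  `q := Nat.card (center P) = 2^n` (p-group), `n ≥ 2` (two distinct involutions and `1` are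
central).  `K` is finite of order `q - 1`: for a fixed involution `u`, `k ↦ φ k u` is a bijection
from `K` onto the involutions (`hreg`).  `K` acts freely on `P ∖ {1}`: if `φ k x = x`, `x ≠ 1`,
take an involution `u = x ^ m` (`Cfsg.Agent.S1137.exists_invol_pow hp`), `φ k u = u`, and
uniqueness in `hreg u u` gives `k = 1`.  So `q - 1` divides `Nat.card P - 1` (all orbits on
`P ∖ {1}` have size `Nat.card K`; e.g. Burnside `MulAction.sum_card_fixedBy_eq_card_orbits_mul_card_group`,
or the orbit-stabiliser class formula).  `Nat.card P = 2^N` with `q < Nat.card P` (non-abelian: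
`center P ≠ ⊤`) and `Nat.card P ≤ q^3`.  From `2^n - 1 ∣ 2^N - 1` get `n ∣ N`
(`2^N ≡ 2^(N % n)` modulo `2^n - 1` and `2^(N % n) - 1 < 2^n - 1`); `n < N ≤ 3 * n` gives
`N = 2 * n` or `N = 3 * n`. -/

set_option autoImplicit false

namespace Cfsg.Agent.Lib.Helper55.Sz2
open Cfsg.Agent.S1137

/-- a group acting with trivial stabilizers on a finite type: its order divides the cardinality. -/
theorem f_free_dvd {K : Type*} [Group K] {X : Type*} [MulAction K X]
    (h : ∀ (k : K) (x : X), k • x = x → k = 1) : Nat.card K ∣ Nat.card X := by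
  have hs : ∀ b : X, MulAction.stabilizer K b = ⊥ := by
    intro b
    rw [eq_bot_iff]
    intro k hk
    rw [Subgroup.mem_bot]
    exact h k b (MulAction.mem_stabilizer_iff.mp hk)
  rw [Nat.card_congr (MulAction.selfEquivOrbitsQuotientProd hs), Nat.card_prod]
  exact dvd_mul_left _ _

/-- the arithmetic endgame. -/
theorem f_arith {n N : ℕ} (hdvd : 2 ^ n - 1 ∣ 2 ^ N - 1) (hlt : 2 ^ n < 2 ^ N)
    (hle : 2 ^ N ≤ (2 ^ n) ^ 3) : 2 ^ N = (2 ^ n) ^ 2 ∨ 2 ^ N = (2 ^ n) ^ 3 := by
  have h1 : n < N := (Nat.pow_lt_pow_iff_right (by norm_num)).mp hlt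
  have h2 : N ≤ n * 3 := by
    rw [← pow_mul] at hle
    exact (Nat.pow_le_pow_iff_right (by norm_num)).mp hle
  have h3 : Nat.gcd (2 ^ n - 1) (2 ^ N - 1) = 2 ^ n - 1 := Nat.gcd_eq_left hdvd
  rw [Nat.pow_sub_one_gcd_pow_sub_one] at h3
  have h4 : 2 ^ Nat.gcd n N = 2 ^ n := by
    have p1 : 1 ≤ 2 ^ Nat.gcd n N := Nat.one_le_two_pow
    have p2 : 1 ≤ 2 ^ n := Nat.one_le_two_pow
    omega
  have h5 : Nat.gcd n N = n := Nat.pow_right_injective (le_refl 2) h4
  have h6 : n ∣ N := h5 ▸ Nat.gcd_dvd_right n N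
  obtain ⟨c, rfl⟩ := h6
  have hn : 0 < n := by
    rcases Nat.eq_zero_or_pos n with h | h
    · subst h; omega
    · exact h
  have hc3 : c ≤ 3 := Nat.le_of_mul_le_mul_left h2 hn
  have hc2 : 1 < c := by
    by_contra hc
    have : c ≤ 1 := by omega
    have := Nat.mul_le_mul_left n this
    omega
  have : c = 2 ∨ c = 3 := by omega
  rcases this with rfl | rfl
  · left; rw [pow_mul]
  · right; rw [pow_mul]

theorem card_sq_or_cube {P : Type*} [Group P] [Finite P] {K : Type*} [CommGroup K]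
    {φ : K →* MulAut P} (hp : IsPGroup 2 P) (hreg : Reg φ)
    (htwo : ∃ x y : P, x ≠ y ∧ x ≠ 1 ∧ x * x = 1 ∧ y ≠ 1 ∧ y * y = 1)
    (hnab : ∃ x y : P, x * y ≠ y * x)
    (hZ : ∀ x : P, x ∈ Subgroup.center P ↔ x * x = 1)
    (hle : Nat.card P ≤ Nat.card (Subgroup.center P) ^ 3) :
    Nat.card P = Nat.card (Subgroup.center P) ^ 2 ∨
      Nat.card P = Nat.card (Subgroup.center P) ^ 3 := by
  classical
  obtain ⟨x, y, hxy, hx1, hx2, hy1, hy2⟩ := htwo
  have : Fact (Nat.Prime 2) := ⟨Nat.prime_two⟩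
  let _ : MulAction K {z : P // z ≠ 1} :=
    { smul := fun k z => ⟨φ k z.1, fun h => z.2 ((map_eq_one_iff (φ k) (φ k).injective).mp h)⟩
      one_smul := fun z => by
        apply Subtype.ext
        show φ 1 z.1 = z.1
        simp
      mul_smul := fun a b z => by
        apply Subtype.ext
        show φ (a * b) z.1 = φ a (φ b z.1)
        simp }
  have hfree : ∀ (k : K) (z : {z : P // z ≠ 1}), k • z = z → k = 1 := by
    intro k z hz
    have hz' : φ k z.1 = z.1 := congrArg Subtype.val hz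
    obtain ⟨m, hm1, hm2⟩ := exists_invol_pow hp z.2
    have h1 : φ k (z.1 ^ m) = z.1 ^ m := by rw [map_pow, hz']
    obtain ⟨k0, -, huniq⟩ := hreg (z.1 ^ m) (z.1 ^ m) hm1 hm2 hm1 hm2
    rw [huniq k h1, huniq 1 (by simp)]
  have hdvd : Nat.card K ∣ Nat.card {z : P // z ≠ 1} := f_free_dvd hfree
  have hcardX : Nat.card {z : P // z ≠ 1} + 1 = Nat.card P := by
    rw [← Finite.card_option (α := {z : P // z ≠ 1})]
    exact Nat.card_congr (Equiv.optionSubtypeNe 1)
  have hK : Nat.card K + 1 = Nat.card (Subgroup.center P) := by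
    rw [← Nat.card_congr (Equiv.optionSubtypeNe (1 : Subgroup.center P)), Finite.card_option]
    congr 1
    have hmem : ∀ k : K, φ k x ∈ Subgroup.center P := fun k =>
      (hZ _).mpr (by rw [← map_mul, hx2, map_one])
    have hne : ∀ k : K, (⟨φ k x, hmem k⟩ : Subgroup.center P) ≠ 1 := fun k h =>
      hx1 ((map_eq_one_iff (φ k) (φ k).injective).mp (congrArg Subtype.val h))
    apply Nat.card_eq_of_bijective
      (fun k : K => (⟨⟨φ k x, hmem k⟩, hne k⟩ : {z : Subgroup.center P // z ≠ 1}))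
    constructor
    · intro a b hab
      have hab' : φ a x = φ b x := congrArg (fun z => z.1.1) hab
      have hb1 : φ b x ≠ 1 := fun h => hx1 ((map_eq_one_iff (φ b) (φ b).injective).mp h)
      have hb2 : φ b x * φ b x = 1 := by rw [← map_mul, hx2, map_one]
      obtain ⟨k0, -, huniq⟩ := hreg x (φ b x) hx1 hx2 hb1 hb2
      rw [huniq a hab', huniq b rfl]
    · rintro ⟨⟨z, hz⟩, hz1⟩
      have hz2 : z * z = 1 := (hZ z).mp hz
      have hz1' : z ≠ 1 := fun h => hz1 (Subtype.ext h)
      obtain ⟨k, hk, -⟩ := hreg x z hx1 hx2 hz1' hz2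
      exact ⟨k, Subtype.ext (Subtype.ext hk)⟩
  obtain ⟨N, hN⟩ := IsPGroup.iff_card.mp hp
  obtain ⟨n, hn⟩ := IsPGroup.iff_card.mp (hp.to_subgroup (Subgroup.center P))
  have hlt : Nat.card (Subgroup.center P) < Nat.card P := by
    apply lt_of_le_of_ne (Subgroup.card_le_card_group _)
    intro h
    have htop := Subgroup.eq_top_of_card_eq _ h
    obtain ⟨a, b, hab⟩ := hnab
    have hb : b ∈ Subgroup.center P := by rw [htop]; trivial
    exact hab (Subgroup.mem_center_iff.mp hb a)
  rw [hn, hN] at hlt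
  rw [hn, hN] at hle
  rw [hn, hN]
  apply f_arith _ hlt hle
  have e1 : Nat.card K = 2 ^ n - 1 := by omega
  have e2 : Nat.card {z : P // z ≠ 1} = 2 ^ N - 1 := by omega
  rw [← e1, ← e2]
  exact hdvd

end Cfsg.Agent.Lib.Helper55.Sz2
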