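import Cfsg.Agent.Lib.Helper55.TudDefs
import Cfsg.Agent.Lib.Helper55.TutGCore
import Cfsg.Agent.Lib.Helper55.TutGIdx
import Cfsg.Agent.Lib.Helper55.TutGReg1
import Cfsg.Agent.Lib.Helper55.TutGReg2
import Cfsg.Agent.Lib.Helper55.TutGReg3
import Cfsg.Agent.Lib.Helper55.TutGReg4
import Cfsg.Agent.Lib.Helper55.TutGReg5
import Cfsg.Agent.Lib.Helper55.TutGXmem
import Cfsg.Agent.Lib.Helper55.TutGXa
import Cfsg.Agent.Lib.Helper55.TutGXb

/-!
# Project TUD (S3385, odd case): the arc-stabiliser chain under the directed hypotheses `HypD`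

The proofs are those of the corresponding `Tut*` pieces (by the piece takers of project TUT), which
only use the index hypothesis, the core hypothesis and `gCore_setup`; the latter is re-proved here
from `HypD.flip`.
-/

set_option autoImplicit false

namespace Cfsg.Agent.Lib.Helper55.TUT

open scoped Pointwise

variable {G : Type*} [Group G]

/-- the set-up under the directed hypotheses. -/
theorem d_gCore_setup [Finite G] {H : Subgroup G} {g : G} (hyp : HypD H g) :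
    ∃ y ∈ H, y ∉ H ⊓ Hn H g 1 ∧
      (∀ x, x ∈ Arc H g (-1) 1 ↔ x ∈ H ⊓ Hn H g 1 ∧ y * x * y⁻¹ ∈ H ⊓ Hn H g 1) ∧
      (∀ x, x ∈ Arc H g 0 1 ↔ x ∈ H ⊓ Hn H g 1) ∧
      (∀ x, x ∈ Arc H g (-1) 0 ↔ x ∈ H ∧ y * x * y⁻¹ ∈ H ⊓ Hn H g 1) := by
  obtain ⟨y, hy, hy1, F1⟩ := hyp.flip
  have F2 : ∀ x, x ∈ H → y * x * y⁻¹ ∈ H := by
    intro x hx
    exact H.mul_mem (H.mul_mem hy hx) (H.inv_mem hy)
  refine ⟨y, hy, fun h => hy1 h.2, ?_, ?_, ?_⟩
  · intro x
    rw [mem_Arc, Subgroup.mem_inf, Subgroup.mem_inf]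
    constructor
    · intro h
      have h0 : x ∈ H := by simpa [Hn_zero] using h 0 (by norm_num) (by norm_num)
      exact ⟨⟨h0, h 1 (by norm_num) le_rfl⟩, F2 x h0, (F1 x h0).mp (h (-1) le_rfl (by norm_num))⟩
    · rintro ⟨⟨h0, h1⟩, -, hm⟩ l hl0 hl1
      have : l = -1 ∨ l = 0 ∨ l = 1 := by omega
      rcases this with rfl | rfl | rfl
      · exact (F1 x h0).mpr hm
      · rw [Hn_zero]; exact h0
      · exact h1
  · intro x
    rw [mem_Arc, Subgroup.mem_inf]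
    constructor
    · intro h
      exact ⟨by simpa [Hn_zero] using h 0 le_rfl (by norm_num), h 1 (by norm_num) le_rfl⟩
    · rintro ⟨h0, h1⟩ l hl0 hl1
      have : l = 0 ∨ l = 1 := by omega
      rcases this with rfl | rfl
      · rw [Hn_zero]; exact h0
      · exact h1
  · intro x
    rw [mem_Arc, Subgroup.mem_inf]
    constructor
    · intro h
      have h0 : x ∈ H := by simpa [Hn_zero] using h 0 (by norm_num) le_rfl
      exact ⟨h0, F2 x h0, (F1 x h0).mp (h (-1) le_rfl (by norm_num))⟩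
    · rintro ⟨h0, -, hm⟩ l hl0 hl1
      have : l = -1 ∨ l = 0 := by omega
      rcases this with rfl | rfl
      · exact (F1 x h0).mpr hm
      · rw [Hn_zero]; exact h0

theorem d_core_normal [Finite G] {H : Subgroup G} {g : G} (hyp : HypD H g) :
    ∀ h ∈ H, MulAut.conj h • Arc H g (-1) 1 = Arc H g (-1) 1 := by
  obtain ⟨y, hy, hyK, hQ, -, -⟩ := d_gCore_setup hyp
  have hKH : H ⊓ Hn H g 1 ≤ H := inf_le_left
  have key : ∀ h ∈ H, ∀ x ∈ Arc H g (-1) 1, h * x * h⁻¹ ∈ Arc H g (-1) 1 := by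
    intro h hh x hx
    rw [hQ] at hx ⊢
    constructor
    · have h1 := gCore_fix hKH hyp.idx hy hyK hx.1 hx.2 (u := h⁻¹) (H.inv_mem hh)
      simpa using h1
    · have h1 := gCore_fix hKH hyp.idx hy hyK hx.1 hx.2 (u := (y * h)⁻¹)
        (H.inv_mem (H.mul_mem hy hh))
      have e : ((y * h)⁻¹)⁻¹ * x * (y * h)⁻¹ = y * (h * x * h⁻¹) * y⁻¹ := by group
      rwa [e] at h1
  intro h hh
  ext x
  rw [Subgroup.mem_smul_pointwise_iff_exists]
  constructor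
  · rintro ⟨z, hz, rfl⟩
    rw [MulAut.smul_def, MulAut.conj_apply]
    exact key h hh z hz
  · intro hx
    refine ⟨h⁻¹ * x * h, ?_, ?_⟩
    · have h1 := key h⁻¹ (H.inv_mem hh) x hx
      simpa using h1
    · rw [MulAut.smul_def, MulAut.conj_apply]
      group

theorem d_core_index_right [Finite G] {H : Subgroup G} {g : G} (hyp : HypD H g) :
    (Arc H g (-1) 1).relIndex (Arc H g 0 1) ≤ 2 := by
  classical
  obtain ⟨y, hy, hyK, hQ, hR, -⟩ := d_gCore_setup hyp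
  have hKH : H ⊓ Hn H g 1 ≤ H := inf_le_left
  show ((Arc H g (-1) 1).subgroupOf (Arc H g 0 1)).index ≤ 2
  refine gCore_index_le_two _
    (fun k : ↥(Arc H g 0 1) => decide (y * (k : G) * y⁻¹ ∈ H ⊓ Hn H g 1)) ?_
  intro k₁ k₂ hk
  rw [decide_eq_decide] at hk
  have h1 : (k₁ : G) ∈ H ⊓ Hn H g 1 := (hR _).1 k₁.2
  have h2 : (k₂ : G) ∈ H ⊓ Hn H g 1 := (hR _).1 k₂.2
  rw [Subgroup.mem_subgroupOf, hQ]
  refine ⟨by simpa using (H ⊓ Hn H g 1).mul_mem ((H ⊓ Hn H g 1).inv_mem h1) h2, ?_⟩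
  have e : y * ((k₁⁻¹ * k₂ : ↥(Arc H g 0 1)) : G) * y⁻¹ =
      ((k₁ : G) * y⁻¹)⁻¹ * ((k₂ : G) * y⁻¹) := by
    rw [Subgroup.coe_mul, Subgroup.coe_inv]
    group
  rw [e]
  by_cases hc : y * (k₁ : G) * y⁻¹ ∈ H ⊓ Hn H g 1
  · have hc2 := hk.1 hc
    have e2 : ((k₁ : G) * y⁻¹)⁻¹ * ((k₂ : G) * y⁻¹) =
        (y * (k₁ : G) * y⁻¹)⁻¹ * (y * (k₂ : G) * y⁻¹) := by group
    rw [e2]
    exact (H ⊓ Hn H g 1).mul_mem ((H ⊓ Hn H g 1).inv_mem hc) hc2
  · have hc2 : y * (k₂ : G) * y⁻¹ ∉ H ⊓ Hn H g 1 := fun h => hc (hk.2 h)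
    refine gCore_pigeon hyp.idx hy (H.mul_mem (hKH h1) (H.inv_mem hy))
      (H.mul_mem (hKH h2) (H.inv_mem hy)) hyK ?_ ?_ ?_ ?_
    · intro h
      apply hyK
      have e3 : y = ((k₁ : G) * y⁻¹)⁻¹ * (k₁ : G) := by group
      rw [e3]
      exact (H ⊓ Hn H g 1).mul_mem ((H ⊓ Hn H g 1).inv_mem h) h1
    · intro h
      apply hc
      rwa [← mul_assoc] at h
    · intro h
      apply hyK
      have e3 : y = ((k₂ : G) * y⁻¹)⁻¹ * (k₂ : G) := by group
      rw [e3]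
      exact (H ⊓ Hn H g 1).mul_mem ((H ⊓ Hn H g 1).inv_mem h) h2
    · intro h
      apply hc2
      rwa [← mul_assoc] at h

theorem d_core_index_left [Finite G] {H : Subgroup G} {g : G} (hyp : HypD H g) :
    (Arc H g (-1) 1).relIndex (Arc H g (-1) 0) ≤ 2 := by
  classical
  obtain ⟨y, hy, hyK, hQ, -, hL⟩ := d_gCore_setup hyp
  have hKH : H ⊓ Hn H g 1 ≤ H := inf_le_left
  show ((Arc H g (-1) 1).subgroupOf (Arc H g (-1) 0)).index ≤ 2
  refine gCore_index_le_two _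
    (fun k : ↥(Arc H g (-1) 0) => decide ((k : G) ∈ H ⊓ Hn H g 1)) ?_
  intro k₁ k₂ hk
  rw [decide_eq_decide] at hk
  have h1 := (hL _).1 k₁.2
  have h2 := (hL _).1 k₂.2
  rw [Subgroup.mem_subgroupOf, hQ, Subgroup.coe_mul, Subgroup.coe_inv]
  refine ⟨?_, ?_⟩
  · by_cases hc : (k₁ : G) ∈ H ⊓ Hn H g 1
    · exact (H ⊓ Hn H g 1).mul_mem ((H ⊓ Hn H g 1).inv_mem hc) (hk.1 hc)
    · have hc2 : (k₂ : G) ∉ H ⊓ Hn H g 1 := fun h => hc (hk.2 h)
      refine gCore_pigeon hyp.idx hy h1.1 h2.1 hyK hc ?_ hc2 ?_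
      · intro h
        apply hyK
        have e4 : y = (y * (k₁ : G) * y⁻¹)⁻¹ * (y * (k₁ : G)) := by group
        rw [e4]
        exact (H ⊓ Hn H g 1).mul_mem ((H ⊓ Hn H g 1).inv_mem h1.2) h
      · intro h
        apply hyK
        have e4 : y = (y * (k₂ : G) * y⁻¹)⁻¹ * (y * (k₂ : G)) := by group
        rw [e4]
        exact (H ⊓ Hn H g 1).mul_mem ((H ⊓ Hn H g 1).inv_mem h2.2) h
  · have e : y * ((k₁ : G)⁻¹ * (k₂ : G)) * y⁻¹ =
        (y * (k₁ : G) * y⁻¹)⁻¹ * (y * (k₂ : G) * y⁻¹) := by group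
    rw [e]
    exact (H ⊓ Hn H g 1).mul_mem ((H ⊓ Hn H g 1).inv_mem h1.2) h2.2

theorem d_arc_index_right [Finite G] {H : Subgroup G} {g : G} (hyp : HypD H g) (i j : ℤ) (hij : i < j) :
    (Arc H g i (j + 1)).relIndex (Arc H g i j) ≤ 2 := by
  have h1 : Arc H g i (j + 1) = Arc H g i j ⊓ Arc H g (j - 1) (j + 1) := by
    ext x
    rw [Subgroup.mem_inf, mem_Arc, mem_Arc, mem_Arc]
    constructor
    · intro h
      exact ⟨fun l h1 h2 => h l h1 (by omega), fun l h1 h2 => h l (by omega) h2⟩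
    · rintro ⟨ha, hb⟩ l h1 h2
      by_cases hl : l ≤ j
      · exact ha l h1 hl
      · exact hb l (by omega) h2
  rw [h1]
  apply gIdx_aux (C := Arc H g (j - 1) j) (Arc_mono (by omega) le_rfl)
  have h2 := d_core_index_left hyp
  have e1 : (-1 : ℤ) + j = j - 1 := by ring
  have e2 : (1 : ℤ) + j = j + 1 := by ring
  have e3 : (0 : ℤ) + j = j := by ring
  have h3 : Arc H g (j - 1) (j + 1) = MulAut.conj (g ^ j) • Arc H g (-1) 1 := by
    rw [conj_Arc, e1, e2]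
  have h4 : Arc H g (j - 1) j = MulAut.conj (g ^ j) • Arc H g (-1) 0 := by
    rw [conj_Arc, e1, e3]
  rw [h3, h4, Subgroup.relIndex_pointwise_smul]
  exact h2

theorem d_arc_index_left [Finite G] {H : Subgroup G} {g : G} (hyp : HypD H g) (i j : ℤ) (hij : i < j) :
    (Arc H g (i - 1) j).relIndex (Arc H g i j) ≤ 2 := by
  have h1 : Arc H g (i - 1) j = Arc H g i j ⊓ Arc H g (i - 1) (i + 1) := by
    ext x
    rw [Subgroup.mem_inf, mem_Arc, mem_Arc, mem_Arc]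
    constructor
    · intro h
      exact ⟨fun l h1 h2 => h l (by omega) h2, fun l h1 h2 => h l h1 (by omega)⟩
    · rintro ⟨ha, hb⟩ l h1 h2
      by_cases hl : i ≤ l
      · exact ha l hl h2
      · exact hb l h1 (by omega)
  rw [h1]
  apply gIdx_aux (C := Arc H g i (i + 1)) (Arc_mono le_rfl (by omega))
  have h2 := d_core_index_right hyp
  have e1 : (-1 : ℤ) + i = i - 1 := by ring
  have e2 : (1 : ℤ) + i = i + 1 := by ring
  have e3 : (0 : ℤ) + i = i := by ring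
  have h3 : Arc H g (i - 1) (i + 1) = MulAut.conj (g ^ i) • Arc H g (-1) 1 := by
    rw [conj_Arc, e1, e2]
  have h4 : Arc H g i (i + 1) = MulAut.conj (g ^ i) • Arc H g 0 1 := by
    rw [conj_Arc, e3, e2]
  rw [h3, h4, Subgroup.relIndex_pointwise_smul]
  exact h2

theorem d_arc_stable_norm [Finite G] {H : Subgroup G} {g : G} (hyp : HypD H g) (s : ℕ) (hs : 1 ≤ s)
    (hX : Arc H g 0 ((s : ℤ) + 1) = Arc H g 0 s) :
    ∀ y ∈ Arc H g 0 ((s : ℤ) - 1), MulAut.conj y • Arc H g 0 s = Arc H g 0 s := by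
  intro y hy
  have hle : Arc H g 0 s ≤ Arc H g (-1) ((s : ℤ) - 1) := arc_stable_le s hX (-1) ((s : ℤ) - 1)
  have hcard : Nat.card (Arc H g (-1) ((s : ℤ) - 1)) = Nat.card (Arc H g 0 s) := by
    have h := card_Arc_shift H g (-1) ((s : ℤ) - 1) 1
    have e1 : (-1 : ℤ) + 1 = 0 := by norm_num
    have e2 : (s : ℤ) - 1 + 1 = s := by ring
    rw [e1, e2] at h
    exact h.symm
  have hXeq : Arc H g 0 s = Arc H g (-1) ((s : ℤ) - 1) :=
    Subgroup.eq_of_le_of_card_ge hle (le_of_eq hcard)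
  have hyH : y ∈ H := by
    have h1 := (Arc_le_Hn (H := H) (g := g) (i := 0) (j := (s : ℤ) - 1) (l := 0) le_rfl
      (by omega)) hy
    rwa [Hn_zero] at h1
  have hQ := d_core_normal hyp y hyH
  have hXQ : Arc H g 0 s ≤ Arc H g (-1) 1 := arc_stable_le s hX (-1) 1
  have hconj : MulAut.conj y • Arc H g 0 s ≤ Arc H g (-1) ((s : ℤ) - 1) := by
    intro z hz
    rw [Subgroup.mem_smul_pointwise_iff_exists] at hz
    obtain ⟨x, hx, rfl⟩ := hz
    rw [mem_Arc]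
    intro l hl1 hl2
    by_cases hl0 : 0 ≤ l
    · have h1 : y ∈ Hn H g l := mem_Arc.1 hy l hl0 hl2
      have h2 : x ∈ Hn H g l := mem_Arc.1 hx l hl0 (by omega)
      rw [MulAut.smul_def, MulAut.conj_apply]
      exact (Hn H g l).mul_mem ((Hn H g l).mul_mem h1 h2) ((Hn H g l).inv_mem h1)
    · have hl : l = -1 := by omega
      subst hl
      have h1 : MulAut.conj y • x ∈ MulAut.conj y • Arc H g (-1) 1 :=
        Subgroup.smul_mem_pointwise_smul x (MulAut.conj y) _ (hXQ hx)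
      rw [hQ] at h1
      exact mem_Arc.1 h1 (-1) le_rfl (by norm_num)
  have hcard2 : Nat.card (MulAut.conj y • Arc H g 0 s : Subgroup G) = Nat.card (Arc H g 0 s) :=
    Nat.card_congr (Subgroup.equivSMul _ _).toEquiv.symm
  rw [← hXeq] at hconj
  exact Subgroup.eq_of_le_of_card_ge hconj (le_of_eq hcard2.symm)

theorem d_arc_gen [Finite G] {H : Subgroup G} {g : G} (hyp : HypD H g) (s : ℕ) (hs : 1 ≤ s)
    (hstrict : ∀ m : ℕ, 1 ≤ m → m < s → Arc H g 0 ((m : ℤ) + 1) ≠ Arc H g 0 m) :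
    H ≤ ⨆ i ∈ Finset.Icc (1 - (s : ℤ)) 0, Arc H g i (i + s - 1) := by
  -- the subgroups `Y m`
  have hYmono : ∀ m m' : ℕ, m ≤ m' →
      (⨆ i ∈ Finset.Icc (-(m : ℤ)) 0, Arc H g i (i + s - 1)) ≤
        ⨆ i ∈ Finset.Icc (-(m' : ℤ)) 0, Arc H g i (i + s - 1) := by
    intro m m' hmm
    refine iSup₂_le fun i hi => ?_
    rw [Finset.mem_Icc] at hi
    exact le_iSup₂_of_le i (Finset.mem_Icc.2 ⟨by omega, hi.2⟩) le_rfl
  have key : ∀ m : ℕ, (m : ℤ) ≤ (s : ℤ) - 1 →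
      Arc H g 0 ((s : ℤ) - 1 - m) ≤ ⨆ i ∈ Finset.Icc (-(m : ℤ)) 0, Arc H g i (i + s - 1) := by
    intro m
    induction m with
    | zero =>
      intro _
      have e : (s : ℤ) - 1 - ((0 : ℕ) : ℤ) = 0 + (s : ℤ) - 1 := by push_cast; ring
      rw [e]
      exact le_iSup₂_of_le (0 : ℤ) (Finset.mem_Icc.2 ⟨by simp, le_rfl⟩) le_rfl
    | succ m ih =>
      intro hm
      push_cast at hm
      have ihm := ih (by omega)
      -- notation
      obtain ⟨j, hj⟩ : ∃ j : ℤ, j = (s : ℤ) - 2 - m := ⟨_, rfl⟩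
      have hj0 : 0 ≤ j := by omega
      have eB : (s : ℤ) - 1 - (m : ℤ) = j + 1 := by omega
      have eT : (s : ℤ) - 1 - ((m + 1 : ℕ) : ℤ) = j := by push_cast; omega
      rw [eT]
      rw [eB] at ihm
      have hB : Arc H g 0 (j + 1) ≤
          ⨆ i ∈ Finset.Icc (-((m + 1 : ℕ) : ℤ)) 0, Arc H g i (i + s - 1) :=
        ihm.trans (hYmono m (m + 1) (Nat.le_succ m))
      have hA' : Arc H g (-((m + 1 : ℕ) : ℤ)) j ≤
          ⨆ i ∈ Finset.Icc (-((m + 1 : ℕ) : ℤ)) 0, Arc H g i (i + s - 1) := by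
        have e : -((m + 1 : ℕ) : ℤ) + (s : ℤ) - 1 = j := by push_cast; omega
        have h1 : Arc H g (-((m + 1 : ℕ) : ℤ)) j =
            Arc H g (-((m + 1 : ℕ) : ℤ)) (-((m + 1 : ℕ) : ℤ) + (s : ℤ) - 1) := by rw [e]
        rw [h1]
        exact le_iSup₂_of_le (-((m + 1 : ℕ) : ℤ))
          (Finset.mem_Icc.2 ⟨le_rfl, by push_cast; omega⟩) le_rfl
      have hA'T : Arc H g (-((m + 1 : ℕ) : ℤ)) j ≤ Arc H g 0 j :=
        Arc_mono (by push_cast; omega) le_rfl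
      have hnot : ¬ Arc H g (-((m + 1 : ℕ) : ℤ)) j ≤ Hn H g (j + 1) := by
        intro hle
        have h1 : Arc H g (-((m + 1 : ℕ) : ℤ)) (j + 1) = Arc H g (-((m + 1 : ℕ) : ℤ)) j := by
          rw [Arc_split (by push_cast; omega)]
          exact inf_eq_left.mpr hle
        have h2 := conj_Arc H g (-((m + 1 : ℕ) : ℤ)) (j + 1) ((m + 1 : ℕ) : ℤ)
        have h3 := conj_Arc H g (-((m + 1 : ℕ) : ℤ)) j ((m + 1 : ℕ) : ℤ)
        rw [h1, h3] at h2
        have e1 : -((m + 1 : ℕ) : ℤ) + ((m + 1 : ℕ) : ℤ) = 0 := by ring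
        have e2 : j + ((m + 1 : ℕ) : ℤ) = (((s - 1 : ℕ)) : ℤ) := by
          rw [Nat.cast_sub hs]; push_cast; omega
        have e3 : j + 1 + ((m + 1 : ℕ) : ℤ) = (((s - 1 : ℕ)) : ℤ) + 1 := by
          rw [Nat.cast_sub hs]; push_cast; omega
        rw [e1, e2, e3] at h2
        have hs1 : 1 ≤ s - 1 := by omega
        exact hstrict (s - 1) hs1 (by omega) h2.symm
      obtain ⟨a, haA', haH⟩ := SetLike.not_le_iff_exists.mp hnot
      have haB : a ∉ Arc H g 0 (j + 1) := fun h => haH (Arc_le_Hn (by omega) le_rfl h)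
      have hidx : (Arc H g 0 (j + 1)).relIndex (Arc H g 0 j) ≤ 3 := by
        by_cases hj1 : 0 < j
        · have := d_arc_index_right hyp 0 j hj1
          omega
        · have hj00 : j = 0 := by omega
          rw [hj00, zero_add, Arc_zero_one, Arc_self, Hn_zero, hyp.idx]
      exact gReg3_index_gen (Arc_mono le_rfl (by omega)) hB a (hA'T haA') (hA' haA') haB hidx
  have h1 := key (s - 1) (by rw [Nat.cast_sub hs]; push_cast; omega)
  have e1 : (s : ℤ) - 1 - ((s - 1 : ℕ) : ℤ) = 0 := by rw [Nat.cast_sub hs]; push_cast; ring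
  have e2 : -((s - 1 : ℕ) : ℤ) = 1 - (s : ℤ) := by rw [Nat.cast_sub hs]; push_cast; ring
  rw [e1, e2, Arc_self, Hn_zero] at h1
  exact h1

theorem d_arc_trivial [Finite G] {H : Subgroup G} {g : G} (hyp : HypD H g) (s : ℕ) (hs : 1 ≤ s)
    (hX : Arc H g 0 ((s : ℤ) + 1) = Arc H g 0 s)
    (hstrict : ∀ m : ℕ, 1 ≤ m → m < s → Arc H g 0 ((m : ℤ) + 1) ≠ Arc H g 0 m) :
    Arc H g 0 s = ⊥ := by
  obtain ⟨N, hN⟩ : ∃ N : Subgroup G,
      N = (MulAction.stabilizer (MulAut G) (Arc H g 0 (s : ℤ))).comap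
        (MulAut.conj : G →* MulAut G) := ⟨_, rfl⟩
  have hmemN : ∀ y : G, y ∈ N ↔ MulAut.conj y • Arc H g 0 (s : ℤ) = Arc H g 0 (s : ℤ) := by
    intro y
    rw [hN, Subgroup.mem_comap, MulAction.mem_stabilizer_iff]
  have hXH : Arc H g 0 (s : ℤ) ≤ H := by
    have h1 : Arc H g 0 (s : ℤ) ≤ Hn H g 0 := Arc_le_Hn le_rfl (by positivity)
    rwa [Hn_zero] at h1
  have hg : MulAut.conj g • Arc H g 0 (s : ℤ) = Arc H g 0 (s : ℤ) := arc_stable_conj s hX
  have hgN : g ∈ N := (hmemN g).mpr hg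
  have hle : (⨆ i ∈ Finset.Icc (1 - (s : ℤ)) 0, Arc H g i (i + s - 1)) ≤ N := by
    refine iSup₂_le fun i _ => ?_
    intro z hz
    have h1 : g ^ i * ((g ^ i)⁻¹ * z * g ^ i) * (g ^ i)⁻¹ = z := by group
    have h2 : (g ^ i)⁻¹ * z * g ^ i ∈ Arc H g 0 ((s : ℤ) - 1) := by
      rw [← conj_mem_Arc (k := i), h1]
      have e1 : (0 : ℤ) + i = i := zero_add i
      have e2 : (s : ℤ) - 1 + i = i + s - 1 := by ring
      rw [e1, e2]
      exact hz
    have h3 : (g ^ i)⁻¹ * z * g ^ i ∈ N := (hmemN _).mpr (d_arc_stable_norm hyp s hs hX _ h2)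
    rw [← h1]
    exact N.mul_mem (N.mul_mem (N.zpow_mem hgN i) h3) (N.inv_mem (N.zpow_mem hgN i))
  have hHN : H ≤ N := (d_arc_gen hyp s hs hstrict).trans hle
  exact hyp.core _ hXH (fun h hh => (hmemN h).mp (hHN hh)) hg

theorem d_exists_reg [Finite G] {H : Subgroup G} {g : G} (hyp : HypD H g) :
    ∃ s : ℕ, 1 ≤ s ∧ Arc H g 0 s = ⊥ ∧
      ∀ m : ℕ, 1 ≤ m → m ≤ s → Nat.card (Arc H g 0 m) = 2 ^ (s - m) := by
  classical
  have hmono : ∀ m : ℕ, Arc H g 0 ((m : ℤ) + 1) ≤ Arc H g 0 m := fun m =>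
    Arc_mono le_rfl (by omega)
  have hex : ∃ m : ℕ, 1 ≤ m ∧ Arc H g 0 ((m : ℤ) + 1) = Arc H g 0 m := by
    by_contra hcon
    have hlt : ∀ m : ℕ, 1 ≤ m →
        Nat.card (Arc H g 0 ((m : ℤ) + 1)) < Nat.card (Arc H g 0 m) := by
      intro m hm
      by_contra hge
      exact hcon ⟨m, hm, Subgroup.eq_of_le_of_card_ge (hmono m) (Nat.le_of_not_lt hge)⟩
    have hdec : ∀ n : ℕ, Nat.card (Arc H g 0 ((1 + n : ℕ) : ℤ)) + n ≤
        Nat.card (Arc H g 0 ((1 : ℕ) : ℤ)) := by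
      intro n
      induction n with
      | zero => exact le_refl _
      | succ n ih =>
        have h1 := hlt (1 + n) (by omega)
        have e : (((1 + n : ℕ) : ℤ) + 1) = ((1 + (n + 1) : ℕ) : ℤ) := by
          push_cast
          ring
        rw [e] at h1
        omega
    have h2 := hdec (Nat.card (Arc H g 0 ((1 : ℕ) : ℤ)))
    have h3 : 0 < Nat.card (Arc H g 0 ((1 + Nat.card (Arc H g 0 ((1 : ℕ) : ℤ)) : ℕ) : ℤ)) :=
      Nat.card_pos
    omega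
  obtain ⟨hs1, hX⟩ := Nat.find_spec hex
  have hstrict : ∀ m : ℕ, 1 ≤ m → m < Nat.find hex →
      Arc H g 0 ((m : ℤ) + 1) ≠ Arc H g 0 m := by
    intro m hm hlt heq
    exact Nat.find_min hex hlt ⟨hm, heq⟩
  have hbot := d_arc_trivial hyp (Nat.find hex) hs1 hX hstrict
  refine ⟨Nat.find hex, hs1, hbot, ?_⟩
  have hdown : ∀ k m : ℕ, 1 ≤ m → m + k = Nat.find hex →
      Nat.card (Arc H g 0 m) = 2 ^ k := by
    intro k
    induction k with
    | zero =>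
      intro m hm hmk
      have hms : m = Nat.find hex := by omega
      rw [hms, hbot, Subgroup.card_bot, pow_zero]
    | succ k ih =>
      intro m hm hmk
      have h1 := ih (m + 1) (by omega) (by omega)
      push_cast at h1
      have hne := hstrict m hm (by omega)
      have hidx := d_arc_index_right hyp 0 (m : ℤ) (by omega)
      have hrel := gReg5_card_rel (hmono m)
      have hpos : 0 < Nat.card (Arc H g 0 (m : ℤ)) := Nat.card_pos
      have hne1 : (Arc H g 0 ((m : ℤ) + 1)).relIndex (Arc H g 0 m) ≠ 1 := by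
        intro h
        exact hne (le_antisymm (hmono m) (Subgroup.relIndex_eq_one.1 h))
      have hne0 : (Arc H g 0 ((m : ℤ) + 1)).relIndex (Arc H g 0 m) ≠ 0 := by
        intro h
        rw [h, mul_zero] at hrel
        omega
      have h2 : (Arc H g 0 ((m : ℤ) + 1)).relIndex (Arc H g 0 m) = 2 := by omega
      rw [h2, h1] at hrel
      rw [← hrel, pow_succ]
  intro m hm hms
  exact hdown (Nat.find hex - m) m hm (by omega)

theorem d_Xint_eq_Arc [Finite G] {H : Subgroup G} {g : G} (hyp : HypD H g) (s : ℕ) (hs : 2 ≤ s)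
    (hbot : Arc H g 0 s = ⊥)
    (hcard : ∀ m : ℕ, 1 ≤ m → m ≤ s → Nat.card (Arc H g 0 m) = 2 ^ (s - m))
    (x₀ : G) (hx1 : x₀ ≠ 1) (hx : x₀ ∈ Arc H g 0 ((s : ℤ) - 1)) (m : ℕ) (hm : m + 2 ≤ s) :
    Xint g x₀ 0 m = Arc H g m ((s : ℤ) - 1) := by
  have hle : ∀ m : ℕ, Xint g x₀ 0 m ≤ Arc H g m ((s : ℤ) - 1) := by
    intro m
    refine Xint_le fun l h1 h2 => ?_
    exact Arc_mono (H := H) (g := g) h2 (by omega) (xs_mem_Arc s hx l)
  have hcA : ∀ m : ℕ, m + 2 ≤ s → Nat.card (Arc H g m ((s : ℤ) - 1)) = 2 ^ (m + 1) := by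
    intro m hm
    have h1 := card_Arc_shift H g 0 ((s : ℤ) - 1 - m) m
    have e1 : (0 : ℤ) + m = m := by omega
    have e2 : (s : ℤ) - 1 - m + m = (s : ℤ) - 1 := by omega
    have e3 : (s : ℤ) - 1 - m = ((s - 1 - m : ℕ) : ℤ) := by omega
    rw [e1, e2, e3, hcard (s - 1 - m) (by omega) (by omega)] at h1
    rw [h1]
    congr 1
    omega
  induction m with
  | zero =>
    apply Subgroup.eq_of_le_of_card_ge (hle 0)
    rw [hcA 0 hm]
    have hmem : x₀ ∈ Xint g x₀ 0 ((0 : ℕ) : ℤ) := by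
      have h := xs_mem_Xint (g := g) (x₀ := x₀) (i := 0) (j := ((0 : ℕ) : ℤ)) (l := 0)
        le_rfl (by simp)
      rw [xs_zero] at h
      exact h
    have hne : Xint g x₀ 0 ((0 : ℕ) : ℤ) ≠ ⊥ := by
      intro h
      rw [h, Subgroup.mem_bot] at hmem
      exact hx1 hmem
    have h2 : 1 < Nat.card (Xint g x₀ 0 ((0 : ℕ) : ℤ)) := (Subgroup.one_lt_card_iff_ne_bot _).2 hne
    have e : 2 ^ (0 + 1) = 2 := by norm_num
    rw [e]
    exact h2
  | succ m ih =>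
    have ih' := ih (by omega)
    apply Subgroup.eq_of_le_of_card_ge (hle (m + 1))
    rw [hcA (m + 1) hm]
    have hsub : Xint g x₀ 0 (m : ℤ) ≤ Xint g x₀ 0 ((m + 1 : ℕ) : ℤ) :=
      Xint_mono le_rfl (by push_cast; omega)
    have hdvd := Subgroup.card_dvd_of_le hsub
    rw [ih', hcA m (by omega)] at hdvd
    obtain ⟨k, hk⟩ := hdvd
    have hk0 : k ≠ 0 := by
      intro h
      rw [h, mul_zero] at hk
      exact (Nat.card_pos (α := ↥(Xint g x₀ 0 ((m + 1 : ℕ) : ℤ)))).ne' hk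
    have hk1 : k ≠ 1 := by
      intro h
      rw [h, mul_one] at hk
      have heq : Xint g x₀ 0 (m : ℤ) = Xint g x₀ 0 ((m + 1 : ℕ) : ℤ) :=
        Subgroup.eq_of_le_of_card_ge hsub (by rw [hk, ih', hcA m (by omega)])
      have hmem : xs g x₀ ((m + 1 : ℕ) : ℤ) ∈ Xint g x₀ 0 ((m + 1 : ℕ) : ℤ) :=
        xs_mem_Xint (by positivity) le_rfl
      rw [← heq, ih'] at hmem
      have hHn := Arc_le_Hn (H := H) (g := g) (i := (m : ℤ)) (j := (s : ℤ) - 1) (l := (m : ℤ))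
        le_rfl (by omega) hmem
      have hnot := (xs_not_mem_Hn s (by omega) hbot hx1 hx ((m + 1 : ℕ) : ℤ)).1
      apply hnot
      have e : ((m + 1 : ℕ) : ℤ) - 1 = m := by push_cast; ring
      rw [e]
      exact hHn
    rw [hk]
    have h2 : 2 ≤ k := by omega
    calc 2 ^ (m + 1 + 1) = 2 ^ (m + 1) * 2 := by ring
      _ ≤ 2 ^ (m + 1) * k := Nat.mul_le_mul_left _ h2

theorem d_Xint_eq_Hn [Finite G] {H : Subgroup G} {g : G} (hyp : HypD H g) (s : ℕ) (hs : 2 ≤ s)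
    (hbot : Arc H g 0 s = ⊥)
    (hcard : ∀ m : ℕ, 1 ≤ m → m ≤ s → Nat.card (Arc H g 0 m) = 2 ^ (s - m))
    (x₀ : G) (hx1 : x₀ ≠ 1) (hx : x₀ ∈ Arc H g 0 ((s : ℤ) - 1)) :
    Xint g x₀ 0 ((s : ℤ) - 1) = Hn H g ((s : ℤ) - 1) := by
  have hs2 : ((s - 2 : ℕ) : ℤ) = (s : ℤ) - 2 := by omega
  have hle : Xint g x₀ 0 ((s : ℤ) - 1) ≤ Hn H g ((s : ℤ) - 1) := by
    refine Xint_le fun l h1 h2 => ?_
    exact Arc_le_Hn (by omega) (by omega) (xs_mem_Arc s hx l)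
  have hA : Xint g x₀ 0 ((s : ℤ) - 2) = Arc H g ((s : ℤ) - 2) ((s : ℤ) - 1) := by
    have h1 := d_Xint_eq_Arc hyp s hs hbot hcard x₀ hx1 hx (s - 2) (by omega)
    rw [hs2] at h1
    exact h1
  have hAK : Xint g x₀ 0 ((s : ℤ) - 2) ≤ Xint g x₀ 0 ((s : ℤ) - 1) :=
    Xint_mono le_rfl (by omega)
  have hc1 : Nat.card (Arc H g 0 1) = 2 ^ (s - 1) := by
    have h2 := hcard 1 le_rfl (by omega)
    rw [Nat.cast_one] at h2
    exact h2
  have hcardA : Nat.card (Xint g x₀ 0 ((s : ℤ) - 2)) = 2 ^ (s - 1) := by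
    rw [hA]
    have h1 := card_Arc_shift H g 0 1 ((s : ℤ) - 2)
    have e1 : (0 : ℤ) + ((s : ℤ) - 2) = (s : ℤ) - 2 := by ring
    have e2 : (1 : ℤ) + ((s : ℤ) - 2) = (s : ℤ) - 1 := by ring
    rw [e1, e2] at h1
    rw [h1]
    exact hc1
  have hcardHn : Nat.card (Hn H g ((s : ℤ) - 1)) = 3 * 2 ^ (s - 1) := by
    have h1 := card_Arc_shift H g 0 0 ((s : ℤ) - 1)
    rw [zero_add, Arc_self, Arc_self, Hn_zero] at h1
    rw [h1]
    have h2 := hc1
    rw [Arc_zero_one] at h2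
    have h3 := hyp.idx
    have h4 := Subgroup.relIndex_mul_relIndex ⊥ (H ⊓ Hn H g 1) H bot_le inf_le_left
    rw [Subgroup.relIndex_bot_left, Subgroup.relIndex_bot_left, h3, h2] at h4
    rw [← h4, mul_comm]
  have hdvd1 : Nat.card (Xint g x₀ 0 ((s : ℤ) - 2)) ∣ Nat.card (Xint g x₀ 0 ((s : ℤ) - 1)) :=
    Subgroup.card_dvd_of_le hAK
  have hdvd2 : Nat.card (Xint g x₀ 0 ((s : ℤ) - 1)) ∣ Nat.card (Hn H g ((s : ℤ) - 1)) :=
    Subgroup.card_dvd_of_le hle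
  rw [hcardA] at hdvd1
  rw [hcardHn] at hdvd2
  obtain ⟨k, hk⟩ := hdvd1
  rw [hk] at hdvd2
  have hpos : 0 < 2 ^ (s - 1) := by positivity
  have hk3 : k ∣ 3 := by
    rw [mul_comm 3] at hdvd2
    exact (Nat.mul_dvd_mul_iff_left hpos).mp hdvd2
  have hk' : k = 1 ∨ k = 3 := (Nat.dvd_prime Nat.prime_three).mp hk3
  rcases hk' with rfl | rfl
  · exfalso
    have hEq : Xint g x₀ 0 ((s : ℤ) - 2) = Xint g x₀ 0 ((s : ℤ) - 1) :=
      Subgroup.eq_of_le_of_card_ge hAK (by rw [hk, hcardA, mul_one])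
    have hmem : xs g x₀ ((s : ℤ) - 1) ∈ Xint g x₀ 0 ((s : ℤ) - 1) :=
      xs_mem_Xint (by omega) le_rfl
    rw [← hEq, hA] at hmem
    have hnot := (xs_not_mem_Hn s (by omega) hbot hx1 hx ((s : ℤ) - 1)).1
    apply hnot
    have e : (s : ℤ) - 1 - 1 = (s : ℤ) - 2 := by ring
    rw [e]
    exact Arc_le_Hn le_rfl (by omega) hmem
  · exact Subgroup.eq_of_le_of_card_ge hle (by rw [hk, hcardHn]; exact (mul_comm _ _).le)

end Cfsg.Agent.Lib.Helper55.TUT
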