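import Cfsg.Agent.Lib.Helper55.TutBasic

/-!
# Project TUD (Part III of S3385, the odd case): directed version of the Tutte set-up

Same notation as `TutDefs`: `Hn H g i = g ^ i H g ^ (-i)`.  Here the orbital need not be self-paired;
instead the stabiliser in `H` of the in-neighbour `a_{-1}` is `H`-conjugate to the stabiliser in `H`
of the out-neighbour `a_1` (by `y ∈ H` not fixing `a_1`).
-/

set_option autoImplicit false

namespace Cfsg.Agent.Lib.Helper55.TUT

open scoped Pointwise

variable {G : Type*} [Group G]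

/-- Directed standing hypotheses on `(H, g)`. -/
structure HypD (H : Subgroup G) (g : G) : Prop where
  idx : (H ⊓ Hn H g 1).relIndex H = 3
  flip : ∃ y ∈ H, y ∉ Hn H g 1 ∧ ∀ x ∈ H, (x ∈ Hn H g (-1) ↔ y * x * y⁻¹ ∈ Hn H g 1)
  core : ∀ N : Subgroup G, N ≤ H → (∀ h ∈ H, MulAut.conj h • N = N) → MulAut.conj g • N = N → N = ⊥

end Cfsg.Agent.Lib.Helper55.TUT
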