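import Cfsg.Agent.Lib.Helper55.TusS3
import Cfsg.Agent.Lib.Helper55.TutCalcCard
import Cfsg.Agent.Lib.Helper55.TutCalcIdxL
import Cfsg.Agent.Lib.Helper55.TutCalcIdxR
import Cfsg.Agent.Lib.Helper55.TutCalcInt
import Cfsg.Agent.Lib.Helper55.TutCalcComm
import Cfsg.Agent.Lib.Helper55.TutCalcAsm
import Cfsg.Agent.Lib.Helper55.TutCalcE
import Cfsg.Agent.Lib.Helper55.TutCalcFinal

/-!
# Project TUS (S3685: structure of the point stabiliser, suborbit of length 3) -- piece `TusCase2`

Filled in by lead (statement, name and namespace unchanged);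
you may add helper lemmas HERE with names prefixed `tuscase2_` (lower-case file tag) and import any landed
`Cfsg.Agent` library file.  Notation: `x_i := xs g x₀ i` (involutions, `g x_i g⁻¹ = x_{i+1}`: `xs_conj`),
`Xint g x₀ i j = ⟨x_i..x_j⟩`; proved API: `TutBasic.lean` and the `TutCalc*.lean` files (`card_Xint`,
`comm_mem`, `coset_left/right`, `xs_not_mem_left/right`, `inter_eq`, `calcAsm_mem_single`,
`calcFinal_shift`, `calcE_ne` is for `s = 7` only).
-/

set_option autoImplicit false

namespace Cfsg.Agent.Lib.Helper55.TUT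

open scoped Pointwise


variable {G : Type*} [Group G]

/-- `s = 2`: `T = ⟨x_0, x_1⟩` of order 6 is `S_3`.  Proof: if `x_0 x_1 = x_1 x_0` then `{1, x_0, x_1, x_0 x_1}` is a subgroup (involutions: `xs_mul_self C.inv`) containing `x_0, x_1`, so `Xint g x₀ 0 1` (`Xint_le`) has at most 4 elements: contradiction with `hc`.  So `a := ⟨x_0, _⟩`, `b := ⟨x_1, _⟩` (`xs_mem_Xint`) do not commute in `↥(Xint g x₀ 0 1)`; apply `tus_s3`. -/
theorem tus_case2 [Finite G] {g x₀ : G} (C : Calc g x₀ 2) (hc : Nat.card (Xint g x₀ 0 1) = 6) :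
    Concl ↥(Xint g x₀ 0 1) := by
  obtain ⟨a, ha⟩ : ∃ a, a = xs g x₀ 0 := ⟨_, rfl⟩
  obtain ⟨b, hb⟩ : ∃ b, b = xs g x₀ 1 := ⟨_, rfl⟩
  have saa : a * a = 1 := by rw [ha]; exact xs_mul_self C.inv 0
  have sbb : b * b = 1 := by rw [hb]; exact xs_mul_self C.inv 1
  have hamem : a ∈ Xint g x₀ 0 1 := by rw [ha]; exact xs_mem_Xint (le_refl 0) (by norm_num)
  have hbmem : b ∈ Xint g x₀ 0 1 := by rw [hb]; exact xs_mem_Xint (by norm_num) (le_refl 1)
  have hnc : a * b ≠ b * a := by
    intro hcomm
    have e1 : b * a = a * b := hcomm.symm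
    have e1' : ∀ z, b * (a * z) = a * (b * z) := fun z => by rw [← mul_assoc, e1, mul_assoc]
    have sa' : ∀ z, a * (a * z) = z := fun z => by rw [← mul_assoc, saa, one_mul]
    have sb' : ∀ z, b * (b * z) = z := fun z => by rw [← mul_assoc, sbb, one_mul]
    let S : Subgroup G :=
      { carrier := {1, a, b, a * b}
        mul_mem' := by
          intro u v hu hv
          simp only [Set.mem_insert_iff, Set.mem_singleton_iff] at hu hv ⊢
          rcases hu with rfl | rfl | rfl | rfl <;> rcases hv with rfl | rfl | rfl | rfl <;>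
            simp only [mul_assoc, e1, e1', saa, sbb, sa', sb', one_mul, mul_one, true_or, or_true]
        one_mem' := by simp
        inv_mem' := by
          intro u hu
          simp only [Set.mem_insert_iff, Set.mem_singleton_iff] at hu ⊢
          have key : u * u = 1 := by
            rcases hu with rfl | rfl | rfl | rfl <;>
              simp only [mul_assoc, e1, e1', saa, sbb, sa', sb', one_mul, mul_one]
          rw [inv_eq_of_mul_eq_one_right key]; exact hu }
    have hle : Xint g x₀ 0 1 ≤ S := by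
      apply Xint_le
      intro l h0 h1
      have hl : l = 0 ∨ l = 1 := by omega
      rcases hl with rfl | rfl
      · show xs g x₀ 0 ∈ ({1, a, b, a * b} : Set G)
        rw [← ha]; simp
      · show xs g x₀ 1 ∈ ({1, a, b, a * b} : Set G)
        rw [← hb]; simp
    have hS : Nat.card S ≤ 4 := by
      have h0 : Nat.card S = Set.ncard (S : Set G) := Nat.card_coe_set_eq _
      have hset : (S : Set G) = ({1, a, b, a * b} : Set G) := rfl
      rw [h0, hset]
      calc Set.ncard ({1, a, b, a * b} : Set G)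
          ≤ Set.ncard ({a, b, a * b} : Set G) + 1 := Set.ncard_insert_le _ _
        _ ≤ (Set.ncard ({b, a * b} : Set G) + 1) + 1 :=
            Nat.add_le_add_right (Set.ncard_insert_le _ _) 1
        _ ≤ ((Set.ncard ({a * b} : Set G) + 1) + 1) + 1 :=
            Nat.add_le_add_right (Nat.add_le_add_right (Set.ncard_insert_le _ _) 1) 1
        _ = 4 := by rw [Set.ncard_singleton]
    have h6 : Nat.card (Xint g x₀ 0 1) ≤ Nat.card S := Subgroup.card_le_of_le hle
    omega
  apply tus_s3 hc ⟨a, hamem⟩ ⟨b, hbmem⟩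
  intro h
  apply hnc
  exact congrArg Subtype.val h

end Cfsg.Agent.Lib.Helper55.TUT
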