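import Cfsg.Agent.Lib.Helper55.TusDefs
import Cfsg.Agent.Lib.Helper12.NormAbCyc2
import Cfsg.Agent.Lib.Helper5.DihIso
import Cfsg.Agent.Lib.Helper55.TutCalcCard
import Cfsg.Agent.Lib.Helper55.TutCalcIdxL
import Cfsg.Agent.Lib.Helper55.TutCalcIdxR
import Cfsg.Agent.Lib.Helper55.TutCalcInt
import Cfsg.Agent.Lib.Helper55.TutCalcComm
import Cfsg.Agent.Lib.Helper55.TutCalcAsm
import Cfsg.Agent.Lib.Helper55.TutCalcE
import Cfsg.Agent.Lib.Helper55.TutCalcFinal

/-!
# Project TUS (S3685: structure of the point stabiliser, suborbit of length 3) -- piece `TusCase3`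

PROVED (helper15, job 4753); statement, name and namespace unchanged;
helper lemmas are HERE with names prefixed `tuscase3_` (lower-case file tag) and import any landed
`Cfsg.Agent` library file.  Notation: `x_i := xs g x₀ i` (involutions, `g x_i g⁻¹ = x_{i+1}`: `xs_conj`),
`Xint g x₀ i j = ⟨x_i..x_j⟩`; proved API: `TutBasic.lean` and the `TutCalc*.lean` files (`card_Xint`,
`comm_mem`, `coset_left/right`, `xs_not_mem_left/right`, `inter_eq`, `calcAsm_mem_single`,
`calcFinal_shift`, `calcE_ne` is for `s = 7` only).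
-/

set_option autoImplicit false

namespace Cfsg.Agent.Lib.Helper55.TUT

open scoped Pointwise


variable {G : Type*} [Group G]

/-- pairwise commuting involutions cannot generate a group of order 12 -/
theorem tuscase3_abel_false [Finite G] {g x₀ : G} (hinv : x₀ * x₀ = 1)
    (hab : xs g x₀ 0 * xs g x₀ 1 = xs g x₀ 1 * xs g x₀ 0)
    (hbc : xs g x₀ 1 * xs g x₀ 2 = xs g x₀ 2 * xs g x₀ 1)
    (hac : xs g x₀ 0 * xs g x₀ 2 = xs g x₀ 2 * xs g x₀ 0)
    (hc : Nat.card (Xint g x₀ 0 2) = 12) : False := by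
  have hgen : ∀ l m : ℤ, 0 ≤ l → l ≤ 2 → 0 ≤ m → m ≤ 2 →
      xs g x₀ l * xs g x₀ m = xs g x₀ m * xs g x₀ l := by
    intro l m hl0 hl2 hm0 hm2
    have hl : l = 0 ∨ l = 1 ∨ l = 2 := by omega
    have hm : m = 0 ∨ m = 1 ∨ m = 2 := by omega
    rcases hl with rfl | rfl | rfl <;> rcases hm with rfl | rfl | rfl <;>
      first | rfl | exact hab | exact hab.symm | exact hbc | exact hbc.symm | exact hac
            | exact hac.symm
  have hcomm1 : ∀ l : ℤ, 0 ≤ l → l ≤ 2 → ∀ z ∈ Xint g x₀ 0 2,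
      xs g x₀ l * z = z * xs g x₀ l := by
    intro l hl0 hl2
    exact commute_Xint (fun m hm0 hm2 => hgen l m hl0 hl2 hm0 hm2)
  have hcomm : ∀ y ∈ Xint g x₀ 0 2, ∀ z ∈ Xint g x₀ 0 2, y * z = z * y := by
    intro y hy
    exact commute_Xint (fun l hl0 hl2 => (hcomm1 l hl0 hl2 y hy).symm)
  have hsq : ∀ z ∈ Xint g x₀ 0 2, z * z = 1 := by
    intro z hz
    have hz' : z ∈ Subgroup.closure (xs g x₀ '' Set.Icc (0 : ℤ) 2) := hz
    refine Subgroup.closure_induction (p := fun z _ => z * z = 1) ?_ ?_ ?_ ?_ hz'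
    · rintro x ⟨l, _, rfl⟩
      exact xs_mul_self hinv l
    · simp
    · intro x y hx hy ihx ihy
      have hxy : x * y = y * x := hcomm x hx y hy
      calc x * y * (x * y) = x * (y * x) * y := by group
        _ = x * (x * y) * y := by rw [hxy]
        _ = (x * x) * (y * y) := by group
        _ = 1 := by rw [ihx, ihy, one_mul]
    · intro x hx ihx
      have h1 : x⁻¹ * x⁻¹ = (x * x)⁻¹ := by group
      rw [h1, ihx, inv_one]
  have : Fact (Nat.Prime 3) := ⟨by norm_num⟩
  obtain ⟨x, hx⟩ := exists_prime_orderOf_dvd_card' (G := ↥(Xint g x₀ 0 2)) 3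
    (by rw [hc]; norm_num)
  have hx2 : x ^ 2 = 1 := by
    apply Subtype.ext
    rw [pow_two]
    exact hsq x.1 x.2
  have h3 := orderOf_dvd_of_pow_eq_one hx2
  rw [hx] at h3
  norm_num at h3

/-- a subgroup of order 12 with an element of order 6 inverted by an involution is dihedral -/
theorem tuscase3_dih [Finite G] (T : Subgroup G) (a α : G)
    (haT : a ∈ T) (hαT : α ∈ T) (haa : a * a = 1) (hα : orderOf α = 6)
    (hrel : a * α * a⁻¹ = α⁻¹) (hT : Nat.card T = 12) : Nonempty (↥T ≃* DihedralGroup 6) := by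
  refine Cfsg.Agent.Lib.Helper12.nonempty_mulEquiv_dihedral (m := 6) (by norm_num)
    (⟨α, hαT⟩ : ↥T) ⟨a, haT⟩ (by rw [hT]) ?_ ?_ ?_ ?_
  · rw [Subgroup.orderOf_mk]
    exact hα
  · intro h
    obtain ⟨k, hk⟩ := Subgroup.mem_zpowers_iff.mp h
    have hk' : α ^ k = a := by
      have := congrArg Subtype.val hk
      simpa using this
    have hcomm : a * α = α * a := by
      rw [← hk']
      exact ((Commute.refl α).zpow_left k).eq
    have h1 : α = α⁻¹ := by
      rw [← hrel, hcomm]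
      group
    have h2 : α ^ 2 = 1 := by
      have h2' : α * α = α * α⁻¹ := congrArg (fun t => α * t) h1
      rw [pow_two, h2', mul_inv_cancel]
    have h3 := orderOf_dvd_of_pow_eq_one h2
    rw [hα] at h3
    norm_num at h3
  · apply Subtype.ext
    show a ^ 2 = 1
    rw [pow_two, haa]
  · exact Subtype.ext hrel

/-- the group-theoretic core of `tus_case3` -/
theorem tuscase3_core [Finite G] (T : Subgroup G) (a b c : G)
    (haT : a ∈ T) (hbT : b ∈ T) (hcT : c ∈ T)
    (haa : a * a = 1) (hbb : b * b = 1) (hcc : c * c = 1) (ha1 : a ≠ 1) (hb1 : b ≠ 1)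
    (hab : a * b = b * a) (hbc : b * c = c * b) (hac : a * c * (a * c) ≠ 1)
    (hT : Nat.card T = 12) : Nonempty (↥T ≃* DihedralGroup 6) := by
  have hainv : a⁻¹ = a := inv_eq_of_mul_eq_one_left haa
  have hbinv : b⁻¹ = b := inv_eq_of_mul_eq_one_left hbb
  have hcinv : c⁻¹ = c := inv_eq_of_mul_eq_one_left hcc
  have hrel : a * (a * c) * a⁻¹ = (a * c)⁻¹ := by
    rw [mul_inv_rev, hainv, hcinv, ← mul_assoc, haa, one_mul]
  have hoa : orderOf a = 2 := orderOf_eq_prime (by rw [pow_two]; exact haa) ha1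
  have hob : orderOf b = 2 := orderOf_eq_prime (by rw [pow_two]; exact hbb) hb1
  have hu1 : a * c ≠ 1 := by
    intro h
    apply hac
    rw [h, one_mul]
  have hnpos : 0 < orderOf (a * c) := orderOf_pos (a * c)
  have hn1 : orderOf (a * c) ≠ 1 := by
    intro h
    exact hu1 (orderOf_eq_one_iff.mp h)
  have hn2 : orderOf (a * c) ≠ 2 := by
    intro h
    apply hac
    have := pow_orderOf_eq_one (a * c)
    rw [h, pow_two] at this
    exact this
  have hD : Nat.card ↥(Subgroup.closure ({a * c, a} : Set G)) = 2 * orderOf (a * c) :=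
    Cfsg.Agent.Lib.Helper5.dh_card (σ := a * c) (τ := a) rfl (by omega) hoa hrel hac
  have huT : a * c ∈ T := T.mul_mem haT hcT
  have hDT : Subgroup.closure ({a * c, a} : Set G) ≤ T := by
    rw [Subgroup.closure_le]
    rintro x (rfl | hx)
    · exact huT
    · rw [Set.mem_singleton_iff] at hx
      rw [hx]
      exact haT
  have hdvd : 2 * orderOf (a * c) ∣ 12 := by
    rw [← hD, ← hT]
    exact Subgroup.card_dvd_of_le hDT
  have hn6 : orderOf (a * c) ∣ 6 := by
    have h12 : (12 : ℕ) = 2 * 6 := by norm_num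
    rw [h12] at hdvd
    exact Nat.dvd_of_mul_dvd_mul_left (by norm_num) hdvd
  have hle : orderOf (a * c) ≤ 6 := Nat.le_of_dvd (by norm_num) hn6
  have hcases : orderOf (a * c) = 3 ∨ orderOf (a * c) = 6 := by
    generalize orderOf (a * c) = n at hn6 hle hn1 hn2 hnpos
    interval_cases n <;> simp_all
  rcases hcases with h3 | h6
  · -- α = b * (a * c)
    have hbu : Commute b (a * c) := by
      show b * (a * c) = a * c * b
      rw [← mul_assoc, ← hab, mul_assoc, hbc, mul_assoc]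
    have ho : orderOf (b * (a * c)) = 6 := by
      rw [hbu.orderOf_mul_eq_mul_orderOf_of_coprime (by rw [hob, h3]; norm_num), hob, h3]
    have hrel' : a * (b * (a * c)) * a⁻¹ = (b * (a * c))⁻¹ := by
      have e1 : a * (b * (a * c)) * a⁻¹ = b * (a * (a * c) * a⁻¹) := by
        rw [← mul_assoc a b, hab]
        group
      rw [e1, hrel, mul_inv_rev b (a * c), hbinv]
      have hbu' : Commute b (a * c)⁻¹ := hbu.inv_right
      exact hbu'.eq
    exact tuscase3_dih T a (b * (a * c)) haT (T.mul_mem hbT huT) haa ho hrel' hT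
  · exact tuscase3_dih T a (a * c) haT huT haa h6 hrel hT

/-- `s = 3`: `T = ⟨x_0, x_1, x_2⟩` of order 12 is dihedral of order 12 (third disjunct of `Concl`).  Proof.  `comm_mem C 0 1` gives `x_0 x_1 x_0 x_1 ∈ Xint 1 0 = ⊥` (`Xint_empty`), so `x_0 x_1 = x_1 x_0`, and by `xs_comm_shift` also `x_1 x_2 = x_2 x_1`: `x_1` is central in `T` (`commute_Xint`).  `x_1 ≠ 1` and `x_0 ≠ x_1` (`C.card 0`/`C.card 1`: `|⟨x_0⟩| = 2`, `|⟨x_0, x_1⟩| = 4`, `card_Xint`).  Let `u := x_0 * x_2`, `n := orderOf u`; `x_0 u x_0⁻¹ = u⁻¹`.  Every element of `T` is `u^i x_0^ε x_1^δ` (this set is a subgroup containing the generators), so `12 ≤ 4 n`, `n ≥ 3`; `D := closure {u, x_0}` is dihedral of order `2 n` (`Cfsg.Agent.Lib.Helper5` `dh_card`, needs `u * u ≠ 1`, true as `n ≥ 3`) and `D ≤ T`, so `2 n ∣ 12` (Lagrange, `Subgroup.card_dvd_of_le`): `n ∈ {3, 6}`.  If `n = 6` put `a := u`; if `n = 3` put `a := x_1 * u` (order 6: commuting elements of orders 2 and 3; `a^3 = x_1`, `a^2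 = u^2`).  `b := x_0`: `b * b = 1`, `b a b⁻¹ = a⁻¹`, and `b ∉ zpowers a` (else `b` commutes with `a`, so `a⁻¹ = a`, impossible for order 6).  Apply `Cfsg.Agent.Lib.Helper12` `nonempty_mulEquiv_dihedral` (file `Lib/Helper12/NormAbCyc2.lean`; `m = 6`, in the group `↥(Xint g x₀ 0 2)`, `hcard : Nat.card _ = 2 * 6`). -/
theorem tus_case3 [Finite G] {g x₀ : G} (C : Calc g x₀ 3) (hc : Nat.card (Xint g x₀ 0 2) = 12) :
    Concl ↥(Xint g x₀ 0 2) := by
  have hinv := C.inv
  have haa : xs g x₀ 0 * xs g x₀ 0 = 1 := xs_mul_self hinv 0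
  have hbb : xs g x₀ 1 * xs g x₀ 1 = 1 := xs_mul_self hinv 1
  have hcc : xs g x₀ 2 * xs g x₀ 2 = 1 := xs_mul_self hinv 2
  have hab : xs g x₀ 0 * xs g x₀ 1 = xs g x₀ 1 * xs g x₀ 0 := by
    have h := comm_mem C 0 1 (by norm_num) (by norm_num)
    rw [Xint_empty (by norm_num), Subgroup.mem_bot] at h
    exact calcAsm_comm_of haa hbb h
  have hbc : xs g x₀ 1 * xs g x₀ 2 = xs g x₀ 2 * xs g x₀ 1 := by
    have h := (xs_comm_shift (g := g) (x₀ := x₀) 0 1 1).2 hab
    have e1 : (0 : ℤ) + 1 = 1 := by norm_num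
    have e2 : (1 : ℤ) + 1 = 2 := by norm_num
    rw [e1, e2] at h
    exact h
  have ha1 : xs g x₀ 0 ≠ 1 := by
    intro h
    have hle : Xint g x₀ 0 0 ≤ ⊥ := Xint_le (fun l h1 h2 => by
      have hl : l = 0 := by omega
      rw [hl, h]
      exact Subgroup.one_mem _)
    have hcard := C.card 0 (by norm_num)
    have hbot : Xint g x₀ 0 0 = ⊥ := le_bot_iff.mp hle
    simp only [Nat.cast_zero] at hcard
    rw [hbot, Subgroup.card_bot] at hcard
    norm_num at hcard
  have hb1 : xs g x₀ 1 ≠ 1 := by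
    intro h
    have hle : Xint g x₀ 0 1 ≤ Xint g x₀ 0 0 := Xint_le (fun l h1 h2 => by
      have hl : l = 0 ∨ l = 1 := by omega
      rcases hl with rfl | rfl
      · exact xs_mem_Xint le_rfl le_rfl
      · rw [h]
        exact Subgroup.one_mem _)
    have hcard0 := C.card 0 (by norm_num)
    have hcard1 := C.card 1 (by norm_num)
    simp only [Nat.cast_zero] at hcard0
    simp only [Nat.cast_one] at hcard1
    have := Subgroup.card_le_of_le hle
    rw [hcard0, hcard1] at this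
    norm_num at this
  have hac : xs g x₀ 0 * xs g x₀ 2 * (xs g x₀ 0 * xs g x₀ 2) ≠ 1 := by
    intro h
    have h' : xs g x₀ 0 * xs g x₀ 2 * xs g x₀ 0 * xs g x₀ 2 = 1 := by
      rw [← h]
      group
    exact tuscase3_abel_false hinv hab hbc (calcAsm_comm_of haa hcc h') hc
  exact Or.inr (Or.inr (Or.inl (tuscase3_core (Xint g x₀ 0 2) (xs g x₀ 0) (xs g x₀ 1) (xs g x₀ 2)
    (xs_mem_Xint le_rfl (by norm_num)) (xs_mem_Xint (by norm_num) (by norm_num))
    (xs_mem_Xint (by norm_num) le_rfl) haa hbb hcc ha1 hb1 hab hbc hac hc)))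

end Cfsg.Agent.Lib.Helper55.TUT
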