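import Cfsg.Agent.Lib.Helper55.TusDefs

/-!
# Project TUS (S3685: structure of the point stabiliser, suborbit of length 3) -- piece `TusRecB`

PLACEHOLDER: replace the `sorry` in this ONE file; keep the statement, name and namespace unchanged;
you may add helper lemmas HERE with names prefixed `tusrecb_` (lower-case file tag) and import any landed
`Cfsg.Agent` library file.  Notation: `x_i := xs g x₀ i` (involutions, `g x_i g⁻¹ = x_{i+1}`: `xs_conj`),
`Xint g x₀ i j = ⟨x_i..x_j⟩`; proved API: `TutBasic.lean` and the `TutCalc*.lean` files (`card_Xint`,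
`comm_mem`, `coset_left/right`, `xs_not_mem_left/right`, `inter_eq`, `calcAsm_mem_single`,
`calcFinal_shift`, `calcE_ne` is for `s = 7` only).
-/

set_option autoImplicit false

namespace Cfsg.Agent.Lib.Helper55.TUT

open scoped Pointwise


variable {G : Type*} [Group G]

/-- A group of order 24 with a core-free subgroup of order 6 is `S_4`.  Proof: `φ := MulAction.toPermHom X (X ⧸ D)` has kernel `D.normalCore = ⊥` (`Subgroup.normalCore_eq_ker`), so it is injective; `Nat.card (X ⧸ D) = D.index = 4` (`Subgroup.card_mul_index`), so `Nat.card (Equiv.Perm (X ⧸ D)) = 24 = Nat.card X` and `φ` is bijective (`Nat.bijective_iff_injective_and_card` / `Finite.injective_iff_bijective_of_card`); compose `MulEquiv.ofBijective φ` with the iso `Perm (X ⧸ D) ≃* Perm (Fin 4)` induced by an equiv `X ⧸ D ≃ Fin 4` (`Finite.equivFinOfCardEq`, `Equiv.permCongrHom`). -/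
theorem tus_recB {X : Type*} [Group X] [Finite X] (hc : Nat.card X = 24) (D : Subgroup X)
    (hD : Nat.card D = 6) (hcore : D.normalCore = ⊥) : Nonempty (X ≃* Equiv.Perm (Fin 4)) := by
  classical
  have hidx : D.index = 4 := by
    have h := D.card_mul_index
    rw [hD, hc] at h
    omega
  have hcardQ : Nat.card (X ⧸ D) = 4 := hidx
  have hker : (MulAction.toPermHom X (X ⧸ D)).ker = ⊥ := by
    rw [← hcore, Subgroup.normalCore_eq_ker]
  have hinj : Function.Injective (MulAction.toPermHom X (X ⧸ D)) :=
    (MonoidHom.ker_eq_bot_iff _).1 hker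
  have hcardP : Nat.card (Equiv.Perm (X ⧸ D)) = 24 := by
    rw [Nat.card_perm, hcardQ]
    rfl
  have hbij : Function.Bijective (MulAction.toPermHom X (X ⧸ D)) := by
    refine (Nat.bijective_iff_injective_and_card _).2 ⟨hinj, ?_⟩
    rw [hc, hcardP]
  exact ⟨(MulEquiv.ofBijective (MulAction.toPermHom X (X ⧸ D)) hbij).trans
    (Equiv.permCongrHom (Finite.equivFinOfCardEq hcardQ))⟩

end Cfsg.Agent.Lib.Helper55.TUT
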