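import Cfsg.Agent.Lib.Helper55.TusRecA
import Cfsg.Agent.Lib.Helper55.TusRecB

/-!
# Project TUS (S3685: structure of the point stabiliser, suborbit of length 3) -- piece `TusRec`

-/

set_option autoImplicit false

namespace Cfsg.Agent.Lib.Helper55.TUT

open scoped Pointwise


variable {G : Type*} [Group G]

/-- `S_4` recognition: order 24 and a four-group `{1, p, q, pq}` with two transvections `a`, `b`, `(ab)^3 = 1`. -/
theorem tus_rec {X : Type*} [Group X] [Finite X] (hc : Nat.card X = 24) (p q a b : X) (hp : p * p = 1)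
    (hq : q * q = 1) (ha : a * a = 1) (hb : b * b = 1) (hp1 : p ≠ 1) (hpq : p * q = q * p)
    (hap : a * p * a = p) (haq : a * q * a = p * q) (hbq : b * q * b = q) (hbp : b * p * b = p * q)
    (hab : (a * b) ^ 3 = 1) : Nonempty (X ≃* Equiv.Perm (Fin 4)) := by
  obtain ⟨D, hD, hcore⟩ := tus_recA p q a b hp hq ha hb hp1 hpq hap haq hbq hbp hab
  exact tus_recB hc D hD hcore

end Cfsg.Agent.Lib.Helper55.TUT
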