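import Cfsg.Agent.Lib.Helper55.TusSix

/-!
# Project TUS (S3685: structure of the point stabiliser, suborbit of length 3) -- piece `TusCube`

FILLED by helper65.  Notation: `x_i := xs g x₀ i` (involutions, `g x_i g⁻¹ = x_{i+1}`: `xs_conj`),
`Xint g x₀ i j = ⟨x_i..x_j⟩`; proved API: `TutBasic.lean` and the `TutCalc*.lean` files (`card_Xint`,
`comm_mem`, `coset_left/right`, `xs_not_mem_left/right`, `inter_eq`, `calcAsm_mem_single`,
`calcFinal_shift`, `calcE_ne` is for `s = 7` only).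
-/

set_option autoImplicit false

namespace Cfsg.Agent.Lib.Helper55.TUT

open scoped Pointwise


variable {G : Type*} [Group G]

/-- If `Q` is normalised by `T`, `|T : Q| = 6` and `T` is generated by `Q` and two elements `a, b` with `a² = b² = 1`, then `(ab)^3 ∈ Q`.  Proof: `Q' := Q.subgroupOf T` is normal in `↥T` (`hnorm`); `Y := ↥T ⧸ Q'` has card 6 (`Subgroup.card_mul_index`/`Subgroup.card_eq_card_quotient_mul_card_subgroup`, `Nat.card Q' = Nat.card Q` by `Subgroup.subgroupOfEquivOfLe hQT`).  Let `α, β` be the images of `⟨a, haT⟩, ⟨b, hbT⟩`: `α * α = 1`, `β * β = 1`, and `closure {α, β} = ⊤` (every `t ∈ T` lies in `Q ⊔ closure {a, b}`; use `Subgroup.closure_induction`/`Subgroup.sup_induction`-style: the set of `x ∈ T`-or-not whose... simplest: the subgroup `S := (closure {α, β}).comap (mk') |>.map T.subtype` of `G` contains `Q` and `a, b`, hence `Q ⊔ closure {a, b} ≥ T`).  `tus_six` gives `(α * β) ^ 3 = 1`, i.e. `(a * b) ^ 3 ∈ Q` (`QuotientGroup.eq_one_iff`).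 -/
theorem tus_cube_mem [Finite G] (T Q : Subgroup G) (hQT : Q ≤ T)
    (hnorm : ∀ t ∈ T, ∀ q ∈ Q, t * q * t⁻¹ ∈ Q) (hcard : Nat.card T = 6 * Nat.card Q)
    (a b : G) (ha : a * a = 1) (hb : b * b = 1) (haT : a ∈ T) (hbT : b ∈ T)
    (hgen : T ≤ Q ⊔ Subgroup.closure ({a, b} : Set G)) : (a * b) ^ 3 ∈ Q := by
  classical
  have hN : (Q.subgroupOf T).Normal := by
    refine ⟨fun q hq t => ?_⟩
    rw [Subgroup.mem_subgroupOf] at hq ⊢
    have := hnorm t t.2 q hq
    simpa using this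
  have hcardY : Nat.card (↥T ⧸ Q.subgroupOf T) = 6 := by
    have h1 := Subgroup.card_eq_card_quotient_mul_card_subgroup (Q.subgroupOf T)
    have h2 : Nat.card (Q.subgroupOf T) = Nat.card Q :=
      Nat.card_congr (Subgroup.subgroupOfEquivOfLe hQT).toEquiv
    rw [h2, hcard] at h1
    have hpos : 0 < Nat.card Q := Nat.card_pos
    exact (Nat.eq_of_mul_eq_mul_right hpos h1).symm
  set α : ↥T ⧸ Q.subgroupOf T := QuotientGroup.mk' (Q.subgroupOf T) ⟨a, haT⟩ with hα
  set β : ↥T ⧸ Q.subgroupOf T := QuotientGroup.mk' (Q.subgroupOf T) ⟨b, hbT⟩ with hβ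
  have hαα : α * α = 1 := by
    rw [hα, ← map_mul]
    have : (⟨a, haT⟩ : ↥T) * ⟨a, haT⟩ = 1 := Subtype.ext ha
    rw [this, map_one]
  have hββ : β * β = 1 := by
    rw [hβ, ← map_mul]
    have : (⟨b, hbT⟩ : ↥T) * ⟨b, hbT⟩ = 1 := Subtype.ext hb
    rw [this, map_one]
  have hS : T ≤ ((Subgroup.closure ({α, β} : Set (↥T ⧸ Q.subgroupOf T))).comap
      (QuotientGroup.mk' (Q.subgroupOf T))).map T.subtype := by
    refine hgen.trans (sup_le ?_ ?_)
    · intro q hq
      refine ⟨⟨q, hQT hq⟩, ?_, rfl⟩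
      rw [SetLike.mem_coe, Subgroup.mem_comap]
      have : QuotientGroup.mk' (Q.subgroupOf T) ⟨q, hQT hq⟩ = 1 := by
        rw [QuotientGroup.mk'_apply, QuotientGroup.eq_one_iff, Subgroup.mem_subgroupOf]
        exact hq
      rw [this]
      exact Subgroup.one_mem _
    · rw [Subgroup.closure_le]
      intro x hx
      rcases hx with rfl | rfl
      · exact ⟨⟨x, haT⟩, Subgroup.subset_closure (Set.mem_insert _ _), rfl⟩
      · exact ⟨⟨x, hbT⟩, Subgroup.subset_closure (Set.mem_insert_of_mem _ rfl), rfl⟩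
  have hgenY : Subgroup.closure ({α, β} : Set (↥T ⧸ Q.subgroupOf T)) = ⊤ := by
    rw [eq_top_iff]
    intro y _
    obtain ⟨t, rfl⟩ := QuotientGroup.mk'_surjective (Q.subgroupOf T) y
    obtain ⟨t', ht', htt⟩ := hS t.2
    have : t' = t := Subtype.ext htt
    rw [← this]
    exact ht'
  have h3 := tus_six hcardY α β hαα hββ hgenY
  rw [hα, hβ, ← map_mul, ← map_pow, QuotientGroup.mk'_apply, QuotientGroup.eq_one_iff,
    Subgroup.mem_subgroupOf] at h3
  simpa using h3

end Cfsg.Agent.Lib.Helper55.TUT
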