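import Cfsg.Agent.Lib.Helper55.TusRel4a
import Cfsg.Agent.Lib.Helper55.TusCube

/-!
# Project TUS (S3685: structure of the point stabiliser, suborbit of length 3) -- piece `TusRel4b`

Piece proved by helper22 (statement, name and namespace unchanged).  Original instructions: helper lemmas
may be added HERE with names prefixed `tusrel4b_` (lower-case file tag) and import any landed
`Cfsg.Agent` library file.  Notation: `x_i := xs g x₀ i` (involutions, `g x_i g⁻¹ = x_{i+1}`: `xs_conj`),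
`Xint g x₀ i j = ⟨x_i..x_j⟩`; proved API: `TutBasic.lean` and the `TutCalc*.lean` files (`card_Xint`,
`comm_mem`, `coset_left/right`, `xs_not_mem_left/right`, `inter_eq`, `calcAsm_mem_single`,
`calcFinal_shift`, `calcE_ne` is for `s = 7` only).
-/

set_option autoImplicit false

namespace Cfsg.Agent.Lib.Helper55.TUT

open scoped Pointwise


variable {G : Type*} [Group G]

/-- `s = 4`: `(x_0 x_3)^3 = 1`.  Proof.  Use `tus_rel4a C`.  `Q := Xint g x₀ 1 2`, `T := Xint g x₀ 0 3`; `Nat.card Q = 4` (`card_Xint C 1 2`), so `Nat.card T = 6 * Nat.card Q`.  Elements of `Q`: `1, x_1, x_2, x_1 x_2` (`coset_right C 1 2` + `calcAsm_mem_single`; or `Xint_succ`), all with `y * y = 1` (commuting involutions).  `T` normalises `Q`: the set of `t` with `t Q t⁻¹ ⊆ Q` and `t⁻¹ Q t ⊆ Q` is a subgroup containing `x_0` (`x_0 x_1 x_0 = x_1`, `x_0 x_2 x_0 = x_1 x_2`), `x_3` (`x_3 x_2 x_3 = x_2`, `x_3 x_1 x_3 = x_1 x_2`), `x_1`, `x_2` (in `Q`, abelian); use `Xint_le`.  `T ≤ Q ⊔ closure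 {x_0, x_3}` (`Xint_le`).  `tus_cube_mem` gives `v := (x_0 x_3)^3 ∈ Q`.  `x_0 v x_0 = ((x_3 x_0))^3 = v⁻¹ = v` (as `v * v = 1`), likewise `x_3 v x_3 = v`.  Among `1, x_1, x_2, x_1 x_2`: `x_2` and `x_1 x_2` do not commute with `x_0` (`x_0 x_2 x_0 = x_1 x_2 ≠ x_2` since `x_1 ≠ 1`; `x_0 (x_1 x_2) x_0 = x_2 ≠ x_1 x_2`), and `x_1` does not commute with `x_3` (`x_3 x_1 x_3 = x_1 x_2 ≠ x_1`).  (`x_i ≠ 1`: `C.card 0` says `|⟨x_0⟩| = 2`.)  Hence `v = 1`. -/
theorem tus_rel4b [Finite G] {g x₀ : G} (C : Calc g x₀ 4) (hc : Nat.card (Xint g x₀ 0 3) = 24) :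
    (xs g x₀ 0 * xs g x₀ 3) ^ 3 = 1 := by
  classical
  obtain ⟨R1, R2, R3⟩ := tus_rel4a C
  have hne : ∀ i : ℤ, xs g x₀ i ≠ 1 := by
    intro i h
    have h1 := xs_not_mem_right C i i le_rfl (by norm_num)
    rw [h] at h1
    exact h1 (one_mem _)
  have R10 := R1 0
  have R11 := R1 1
  have R12 := R1 2
  have R20 := R2 0
  have R30 := R3 0
  have R21 := R2 1
  have R31 := R3 1
  norm_num at R10 R11 R12 R20 R30 R21 R31
  have hne1 := hne 1
  have hne2 := hne 2
  have haa := xs_mul_self (g := g) C.inv 0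
  have hbb := xs_mul_self (g := g) C.inv 1
  have hcc := xs_mul_self (g := g) C.inv 2
  have hdd := xs_mul_self (g := g) C.inv 3
  have hbQ0 : xs g x₀ 1 ∈ Xint g x₀ 1 2 := xs_mem_Xint (by norm_num) (by norm_num)
  have hcQ0 : xs g x₀ 2 ∈ Xint g x₀ 1 2 := xs_mem_Xint (by norm_num) (by norm_num)
  have haT0 : xs g x₀ 0 ∈ Xint g x₀ 0 3 := xs_mem_Xint (by norm_num) (by norm_num)
  have hdT0 : xs g x₀ 3 ∈ Xint g x₀ 0 3 := xs_mem_Xint (by norm_num) (by norm_num)
  have hQcard : Nat.card (Xint g x₀ 1 2) = 4 := by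
    rw [card_Xint C 1 2 (by norm_num) (by norm_num)]
    rfl
  have hQelts0 : ∀ y ∈ Xint g x₀ 1 2,
      y = 1 ∨ y = xs g x₀ 1 ∨ y * xs g x₀ 2 = 1 ∨ y * xs g x₀ 2 = xs g x₀ 1 := by
    intro y hy
    rcases coset_right C 1 2 (by norm_num) (by norm_num) y hy with h | h
    · have h' : y ∈ Xint g x₀ 1 1 := by
        norm_num at h
        exact h
      rcases calcAsm_mem_single C.inv 1 y h' with h1 | h1
      · exact Or.inl h1
      · exact Or.inr (Or.inl h1)
    · have h' : y * xs g x₀ 2 ∈ Xint g x₀ 1 1 := by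
        norm_num at h
        exact h
      rcases calcAsm_mem_single C.inv 1 _ h' with h1 | h1
      · exact Or.inr (Or.inr (Or.inl h1))
      · exact Or.inr (Or.inr (Or.inr h1))
  have hgen0 : ∀ S : Subgroup G, xs g x₀ 0 ∈ S → xs g x₀ 1 ∈ S → xs g x₀ 2 ∈ S → xs g x₀ 3 ∈ S →
      Xint g x₀ 0 3 ≤ S := by
    intro S h0 h1 h2 h3
    apply Xint_le
    intro l hl1 hl2
    have hl : l = 0 ∨ l = 1 ∨ l = 2 ∨ l = 3 := by omega
    rcases hl with rfl | rfl | rfl | rfl
    · exact h0
    · exact h1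
    · exact h2
    · exact h3
  have hQle0 : ∀ S : Subgroup G, xs g x₀ 1 ∈ S → xs g x₀ 2 ∈ S → Xint g x₀ 1 2 ≤ S := by
    intro S h1 h2
    apply Xint_le
    intro l hl1 hl2
    have hl : l = 1 ∨ l = 2 := by omega
    rcases hl with rfl | rfl
    · exact h1
    · exact h2
  have hQT0 : Xint g x₀ 1 2 ≤ Xint g x₀ 0 3 := Xint_mono (by norm_num) (by norm_num)
  generalize xs g x₀ 0 = a at R10 R20 haa haT0 hgen0 ⊢
  generalize xs g x₀ 1 = b at R10 R11 R20 R31 hbb hbQ0 hQelts0 hgen0 hQle0 hne1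
  generalize xs g x₀ 2 = c at R11 R12 R20 R31 hcc hcQ0 hQelts0 hgen0 hQle0 hne2
  generalize xs g x₀ 3 = d at R12 R31 hdd hdT0 hgen0 ⊢
  generalize Xint g x₀ 1 2 = Q at hbQ0 hcQ0 hQcard hQelts0 hQle0 hQT0
  generalize Xint g x₀ 0 3 = T at hc haT0 hdT0 hgen0 hQT0
  have hab : a * b = b * a := R10
  have hbc : b * c = c * b := R11
  have hcd : c * d = d * c := R12
  have haca : a * c * a = b * c := R20
  have hdbd : d * b * d = b * c := R31
  have hai : a⁻¹ = a := inv_eq_of_mul_eq_one_left haa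
  have hdi : d⁻¹ = d := inv_eq_of_mul_eq_one_left hdd
  have hQelts : ∀ y ∈ Q, y = 1 ∨ y = b ∨ y = c ∨ y = b * c := by
    intro y hy
    rcases hQelts0 y hy with h | h | h | h
    · exact Or.inl h
    · exact Or.inr (Or.inl h)
    · right; right; left
      calc y = y * (c * c) := by rw [hcc, mul_one]
        _ = (y * c) * c := by rw [mul_assoc]
        _ = c := by rw [h, one_mul]
    · right; right; right
      calc y = y * (c * c) := by rw [hcc, mul_one]
        _ = (y * c) * c := by rw [mul_assoc]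
        _ = b * c := by rw [h]
  have key : ∀ t : G, t * t = 1 → t * b * t⁻¹ ∈ Q → t * c * t⁻¹ ∈ Q →
      t ∈ Subgroup.normalizer (Q : Set G) := by
    intro t htt h1 h2
    have hP : ∀ h ∈ Q, t * h * t⁻¹ ∈ Q := by
      have hle : Q ≤ Q.comap (MulAut.conj t).toMonoidHom := hQle0 _ h1 h2
      intro h hh
      exact hle hh
    rw [Subgroup.mem_normalizer_iff]
    intro h
    constructor
    · exact hP h
    · intro hh
      have h3 := hP _ hh
      have hti : t⁻¹ = t := inv_eq_of_mul_eq_one_left htt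
      have e : t * (t * h * t⁻¹) * t⁻¹ = h := by
        rw [hti]
        calc t * (t * h * t) * t = (t * t) * h * (t * t) := by group
          _ = h := by rw [htt, one_mul, mul_one]
      rw [e] at h3
      exact h3
  have hTN : T ≤ Subgroup.normalizer (Q : Set G) := by
    apply hgen0
    · apply key a haa
      · rw [hab, mul_inv_cancel_right]
        exact hbQ0
      · rw [hai, haca]
        exact Q.mul_mem hbQ0 hcQ0
    · exact Subgroup.le_normalizer hbQ0
    · exact Subgroup.le_normalizer hcQ0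
    · apply key d hdd
      · rw [hdi, hdbd]
        exact Q.mul_mem hbQ0 hcQ0
      · rw [← hcd, mul_inv_cancel_right]
        exact hcQ0
  have hnorm : ∀ t ∈ T, ∀ q ∈ Q, t * q * t⁻¹ ∈ Q :=
    fun t ht q hq => ((Subgroup.mem_normalizer_iff.mp (hTN ht)) q).mp hq
  have hcard : Nat.card T = 6 * Nat.card Q := by
    rw [hQcard, hc]
  have hgen : T ≤ Q ⊔ Subgroup.closure ({a, d} : Set G) := by
    apply hgen0
    · exact (le_sup_right : _ ≤ Q ⊔ Subgroup.closure ({a, d} : Set G))
        (Subgroup.subset_closure (by simp))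
    · exact (le_sup_left : Q ≤ Q ⊔ Subgroup.closure ({a, d} : Set G)) hbQ0
    · exact (le_sup_left : Q ≤ Q ⊔ Subgroup.closure ({a, d} : Set G)) hcQ0
    · exact (le_sup_right : _ ≤ Q ⊔ Subgroup.closure ({a, d} : Set G))
        (Subgroup.subset_closure (by simp))
  have hv := tus_cube_mem T Q hQT0 hnorm hcard a d haa hdd haT0 hdT0 hgen
  obtain ⟨v, hvdef⟩ : ∃ v : G, v = (a * d) ^ 3 := ⟨_, rfl⟩
  rw [← hvdef] at hv ⊢
  have hvv : v * v = 1 := by
    rcases hQelts v hv with h | h | h | h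
    · rw [h, one_mul]
    · rw [h, hbb]
    · rw [h, hcc]
    · rw [h]
      calc b * c * (b * c) = b * (c * b) * c := by group
        _ = b * (b * c) * c := by rw [hbc]
        _ = (b * b) * (c * c) := by group
        _ = 1 := by rw [hbb, hcc, one_mul]
  have hvi : v⁻¹ = v := inv_eq_of_mul_eq_one_left hvv
  have hvinv : v⁻¹ = (d * a) ^ 3 := by
    rw [hvdef, ← inv_pow, mul_inv_rev, hai, hdi]
  have hav : a * v * a = v := by
    have h1 : a * v * a⁻¹ = (d * a) ^ 3 := by
      rw [hvdef, ← conj_pow]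
      congr 1
      rw [hai, ← mul_assoc, haa, one_mul]
    rw [hai] at h1
    rw [h1, ← hvinv, hvi]
  have hdv : d * v * d = v := by
    have h1 : d * v * d⁻¹ = (d * a) ^ 3 := by
      rw [hvdef, ← conj_pow]
      congr 1
      rw [← mul_assoc, mul_inv_cancel_right]
    rw [hdi] at h1
    rw [h1, ← hvinv, hvi]
  rcases hQelts v hv with h | h | h | h
  · exact h
  · exfalso
    rw [h] at hdv
    have h1 : b * c = b * 1 := by rw [mul_one, ← hdbd, hdv]
    exact hne2 (mul_left_cancel h1)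
  · exfalso
    rw [h] at hav
    have h1 : b * c = 1 * c := by rw [one_mul, ← haca, hav]
    exact hne1 (mul_right_cancel h1)
  · exfalso
    rw [h] at hav
    have h2 : a * (b * c) * a = c := by
      calc a * (b * c) * a = (a * b) * c * a := by group
        _ = (b * a) * c * a := by rw [hab]
        _ = b * (a * c * a) := by group
        _ = b * (b * c) := by rw [haca]
        _ = c := by rw [← mul_assoc, hbb, one_mul]
    have h1 : b * c = 1 * c := by rw [one_mul, ← hav, h2]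
    exact hne1 (mul_right_cancel h1)

end Cfsg.Agent.Lib.Helper55.TUT
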