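import Cfsg.Agent.Lib.Helper55.TusRel4a
import Cfsg.Agent.Lib.Helper55.TusRel4b
import Cfsg.Agent.Lib.Helper55.TusRec

/-!
# Project TUS (S3685: structure of the point stabiliser, suborbit of length 3) -- piece `TusCase4`

PLACEHOLDER: replace the `sorry` in this ONE file; keep the statement, name and namespace unchanged;
you may add helper lemmas HERE with names prefixed `tuscase4_` (lower-case file tag) and import any landed
`Cfsg.Agent` library file.  Notation: `x_i := xs g x₀ i` (involutions, `g x_i g⁻¹ = x_{i+1}`: `xs_conj`),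
`Xint g x₀ i j = ⟨x_i..x_j⟩`; proved API: `TutBasic.lean` and the `TutCalc*.lean` files (`card_Xint`,
`comm_mem`, `coset_left/right`, `xs_not_mem_left/right`, `inter_eq`, `calcAsm_mem_single`,
`calcFinal_shift`, `calcE_ne` is for `s = 7` only).
-/

set_option autoImplicit false

namespace Cfsg.Agent.Lib.Helper55.TUT

open scoped Pointwise


variable {G : Type*} [Group G]

/-- `s = 4`: `T = ⟨x_0, .., x_3⟩` of order 24 is `S_4` (fourth disjunct of `Concl`).  Proof: apply `tus_rec` in `X := ↥(Xint g x₀ 0 3)` with `p := ⟨x_1, _⟩`, `q := ⟨x_2, _⟩`, `a := ⟨x_0, _⟩`, `b := ⟨x_3, _⟩` (`xs_mem_Xint`; prove the equalities with `Subtype.ext` from the equalities in `G`): involutions by `xs_mul_self C.inv`; `p ≠ 1` (`|⟨x_0⟩| = 2` by `C.card 0`, so `x_0 ≠ 1`, hence `x_1 ≠ 1` by `xs_conj`); `p q = q p`, `a p a = p`, `b q b = q` from the first part of `tus_rel4a C`; `a q a = p q` is the second part with `i = 0`; `b p b = p q` is the third part with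 `i = 1`; `(a b)^3 = 1` is `tus_rel4b C hc`. -/
theorem tus_case4 [Finite G] {g x₀ : G} (C : Calc g x₀ 4) (hc : Nat.card (Xint g x₀ 0 3) = 24) :
    Concl ↥(Xint g x₀ 0 3) := by
  obtain ⟨h1, h2, h3⟩ := tus_rel4a C
  have hab := tus_rel4b C hc
  have hsq : ∀ i : ℤ, xs g x₀ i * xs g x₀ i = 1 := fun i => xs_mul_self C.inv i
  have hm : ∀ l : ℤ, 0 ≤ l → l ≤ 3 → xs g x₀ l ∈ Xint g x₀ 0 3 := fun l hl0 hl3 =>
    xs_mem_Xint hl0 hl3
  -- `x_1 ≠ 1`
  have hx1 : xs g x₀ 1 ≠ 1 := by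
    intro h
    have hx0 : x₀ = 1 := by
      unfold xs at h
      have e : x₀ = (g ^ (1 : ℤ))⁻¹ * (g ^ (1 : ℤ) * x₀ * (g ^ (1 : ℤ))⁻¹) * g ^ (1 : ℤ) := by group
      rw [e, h]
      group
    have hall : ∀ l : ℤ, xs g x₀ l = 1 := by
      intro l
      unfold xs
      rw [hx0]
      group
    have hle : Xint g x₀ 0 0 ≤ ⊥ := Xint_le (fun l _ _ => by rw [hall l]; exact Subgroup.one_mem _)
    have hbot : Xint g x₀ 0 0 = ⊥ := le_bot_iff.1 hle
    have hcard : Nat.card (Xint g x₀ 0 0) = 2 := by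
      have h0 := C.card 0 (by norm_num)
      rw [Nat.cast_zero] at h0
      rw [h0]
      norm_num
    rw [hbot, Subgroup.card_bot] at hcard
    norm_num at hcard
  have e12 : xs g x₀ 1 * xs g x₀ 2 = xs g x₀ 2 * xs g x₀ 1 := by
    have := h1 1
    norm_num at this
    exact this
  have e01 : xs g x₀ 0 * xs g x₀ 1 = xs g x₀ 1 * xs g x₀ 0 := by
    have := h1 0
    norm_num at this
    exact this
  have e23 : xs g x₀ 2 * xs g x₀ 3 = xs g x₀ 3 * xs g x₀ 2 := by
    have := h1 2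
    norm_num at this
    exact this
  have e020 : xs g x₀ 0 * xs g x₀ 2 * xs g x₀ 0 = xs g x₀ 1 * xs g x₀ 2 := by
    have := h2 0
    norm_num at this
    exact this
  have e313 : xs g x₀ 3 * xs g x₀ 1 * xs g x₀ 3 = xs g x₀ 1 * xs g x₀ 2 := by
    have := h3 1
    norm_num at this
    exact this
  have e010 : xs g x₀ 0 * xs g x₀ 1 * xs g x₀ 0 = xs g x₀ 1 := by
    rw [e01, mul_assoc, hsq 0, mul_one]
  have e323 : xs g x₀ 3 * xs g x₀ 2 * xs g x₀ 3 = xs g x₀ 2 := by
    rw [← e23, mul_assoc, hsq 3, mul_one]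
  have key := tus_rec (X := ↥(Xint g x₀ 0 3)) hc
    ⟨xs g x₀ 1, hm 1 (by norm_num) (by norm_num)⟩
    ⟨xs g x₀ 2, hm 2 (by norm_num) (by norm_num)⟩
    ⟨xs g x₀ 0, hm 0 (by norm_num) (by norm_num)⟩
    ⟨xs g x₀ 3, hm 3 (by norm_num) (by norm_num)⟩
    (Subtype.ext (hsq 1)) (Subtype.ext (hsq 2)) (Subtype.ext (hsq 0)) (Subtype.ext (hsq 3))
    (fun h => hx1 (congrArg Subtype.val h))
    (Subtype.ext e12) (Subtype.ext e010) (Subtype.ext e020) (Subtype.ext e323)
    (Subtype.ext e313)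
    (Subtype.ext (by
      show (xs g x₀ 0 * xs g x₀ 3) ^ 3 = 1
      exact hab))
  exact Or.inr (Or.inr (Or.inr (Or.inl key)))

end Cfsg.Agent.Lib.Helper55.TUT
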