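import Cfsg.Agent.Lib.Helper55.TusDefs

/-!
# Project TUS (S3685: structure of the point stabiliser, suborbit of length 3) -- piece `TusDirect`

FILLED by helper54 (statement, name and namespace unchanged);
you may add helper lemmas HERE with names prefixed `tusdirect_` (lower-case file tag) and import any landed
`Cfsg.Agent` library file.  Notation: `x_i := xs g x₀ i` (involutions, `g x_i g⁻¹ = x_{i+1}`: `xs_conj`),
`Xint g x₀ i j = ⟨x_i..x_j⟩`; proved API: `TutBasic.lean` and the `TutCalc*.lean` files (`card_Xint`,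
`comm_mem`, `coset_left/right`, `xs_not_mem_left/right`, `inter_eq`, `calcAsm_mem_single`,
`calcFinal_shift`, `calcE_ne` is for `s = 7` only).
-/

set_option autoImplicit false

namespace Cfsg.Agent.Lib.Helper55.TUT

open scoped Pointwise


variable {G : Type*} [Group G]

/-- Splitting off a central involution.  Proof: `Z := Subgroup.zpowers z` has card 2 (`z ≠ 1` as `1 ∈ T₀`), `Z ≃* Multiplicative (ZMod 2)` (`mulEquivOfPrimeCardEq`, both of prime card 2).  `f := MonoidHom.noncommCoprod T₀.subtype Z.subtype _ : ↥T₀ × ↥Z →* X` (images commute since `z` is central) is injective: `t * w = 1` with `w ∈ Z = {1, z}` forces `w = t⁻¹ ∈ T₀`, so `w = 1` (`z ∉ T₀`), `t = 1`.  Cards agree (`hcard`), so `f` is bijective; `X ≃* ↥T₀ × ↥Z ≃* ↥T₀ × Multiplicative (ZMod 2)` (`MulEquiv.prodCongr`). -/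
theorem tus_direct {X : Type*} [Group X] [Finite X] (T₀ : Subgroup X) (z : X) (hz : z * z = 1)
    (hzc : ∀ x : X, z * x = x * z) (hzT : z ∉ T₀) (hcard : Nat.card X = 2 * Nat.card T₀) :
    Nonempty (X ≃* ↥T₀ × Multiplicative (ZMod 2)) := by
  have : Fact (Nat.Prime 2) := ⟨Nat.prime_two⟩
  have hz1 : z ≠ 1 := by
    intro h1
    apply hzT
    rw [h1]
    exact one_mem _
  have hord : orderOf z = 2 := orderOf_eq_prime (by rw [pow_two]; exact hz) hz1
  have hZcard : Nat.card (Subgroup.zpowers z) = 2 := by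
    rw [Nat.card_zpowers, hord]
  have hMcard : Nat.card (Multiplicative (ZMod 2)) = 2 :=
    (Nat.card_congr Multiplicative.toAdd).trans (Nat.card_zmod 2)
  have e : ↥(Subgroup.zpowers z) ≃* Multiplicative (ZMod 2) := mulEquivOfPrimeCardEq hZcard hMcard
  -- elements of `zpowers z` are `1` or `z`
  have hZ : ∀ w : X, w ∈ Subgroup.zpowers z → w = 1 ∨ w = z := by
    intro w hw
    obtain ⟨k, rfl⟩ := Subgroup.mem_zpowers_iff.1 hw
    have hk : k = k % 2 + 2 * (k / 2) := (Int.emod_add_mul_ediv k 2).symm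
    have hz2 : z ^ (2 : ℤ) = 1 := by
      rw [zpow_ofNat, pow_two]; exact hz
    rw [hk, zpow_add, zpow_mul, hz2, one_zpow, mul_one]
    rcases Int.emod_two_eq_zero_or_one k with h0 | h0
    · left; rw [h0, zpow_zero]
    · right; rw [h0, zpow_one]
  have hcomm : ∀ (m : ↥T₀) (n : ↥(Subgroup.zpowers z)),
      Commute (T₀.subtype m) ((Subgroup.zpowers z).subtype n) := by
    intro m n
    rcases hZ n n.2 with h1 | h1
    · show (m : X) * (n : X) = (n : X) * (m : X)
      rw [h1, one_mul, mul_one]
    · show (m : X) * (n : X) = (n : X) * (m : X)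
      rw [h1]
      exact (hzc m).symm
  let f : ↥T₀ × ↥(Subgroup.zpowers z) →* X :=
    MonoidHom.noncommCoprod T₀.subtype (Subgroup.zpowers z).subtype hcomm
  have hf : ∀ p : ↥T₀ × ↥(Subgroup.zpowers z), f p = (p.1 : X) * (p.2 : X) := by
    intro p
    rfl
  have hinj : Function.Injective f := by
    rw [injective_iff_map_eq_one]
    rintro ⟨t, w⟩ htw
    rw [hf] at htw
    have hw : (w : X) = (t : X)⁻¹ := (inv_eq_of_mul_eq_one_right htw).symm
    have hwT : (w : X) ∈ T₀ := by rw [hw]; exact T₀.inv_mem t.2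
    have hw1 : (w : X) = 1 := by
      rcases hZ w w.2 with h1 | h1
      · exact h1
      · exfalso; apply hzT; rw [← h1]; exact hwT
    have ht1 : (t : X) = 1 := by
      rw [hw1, mul_one] at htw
      exact htw
    exact Prod.ext (Subtype.ext ht1) (Subtype.ext hw1)
  have hcard' : Nat.card (↥T₀ × ↥(Subgroup.zpowers z)) = Nat.card X := by
    rw [Nat.card_prod, hZcard, hcard, mul_comm]
  have hbij : Function.Bijective f := (Nat.bijective_iff_injective_and_card f).2 ⟨hinj, hcard'⟩
  exact ⟨(MulEquiv.ofBijective f hbij).symm.trans (MulEquiv.prodCongr (MulEquiv.refl _) e)⟩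

end Cfsg.Agent.Lib.Helper55.TUT
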