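import Cfsg.Agent.Lib.Helper55.TusDefs
import Cfsg.Agent.Lib.Helper55.TusCube
import Cfsg.Agent.Lib.Helper55.TutCalcCard
import Cfsg.Agent.Lib.Helper55.TutCalcIdxL
import Cfsg.Agent.Lib.Helper55.TutCalcIdxR
import Cfsg.Agent.Lib.Helper55.TutCalcInt
import Cfsg.Agent.Lib.Helper55.TutCalcComm
import Cfsg.Agent.Lib.Helper55.TutCalcAsm
import Cfsg.Agent.Lib.Helper55.TutCalcE
import Cfsg.Agent.Lib.Helper55.TutCalcFinal

/-!
# Project TUS (S3685: structure of the point stabiliser, suborbit of length 3) -- piece `TusRel5b`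

PLACEHOLDER: replace the `sorry` in this ONE file; keep the statement, name and namespace unchanged;
you may add helper lemmas HERE with names prefixed `tusrel5b_` (lower-case file tag) and import any landed
`Cfsg.Agent` library file.  Notation: `x_i := xs g x₀ i` (involutions, `g x_i g⁻¹ = x_{i+1}`: `xs_conj`),
`Xint g x₀ i j = ⟨x_i..x_j⟩`; proved API: `TutBasic.lean` and the `TutCalc*.lean` files (`card_Xint`,
`comm_mem`, `coset_left/right`, `xs_not_mem_left/right`, `inter_eq`, `calcAsm_mem_single`,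
`calcFinal_shift`, `calcE_ne` is for `s = 7` only).
-/

set_option autoImplicit false

namespace Cfsg.Agent.Lib.Helper55.TUT

open scoped Pointwise


variable {G : Type*} [Group G]

theorem tusrel5b_conj2 {a b : G} (ha : a * a = 1) (hb : b * b = 1) (y : G) :
    (a * b) * y * (a * b)⁻¹ = a * (b * y * b) * a := by
  have ha' : a⁻¹ = a := inv_eq_of_mul_eq_one_right ha
  have hb' : b⁻¹ = b := inv_eq_of_mul_eq_one_right hb
  rw [mul_inv_rev, ha', hb']
  simp only [mul_assoc]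

theorem tusrel5b_conj_mul {a : G} (ha : a * a = 1) (y z : G) :
    a * (y * z) * a = (a * y * a) * (a * z * a) := by
  have h : (a * y * a) * (a * z * a) = a * y * (a * a) * z * a := by simp only [mul_assoc]
  rw [h, ha, mul_one]
  simp only [mul_assoc]

/-- all elements of an interval group of pairwise commuting involutions are involutions. -/
theorem tusrel5b_sq {g x₀ : G} (hinv : x₀ * x₀ = 1) {i j : ℤ}
    (hc : ∀ l m : ℤ, i ≤ l → l ≤ j → i ≤ m → m ≤ j →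
      xs g x₀ l * xs g x₀ m = xs g x₀ m * xs g x₀ l) :
    ∀ z ∈ Xint g x₀ i j, z * z = 1 := by
  have hQc : ∀ y ∈ Xint g x₀ i j, ∀ z ∈ Xint g x₀ i j, y * z = z * y := by
    intro y hy z hz
    have hyg : ∀ l : ℤ, i ≤ l → l ≤ j → y * xs g x₀ l = xs g x₀ l * y := fun l h1 h2 =>
      ((commute_Xint (fun m hm1 hm2 => hc l m h1 h2 hm1 hm2)) y hy).symm
    exact commute_Xint hyg z hz
  intro z hz
  have hz' : z ∈ Subgroup.closure (xs g x₀ '' Set.Icc i j) := hz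
  induction hz' using Subgroup.closure_induction with
  | mem x hx =>
    obtain ⟨l, -, rfl⟩ := hx
    exact xs_mul_self hinv l
  | one => exact one_mul 1
  | mul x y hx hy px py =>
    have hxy := hQc y hy x hx
    have e : x * y * (x * y) = x * (y * x) * y := by simp only [mul_assoc]
    rw [e, hxy]
    have e2 : x * (x * y) * y = (x * x) * (y * y) := by simp only [mul_assoc]
    rw [e2, px hx, py hy, one_mul]
  | inv x hx px =>
    rw [← mul_inv_rev, px hx, inv_one]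

/-- the abstract computation. -/
theorem tusrel5b_abs {x0 x1 x2 x3 x4 : G}
    (k0 : x0 * x0 = 1) (k1 : x1 * x1 = 1) (k2 : x2 * x2 = 1) (k3 : x3 * x3 = 1) (k4 : x4 * x4 = 1)
    (c01 : x0 * x1 = x1 * x0) (c02 : x0 * x2 = x2 * x0) (c12 : x1 * x2 = x2 * x1)
    (c13 : x1 * x3 = x3 * x1) (c23 : x2 * x3 = x3 * x2) (c24 : x2 * x4 = x4 * x2)
    (c34 : x3 * x4 = x4 * x3)
    (n12 : x1 ≠ x2) (n23 : x2 ≠ x3) (n3 : x3 ≠ 1)
    (v : G) (hv : v = (x0 * x4) ^ 3) (hv1 : v * x1 = x1 * v) (hv3 : v * x3 = x3 * v)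
    (hvv : v * v = 1)
    (hmem : v = 1 ∨ v = x1 ∨ v = x2 ∨ v = x1 * x2 ∨ v = x3 ∨ v = x1 * x3 ∨ v = x2 * x3 ∨
      v = x1 * (x2 * x3))
    (hcase : (x0 * x3 * x0 * x3 = x1 ∧ x1 * x4 * x1 * x4 = x2) ∨
      (x0 * x3 * x0 * x3 = x2 ∧ x1 * x4 * x1 * x4 = x3) ∨
      (x0 * x3 * x0 * x3 = x1 * x2 ∧ x1 * x4 * x1 * x4 = x2 * x3)) :
    x0 * x3 * x0 * x3 = x1 * x2 ∧ (v = 1 ∨ v = x2) := by
  -- normal-form rewriting facts for the commuting involutions x1, x2, x3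
  have s21 : x2 * x1 = x1 * x2 := c12.symm
  have s21' : ∀ z, x2 * (x1 * z) = x1 * (x2 * z) := by
    intro z; rw [← mul_assoc, ← mul_assoc, s21]
  have s31 : x3 * x1 = x1 * x3 := c13.symm
  have s31' : ∀ z, x3 * (x1 * z) = x1 * (x3 * z) := by
    intro z; rw [← mul_assoc, ← mul_assoc, s31]
  have s32 : x3 * x2 = x2 * x3 := c23.symm
  have s32' : ∀ z, x3 * (x2 * z) = x2 * (x3 * z) := by
    intro z; rw [← mul_assoc, ← mul_assoc, s32]
  have k1' : ∀ z, x1 * (x1 * z) = z := by intro z; rw [← mul_assoc, k1, one_mul]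
  have k2' : ∀ z, x2 * (x2 * z) = z := by intro z; rw [← mul_assoc, k2, one_mul]
  have k3' : ∀ z, x3 * (x3 * z) = z := by intro z; rw [← mul_assoc, k3, one_mul]
  have p12 : x1 * x2 ≠ 1 := by
    intro h
    apply n12
    calc x1 = (x1 * x2) * x2 := by rw [mul_assoc, k2, mul_one]
      _ = x2 := by rw [h, one_mul]
  have p23 : x2 * x3 ≠ 1 := by
    intro h
    apply n23
    calc x2 = (x2 * x3) * x3 := by rw [mul_assoc, k3, mul_one]
      _ = x3 := by rw [h, one_mul]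
  have h0i : x0⁻¹ = x0 := inv_eq_of_mul_eq_one_right k0
  have h4i : x4⁻¹ = x4 := inv_eq_of_mul_eq_one_right k4
  have cu : ∀ y, (x0 * x4) * y * (x0 * x4)⁻¹ = x0 * (x4 * y * x4) * x0 :=
    fun y => tusrel5b_conj2 k0 k4 y
  have cu_mul : ∀ y z, (x0 * x4) * (y * z) * (x0 * x4)⁻¹ =
      ((x0 * x4) * y * (x0 * x4)⁻¹) * ((x0 * x4) * z * (x0 * x4)⁻¹) := by
    intro y z; group
  have conj3 : ∀ y, v * y * v⁻¹ = (x0 * x4) * ((x0 * x4) * ((x0 * x4) * y * (x0 * x4)⁻¹) *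
      (x0 * x4)⁻¹) * (x0 * x4)⁻¹ := by
    intro y
    have e3 : v = (x0 * x4) * (x0 * x4) * (x0 * x4) := by rw [hv, pow_succ, pow_two]
    rw [e3]
    group
  have a1 : x0 * x1 * x0 = x1 := by rw [c01, mul_assoc, k0, mul_one]
  have a2 : x0 * x2 * x0 = x2 := by rw [c02, mul_assoc, k0, mul_one]
  have b2 : x4 * x2 * x4 = x2 := by rw [← c24, mul_assoc, k4, mul_one]
  have b3 : x4 * x3 * x4 = x3 := by rw [← c34, mul_assoc, k4, mul_one]
  have a3 : ∀ c, x0 * x3 * x0 * x3 = c → x0 * x3 * x0 = c * x3 := by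
    intro c h
    rw [← h]
    simp only [mul_assoc]
    rw [k3, mul_one]
  have b1 : ∀ c, x1 * x4 * x1 * x4 = c → x4 * x1 * x4 = x1 * c := by
    intro c h
    rw [← h]
    simp only [mul_assoc]
    rw [← mul_assoc x1 x1, k1, one_mul]
  rcases hcase with h | h | h
  · exfalso
    have A3 := a3 _ h.1
    have B1 := b1 _ h.2
    have e1 : (x0 * x4) * x1 * (x0 * x4)⁻¹ = x1 * x2 := by
      rw [cu, B1, tusrel5b_conj_mul k0, a1, a2]
    have e2 : (x0 * x4) * x2 * (x0 * x4)⁻¹ = x2 := by rw [cu, b2, a2]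
    have e3 : (x0 * x4) * x3 * (x0 * x4)⁻¹ = x1 * x3 := by rw [cu, b3, A3]
    have f2 : (x0 * x4) * (x1 * x3) * (x0 * x4)⁻¹ = (x1 * x2) * (x1 * x3) := by
      rw [cu_mul, e1, e3]
    have f3 : (x0 * x4) * ((x1 * x2) * (x1 * x3)) * (x0 * x4)⁻¹ =
        ((x1 * x2) * x2) * ((x1 * x2) * (x1 * x3)) := by
      rw [cu_mul, cu_mul x1 x2, cu_mul x1 x3, e1, e2, e3]
    have key : v * x3 * v⁻¹ = ((x1 * x2) * x2) * ((x1 * x2) * (x1 * x3)) := by
      rw [conj3, e3, f2, f3]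
    have hv3' : v * x3 * v⁻¹ = x3 := by rw [hv3, mul_inv_cancel_right]
    rw [hv3'] at key
    have t : 1 * x3 = (x1 * x2) * x3 := by
      simpa only [mul_assoc, s21, s21', s31, s31', s32, s32', k1, k1', k2, k2', k3, k3', mul_one,
        one_mul] using key
    exact p12 (mul_right_cancel t).symm
  · exfalso
    have A3 := a3 _ h.1
    have B1 := b1 _ h.2
    have e1 : (x0 * x4) * x1 * (x0 * x4)⁻¹ = x1 * (x2 * x3) := by
      rw [cu, B1, tusrel5b_conj_mul k0, a1, A3]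
    have e2 : (x0 * x4) * x2 * (x0 * x4)⁻¹ = x2 := by rw [cu, b2, a2]
    have e3 : (x0 * x4) * x3 * (x0 * x4)⁻¹ = x2 * x3 := by rw [cu, b3, A3]
    have f2 : (x0 * x4) * (x1 * (x2 * x3)) * (x0 * x4)⁻¹ = (x1 * (x2 * x3)) * (x2 * (x2 * x3)) := by
      rw [cu_mul, cu_mul x2 x3, e1, e2, e3]
    have f3 : (x0 * x4) * ((x1 * (x2 * x3)) * (x2 * (x2 * x3))) * (x0 * x4)⁻¹ =
        ((x1 * (x2 * x3)) * (x2 * (x2 * x3))) * (x2 * (x2 * (x2 * x3))) := by
      rw [cu_mul, f2, cu_mul x2 (x2 * x3), cu_mul x2 x3, e2, e3]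
    have key : v * x1 * v⁻¹ =
        ((x1 * (x2 * x3)) * (x2 * (x2 * x3))) * (x2 * (x2 * (x2 * x3))) := by
      rw [conj3, e1, f2, f3]
    have hv1' : v * x1 * v⁻¹ = x1 := by rw [hv1, mul_inv_cancel_right]
    rw [hv1'] at key
    have t : x1 * 1 = x1 * x3 := by
      simpa only [mul_assoc, s21, s21', s31, s31', s32, s32', k1, k1', k2, k2', k3, k3', mul_one,
        one_mul] using key
    exact n3 (mul_left_cancel t).symm
  · refine ⟨h.1, ?_⟩
    have A3 := a3 _ h.1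
    have B1 := b1 _ h.2
    have hvi : v⁻¹ = v := inv_eq_of_mul_eq_one_right hvv
    have hv0 : x0 * v * x0 = v := by
      have h1 : x0 * (x0 * x4) * x0⁻¹ = (x0 * x4)⁻¹ := by
        rw [mul_inv_rev, h0i, h4i, ← mul_assoc, k0, one_mul]
      have h2 := map_pow (MulAut.conj x0) (x0 * x4) 3
      rw [MulAut.conj_apply, MulAut.conj_apply, h1, inv_pow, ← hv, h0i, hvi] at h2
      exact h2
    have hv4 : x4 * v * x4 = v := by
      have h1 : x4 * (x0 * x4) * x4⁻¹ = (x0 * x4)⁻¹ := by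
        rw [mul_inv_rev, h0i, h4i, mul_assoc, mul_assoc, k4, mul_one]
      have h2 := map_pow (MulAut.conj x4) (x0 * x4) 3
      rw [MulAut.conj_apply, MulAut.conj_apply, h1, inv_pow, ← hv, h4i, hvi] at h2
      exact h2
    rcases hmem with hm | hm | hm | hm | hm | hm | hm | hm
    · exact Or.inl hm
    · exfalso
      rw [hm, B1] at hv4
      have t : x1 * (x2 * x3) = x1 * 1 := by rw [mul_one]; exact hv4
      exact p23 (mul_left_cancel t)
    · exact Or.inr hm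
    · exfalso
      rw [hm, tusrel5b_conj_mul k4, B1, b2] at hv4
      have t : x1 * x3 = x1 * x2 := by
        simpa only [mul_assoc, s21, s21', s31, s31', s32, s32', k1, k1', k2, k2', k3, k3', mul_one,
          one_mul] using hv4
      exact n23 (mul_left_cancel t).symm
    · exfalso
      rw [hm, A3] at hv0
      have t : (x1 * x2) * x3 = 1 * x3 := by rw [one_mul]; exact hv0
      exact p12 (mul_right_cancel t)
    · exfalso
      rw [hm, tusrel5b_conj_mul k0, a1, A3] at hv0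
      have t : x2 * x3 = x1 * x3 := by
        simpa only [mul_assoc, s21, s21', s31, s31', s32, s32', k1, k1', k2, k2', k3, k3', mul_one,
          one_mul] using hv0
      exact n12 (mul_right_cancel t).symm
    · exfalso
      rw [hm, tusrel5b_conj_mul k0, a2, A3] at hv0
      have t : x1 * x3 = x2 * x3 := by
        simpa only [mul_assoc, s21, s21', s31, s31', s32, s32', k1, k1', k2, k2', k3, k3', mul_one,
          one_mul] using hv0
      exact n12 (mul_right_cancel t)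
    · exfalso
      rw [hm, tusrel5b_conj_mul k0, tusrel5b_conj_mul k0, a1, a2, A3] at hv0
      have t : 1 * x3 = (x1 * x2) * x3 := by
        simpa only [mul_assoc, s21, s21', s31, s31', s32, s32', k1, k1', k2, k2', k3, k3', mul_one,
          one_mul] using hv0
      exact p12 (mul_right_cancel t).symm

/-- `s = 5`: `c := [x_0, x_3] = x_1 x_2` and `(x_0 x_4)^3 ∈ {1, x_2}`.  Proof.  `Q := Xint g x₀ 1 3` is abelian (`hcomm`) of card 8 (`card_Xint C 1 3`), all elements `y` have `y * y = 1`, and its elements are `x_1^a x_2^b x_3^e` (`coset_right`/`coset_left`).  `T := Xint g x₀ 0 4`, `48 = 6 * 8`.  Put `c' := x_1 x_4 x_1 x_4 = g c g⁻¹` (so `c' = x_2, x_3, x_2 x_3` in the three cases); `x_0 x_3 x_0 = c x_3`, `x_4 x_1 x_4 = x_1 c'`, and `x_0` commutes with `x_1, x_2`, `x_4` with `x_2, x_3`.  So `T` normalises `Q` (subgroup argument + `Xint_le`, generators `x_0..x_4`), and `T ≤ Q ⊔ closure {x_0, x_4}`.  `tus_cube_mem`: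 `v := (x_0 x_4)^3 ∈ Q`, so `v` commutes with `x_1` and `x_3`.  With `u := x_0 x_4`, `u y u⁻¹ = x_0 (x_4 y x_4) x_0`: if `c = x_1` (`c' = x_2`): `u x_3 u⁻¹ = x_1 x_3`, `u x_1 u⁻¹ = x_1 x_2`, `u x_2 u⁻¹ = x_2`, so `v x_3 v⁻¹ = x_1 x_2 x_3 ≠ x_3`: contradiction.  If `c = x_2` (`c' = x_3`): `u x_1 u⁻¹ = x_1 x_2 x_3`, `u x_3 u⁻¹ = x_2 x_3`, so `v x_1 v⁻¹ = x_1 x_3 ≠ x_1`: contradiction.  Hence `c = x_1 x_2`, `c' = x_2 x_3`.  `x_0 v x_0 = v⁻¹ = v` and `x_4 v x_4 = v`; for `y = x_1^a x_2^b x_3^e ∈ Q`: `x_0 y x_0 = y c^e`, `x_4 y x_4 = y c'^a`, so `v` commuting with `x_0` and `x_4` forces `e = 0`, `a = 0`: `v ∈ {1, x_2}`. -/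
theorem tus_rel5b [Finite G] {g x₀ : G} (C : Calc g x₀ 5) (hc : Nat.card (Xint g x₀ 0 4) = 48)
    (hcomm : ∀ i j : ℤ, |i - j| ≤ 2 → xs g x₀ i * xs g x₀ j = xs g x₀ j * xs g x₀ i)
    (hc3 : xs g x₀ 0 * xs g x₀ 3 * xs g x₀ 0 * xs g x₀ 3 = xs g x₀ 1 ∨
      xs g x₀ 0 * xs g x₀ 3 * xs g x₀ 0 * xs g x₀ 3 = xs g x₀ 2 ∨
      xs g x₀ 0 * xs g x₀ 3 * xs g x₀ 0 * xs g x₀ 3 = xs g x₀ 1 * xs g x₀ 2) :
    xs g x₀ 0 * xs g x₀ 3 * xs g x₀ 0 * xs g x₀ 3 = xs g x₀ 1 * xs g x₀ 2 ∧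
    ((xs g x₀ 0 * xs g x₀ 4) ^ 3 = 1 ∨ (xs g x₀ 0 * xs g x₀ 4) ^ 3 = xs g x₀ 2) := by
  have hinv : ∀ i : ℤ, xs g x₀ i * xs g x₀ i = 1 := fun i => xs_mul_self C.inv i
  have c01 := hcomm 0 1 (by rw [abs_le]; constructor <;> norm_num)
  have c02 := hcomm 0 2 (by rw [abs_le]; constructor <;> norm_num)
  have c12 := hcomm 1 2 (by rw [abs_le]; constructor <;> norm_num)
  have c13 := hcomm 1 3 (by rw [abs_le]; constructor <;> norm_num)
  have c23 := hcomm 2 3 (by rw [abs_le]; constructor <;> norm_num)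
  have c24 := hcomm 2 4 (by rw [abs_le]; constructor <;> norm_num)
  have c34 := hcomm 3 4 (by rw [abs_le]; constructor <;> norm_num)
  have n12 : xs g x₀ 1 ≠ xs g x₀ 2 := by
    intro h
    refine xs_not_mem_left C 1 2 (by norm_num) (by norm_num) ?_
    rw [h]
    exact xs_mem_Xint (by norm_num) (by norm_num)
  have n23 : xs g x₀ 2 ≠ xs g x₀ 3 := by
    intro h
    refine xs_not_mem_left C 2 3 (by norm_num) (by norm_num) ?_
    rw [h]
    exact xs_mem_Xint (by norm_num) (by norm_num)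
  have n3 : xs g x₀ 3 ≠ 1 := by
    intro h
    refine xs_not_mem_left C 3 3 le_rfl (by norm_num) ?_
    rw [h]
    exact Subgroup.one_mem _
  -- the shifted commutator
  have sh := calcFinal_shift g x₀ 0 3 1
  have e01 : (0 : ℤ) + 1 = 1 := by norm_num
  have e31 : (3 : ℤ) + 1 = 4 := by norm_num
  have e11 : (1 : ℤ) + 1 = 2 := by norm_num
  have e21 : (2 : ℤ) + 1 = 3 := by norm_num
  rw [e01, e31] at sh
  have s1 := xs_conj g x₀ 1 1
  rw [e11] at s1
  have s2 := xs_conj g x₀ 2 1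
  rw [e21] at s2
  have hcase : (xs g x₀ 0 * xs g x₀ 3 * xs g x₀ 0 * xs g x₀ 3 = xs g x₀ 1 ∧
        xs g x₀ 1 * xs g x₀ 4 * xs g x₀ 1 * xs g x₀ 4 = xs g x₀ 2) ∨
      (xs g x₀ 0 * xs g x₀ 3 * xs g x₀ 0 * xs g x₀ 3 = xs g x₀ 2 ∧
        xs g x₀ 1 * xs g x₀ 4 * xs g x₀ 1 * xs g x₀ 4 = xs g x₀ 3) ∨
      (xs g x₀ 0 * xs g x₀ 3 * xs g x₀ 0 * xs g x₀ 3 = xs g x₀ 1 * xs g x₀ 2 ∧
        xs g x₀ 1 * xs g x₀ 4 * xs g x₀ 1 * xs g x₀ 4 = xs g x₀ 2 * xs g x₀ 3) := by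
    rcases hc3 with h | h | h
    · left
      exact ⟨h, by rw [← sh, h, s1]⟩
    · right; left
      exact ⟨h, by rw [← sh, h, s2]⟩
    · right; right
      refine ⟨h, ?_⟩
      rw [← sh, h]
      have e : g ^ (1 : ℤ) * (xs g x₀ 1 * xs g x₀ 2) * (g ^ (1 : ℤ))⁻¹ =
          (g ^ (1 : ℤ) * xs g x₀ 1 * (g ^ (1 : ℤ))⁻¹) *
            (g ^ (1 : ℤ) * xs g x₀ 2 * (g ^ (1 : ℤ))⁻¹) := by group
      rw [e, s1, s2]
  have m1 : xs g x₀ 1 ∈ Xint g x₀ 1 3 := xs_mem_Xint (by norm_num) (by norm_num)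
  have m2 : xs g x₀ 2 ∈ Xint g x₀ 1 3 := xs_mem_Xint (by norm_num) (by norm_num)
  have m3 : xs g x₀ 3 ∈ Xint g x₀ 1 3 := xs_mem_Xint (by norm_num) (by norm_num)
  have hc0Q : xs g x₀ 0 * xs g x₀ 3 * xs g x₀ 0 * xs g x₀ 3 ∈ Xint g x₀ 1 3 := by
    rcases hc3 with h | h | h
    · rw [h]; exact m1
    · rw [h]; exact m2
    · rw [h]; exact Subgroup.mul_mem _ m1 m2
  have hc1Q : xs g x₀ 1 * xs g x₀ 4 * xs g x₀ 1 * xs g x₀ 4 ∈ Xint g x₀ 1 3 := by
    rcases hcase with h | h | h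
    · rw [h.2]; exact m2
    · rw [h.2]; exact m3
    · rw [h.2]; exact Subgroup.mul_mem _ m2 m3
  -- normality
  have hN : Xint g x₀ 0 4 ≤ Subgroup.normalizer ((Xint g x₀ 1 3 : Subgroup G) : Set G) := by
    apply Xint_le
    intro l hl0 hl4
    have hfwd : ∀ q ∈ Xint g x₀ 1 3, xs g x₀ l * q * (xs g x₀ l)⁻¹ ∈ Xint g x₀ 1 3 := by
      have hle : Xint g x₀ 1 3 ≤
          (Xint g x₀ 1 3).comap (MulAut.conj (xs g x₀ l)).toMonoidHom := by
        apply Xint_le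
        intro m hm1 hm3
        rw [Subgroup.mem_comap]
        show MulAut.conj (xs g x₀ l) (xs g x₀ m) ∈ Xint g x₀ 1 3
        rw [MulAut.conj_apply, xs_inv C.inv]
        have mm : xs g x₀ m ∈ Xint g x₀ 1 3 := xs_mem_Xint hm1 hm3
        by_cases hl1 : 1 ≤ l ∧ l ≤ 3
        · have ml : xs g x₀ l ∈ Xint g x₀ 1 3 := xs_mem_Xint hl1.1 hl1.2
          exact Subgroup.mul_mem _ (Subgroup.mul_mem _ ml mm) ml
        · have hl04 : l = 0 ∨ l = 4 := by omega
          rcases hl04 with rfl | rfl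
          · by_cases hm : m ≤ 2
            · have hcm := hcomm 0 m (by rw [abs_le]; constructor <;> omega)
              rw [hcm, mul_assoc, hinv, mul_one]
              exact mm
            · have hm3' : m = 3 := by omega
              subst hm3'
              have e : xs g x₀ 0 * xs g x₀ 3 * xs g x₀ 0 =
                  (xs g x₀ 0 * xs g x₀ 3 * xs g x₀ 0 * xs g x₀ 3) * xs g x₀ 3 := by
                rw [mul_assoc _ (xs g x₀ 3) (xs g x₀ 3), hinv, mul_one]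
              rw [e]
              exact Subgroup.mul_mem _ hc0Q m3
          · by_cases hm : 2 ≤ m
            · have hcm := hcomm 4 m (by rw [abs_le]; constructor <;> omega)
              rw [hcm, mul_assoc, hinv, mul_one]
              exact mm
            · have hm1' : m = 1 := by omega
              subst hm1'
              have e : xs g x₀ 4 * xs g x₀ 1 * xs g x₀ 4 =
                  xs g x₀ 1 * (xs g x₀ 1 * xs g x₀ 4 * xs g x₀ 1 * xs g x₀ 4) := by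
                have e1 : xs g x₀ 1 * (xs g x₀ 1 * xs g x₀ 4 * xs g x₀ 1 * xs g x₀ 4) =
                    (xs g x₀ 1 * xs g x₀ 1) * xs g x₀ 4 * xs g x₀ 1 * xs g x₀ 4 := by
                  simp only [mul_assoc]
                rw [e1, hinv, one_mul]
              rw [e]
              exact Subgroup.mul_mem _ m1 hc1Q
      intro q hq
      have h1 := hle hq
      rw [Subgroup.mem_comap] at h1
      have h2 : MulAut.conj (xs g x₀ l) q ∈ Xint g x₀ 1 3 := h1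
      rw [MulAut.conj_apply] at h2
      exact h2
    rw [Subgroup.mem_normalizer_iff]
    intro q
    constructor
    · exact hfwd q
    · intro hq
      have h1 := hfwd _ hq
      have e : xs g x₀ l * (xs g x₀ l * q * (xs g x₀ l)⁻¹) * (xs g x₀ l)⁻¹ = q := by
        rw [xs_inv C.inv]
        have e1 : xs g x₀ l * (xs g x₀ l * q * xs g x₀ l) * xs g x₀ l =
            (xs g x₀ l * xs g x₀ l) * q * (xs g x₀ l * xs g x₀ l) := by simp only [mul_assoc]
        rw [e1, hinv, one_mul, mul_one]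
      rw [e] at h1
      exact h1
  have hnorm : ∀ t ∈ Xint g x₀ 0 4, ∀ q ∈ Xint g x₀ 1 3, t * q * t⁻¹ ∈ Xint g x₀ 1 3 := by
    intro t ht q hq
    exact (Subgroup.mem_normalizer_iff.mp (hN ht) q).mp hq
  have h8 : Nat.card (Xint g x₀ 1 3) = 8 := by
    have h := card_Xint C 1 3 (by norm_num) (by norm_num)
    rw [h]
    have e : ((3 : ℤ) - 1 + 1).toNat = 3 := by decide
    rw [e]
    norm_num
  have hvQ : (xs g x₀ 0 * xs g x₀ 4) ^ 3 ∈ Xint g x₀ 1 3 := by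
    refine tus_cube_mem (Xint g x₀ 0 4) (Xint g x₀ 1 3) (Xint_mono (by norm_num) (by norm_num))
      hnorm (by rw [hc, h8]) (xs g x₀ 0) (xs g x₀ 4) (hinv 0) (hinv 4)
      (xs_mem_Xint (by norm_num) (by norm_num)) (xs_mem_Xint (by norm_num) (by norm_num)) ?_
    apply Xint_le
    intro l hl0 hl4
    by_cases hl1 : 1 ≤ l ∧ l ≤ 3
    · exact Subgroup.mem_sup_left (xs_mem_Xint hl1.1 hl1.2)
    · have hl04 : l = 0 ∨ l = 4 := by omega
      rcases hl04 with rfl | rfl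
      · exact Subgroup.mem_sup_right (Subgroup.subset_closure (by simp))
      · exact Subgroup.mem_sup_right (Subgroup.subset_closure (by simp))
  have hQc : ∀ l m : ℤ, 1 ≤ l → l ≤ 3 → 1 ≤ m → m ≤ 3 →
      xs g x₀ l * xs g x₀ m = xs g x₀ m * xs g x₀ l := by
    intro l m h1 h2 h3 h4
    exact hcomm l m (by rw [abs_le]; constructor <;> omega)
  have hvv := tusrel5b_sq C.inv hQc _ hvQ
  have hv1 : (xs g x₀ 0 * xs g x₀ 4) ^ 3 * xs g x₀ 1 = xs g x₀ 1 * (xs g x₀ 0 * xs g x₀ 4) ^ 3 :=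
    ((commute_Xint (fun m hm1 hm2 => hQc 1 m (by norm_num) (by norm_num) hm1 hm2)) _ hvQ).symm
  have hv3 : (xs g x₀ 0 * xs g x₀ 4) ^ 3 * xs g x₀ 3 = xs g x₀ 3 * (xs g x₀ 0 * xs g x₀ 4) ^ 3 :=
    ((commute_Xint (fun m hm1 hm2 => hQc 3 m (by norm_num) (by norm_num) hm1 hm2)) _ hvQ).symm
  -- the eight elements of `Q`
  have four : ∀ w ∈ Xint g x₀ 1 2, w = 1 ∨ w = xs g x₀ 1 ∨ w = xs g x₀ 2 ∨
      w = xs g x₀ 1 * xs g x₀ 2 := by
    intro w hw
    have h := coset_right C 1 2 (by norm_num) (by norm_num) w hw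
    have e : (2 : ℤ) - 1 = 1 := by norm_num
    rw [e] at h
    have hw2 : w = (w * xs g x₀ 2) * xs g x₀ 2 := by rw [mul_assoc, hinv, mul_one]
    rcases h with h | h
    · rcases calcAsm_mem_single C.inv 1 _ h with h | h
      · exact Or.inl h
      · exact Or.inr (Or.inl h)
    · rcases calcAsm_mem_single C.inv 1 _ h with h | h
      · rw [h, one_mul] at hw2
        exact Or.inr (Or.inr (Or.inl hw2))
      · rw [h] at hw2
        exact Or.inr (Or.inr (Or.inr hw2))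
  have hmem : (xs g x₀ 0 * xs g x₀ 4) ^ 3 = 1 ∨ (xs g x₀ 0 * xs g x₀ 4) ^ 3 = xs g x₀ 1 ∨
      (xs g x₀ 0 * xs g x₀ 4) ^ 3 = xs g x₀ 2 ∨
      (xs g x₀ 0 * xs g x₀ 4) ^ 3 = xs g x₀ 1 * xs g x₀ 2 ∨
      (xs g x₀ 0 * xs g x₀ 4) ^ 3 = xs g x₀ 3 ∨
      (xs g x₀ 0 * xs g x₀ 4) ^ 3 = xs g x₀ 1 * xs g x₀ 3 ∨
      (xs g x₀ 0 * xs g x₀ 4) ^ 3 = xs g x₀ 2 * xs g x₀ 3 ∨
      (xs g x₀ 0 * xs g x₀ 4) ^ 3 = xs g x₀ 1 * (xs g x₀ 2 * xs g x₀ 3) := by
    have h := coset_right C 1 3 (by norm_num) (by norm_num) _ hvQ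
    have e : (3 : ℤ) - 1 = 2 := by norm_num
    rw [e] at h
    have hw3 : (xs g x₀ 0 * xs g x₀ 4) ^ 3 =
        ((xs g x₀ 0 * xs g x₀ 4) ^ 3 * xs g x₀ 3) * xs g x₀ 3 := by rw [mul_assoc, hinv, mul_one]
    rcases h with h | h
    · rcases four _ h with h | h | h | h
      · exact Or.inl h
      · exact Or.inr (Or.inl h)
      · exact Or.inr (Or.inr (Or.inl h))
      · exact Or.inr (Or.inr (Or.inr (Or.inl h)))
    · rcases four _ h with h | h | h | h
      · rw [h, one_mul] at hw3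
        exact Or.inr (Or.inr (Or.inr (Or.inr (Or.inl hw3))))
      · rw [h] at hw3
        exact Or.inr (Or.inr (Or.inr (Or.inr (Or.inr (Or.inl hw3)))))
      · rw [h] at hw3
        exact Or.inr (Or.inr (Or.inr (Or.inr (Or.inr (Or.inr (Or.inl hw3))))))
      · rw [h, mul_assoc] at hw3
        exact Or.inr (Or.inr (Or.inr (Or.inr (Or.inr (Or.inr (Or.inr hw3))))))
  exact tusrel5b_abs (hinv 0) (hinv 1) (hinv 2) (hinv 3) (hinv 4) c01 c02 c12 c13 c23 c24 c34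
    n12 n23 n3 _ rfl hv1 hv3 hvv hmem hcase

end Cfsg.Agent.Lib.Helper55.TUT
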