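import Cfsg.Agent.Lib.Helper55.TusDefs
import Cfsg.Agent.Lib.Helper5.DihIso
import Cfsg.Agent.Lib.Helper55.TutCalcCard
import Cfsg.Agent.Lib.Helper55.TutCalcIdxL
import Cfsg.Agent.Lib.Helper55.TutCalcIdxR
import Cfsg.Agent.Lib.Helper55.TutCalcInt
import Cfsg.Agent.Lib.Helper55.TutCalcComm
import Cfsg.Agent.Lib.Helper55.TutCalcAsm
import Cfsg.Agent.Lib.Helper55.TutCalcE
import Cfsg.Agent.Lib.Helper55.TutCalcFinal

/-!
# Project TUS (S3685: structure of the point stabiliser, suborbit of length 3) -- piece `TusT0`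

Filled by helper81.  Notation: `x_i := xs g x₀ i` (involutions, `g x_i g⁻¹ = x_{i+1}`: `xs_conj`),
`Xint g x₀ i j = ⟨x_i..x_j⟩`.
-/

set_option autoImplicit false

namespace Cfsg.Agent.Lib.Helper55.TUT

open scoped Pointwise


variable {G : Type*} [Group G]

theorem tust0_card_sup_le [Finite G] (H K : Subgroup G)
    (hn : ∀ k ∈ K, ∀ h ∈ H, k * h * k⁻¹ ∈ H) :
    Nat.card ↥(H ⊔ K) ≤ Nat.card H * Nat.card K := by
  have hmem : ∀ z ∈ H ⊔ K, ∃ h ∈ H, ∃ k ∈ K, z = h * k := by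
    intro z hz
    rw [Subgroup.sup_eq_closure] at hz
    induction hz using Subgroup.closure_induction with
    | mem z hz =>
      rcases hz with hz | hz
      · exact ⟨z, hz, 1, K.one_mem, (mul_one z).symm⟩
      · exact ⟨1, H.one_mem, z, hz, (one_mul z).symm⟩
    | one => exact ⟨1, H.one_mem, 1, K.one_mem, (mul_one 1).symm⟩
    | mul y z _ _ hy hz =>
      obtain ⟨h1, hh1, k1, hk1, rfl⟩ := hy
      obtain ⟨h2, hh2, k2, hk2, rfl⟩ := hz
      refine ⟨h1 * (k1 * h2 * k1⁻¹), H.mul_mem hh1 (hn k1 hk1 h2 hh2), k1 * k2,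
        K.mul_mem hk1 hk2, ?_⟩
      group
    | inv z _ hz =>
      obtain ⟨h1, hh1, k1, hk1, rfl⟩ := hz
      refine ⟨k1⁻¹ * h1⁻¹ * k1⁻¹⁻¹, hn k1⁻¹ (K.inv_mem hk1) h1⁻¹ (H.inv_mem hh1), k1⁻¹,
        K.inv_mem hk1, ?_⟩
      group
  rw [← Nat.card_prod]
  let f : H × K → ↥(H ⊔ K) := fun p =>
    ⟨p.1.1 * p.2.1, Subgroup.mul_mem _ (Subgroup.mem_sup_left p.1.2) (Subgroup.mem_sup_right p.2.2)⟩
  refine Nat.card_le_card_of_surjective f ?_
  rintro ⟨z, hz⟩
  obtain ⟨h, hh, k, hk, rfl⟩ := hmem z hz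
  exact ⟨(⟨h, hh⟩, ⟨k, hk⟩), rfl⟩

theorem tust0_norm_closure (R S : Set G)
    (h1 : ∀ s ∈ S, ∀ r ∈ R, s * r * s⁻¹ ∈ Subgroup.closure R)
    (h2 : ∀ s ∈ S, ∀ r ∈ R, s⁻¹ * r * s⁻¹⁻¹ ∈ Subgroup.closure R) :
    ∀ k ∈ Subgroup.closure S, ∀ h ∈ Subgroup.closure R, k * h * k⁻¹ ∈ Subgroup.closure R := by
  have key : ∀ s : G, (∀ r ∈ R, s * r * s⁻¹ ∈ Subgroup.closure R) →
      ∀ h ∈ Subgroup.closure R, s * h * s⁻¹ ∈ Subgroup.closure R := by
    intro s hs h hh
    induction hh using Subgroup.closure_induction with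
    | mem z hz => exact hs z hz
    | one => simp
    | mul y z _ _ hy hz =>
      have : s * (y * z) * s⁻¹ = (s * y * s⁻¹) * (s * z * s⁻¹) := by group
      rw [this]; exact Subgroup.mul_mem _ hy hz
    | inv z _ hz =>
      have : s * z⁻¹ * s⁻¹ = (s * z * s⁻¹)⁻¹ := by group
      rw [this]; exact Subgroup.inv_mem _ hz
  intro k hk
  have : (∀ h ∈ Subgroup.closure R, k * h * k⁻¹ ∈ Subgroup.closure R) ∧
      (∀ h ∈ Subgroup.closure R, k⁻¹ * h * k⁻¹⁻¹ ∈ Subgroup.closure R) := by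
    induction hk using Subgroup.closure_induction with
    | mem z hz => exact ⟨key z (h1 z hz), key z⁻¹ (h2 z hz)⟩
    | one => simp
    | mul y z _ _ hy hz =>
      refine ⟨fun h hh => ?_, fun h hh => ?_⟩
      · have : y * z * h * (y * z)⁻¹ = y * (z * h * z⁻¹) * y⁻¹ := by group
        rw [this]; exact hy.1 _ (hz.1 h hh)
      · have : (y * z)⁻¹ * h * (y * z)⁻¹⁻¹ = z⁻¹ * (y⁻¹ * h * y⁻¹⁻¹) * z⁻¹⁻¹ := by group
        rw [this]; exact hz.2 _ (hy.2 h hh)
    | inv z _ hz => exact ⟨hz.2, by simpa using hz.1⟩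
  exact this.1

theorem tust0_card_zpowers_le [Finite G] (x : G) (n : ℕ) (hn : 0 < n) (h : x ^ n = 1) :
    Nat.card (Subgroup.zpowers x) ≤ n := by
  rw [Nat.card_zpowers]
  exact Nat.le_of_dvd hn (orderOf_dvd_of_pow_eq_one h)

theorem tust0_card_pair_le [Finite G] (u v : G) (m n : ℕ) (hm : 0 < m) (hn : 0 < n)
    (hu : u ^ m = 1) (hv : v ^ n = 1)
    (h1 : v * u * v⁻¹ ∈ Subgroup.zpowers u) (h2 : v⁻¹ * u * v⁻¹⁻¹ ∈ Subgroup.zpowers u) :
    Nat.card ↥(Subgroup.closure ({u, v} : Set G)) ≤ m * n := by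
  have hle : Subgroup.closure ({u, v} : Set G) ≤ Subgroup.zpowers u ⊔ Subgroup.zpowers v := by
    rw [Subgroup.closure_le]
    intro z hz
    rcases hz with rfl | rfl
    · exact Subgroup.mem_sup_left (Subgroup.mem_zpowers _)
    · exact Subgroup.mem_sup_right (Subgroup.mem_zpowers _)
  have hnorm : ∀ k ∈ Subgroup.zpowers v, ∀ h ∈ Subgroup.zpowers u,
      k * h * k⁻¹ ∈ Subgroup.zpowers u := by
    rw [Subgroup.zpowers_eq_closure, Subgroup.zpowers_eq_closure]
    refine tust0_norm_closure {u} {v} ?_ ?_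
    · rintro s rfl r rfl
      rw [← Subgroup.zpowers_eq_closure]; exact h1
    · rintro s rfl r rfl
      rw [← Subgroup.zpowers_eq_closure]; exact h2
  calc Nat.card ↥(Subgroup.closure ({u, v} : Set G))
      ≤ Nat.card ↥(Subgroup.zpowers u ⊔ Subgroup.zpowers v) := Subgroup.card_le_of_le hle
    _ ≤ Nat.card (Subgroup.zpowers u) * Nat.card (Subgroup.zpowers v) :=
        tust0_card_sup_le _ _ hnorm
    _ ≤ m * n := Nat.mul_le_mul (tust0_card_zpowers_le u m hm hu) (tust0_card_zpowers_le v n hn hv)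

theorem tust0_central (z y w : G) (hzz : z * z = 1) (hzy : Commute z y) (hzw : Commute z w) :
    (y * z) * w * (y * z) = y * w * y := by
  calc (y * z) * w * (y * z) = y * (z * w) * (y * z) := by simp only [mul_assoc]
    _ = y * (w * z) * (y * z) := by rw [hzw.eq]
    _ = y * w * (z * y) * z := by simp only [mul_assoc]
    _ = y * w * (y * z) * z := by rw [hzy.eq]
    _ = y * w * y * (z * z) := by simp only [mul_assoc]
    _ = y * w * y := by rw [hzz, mul_one]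

theorem tust0_abs [Finite G] (x0 x1 x2 x3 x4 b : G)
    (i0 : x0 * x0 = 1) (i1 : x1 * x1 = 1) (i2 : x2 * x2 = 1) (i3 : x3 * x3 = 1)
    (i4 : x4 * x4 = 1)
    (c01 : Commute x0 x1) (c02 : Commute x0 x2) (c12 : Commute x1 x2) (c13 : Commute x1 x3)
    (c23 : Commute x2 x3) (c24 : Commute x2 x4) (c34 : Commute x3 x4)
    (hc3 : x0 * x3 * x0 * x3 = x1 * x2) (hc3' : x1 * x4 * x1 * x4 = x2 * x3)
    (hb : b = x4 ∨ b = x4 * x2) (hu : (x0 * b) ^ 3 = 1) :
    Nat.card ↥(Subgroup.closure ({x1 * x2, x2 * x3, x0, b} : Set G)) ≤ 24 := by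
  have hx0inv : x0⁻¹ = x0 := inv_eq_of_mul_eq_one_left i0
  have hx3inv : x3⁻¹ = x3 := inv_eq_of_mul_eq_one_left i3
  have hbb : b * b = 1 := by
    rcases hb with rfl | rfl
    · exact i4
    · rw [c24.mul_mul_mul_comm, i4, i2, mul_one]
  have hbinv : b⁻¹ = b := inv_eq_of_mul_eq_one_left hbb
  -- reduction of conjugation by `b` to conjugation by `x4`
  have hbw : ∀ w : G, Commute x2 w → b * w * b = x4 * w * x4 := by
    intro w hw
    rcases hb with rfl | rfl
    · rfl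
    · exact tust0_central x2 x4 w i2 c24 hw
  -- the four conjugation identities
  have E1 : x0 * (x1 * x2) * x0 = x1 * x2 := by
    have h : Commute x0 (x1 * x2) := c01.mul_right c02
    rw [h.eq, mul_assoc, i0, mul_one]
  have h03 : x0 * x3 * x0 = x1 * x2 * x3 := by
    have := eq_mul_inv_of_mul_eq hc3
    rw [hx3inv] at this
    exact this
  have E2 : x0 * (x2 * x3) * x0 = (x1 * x2) * (x2 * x3) := by
    calc x0 * (x2 * x3) * x0 = (x0 * x2) * x3 * x0 := by simp only [mul_assoc]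
      _ = (x2 * x0) * x3 * x0 := by rw [c02.eq]
      _ = x2 * (x0 * x3 * x0) := by simp only [mul_assoc]
      _ = x2 * (x1 * x2 * x3) := by rw [h03]
      _ = (x2 * x1) * (x2 * x3) := by simp only [mul_assoc]
      _ = (x1 * x2) * (x2 * x3) := by rw [c12.symm.eq]
  have E3 : b * (x2 * x3) * b = x2 * x3 := by
    rw [hbw _ ((Commute.refl x2).mul_right c23)]
    have h : Commute x4 (x2 * x3) := c24.symm.mul_right c34.symm
    rw [h.eq, mul_assoc, i4, mul_one]
  have h14 : x4 * x1 * x4 = x1 * (x2 * x3) := by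
    rw [← hc3']
    simp only [mul_assoc]
    rw [← mul_assoc x1 x1, i1, one_mul]
  have E4 : b * (x1 * x2) * b = (x1 * x2) * (x2 * x3) := by
    rw [hbw _ (c12.symm.mul_right (Commute.refl x2))]
    calc x4 * (x1 * x2) * x4 = x4 * x1 * (x2 * x4) := by simp only [mul_assoc]
      _ = x4 * x1 * (x4 * x2) := by rw [c24.eq]
      _ = (x4 * x1 * x4) * x2 := by simp only [mul_assoc]
      _ = x1 * (x2 * x3) * x2 := by rw [h14]
      _ = x1 * x2 * (x3 * x2) := by simp only [mul_assoc]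
      _ = x1 * x2 * (x2 * x3) := by rw [c23.symm.eq]
  -- the subgroups W and D
  set W : Subgroup G := Subgroup.closure ({x1 * x2, x2 * x3} : Set G) with hW
  set D : Subgroup G := Subgroup.closure ({x0, b} : Set G) with hD
  have hw1 : x1 * x2 ∈ W := Subgroup.subset_closure (Set.mem_insert _ _)
  have hw3 : x2 * x3 ∈ W := Subgroup.subset_closure (Set.mem_insert_of_mem _ rfl)
  have hcW : Nat.card W ≤ 2 * 2 := by
    have hvu : Commute (x2 * x3) (x1 * x2) :=
      (c12.symm.mul_right (Commute.refl x2)).mul_left (c13.symm.mul_right c23.symm)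
    refine tust0_card_pair_le (x1 * x2) (x2 * x3) 2 2 (by norm_num) (by norm_num) ?_ ?_ ?_ ?_
    · rw [pow_two, c12.symm.mul_mul_mul_comm, i1, i2, mul_one]
    · rw [pow_two, c23.symm.mul_mul_mul_comm, i2, i3, mul_one]
    · rw [hvu.eq, mul_inv_cancel_right]; exact Subgroup.mem_zpowers _
    · rw [hvu.inv_left.eq, mul_inv_cancel_right]; exact Subgroup.mem_zpowers _
  have hcD : Nat.card D ≤ 3 * 2 := by
    have hDle : D ≤ Subgroup.closure ({x0 * b, x0} : Set G) := by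
      rw [hD, Subgroup.closure_le]
      intro z hz
      rw [Set.mem_insert_iff, Set.mem_singleton_iff] at hz
      rcases hz with h | h
      · rw [h]; exact Subgroup.subset_closure (Set.mem_insert_of_mem _ rfl)
      · have e : z = x0⁻¹ * (x0 * b) := by rw [h]; group
        rw [e]
        exact Subgroup.mul_mem _
          (Subgroup.inv_mem _ (Subgroup.subset_closure (Set.mem_insert_of_mem _ rfl)))
          (Subgroup.subset_closure (Set.mem_insert _ _))
    have h1 : x0 * (x0 * b) * x0⁻¹ ∈ Subgroup.zpowers (x0 * b) := by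
      have e : x0 * (x0 * b) * x0⁻¹ = (x0 * b)⁻¹ := by
        rw [mul_inv_rev, hbinv, ← mul_assoc, i0, one_mul]
      rw [e]; exact Subgroup.inv_mem _ (Subgroup.mem_zpowers _)
    have h2 : x0⁻¹ * (x0 * b) * x0⁻¹⁻¹ ∈ Subgroup.zpowers (x0 * b) := by
      have e : x0⁻¹ * (x0 * b) * x0⁻¹⁻¹ = (x0 * b)⁻¹ := by
        rw [mul_inv_rev, hbinv, inv_inv, inv_mul_cancel_left, hx0inv]
      rw [e]; exact Subgroup.inv_mem _ (Subgroup.mem_zpowers _)
    calc Nat.card D ≤ Nat.card ↥(Subgroup.closure ({x0 * b, x0} : Set G)) :=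
          Subgroup.card_le_of_le hDle
      _ ≤ 3 * 2 := tust0_card_pair_le (x0 * b) x0 3 2 (by norm_num) (by norm_num) hu
          (by rw [pow_two]; exact i0) h1 h2
  have hE : ∀ s ∈ ({x0, b} : Set G), ∀ r ∈ ({x1 * x2, x2 * x3} : Set G),
      s * r * s ∈ W ∧ s⁻¹ = s := by
    intro s hs r hr
    rw [Set.mem_insert_iff, Set.mem_singleton_iff] at hs hr
    rcases hs with hs | hs <;> rcases hr with hr | hr
    · rw [hs, hr, E1]; exact ⟨hw1, hx0inv⟩
    · rw [hs, hr, E2]; exact ⟨W.mul_mem hw1 hw3, hx0inv⟩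
    · rw [hs, hr, E4]; exact ⟨W.mul_mem hw1 hw3, hbinv⟩
    · rw [hs, hr, E3]; exact ⟨hw3, hbinv⟩
  have hnorm : ∀ k ∈ D, ∀ h ∈ W, k * h * k⁻¹ ∈ W := by
    refine tust0_norm_closure {x1 * x2, x2 * x3} {x0, b} ?_ ?_
    · intro s hs r hr
      rw [(hE s hs r hr).2]; exact (hE s hs r hr).1
    · intro s hs r hr
      rw [inv_inv, (hE s hs r hr).2]; exact (hE s hs r hr).1
  have hT : Subgroup.closure ({x1 * x2, x2 * x3, x0, b} : Set G) ≤ W ⊔ D := by
    rw [Subgroup.closure_le]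
    intro z hz
    rw [Set.mem_insert_iff, Set.mem_insert_iff, Set.mem_insert_iff, Set.mem_singleton_iff] at hz
    rcases hz with h | h | h | h <;> rw [h]
    · exact Subgroup.mem_sup_left hw1
    · exact Subgroup.mem_sup_left hw3
    · exact Subgroup.mem_sup_right (Subgroup.subset_closure (Set.mem_insert _ _))
    · exact Subgroup.mem_sup_right (Subgroup.subset_closure (Set.mem_insert_of_mem _ rfl))
  calc Nat.card ↥(Subgroup.closure ({x1 * x2, x2 * x3, x0, b} : Set G))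
      ≤ Nat.card ↥(W ⊔ D) := Subgroup.card_le_of_le hT
    _ ≤ Nat.card W * Nat.card D := tust0_card_sup_le W D hnorm
    _ ≤ (2 * 2) * (3 * 2) := Nat.mul_le_mul hcW hcD
    _ = 24 := by norm_num

/-- `s = 5`: the complement `T₀ = ⟨x_1 x_2, x_2 x_3, x_0, b'⟩` (`b' = x_4` or `x_4 x_2`, chosen with `(x_0 b')^3 = 1`) has order 24 and does not contain the central involution `x_2`. -/
theorem tus_T0 [Finite G] {g x₀ : G} (C : Calc g x₀ 5) (hc : Nat.card (Xint g x₀ 0 4) = 48)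
    (hcomm : ∀ i j : ℤ, |i - j| ≤ 2 → xs g x₀ i * xs g x₀ j = xs g x₀ j * xs g x₀ i)
    (hc3 : xs g x₀ 0 * xs g x₀ 3 * xs g x₀ 0 * xs g x₀ 3 = xs g x₀ 1 * xs g x₀ 2)
    (b' : G) (hb' : b' = xs g x₀ 4 ∨ b' = xs g x₀ 4 * xs g x₀ 2) (hu : (xs g x₀ 0 * b') ^ 3 = 1) :
    Nat.card ↥(Subgroup.closure ({xs g x₀ 1 * xs g x₀ 2, xs g x₀ 2 * xs g x₀ 3, xs g x₀ 0, b'} : Set G)) = 24 ∧
    xs g x₀ 2 ∉ Subgroup.closure ({xs g x₀ 1 * xs g x₀ 2, xs g x₀ 2 * xs g x₀ 3, xs g x₀ 0, b'} : Set G) ∧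
    Subgroup.closure ({xs g x₀ 1 * xs g x₀ 2, xs g x₀ 2 * xs g x₀ 3, xs g x₀ 0, b'} : Set G) ≤ Xint g x₀ 0 4 := by
  have inv : ∀ i : ℤ, xs g x₀ i * xs g x₀ i = 1 := fun i => xs_mul_self C.inv i
  have cm : ∀ i j : ℤ, -2 ≤ i - j → i - j ≤ 2 → Commute (xs g x₀ i) (xs g x₀ j) :=
    fun i j h1 h2 => hcomm i j (abs_le.mpr ⟨h1, h2⟩)
  have hφ : ∀ i : ℤ, MulAut.conj (g ^ (1 : ℤ)) (xs g x₀ i) = xs g x₀ (i + 1) := fun i => by
    rw [MulAut.conj_apply]; exact xs_conj g x₀ i 1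
  have hc3' : xs g x₀ 1 * xs g x₀ 4 * xs g x₀ 1 * xs g x₀ 4 = xs g x₀ 2 * xs g x₀ 3 := by
    have h := congrArg (MulAut.conj (g ^ (1 : ℤ))) hc3
    simp only [map_mul, hφ] at h
    norm_num at h
    exact h
  set T : Subgroup G := Subgroup.closure
    ({xs g x₀ 1 * xs g x₀ 2, xs g x₀ 2 * xs g x₀ 3, xs g x₀ 0, b'} : Set G) with hTdef
  have hle24 : Nat.card T ≤ 24 :=
    tust0_abs (xs g x₀ 0) (xs g x₀ 1) (xs g x₀ 2) (xs g x₀ 3) (xs g x₀ 4) b'
      (inv 0) (inv 1) (inv 2) (inv 3) (inv 4)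
      (cm 0 1 (by norm_num) (by norm_num)) (cm 0 2 (by norm_num) (by norm_num))
      (cm 1 2 (by norm_num) (by norm_num)) (cm 1 3 (by norm_num) (by norm_num))
      (cm 2 3 (by norm_num) (by norm_num)) (cm 2 4 (by norm_num) (by norm_num))
      (cm 3 4 (by norm_num) (by norm_num)) hc3 hc3' hb' hu
  have hb'X : b' ∈ Xint g x₀ 0 4 := by
    rcases hb' with h | h
    · rw [h]; exact xs_mem_Xint (by norm_num) (by norm_num)
    · rw [h]
      exact Subgroup.mul_mem _ (xs_mem_Xint (by norm_num) (by norm_num))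
        (xs_mem_Xint (by norm_num) (by norm_num))
  have hTX : T ≤ Xint g x₀ 0 4 := by
    rw [hTdef, Subgroup.closure_le]
    intro z hz
    rw [Set.mem_insert_iff, Set.mem_insert_iff, Set.mem_insert_iff, Set.mem_singleton_iff] at hz
    rcases hz with h | h | h | h <;> rw [h]
    · exact Subgroup.mul_mem _ (xs_mem_Xint (by norm_num) (by norm_num))
        (xs_mem_Xint (by norm_num) (by norm_num))
    · exact Subgroup.mul_mem _ (xs_mem_Xint (by norm_num) (by norm_num))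
        (xs_mem_Xint (by norm_num) (by norm_num))
    · exact xs_mem_Xint (by norm_num) (by norm_num)
    · exact hb'X
  have hx2c : ∀ z ∈ Xint g x₀ 0 4, xs g x₀ 2 * z = z * xs g x₀ 2 :=
    commute_Xint (fun l h1 h2 => (cm 2 l (by omega) (by omega)).eq)
  have hXle : Xint g x₀ 0 4 ≤ T ⊔ Subgroup.zpowers (xs g x₀ 2) := by
    refine Xint_le fun l h1 h2 => ?_
    have hl : l = 0 ∨ l = 1 ∨ l = 2 ∨ l = 3 ∨ l = 4 := by omega
    rcases hl with rfl | rfl | rfl | rfl | rfl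
    · exact Subgroup.mem_sup_left (Subgroup.subset_closure (by simp))
    · have e : xs g x₀ 1 = (xs g x₀ 1 * xs g x₀ 2) * xs g x₀ 2 := by
        rw [mul_assoc, inv 2, mul_one]
      rw [e]
      exact Subgroup.mul_mem _ (Subgroup.mem_sup_left (Subgroup.subset_closure (by simp)))
        (Subgroup.mem_sup_right (Subgroup.mem_zpowers _))
    · exact Subgroup.mem_sup_right (Subgroup.mem_zpowers _)
    · have e : xs g x₀ 3 = xs g x₀ 2 * (xs g x₀ 2 * xs g x₀ 3) := by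
        rw [← mul_assoc, inv 2, one_mul]
      rw [e]
      exact Subgroup.mul_mem _ (Subgroup.mem_sup_right (Subgroup.mem_zpowers _))
        (Subgroup.mem_sup_left (Subgroup.subset_closure (by simp)))
    · have hbT : b' ∈ T := Subgroup.subset_closure (by simp)
      rcases hb' with h | h
      · rw [← h]; exact Subgroup.mem_sup_left hbT
      · have e : xs g x₀ 4 = b' * xs g x₀ 2 := by
          rw [h, mul_assoc, inv 2, mul_one]
        rw [e]
        exact Subgroup.mul_mem _ (Subgroup.mem_sup_left hbT)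
          (Subgroup.mem_sup_right (Subgroup.mem_zpowers _))
  have hnorm : ∀ k ∈ Subgroup.zpowers (xs g x₀ 2), ∀ h ∈ T, k * h * k⁻¹ ∈ T := by
    intro k hk h hh
    obtain ⟨i, rfl⟩ := Subgroup.mem_zpowers_iff.mp hk
    have hc : Commute (xs g x₀ 2 ^ i) h :=
      (show Commute (xs g x₀ 2) h from hx2c h (hTX hh)).zpow_left i
    rw [hc.eq, mul_inv_cancel_right]; exact hh
  have h48 : 48 ≤ Nat.card T * 2 := by
    calc 48 = Nat.card (Xint g x₀ 0 4) := hc.symm
      _ ≤ Nat.card ↥(T ⊔ Subgroup.zpowers (xs g x₀ 2)) := Subgroup.card_le_of_le hXle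
      _ ≤ Nat.card T * Nat.card (Subgroup.zpowers (xs g x₀ 2)) := tust0_card_sup_le _ _ hnorm
      _ ≤ Nat.card T * 2 := Nat.mul_le_mul le_rfl
          (tust0_card_zpowers_le _ 2 (by norm_num) (by rw [pow_two]; exact inv 2))
  have h24 : Nat.card T = 24 := by omega
  refine ⟨h24, ?_, hTX⟩
  intro hx2
  have hXT : Xint g x₀ 0 4 ≤ T := by
    refine hXle.trans (sup_le le_rfl ?_)
    rw [Subgroup.zpowers_le]; exact hx2
  have := Subgroup.card_le_of_le hXT
  omega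

end Cfsg.Agent.Lib.Helper55.TUT
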