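import Cfsg.Agent.Lib.Helper55.TusRel5a
import Cfsg.Agent.Lib.Helper55.TusRel5b
import Cfsg.Agent.Lib.Helper55.TusT0
import Cfsg.Agent.Lib.Helper55.TusRec
import Cfsg.Agent.Lib.Helper55.TusDirect

/-!
# Project TUS (S3685: structure of the point stabiliser, suborbit of length 3) -- piece `TusCase5`

FILLED by helper65.  Notation: `x_i := xs g x₀ i` (involutions, `g x_i g⁻¹ = x_{i+1}`: `xs_conj`),
`Xint g x₀ i j = ⟨x_i..x_j⟩`; proved API: `TutBasic.lean` and the `TutCalc*.lean` files (`card_Xint`,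
`comm_mem`, `coset_left/right`, `xs_not_mem_left/right`, `inter_eq`, `calcAsm_mem_single`,
`calcFinal_shift`, `calcE_ne` is for `s = 7` only).
-/

set_option autoImplicit false

namespace Cfsg.Agent.Lib.Helper55.TUT

open scoped Pointwise


variable {G : Type*} [Group G]

theorem tuscase5_alg {X : Type*} [Group X] (x0 x1 x2 x3 x4 b : X)
    (i0 : x0 * x0 = 1) (i1 : x1 * x1 = 1) (i2 : x2 * x2 = 1) (i3 : x3 * x3 = 1) (i4 : x4 * x4 = 1)
    (c01 : x0 * x1 = x1 * x0) (c02 : x0 * x2 = x2 * x0) (c12 : x1 * x2 = x2 * x1)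
    (c13 : x1 * x3 = x3 * x1) (c23 : x2 * x3 = x3 * x2) (c24 : x2 * x4 = x4 * x2)
    (c34 : x3 * x4 = x4 * x3)
    (r03 : x0 * x3 * x0 * x3 = x1 * x2) (r14 : x1 * x4 * x1 * x4 = x2 * x3)
    (hb : b = x4 ∨ b = x4 * x2) :
    (x1 * x2) * (x1 * x2) = 1 ∧ (x2 * x3) * (x2 * x3) = 1 ∧ b * b = 1 ∧
    (x1 * x2) * (x2 * x3) = (x2 * x3) * (x1 * x2) ∧
    x0 * (x1 * x2) * x0 = x1 * x2 ∧ x0 * (x2 * x3) * x0 = (x1 * x2) * (x2 * x3) ∧
    b * (x2 * x3) * b = x2 * x3 ∧ b * (x1 * x2) * b = (x1 * x2) * (x2 * x3) := by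
  have k0 : ∀ z, x0 * (x0 * z) = z := fun z => by rw [← mul_assoc, i0, one_mul]
  have k1 : ∀ z, x1 * (x1 * z) = z := fun z => by rw [← mul_assoc, i1, one_mul]
  have k2 : ∀ z, x2 * (x2 * z) = z := fun z => by rw [← mul_assoc, i2, one_mul]
  have k3 : ∀ z, x3 * (x3 * z) = z := fun z => by rw [← mul_assoc, i3, one_mul]
  have k4 : ∀ z, x4 * (x4 * z) = z := fun z => by rw [← mul_assoc, i4, one_mul]
  have s10 : ∀ z, x1 * (x0 * z) = x0 * (x1 * z) := fun z => by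
    rw [← mul_assoc, ← c01, mul_assoc]
  have s20 : ∀ z, x2 * (x0 * z) = x0 * (x2 * z) := fun z => by
    rw [← mul_assoc, ← c02, mul_assoc]
  have s21 : ∀ z, x2 * (x1 * z) = x1 * (x2 * z) := fun z => by
    rw [← mul_assoc, ← c12, mul_assoc]
  have s31 : ∀ z, x3 * (x1 * z) = x1 * (x3 * z) := fun z => by
    rw [← mul_assoc, ← c13, mul_assoc]
  have s32 : ∀ z, x3 * (x2 * z) = x2 * (x3 * z) := fun z => by
    rw [← mul_assoc, ← c23, mul_assoc]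
  have s42 : ∀ z, x4 * (x2 * z) = x2 * (x4 * z) := fun z => by
    rw [← mul_assoc, ← c24, mul_assoc]
  have s43 : ∀ z, x4 * (x3 * z) = x3 * (x4 * z) := fun z => by
    rw [← mul_assoc, ← c34, mul_assoc]
  have r30 : x3 * x0 = x0 * (x1 * (x2 * x3)) := by
    have h : x3 * x0 = x0 * (x0 * x3 * x0 * x3) * x3 := by
      simp only [mul_assoc, k0, i3, mul_one]
    rw [h, r03, mul_assoc, mul_assoc]
  have r30' : ∀ z, x3 * (x0 * z) = x0 * (x1 * (x2 * (x3 * z))) := fun z => by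
    rw [← mul_assoc, r30]
    simp only [mul_assoc]
  have r41 : x4 * x1 = x1 * (x2 * (x3 * x4)) := by
    have h : x4 * x1 = x1 * (x1 * x4 * x1 * x4) * x4 := by
      simp only [mul_assoc, k1, i4, mul_one]
    rw [h, r14, mul_assoc, mul_assoc]
  have r41' : ∀ z, x4 * (x1 * z) = x1 * (x2 * (x3 * (x4 * z))) := fun z => by
    rw [← mul_assoc, r41]
    simp only [mul_assoc]
  rcases hb with rfl | rfl
  · refine ⟨?_, ?_, ?_, ?_, ?_, ?_, ?_, ?_⟩ <;>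
      simp only [mul_assoc, k0, k1, k2, k3, k4, s10, s20, s21, s31, s32, s42, s43, r30, r30', r41,
        r41', i0, i1, i2, i3, i4, mul_one, one_mul, c01.symm, c02.symm, c12.symm, c13.symm,
        c23.symm, c24.symm, c34.symm]
  · refine ⟨?_, ?_, ?_, ?_, ?_, ?_, ?_, ?_⟩ <;>
      simp only [mul_assoc, k0, k1, k2, k3, k4, s10, s20, s21, s31, s32, s42, s43, r30, r30', r41,
        r41', i0, i1, i2, i3, i4, mul_one, one_mul, c01.symm, c02.symm, c12.symm, c13.symm,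
        c23.symm, c24.symm, c34.symm]

/-- `s = 5`: `T = ⟨x_0, .., x_4⟩` of order 48 is `S_4 × Z_2` (fifth disjunct of `Concl`).  Proof.  `tus_rel5a C` gives `hcomm` and the three cases; `tus_rel5b C hc hcomm _` gives `c = x_1 x_2` and `(x_0 x_4)^3 ∈ {1, x_2}`.  Put `b' := x_4` in the first case and `b' := x_4 * x_2` in the second: `(x_0 b')^3 = 1` (`x_2` is central of order 2: `(x_0 x_4 x_2)^3 = (x_0 x_4)^3 x_2^3 = x_2 x_2 = 1`).  `tus_T0` gives `T₀` (closure of `x_1 x_2, x_2 x_3, x_0, b'`) with card 24, `x_2 ∉ T₀`, `T₀ ≤ T := Xint g x₀ 0 4`.  `↥T₀ ≃* Equiv.Perm (Fin 4)` by `tus_rec` in `X := ↥T₀` with `p := ⟨x_1 x_2, _⟩`, `q := ⟨x_2 x_3, _⟩`, `a := ⟨x_0, _⟩`, `b := ⟨b', _⟩` (`Subgroup.subset_closure`): `p ≠ 1` since `x_1 ≠ x_2` (`xs_not_mem_left`/`card_Xint`); `a p a = p`; `a q a = x_2 (x_0 x_3 x_0) = x_2 (c x_3) = x_1 x_3 = p q`; `b q b = q`; `b p b = (x_4 x_1 x_4) x_2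 = x_1 (x_2 x_3) x_2 = p q` (shifted relation `x_1 x_4 x_1 x_4 = x_2 x_3`); `(a b)^3 = 1`.  Then `tus_direct` in `X := ↥T` with `T₀' := T₀.subgroupOf T` (card 24 via `Subgroup.subgroupOfEquivOfLe`), `z := ⟨x_2, _⟩` central in `↥T` (`commute_Xint` with `hcomm`): `↥T ≃* ↥T₀' × Multiplicative (ZMod 2) ≃* Equiv.Perm (Fin 4) × Multiplicative (ZMod 2)` (`MulEquiv.prodCongr`). -/
theorem tus_case5 [Finite G] {g x₀ : G} (C : Calc g x₀ 5) (hc : Nat.card (Xint g x₀ 0 4) = 48) :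
    Concl ↥(Xint g x₀ 0 4) := by
  classical
  obtain ⟨hcomm, hc3⟩ := tus_rel5a C
  obtain ⟨hc12, hv⟩ := tus_rel5b C hc hcomm hc3
  have i0 := xs_mul_self (g := g) C.inv 0
  have i1 := xs_mul_self (g := g) C.inv 1
  have i2 := xs_mul_self (g := g) C.inv 2
  have i3 := xs_mul_self (g := g) C.inv 3
  have i4 := xs_mul_self (g := g) C.inv 4
  have c01 := hcomm 0 1 (by rw [abs_le]; constructor <;> norm_num)
  have c02 := hcomm 0 2 (by rw [abs_le]; constructor <;> norm_num)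
  have c12 := hcomm 1 2 (by rw [abs_le]; constructor <;> norm_num)
  have c13 := hcomm 1 3 (by rw [abs_le]; constructor <;> norm_num)
  have c23 := hcomm 2 3 (by rw [abs_le]; constructor <;> norm_num)
  have c24 := hcomm 2 4 (by rw [abs_le]; constructor <;> norm_num)
  have c34 := hcomm 3 4 (by rw [abs_le]; constructor <;> norm_num)
  have r14 : xs g x₀ 1 * xs g x₀ 4 * xs g x₀ 1 * xs g x₀ 4 = xs g x₀ 2 * xs g x₀ 3 := by
    have h := calcFinal_shift g x₀ 0 3 1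
    rw [hc12] at h
    have e1 : (0 : ℤ) + 1 = 1 := by norm_num
    have e2 : (3 : ℤ) + 1 = 4 := by norm_num
    rw [e1, e2] at h
    rw [← h]
    have h1 := xs_conj g x₀ 1 1
    have h2 := xs_conj g x₀ 2 1
    have e3 : (1 : ℤ) + 1 = 2 := by norm_num
    have e4 : (2 : ℤ) + 1 = 3 := by norm_num
    rw [e3] at h1
    rw [e4] at h2
    calc g ^ (1 : ℤ) * (xs g x₀ 1 * xs g x₀ 2) * (g ^ (1 : ℤ))⁻¹
        = (g ^ (1 : ℤ) * xs g x₀ 1 * (g ^ (1 : ℤ))⁻¹) *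
          (g ^ (1 : ℤ) * xs g x₀ 2 * (g ^ (1 : ℤ))⁻¹) := by group
      _ = xs g x₀ 2 * xs g x₀ 3 := by rw [h1, h2]
  obtain ⟨b', hb', hu⟩ : ∃ b' : G, (b' = xs g x₀ 4 ∨ b' = xs g x₀ 4 * xs g x₀ 2) ∧
      (xs g x₀ 0 * b') ^ 3 = 1 := by
    rcases hv with hv | hv
    · exact ⟨_, Or.inl rfl, hv⟩
    · refine ⟨_, Or.inr rfl, ?_⟩
      have hcu : Commute (xs g x₀ 0 * xs g x₀ 4) (xs g x₀ 2) :=
        Commute.mul_left (c02 : Commute (xs g x₀ 0) (xs g x₀ 2))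
          (c24.symm : Commute (xs g x₀ 4) (xs g x₀ 2))
      rw [← mul_assoc, hcu.mul_pow, hv, pow_succ, pow_two, i2, one_mul, i2]
  obtain ⟨hT0card, hx2T0, hT0le⟩ := tus_T0 C hc hcomm hc12 b' hb' hu
  obtain ⟨hpp, hqq, hbb, hpq, hap, haq, hbq, hbp⟩ :=
    tuscase5_alg (xs g x₀ 0) (xs g x₀ 1) (xs g x₀ 2) (xs g x₀ 3) (xs g x₀ 4) b' i0 i1 i2 i3 i4
      c01 c02 c12 c13 c23 c24 c34 hc12 r14 hb'
  have h12 : xs g x₀ 1 ≠ xs g x₀ 2 := fun h =>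
    xs_not_mem_left C 1 2 (by norm_num) (by norm_num)
      (by rw [h]; exact xs_mem_Xint (by norm_num) le_rfl)
  have hp1 : xs g x₀ 1 * xs g x₀ 2 ≠ 1 := by
    intro h
    apply h12
    rw [mul_eq_one_iff_eq_inv, xs_inv C.inv] at h
    exact h
  have mp : xs g x₀ 1 * xs g x₀ 2 ∈ Subgroup.closure
      ({xs g x₀ 1 * xs g x₀ 2, xs g x₀ 2 * xs g x₀ 3, xs g x₀ 0, b'} : Set G) :=
    Subgroup.subset_closure (by simp)
  have mq : xs g x₀ 2 * xs g x₀ 3 ∈ Subgroup.closure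
      ({xs g x₀ 1 * xs g x₀ 2, xs g x₀ 2 * xs g x₀ 3, xs g x₀ 0, b'} : Set G) :=
    Subgroup.subset_closure (by simp)
  have ma : xs g x₀ 0 ∈ Subgroup.closure
      ({xs g x₀ 1 * xs g x₀ 2, xs g x₀ 2 * xs g x₀ 3, xs g x₀ 0, b'} : Set G) :=
    Subgroup.subset_closure (by simp)
  have mb : b' ∈ Subgroup.closure
      ({xs g x₀ 1 * xs g x₀ 2, xs g x₀ 2 * xs g x₀ 3, xs g x₀ 0, b'} : Set G) :=
    Subgroup.subset_closure (by simp)
  obtain ⟨e2⟩ : Nonempty (↥(Subgroup.closure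
      ({xs g x₀ 1 * xs g x₀ 2, xs g x₀ 2 * xs g x₀ 3, xs g x₀ 0, b'} : Set G)) ≃*
        Equiv.Perm (Fin 4)) := by
    refine tus_rec hT0card ⟨_, mp⟩ ⟨_, mq⟩ ⟨_, ma⟩ ⟨_, mb⟩ (Subtype.ext hpp) (Subtype.ext hqq)
      (Subtype.ext i0) (Subtype.ext hbb) ?_ (Subtype.ext hpq) (Subtype.ext hap) (Subtype.ext haq)
      (Subtype.ext hbq) (Subtype.ext hbp) (Subtype.ext ?_)
    · intro h
      exact hp1 (congrArg Subtype.val h)
    · simpa using hu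
  have m2 : xs g x₀ 2 ∈ Xint g x₀ 0 4 := xs_mem_Xint (by norm_num) (by norm_num)
  have hcen : ∀ x : ↥(Xint g x₀ 0 4), (⟨xs g x₀ 2, m2⟩ : ↥(Xint g x₀ 0 4)) * x =
      x * ⟨xs g x₀ 2, m2⟩ := by
    intro x
    apply Subtype.ext
    exact commute_Xint (fun l h1 h2 => hcomm 2 l (by rw [abs_le]; constructor <;> linarith)) x x.2
  have hcard : Nat.card ↥(Xint g x₀ 0 4) = 2 * Nat.card ↥((Subgroup.closure
      ({xs g x₀ 1 * xs g x₀ 2, xs g x₀ 2 * xs g x₀ 3, xs g x₀ 0, b'} : Set G)).subgroupOf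
        (Xint g x₀ 0 4)) := by
    rw [Nat.card_congr (Subgroup.subgroupOfEquivOfLe hT0le).toEquiv, hT0card, hc]
  obtain ⟨e1⟩ := tus_direct ((Subgroup.closure
      ({xs g x₀ 1 * xs g x₀ 2, xs g x₀ 2 * xs g x₀ 3, xs g x₀ 0, b'} : Set G)).subgroupOf
        (Xint g x₀ 0 4)) ⟨xs g x₀ 2, m2⟩ (Subtype.ext i2) hcen
      (fun h => hx2T0 (Subgroup.mem_subgroupOf.mp h)) hcard
  exact Or.inr (Or.inr (Or.inr (Or.inr ⟨e1.trans (MulEquiv.prodCongr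
    ((Subgroup.subgroupOfEquivOfLe hT0le).trans e2) (MulEquiv.refl _))⟩)))

end Cfsg.Agent.Lib.Helper55.TUT
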