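import Cfsg.Agent.Lib.Helper55.TutBasic

/-!
# Project TUS (S3685): the conclusion predicate
-/

set_option autoImplicit false

namespace Cfsg.Agent.Lib.Helper55.TUT

/-- The conclusion of S3685 for a group `X`: `Z_3`, `S_3`, `D_12`, `S_4` or `S_4 × Z_2`. -/
def Concl (X : Type*) [Group X] : Prop :=
  Nonempty (X ≃* Multiplicative (ZMod 3)) ∨ Nonempty (X ≃* Equiv.Perm (Fin 3)) ∨
    Nonempty (X ≃* DihedralGroup 6) ∨ Nonempty (X ≃* Equiv.Perm (Fin 4)) ∨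
    Nonempty (X ≃* Equiv.Perm (Fin 4) × Multiplicative (ZMod 2))

theorem Concl_congr {X Y : Type*} [Group X] [Group Y] (e : X ≃* Y) (h : Concl X) : Concl Y := by
  unfold Concl at h ⊢
  rcases h with h | h | h | h | h
  · obtain ⟨f⟩ := h
    exact Or.inl ⟨e.symm.trans f⟩
  · obtain ⟨f⟩ := h
    exact Or.inr (Or.inl ⟨e.symm.trans f⟩)
  · obtain ⟨f⟩ := h
    exact Or.inr (Or.inr (Or.inl ⟨e.symm.trans f⟩))
  · obtain ⟨f⟩ := h
    exact Or.inr (Or.inr (Or.inr (Or.inl ⟨e.symm.trans f⟩)))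
  · obtain ⟨f⟩ := h
    exact Or.inr (Or.inr (Or.inr (Or.inr ⟨e.symm.trans f⟩)))

end Cfsg.Agent.Lib.Helper55.TUT
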