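import Cfsg.Agent.Lib.Helper55.TusCase2
import Cfsg.Agent.Lib.Helper55.TusCase3
import Cfsg.Agent.Lib.Helper55.TusCase4
import Cfsg.Agent.Lib.Helper55.TusCase5

/-!
# Project TUS (S3685: structure of the point stabiliser, suborbit of length 3) -- piece `TusOfCalc`

Filled by helper69 (statement, name and namespace unchanged).  Notation: `x_i := xs g x₀ i` (involutions, `g x_i g⁻¹ = x_{i+1}`: `xs_conj`),
`Xint g x₀ i j = ⟨x_i..x_j⟩`; proved API: `TutBasic.lean` and the `TutCalc*.lean` files (`card_Xint`,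
`comm_mem`, `coset_left/right`, `xs_not_mem_left/right`, `inter_eq`, `calcAsm_mem_single`,
`calcFinal_shift`, `calcE_ne` is for `s = 7` only).
-/

set_option autoImplicit false

namespace Cfsg.Agent.Lib.Helper55.TUT

open scoped Pointwise


variable {G : Type*} [Group G]

/-- Glue over `s = 2, .., 5`.  Proof: `Nat.card ↥(Hn H g i) = Nat.card H` (`Hn H g i = MulAut.conj (g ^ i) • H`, `Subgroup.equivSMul`/`Subgroup.card_smul`), and `↥(Hn H g i) ≃* ↥H` (`(Subgroup.equivSMul (MulAut.conj (g ^ i)) H).symm`).  `interval_cases s`; in each case rewrite the casts in `hXH` (`((2 : ℕ) : ℤ) - 1 = 1` etc.), get `Nat.card ↥(Xint g x₀ 0 (s-1)) = 3 * 2 ^ (s - 1)` (`hXH`, `hH`), apply `tus_case2/3/4/5`, and transport with `Concl_congr` along `MulEquiv.subgroupCongr hXH` and the conjugation iso. -/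
theorem tus_of_calc [Finite G] {H : Subgroup G} {g x₀ : G} {s : ℕ} (hs2 : 2 ≤ s) (hs5 : s ≤ 5)
    (C : Calc g x₀ s) (hXH : Xint g x₀ 0 ((s : ℤ) - 1) = Hn H g ((s : ℤ) - 1))
    (hH : Nat.card H = 3 * 2 ^ (s - 1)) : Concl ↥H := by
  have hiso : ∀ i : ℤ, Nonempty (↥(Hn H g i) ≃* ↥H) := fun i =>
    ⟨(Subgroup.equivSMul (MulAut.conj (g ^ i)) H).symm⟩
  have hcard : ∀ i : ℤ, Nat.card ↥(Hn H g i) = Nat.card H := fun i => by
    obtain ⟨e⟩ := hiso i
    exact Nat.card_congr e.toEquiv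
  interval_cases s
  · have h1 : ((2 : ℕ) : ℤ) - 1 = 1 := by norm_num
    rw [h1] at hXH
    have hc : Nat.card (Xint g x₀ 0 1) = 6 := by
      rw [hXH, hcard, hH]
      norm_num
    obtain ⟨e⟩ := hiso 1
    exact Concl_congr ((MulEquiv.subgroupCongr hXH).trans e) (tus_case2 C hc)
  · have h1 : ((3 : ℕ) : ℤ) - 1 = 2 := by norm_num
    rw [h1] at hXH
    have hc : Nat.card (Xint g x₀ 0 2) = 12 := by
      rw [hXH, hcard, hH]
      norm_num
    obtain ⟨e⟩ := hiso 2
    exact Concl_congr ((MulEquiv.subgroupCongr hXH).trans e) (tus_case3 C hc)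
  · have h1 : ((4 : ℕ) : ℤ) - 1 = 3 := by norm_num
    rw [h1] at hXH
    have hc : Nat.card (Xint g x₀ 0 3) = 24 := by
      rw [hXH, hcard, hH]
      norm_num
    obtain ⟨e⟩ := hiso 3
    exact Concl_congr ((MulEquiv.subgroupCongr hXH).trans e) (tus_case4 C hc)
  · have h1 : ((5 : ℕ) : ℤ) - 1 = 4 := by norm_num
    rw [h1] at hXH
    have hc : Nat.card (Xint g x₀ 0 4) = 48 := by
      rw [hXH, hcard, hH]
      norm_num
    obtain ⟨e⟩ := hiso 4
    exact Concl_congr ((MulEquiv.subgroupCongr hXH).trans e) (tus_case5 C hc)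

end Cfsg.Agent.Lib.Helper55.TUT
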