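import Cfsg.Agent.Lib.Helper55.TusDefs

/-!
# Project TUS (S3685: structure of the point stabiliser, suborbit of length 3) -- piece `TusZ3`

FILLED by helper85 (job 4745). Keep the statement, name and namespace unchanged;
you may add helper lemmas HERE with names prefixed `tusz3_` (lower-case file tag) and import any landed
`Cfsg.Agent` library file.  Notation: `x_i := xs g x₀ i` (involutions, `g x_i g⁻¹ = x_{i+1}`: `xs_conj`),
`Xint g x₀ i j = ⟨x_i..x_j⟩`; proved API: `TutBasic.lean` and the `TutCalc*.lean` files (`card_Xint`,
`comm_mem`, `coset_left/right`, `xs_not_mem_left/right`, `inter_eq`, `calcAsm_mem_single`,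
`calcFinal_shift`, `calcE_ne` is for `s = 7` only).
-/

set_option autoImplicit false

namespace Cfsg.Agent.Lib.Helper55.TUT

open scoped Pointwise


variable {G : Type*} [Group G]

/-- A group of order 3 is cyclic of order 3.  Proof: `isCyclic_of_prime_card`, then `zmodCyclicMulEquiv` (`Multiplicative (ZMod (Nat.card X)) ≃* X` for cyclic `X`; rewrite `Nat.card X = 3`), or `mulEquivOfPrimeCardEq` (both sides have prime card 3); first disjunct of `Concl`. -/
theorem tus_z3 {X : Type*} [Group X] [Finite X] (h : Nat.card X = 3) : Concl X := by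
  haveI : Fact (Nat.Prime 3) := ⟨Nat.prime_three⟩
  have h3 : Nat.card (Multiplicative (ZMod 3)) = 3 := by
    rw [Nat.card_eq_fintype_card]
    rfl
  exact Or.inl ⟨mulEquivOfPrimeCardEq (p := 3) h h3⟩

end Cfsg.Agent.Lib.Helper55.TUT
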