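import Cfsg.Agent.Lib.Helper55.TutMain
import Cfsg.Agent.Lib.Helper55.TusOfCalc
import Cfsg.Agent.Lib.Helper55.TusZ3

/-!
# Project TUS (S3685: structure of the point stabiliser, suborbit of length 3) -- piece `TusEven`

FILLED by helper45 (job 4762). Keep the statement, name and namespace unchanged;
you may add helper lemmas HERE with names prefixed `tuseven_` (lower-case file tag) and import any landed
`Cfsg.Agent` library file.  Notation: `x_i := xs g x₀ i` (involutions, `g x_i g⁻¹ = x_{i+1}`: `xs_conj`),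
`Xint g x₀ i j = ⟨x_i..x_j⟩`; proved API: `TutBasic.lean` and the `TutCalc*.lean` files (`card_Xint`,
`comm_mem`, `coset_left/right`, `xs_not_mem_left/right`, `inter_eq`, `calcAsm_mem_single`,
`calcFinal_shift`, `calcE_ne` is for `s = 7` only).
-/

set_option autoImplicit false

namespace Cfsg.Agent.Lib.Helper55.TUT

open scoped Pointwise


variable {G : Type*} [Group G]

/-- Structure of `H` in the self-paired case.  Proof: copy the proofs of `hyp_bound` and `tutte_group_form` in `TutMain.lean`.  `obtain ⟨g, hyp, hg⟩ := hyp_of_t H K t hK hidx ht2 hcore`; `obtain ⟨s, hs1, hbot, hcard⟩ := exists_reg hyp`; `Nat.card ↥(H ⊓ Hn H g 1) = 2 ^ (s - 1)` exactly as `hK` in `hyp_bound`; `Nat.card H = 3 * 2 ^ (s - 1)` from `hyp.idx` and `gReg5_card_rel` (`TutGReg5.lean`: `Nat.card A * A.relIndex B = Nat.card B` for `A ≤ B`).  If `s = 1`: `Nat.card H = 3`, `tus_z3`.  If `2 ≤ s`: construct `x₀`, `hXH`, `C : Calc g x₀ s` exactly as in `hyp_bound` (that part only needs `2 ≤ s`); if `6 ≤ s` derive `False`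 exactly as in `hyp_bound` (`seven_struct`, `exists_h_rev`, `seven_false`, `e_mem`); otherwise `tus_of_calc (by omega) (by omega) C hXH _`. -/
theorem tus_even [Finite G] (H K : Subgroup G) (t : G) (hK : K = H ⊓ MulAut.conj t • H)
    (hidx : K.relIndex H = 3) (ht2 : t ^ 2 ∈ K)
    (hcore : ∀ N : Subgroup G, N ≤ H → (∀ h ∈ H, MulAut.conj h • N = N) →
      MulAut.conj t • N = N → N = ⊥) :
    Concl ↥H := by
  obtain ⟨g, hyp, hg⟩ := hyp_of_t H K t hK hidx ht2 hcore
  obtain ⟨s, hs1, hbot, hcard⟩ := exists_reg hyp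
  have hKc : Nat.card (H ⊓ Hn H g 1 : Subgroup G) = 2 ^ (s - 1) := by
    rw [← Arc_zero_one]
    have h1 := hcard 1 le_rfl hs1
    rw [Nat.cast_one] at h1
    exact h1
  have hHc : Nat.card H = 3 * 2 ^ (s - 1) := by
    have h := gReg5_card_rel (inf_le_left : H ⊓ Hn H g 1 ≤ H)
    rw [hyp.idx, hKc] at h
    rw [← h, mul_comm]
  by_cases hs : s = 1
  · subst hs
    exact tus_z3 (by rw [hHc]; norm_num)
  · have hs2 : 2 ≤ s := by omega
    have hc2 : Nat.card (Arc H g 0 ((s : ℤ) - 1)) = 2 := by
      have h1 := hcard (s - 1) (by omega) (by omega)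
      have e : ((s - 1 : ℕ) : ℤ) = (s : ℤ) - 1 := by omega
      rw [e] at h1
      rw [h1]
      have e2 : s - (s - 1) = 1 := by omega
      rw [e2, pow_one]
    obtain ⟨x₀, hx1, hxx, hx⟩ := exists_x0 s hc2
    have hXH := Xint_eq_Hn hyp s (by omega) hbot hcard x₀ hx1 hx
    have C : Calc g x₀ s :=
      { inv := hxx
        card := by
          intro m hm
          rw [Xint_eq_Arc hyp s (by omega) hbot hcard x₀ hx1 hx m hm]
          have h1 := card_Arc_shift H g 0 ((s : ℤ) - 1 - m) m
          rw [zero_add, sub_add_cancel] at h1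
          rw [h1]
          have h2 := hcard (s - 1 - m) (by omega) (by omega)
          have e : ((s - 1 - m : ℕ) : ℤ) = (s : ℤ) - 1 - m := by omega
          rw [e] at h2
          rw [h2]
          congr 1
          omega
        nc := fun l hl1 hl2 => xs_not_central hyp s (by omega) x₀ hx1 hx hXH l hl1 hl2 }
    by_cases h5 : s ≤ 5
    · exact tus_of_calc hs2 h5 C hXH hHc
    · exfalso
      have hs6 : 6 ≤ s := by omega
      obtain ⟨h7, hcomm, h4⟩ := seven_struct C hs6
      subst h7
      obtain ⟨h, hh, hconj⟩ := exists_h_rev hyp 7 (by omega) hbot hcard x₀ hx1 hx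
      have e6 : ((7 : ℕ) : ℤ) - 1 = 6 := by norm_num
      have e5 : ((7 : ℕ) : ℤ) - 2 = 5 := by norm_num
      rw [e6] at hXH hh
      rw [e5] at hconj
      exact seven_false C hcomm h4 (e_mem C hcomm h4) ⟨h, by rw [hXH]; exact hh, hconj⟩

end Cfsg.Agent.Lib.Helper55.TUT
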