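import Cfsg.Agent.Lib.Helper55.TusGT
import Cfsg.Agent.Lib.Helper81.SimsFront

/-!
# Project TUS (S3685): front end (as `sims_of_GT` of `Lib/Helper81/SimsFront.lean`)
-/

set_option autoImplicit false

namespace Cfsg.Agent.Lib.Helper55.TUT

open Cfsg.Agent.Lib.Helper81.Sims

/-- The permutation-group form of S3685 from the group form `tus_GT`. -/
theorem tus_front {G : Type*} [Group G] [Finite G] {Ω : Type*} [MulAction G Ω] [FaithfulSMul G Ω]
    (hprim : MulAction.IsPreprimitive G Ω) (a b : Ω)
    (h3 : Nat.card (MulAction.orbit (MulAction.stabilizer G a) b) = 3) :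
    Concl ↥(MulAction.stabilizer G a) := by
  classical
  have : MulAction.IsPretransitive G Ω := hprim.toIsPretransitive
  have hcard := card_eq_three_mul a b h3
  have hab : b ≠ a := by
    rintro rfl
    have : MulAction.orbit (MulAction.stabilizer G b) b = {b} := by
      ext y
      constructor
      · rintro ⟨x, rfl⟩
        exact x.2
      · rintro rfl
        exact MulAction.mem_orbit_self _
    rw [this] at h3
    simp at h3
  have : Nontrivial Ω := ⟨⟨b, a, hab⟩⟩
  have hco : IsCoatom (MulAction.stabilizer G a) :=
    (MulAction.isCoatom_stabilizer_iff_preprimitive (G := G) a).mpr hprim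
  obtain ⟨c, hc⟩ := MulAction.exists_smul_eq G a b
  have hcH : c ∉ MulAction.stabilizer G a := by
    intro h
    rw [MulAction.mem_stabilizer_iff] at h
    exact hab (hc.symm.trans h)
  have hst : MulAction.stabilizer G b =
      (MulAction.stabilizer G a).map (MulAut.conj c).toMonoidHom := by
    rw [← hc]
    exact MulAction.stabilizer_smul_eq_stabilizer_map_conj c a
  rw [hst] at hcard
  exact tus_GT (MulAction.stabilizer G a) c hco (normalCore_stabilizer_eq_bot a) hcH hcard

end Cfsg.Agent.Lib.Helper55.TUT
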