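import Cfsg.Agent.Lib.Helper55.TudMain
import Cfsg.Agent.Lib.Helper55.TusOfCalc
import Cfsg.Agent.Lib.Helper55.TusZ3

/-!
# Project TUS (S3685: structure of the point stabiliser, suborbit of length 3) -- piece `TusOdd`

PLACEHOLDER: replace the `sorry` in this ONE file; keep the statement, name and namespace unchanged;
you may add helper lemmas HERE with names prefixed `tusodd_` (lower-case file tag) and import any landed
`Cfsg.Agent` library file.  Notation: `x_i := xs g x₀ i` (involutions, `g x_i g⁻¹ = x_{i+1}`: `xs_conj`),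
`Xint g x₀ i j = ⟨x_i..x_j⟩`; proved API: `TutBasic.lean` and the `TutCalc*.lean` files (`card_Xint`,
`comm_mem`, `coset_left/right`, `xs_not_mem_left/right`, `inter_eq`, `calcAsm_mem_single`,
`calcFinal_shift`, `calcE_ne` is for `s = 7` only).
-/

set_option autoImplicit false

namespace Cfsg.Agent.Lib.Helper55.TUT

open scoped Pointwise


variable {G : Type*} [Group G]

/-- Structure of `H` in the odd case.  Proof: copy the proofs of `d_hyp_bound` and `tutte_odd` in `TudMain.lean`: `d_hyp_of_n`, `d_odd_pow`, `d_exists_reg`; `Nat.card ↥(H ⊓ Hn H g 1) = 2 ^ (s - 1)`; `Nat.card H = 3 * 2 ^ (s - 1)` from `hyp.idx` and `gReg5_card_rel`.  If `s = 1`: `tus_z3`.  If `2 ≤ s`: `x₀`, `hXH`, `C : Calc g x₀ s` as in `d_hyp_bound` (only needs `2 ≤ s`); if `6 ≤ s`: `False` exactly as there (`seven_struct`, `d_seven_false`); otherwise `tus_of_calc`. -/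
theorem tus_odd [Finite G] (H K : Subgroup G) (n : G) (hmax : IsCoatom H)
    (hK : K = H ⊓ MulAut.conj n • H) (hidx : K.relIndex H = 3) (hnK : MulAut.conj n • K = K)
    (hodd : ∀ t : G, MulAut.conj t • K = K → t * t ∈ K → t ∈ K)
    (hcore : ∀ N : Subgroup G, N ≤ H → (∀ h ∈ H, MulAut.conj h • N = N) →
      MulAut.conj n • N = N → N = ⊥) :
    Concl ↥H := by
  obtain ⟨g, h, hyp, hg1, htop, hh, hn⟩ := d_hyp_of_n H K n hmax hK hidx hnK hcore
  obtain ⟨r, hr, hnr⟩ := d_odd_pow K n hnK hodd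
  have hK' : K = H ⊓ Hn H g 1 := by rw [hg1]; exact hK
  rw [hK', hn] at hnK
  rw [hK', hn] at hnr
  obtain ⟨s, hs1, hbot, hcard⟩ := d_exists_reg hyp
  have hKc : Nat.card (H ⊓ Hn H g 1 : Subgroup G) = 2 ^ (s - 1) := by
    rw [← Arc_zero_one]
    have h1 := hcard 1 le_rfl hs1
    rw [Nat.cast_one] at h1
    exact h1
  have hHc : Nat.card H = 3 * 2 ^ (s - 1) := by
    have h1 := gReg5_card_rel (A := H ⊓ Hn H g 1) (B := H) inf_le_left
    rw [hyp.idx, hKc] at h1
    rw [← h1, mul_comm]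
  by_cases hs1' : s = 1
  · subst hs1'
    exact tus_z3 (by rw [hHc]; rfl)
  have hs2 : 2 ≤ s := by omega
  have hc2 : Nat.card (Arc H g 0 ((s : ℤ) - 1)) = 2 := by
    have h1 := hcard (s - 1) (by omega) (by omega)
    have e : ((s - 1 : ℕ) : ℤ) = (s : ℤ) - 1 := by omega
    rw [e] at h1
    rw [h1]
    have e2 : s - (s - 1) = 1 := by omega
    rw [e2, pow_one]
  obtain ⟨x₀, hx1, hxx, hx⟩ := exists_x0 s hc2
  have hXH := d_Xint_eq_Hn hyp s hs2 hbot hcard x₀ hx1 hx
  have hXA := d_Xint_eq_Arc hyp s hs2 hbot hcard x₀ hx1 hx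
  have C : Calc g x₀ s :=
    { inv := hxx
      card := by
        intro m hm
        rw [hXA m hm]
        have h1 := card_Arc_shift H g 0 ((s : ℤ) - 1 - m) m
        rw [zero_add, sub_add_cancel] at h1
        rw [h1]
        have h2 := hcard (s - 1 - m) (by omega) (by omega)
        have e : ((s - 1 - m : ℕ) : ℤ) = (s : ℤ) - 1 - m := by omega
        rw [e] at h2
        rw [h2]
        congr 1
        omega
      nc := fun l hl1 hl2 => d_xs_not_central hyp htop s hs2 x₀ hx1 hx hXH l hl1 hl2 }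
  by_cases h5 : s ≤ 5
  · exact tus_of_calc hs2 h5 C hXH hHc
  · exfalso
    have hs6 : 6 ≤ s := by omega
    obtain ⟨h7, hcomm, h4⟩ := seven_struct C hs6
    subst h7
    have e6 : ((7 : ℕ) : ℤ) - 1 = 6 := by norm_num
    have e5 : ((5 : ℕ) : ℤ) = 5 := by norm_num
    rw [e6] at hXH
    have hA5 : Xint g x₀ 0 5 = Arc H g 5 6 := by
      have h1 := hXA 5 (by norm_num)
      rw [e6, e5] at h1
      exact h1
    have a1 : (0 : ℤ) + -6 = -6 := by norm_num
    have a2 : (6 : ℤ) + -6 = 0 := by norm_num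
    have a3 : (5 : ℤ) + -5 = 0 := by norm_num
    have a4 : (6 : ℤ) + -5 = 1 := by norm_num
    have a5 : (0 : ℤ) + -5 = -5 := by norm_num
    have hH : Xint g x₀ (-6) 0 = H := by
      have h1 := conj_Xint g x₀ 0 6 (-6)
      rw [hXH, conj_Hn, a1, a2, Hn_zero] at h1
      exact h1.symm
    have hKx : Xint g x₀ (-5) 0 = H ⊓ Hn H g 1 := by
      have h1 := conj_Xint g x₀ 0 5 (-5)
      rw [hA5, conj_Arc, a3, a4, a5, Arc_zero_one] at h1
      exact h1.symm
    have hh' : h ∈ Xint g x₀ (-6) 0 := by rw [hH]; exact hh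
    have hnK' : ∀ k ∈ Xint g x₀ (-5) 0, (g * h)⁻¹ * k * (g * h) ∈ Xint g x₀ (-5) 0 := by
      rw [hKx]
      intro k hk
      have hk' : k ∈ MulAut.conj (g * h) • (H ⊓ Hn H g 1) := by rw [hnK]; exact hk
      rw [Subgroup.mem_smul_pointwise_iff_exists] at hk'
      obtain ⟨z, hz, rfl⟩ := hk'
      rw [MulAut.smul_def, MulAut.conj_apply]
      have e : (g * h)⁻¹ * ((g * h) * z * (g * h)⁻¹) * (g * h) = z := by group
      rw [e]
      exact hz
    have hnr' : (g * h) ^ r ∈ Xint g x₀ (-5) 0 := by rw [hKx]; exact hnr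
    exact d_seven_false C hcomm h4 h hh' hnK' r hr hnr'

end Cfsg.Agent.Lib.Helper55.TUT
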