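import Cfsg.Agent.Lib.Helper55.TusEven
import Cfsg.Agent.Lib.Helper55.TusOdd
import Cfsg.Agent.Lib.Helper55.TusZ3
import Cfsg.Agent.Lib.Helper81.SimsBridge
import Cfsg.Agent.Lib.Helper55.SimsOddBridge

/-!
# Project TUS (S3685: structure of the point stabiliser, suborbit of length 3) -- piece `TusGT`

PLACEHOLDER: replace the `sorry` in this ONE file; keep the statement, name and namespace unchanged;
you may add helper lemmas HERE with names prefixed `tusgt_` (lower-case file tag) and import any landed
`Cfsg.Agent` library file.  Notation: `x_i := xs g x₀ i` (involutions, `g x_i g⁻¹ = x_{i+1}`: `xs_conj`),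
`Xint g x₀ i j = ⟨x_i..x_j⟩`; proved API: `TutBasic.lean` and the `TutCalc*.lean` files (`card_Xint`,
`comm_mem`, `coset_left/right`, `xs_not_mem_left/right`, `inter_eq`, `calcAsm_mem_single`,
`calcFinal_shift`, `calcE_ne` is for `s = 7` only).
-/

set_option autoImplicit false

namespace Cfsg.Agent.Lib.Helper55.TUT

open scoped Pointwise


variable {G : Type*} [Group G]

open Subgroup Cfsg.Agent.Lib.Helper81.Sims in
/-- A subgroup of `H` normalised by `H` and by some `t ∉ H` is trivial. -/
theorem tusgt_core {G : Type*} [Group G] [Finite G] (H : Subgroup G) (hco : IsCoatom H)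
    (hcore : H.normalCore = ⊥) (t : G) (ht : t ∉ H) :
    ∀ N : Subgroup G, N ≤ H → (∀ h ∈ H, MulAut.conj h • N = N) →
      MulAut.conj t • N = N → N = ⊥ := by
  intro N hNH hH htN
  have hHn : H ≤ normalizer (N : Set G) := by
    intro x hx
    have h3 := hH x hx
    rw [smul_eq_cj] at h3
    exact mem_normalizer_of_cj_eq h3
  have htn : t ∈ normalizer (N : Set G) := by
    rw [smul_eq_cj] at htN
    exact mem_normalizer_of_cj_eq htN
  have htop : normalizer (N : Set G) = ⊤ :=
    hco.2 _ (lt_of_le_of_ne hHn (fun e => ht (by rw [e]; exact htn)))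
  rw [eq_bot_iff]
  intro x hx
  have h1 : x ∈ H.normalCore := by
    intro b
    have hb' : b ∈ normalizer (N : Set G) := by rw [htop]; exact mem_top b
    exact hNH ((mem_normalizer_iff.mp hb' x).mp hx)
  rw [hcore] at h1
  exact h1

open Subgroup Cfsg.Agent.Lib.Helper81.Sims in
/-- Group form of S3685.  Proof: copy `GT_of_tutte_odd` (`Lib/Helper81/SimsMid.lean`), `tutteStmt_of_groupForm` (`Lib/Helper81/SimsBridge.lean`) and `oddStmt_of_tutte_odd` (`Lib/Helper55/SimsOddBridge.lean`), replacing the numerical conclusion by `Concl ↥H`.  With `K := H ⊓ cj c H` (`cj` of `SimsMid`; `open Cfsg.Agent.Lib.Helper81.Sims`): (1) if `H ≤ normalizer K` then `K = ⊥` (`K_eq_bot_of_le_normalizer`), so `Nat.card H = 3` (`hcard`, `Subgroup.card_bot`) and `tus_z3`; (2) if some `t ∈ normalizer K` has `t * t ∈ K`, `t ∉ K`: `t ∉ H`, `H ⊓ cj t H = K` (`inf_cj_eq`), apply `tus_even H K t` with the hypotheses derived as in `tutteStmt_of_groupForm` (`smul_eq_cj`, `relIndex_eq_three`, core argument); (3) otherwise take `n` from `exists_mem_normalizer_notMem`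 and apply `tus_odd H K n` as in `oddStmt_of_tutte_odd`. -/
theorem tus_GT {G : Type*} [Group G] [Finite G] (H : Subgroup G) (c : G) (hco : IsCoatom H)
    (hcore : H.normalCore = ⊥) (hc : c ∉ H)
    (hcard : Nat.card H = 3 * Nat.card ↥(H ⊓ H.map (MulAut.conj c).toMonoidHom)) : Concl ↥H := by
  have hKH : H ⊓ cj c H ≤ H := inf_le_left
  change Nat.card H = 3 * Nat.card ↥(H ⊓ cj c H) at hcard
  by_cases hN : H ≤ normalizer ((H ⊓ cj c H : Subgroup G) : Set G)
  · have hbot := K_eq_bot_of_le_normalizer hco hcore hc hcard hN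
    apply tus_z3
    rw [hcard, hbot, Subgroup.card_bot]
  · by_cases hex : ∃ t : G, t ∈ normalizer ((H ⊓ cj c H : Subgroup G) : Set G) ∧
        t * t ∈ H ⊓ cj c H ∧ t ∉ H ⊓ cj c H
    · obtain ⟨t, ht, htt, htK⟩ := hex
      have htH : t ∉ H := by
        intro h
        have hKL : H ⊓ cj c H ≤ H ⊓ normalizer ((H ⊓ cj c H : Subgroup G) : Set G) :=
          le_inf hKH le_normalizer
        have hLH : H ⊓ normalizer ((H ⊓ cj c H : Subgroup G) : Set G) ≤ H := inf_le_left
        rcases eq_or_eq_of_le_of_le (K := H ⊓ cj c H)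
          (L := H ⊓ normalizer ((H ⊓ cj c H : Subgroup G) : Set G)) (H := H) hKL hLH hcard
          with h1 | h1
        · apply htK
          rw [← h1]
          exact ⟨h, ht⟩
        · exact hN (inf_eq_left.mp h1)
      have hinf := inf_cj_eq hco hcore hcard ht htH
      refine tus_even H (H ⊓ cj c H) t ?_ ?_ ?_ ?_
      · rw [smul_eq_cj, hinf]
      · exact relIndex_eq_three hKH hcard
      · rw [pow_two]
        exact htt
      · exact tusgt_core H hco hcore t htH
    · obtain ⟨n, hn, hnH⟩ := exists_mem_normalizer_notMem hco hcore hc hcard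
      have hinf := inf_cj_eq hco hcore hcard hn hnH
      refine tus_odd H (H ⊓ cj c H) n hco ?_ ?_ ?_ ?_ ?_
      · rw [smul_eq_cj, hinf]
      · exact relIndex_eq_three hKH hcard
      · rw [smul_eq_cj]
        ext x
        rw [mem_cj]
        have h1 := mem_normalizer_iff.mp hn (n⁻¹ * x * n)
        have e : n * (n⁻¹ * x * n) * n⁻¹ = x := by group
        rw [e] at h1
        exact h1
      · intro t ht htt
        by_contra h
        apply hex
        refine ⟨t, ?_, htt, h⟩
        rw [smul_eq_cj] at ht
        exact mem_normalizer_of_cj_eq ht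
      · exact tusgt_core H hco hcore n hnH

end Cfsg.Agent.Lib.Helper55.TUT
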