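import Cfsg.Agent.Lib.Helper55.TusDefs
import Cfsg.Agent.Lib.Helper5.DihIso

/-!
# Project TUS (S3685: structure of the point stabiliser, suborbit of length 3) -- piece `TusRecA`

Proved by helper35 (job 4748); statement, name and namespace unchanged.
Helper lemmas may be added HERE with names prefixed `tusreca_` (lower-case file tag) and import any landed
`Cfsg.Agent` library file.  Notation: `x_i := xs g x₀ i` (involutions, `g x_i g⁻¹ = x_{i+1}`: `xs_conj`),
`Xint g x₀ i j = ⟨x_i..x_j⟩`; proved API: `TutBasic.lean` and the `TutCalc*.lean` files (`card_Xint`,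
`comm_mem`, `coset_left/right`, `xs_not_mem_left/right`, `inter_eq`, `calcAsm_mem_single`,
`calcFinal_shift`, `calcE_ne` is for `s = 7` only).
-/

set_option autoImplicit false

namespace Cfsg.Agent.Lib.Helper55.TUT

open scoped Pointwise


variable {G : Type*} [Group G]

/-- `W = {1, p, q, pq}` is a four-group on which `a` and `b` act as the two transvections; then `D := ⟨a, b⟩` has order 6 and trivial core.  Proof.  `q ≠ 1` (else `haq` gives `a * a = p`, so `p = 1`), `p ≠ q` (else `hbp` gives `b p b = p * p = 1`, so `p = 1`), `a ≠ 1` (else `haq`: `q = p q`), `b ≠ 1`, `a ≠ b` (`a p a = p` but `b p b = p q ≠ p`).  So `σ := a * b ≠ 1`, `σ ^ 3 = 1`: `orderOf σ = 3`; `D := Subgroup.closure {σ, a}` has card `2 * 3` by `Cfsg.Agent.Lib.Helper5` `dh_card` (file `Lib/Helper5/DihIso.lean`; `τ := a`, `τ σ τ⁻¹ = b a = σ⁻¹`, `σ * σ ≠ 1`) -- or show directly that `D = {1, a, b, ab, ba, aba}` has 6 elements.  Conjugation action on `(p, q)`: `a : (p, q) ↦ (p, pq)`, `b : (p, q) ↦ (pq, q)`, `ab :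 p ↦ q`, `ba : p ↦ pq`, `aba : p ↦ q`; so no non-identity element of `D` commutes with both `p` and `q`, and every element of `D` maps `W` into `W`.  Core: let `n ∈ D.normalCore` (so `x n x⁻¹ ∈ D` for all `x`; `Subgroup.normalCore_le`, normality of the core).  For `w ∈ {p, q}`: `[n, w] = n * (w * n⁻¹ * w⁻¹) ∈ D` and `[n, w] = (n * w * n⁻¹) * w⁻¹ ∈ W`; an element of `D ∩ W` commutes with `p` and `q` (W is abelian), hence is `1`.  So `n` commutes with `p` and `q`, hence `n = 1`. -/
theorem tus_recA {X : Type*} [Group X] [Finite X] (p q a b : X) (hp : p * p = 1) (hq : q * q = 1)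
    (ha : a * a = 1) (hb : b * b = 1) (hp1 : p ≠ 1) (hpq : p * q = q * p)
    (hap : a * p * a = p) (haq : a * q * a = p * q) (hbq : b * q * b = q) (hbp : b * p * b = p * q)
    (hab : (a * b) ^ 3 = 1) : ∃ D : Subgroup X, Nat.card D = 6 ∧ D.normalCore = ⊥ := by
  classical
  have ainv : a⁻¹ = a := inv_eq_of_mul_eq_one_left ha
  have binv : b⁻¹ = b := inv_eq_of_mul_eq_one_left hb
  have hq1 : q ≠ 1 := by
    intro h
    apply hp1
    have h2 := haq
    rw [h, mul_one, mul_one, ha] at h2
    exact h2.symm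
  have hpq_ne : p ≠ q := by
    intro h
    apply hp1
    have h2 := hbp
    rw [← h, hp] at h2
    calc p = (b * b) * p * (b * b) := by rw [hb, one_mul, mul_one]
      _ = b * (b * p * b) * b := by simp only [mul_assoc]
      _ = 1 := by rw [h2, mul_one, hb]
  have ha1 : a ≠ 1 := by
    intro h
    have h2 := haq
    rw [h, one_mul, mul_one] at h2
    exact hp1 (mul_eq_right.mp h2.symm)
  have hab_ne : a ≠ b := by
    intro h
    have h2 := hap
    rw [h] at h2
    exact hq1 (mul_eq_left.mp (hbp.symm.trans h2))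
  have hσ1 : a * b ≠ 1 := by
    intro h
    apply hab_ne
    rw [eq_inv_of_mul_eq_one_left h, binv]
  have : Fact (Nat.Prime 3) := ⟨by norm_num⟩
  have hσo : orderOf (a * b) = 3 := orderOf_eq_prime hab hσ1
  have hτo : orderOf a = 2 := orderOf_eq_prime (by rw [sq]; exact ha) ha1
  have hrel : a * (a * b) * a⁻¹ = (a * b)⁻¹ := by
    rw [ainv, mul_inv_rev, ainv, binv, ← mul_assoc, ha, one_mul]
  have hσ2 : (a * b) * (a * b) ≠ 1 := by
    intro h
    apply hσ1
    have h2 : (a * b) ^ 3 = (a * b) * ((a * b) * (a * b)) := by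
      rw [pow_succ', sq]
    rw [h, mul_one] at h2
    rw [← h2, hab]
  have hbraid : b * a * b = a * b * a := by
    have h1 : (a * b * a) * (b * a * b) = 1 := by
      rw [← hab, pow_succ, pow_succ, pow_one]
      simp only [mul_assoc]
    have h2 : (a * b * a)⁻¹ = b * a * b := inv_eq_of_mul_eq_one_right h1
    rw [← h2, mul_inv_rev, mul_inv_rev, ainv, binv, mul_assoc]
  obtain ⟨D, hDdef⟩ : ∃ D : Subgroup X, D = Subgroup.closure ({a * b, a} : Set X) := ⟨_, rfl⟩
  have hDcard : Nat.card D = 6 := by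
    rw [hDdef, Cfsg.Agent.Lib.Helper5.dh_card hσo (by norm_num) hτo hrel hσ2]
  -- the elements of `D`
  have hSa : ∀ y : X, (y = 1 ∨ y = a ∨ y = b ∨ y = a * b ∨ y = b * a ∨ y = a * b * a) →
      (a * y = 1 ∨ a * y = a ∨ a * y = b ∨ a * y = a * b ∨ a * y = b * a ∨ a * y = a * b * a) := by
    intro y hy
    rcases hy with rfl | rfl | rfl | rfl | rfl | rfl
    · exact Or.inr (Or.inl (mul_one a))
    · exact Or.inl ha
    · exact Or.inr (Or.inr (Or.inr (Or.inl rfl)))
    · exact Or.inr (Or.inr (Or.inl (by rw [← mul_assoc, ha, one_mul])))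
    · exact Or.inr (Or.inr (Or.inr (Or.inr (Or.inr (mul_assoc a b a).symm))))
    · exact Or.inr (Or.inr (Or.inr (Or.inr (Or.inl (by
        rw [mul_assoc a b a, ← mul_assoc, ha, one_mul])))))
  have hSb : ∀ y : X, (y = 1 ∨ y = a ∨ y = b ∨ y = a * b ∨ y = b * a ∨ y = a * b * a) →
      (b * y = 1 ∨ b * y = a ∨ b * y = b ∨ b * y = a * b ∨ b * y = b * a ∨ b * y = a * b * a) := by
    intro y hy
    rcases hy with rfl | rfl | rfl | rfl | rfl | rfl
    · exact Or.inr (Or.inr (Or.inl (mul_one b)))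
    · exact Or.inr (Or.inr (Or.inr (Or.inr (Or.inl rfl))))
    · exact Or.inl hb
    · exact Or.inr (Or.inr (Or.inr (Or.inr (Or.inr (by rw [← mul_assoc]; exact hbraid)))))
    · exact Or.inr (Or.inl (by rw [← mul_assoc, hb, one_mul]))
    · exact Or.inr (Or.inr (Or.inr (Or.inl (by
        rw [← hbraid, ← mul_assoc, ← mul_assoc, hb, one_mul]))))
  have hDS : ∀ d ∈ D, d = 1 ∨ d = a ∨ d = b ∨ d = a * b ∨ d = b * a ∨ d = a * b * a := by
    intro d hd
    rw [hDdef] at hd
    induction hd using Subgroup.closure_induction_left with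
    | one => exact Or.inl rfl
    | mul_left x hx y _ ih =>
      rcases hx with rfl | hx
      · rw [mul_assoc]
        exact hSa _ (hSb _ ih)
      · rw [Set.mem_singleton_iff] at hx
        rw [hx]
        exact hSa _ ih
    | inv_mul_cancel x hx y _ ih =>
      rcases hx with rfl | hx
      · rw [mul_inv_rev, ainv, binv, mul_assoc]
        exact hSb _ (hSa _ ih)
      · rw [Set.mem_singleton_iff] at hx
        rw [hx, ainv]
        exact hSa _ ih
  -- conjugation formulas
  have hcap : MulAut.conj a p = p := by rw [MulAut.conj_apply, ainv]; exact hap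
  have hcaq : MulAut.conj a q = p * q := by rw [MulAut.conj_apply, ainv]; exact haq
  have hcbp : MulAut.conj b p = p * q := by rw [MulAut.conj_apply, binv]; exact hbp
  have hcbq : MulAut.conj b q = q := by rw [MulAut.conj_apply, binv]; exact hbq
  have hc_ab_p : MulAut.conj (a * b) p = q := by
    rw [map_mul, MulAut.mul_apply, hcbp, map_mul, hcap, hcaq, ← mul_assoc, hp, one_mul]
  have hc_ba_p : MulAut.conj (b * a) p = p * q := by
    rw [map_mul, MulAut.mul_apply, hcap, hcbp]
  have hc_aba_p : MulAut.conj (a * b * a) p = q := by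
    rw [map_mul, MulAut.mul_apply, hcap, hc_ab_p]
  have hcomm_iff : ∀ d w : X, Commute d w → MulAut.conj d w = w := by
    intro d w h
    rw [MulAut.conj_apply, h.eq, mul_inv_cancel_right]
  have hF : ∀ d ∈ D, Commute d p → Commute d q → d = 1 := by
    intro d hd h1 h2
    have e1 := hcomm_iff d p h1
    have e2 := hcomm_iff d q h2
    rcases hDS d hd with rfl | rfl | rfl | rfl | rfl | rfl
    · rfl
    · exfalso
      rw [hcaq] at e2
      exact hp1 (mul_eq_right.mp e2)
    · exfalso
      rw [hcbp] at e1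
      exact hq1 (mul_eq_left.mp e1)
    · exfalso
      rw [hc_ab_p] at e1
      exact hpq_ne e1.symm
    · exfalso
      rw [hc_ba_p] at e1
      exact hq1 (mul_eq_left.mp e1)
    · exfalso
      rw [hc_aba_p] at e1
      exact hpq_ne e1.symm
  -- `D` normalises the four-group
  have hWa : ∀ w : X, (w = 1 ∨ w = p ∨ w = q ∨ w = p * q) →
      (MulAut.conj a w = 1 ∨ MulAut.conj a w = p ∨ MulAut.conj a w = q ∨
        MulAut.conj a w = p * q) := by
    intro w hw
    rcases hw with rfl | rfl | rfl | rfl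
    · exact Or.inl (map_one _)
    · exact Or.inr (Or.inl hcap)
    · exact Or.inr (Or.inr (Or.inr hcaq))
    · exact Or.inr (Or.inr (Or.inl (by rw [map_mul, hcap, hcaq, ← mul_assoc, hp, one_mul])))
  have hWb : ∀ w : X, (w = 1 ∨ w = p ∨ w = q ∨ w = p * q) →
      (MulAut.conj b w = 1 ∨ MulAut.conj b w = p ∨ MulAut.conj b w = q ∨
        MulAut.conj b w = p * q) := by
    intro w hw
    rcases hw with rfl | rfl | rfl | rfl
    · exact Or.inl (map_one _)
    · exact Or.inr (Or.inr (Or.inr hcbp))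
    · exact Or.inr (Or.inr (Or.inl hcbq))
    · exact Or.inr (Or.inl (by rw [map_mul, hcbp, hcbq, mul_assoc, hq, mul_one]))
  have hWD : ∀ d ∈ D, ∀ w : X, (w = 1 ∨ w = p ∨ w = q ∨ w = p * q) →
      (MulAut.conj d w = 1 ∨ MulAut.conj d w = p ∨ MulAut.conj d w = q ∨
        MulAut.conj d w = p * q) := by
    intro d hd w hw
    rcases hDS d hd with rfl | rfl | rfl | rfl | rfl | rfl
    · rw [map_one, MulAut.one_apply]
      exact hw
    · exact hWa w hw
    · exact hWb w hw
    · rw [map_mul, MulAut.mul_apply]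
      exact hWa _ (hWb _ hw)
    · rw [map_mul, MulAut.mul_apply]
      exact hWb _ (hWa _ hw)
    · rw [map_mul, map_mul, MulAut.mul_apply, MulAut.mul_apply]
      exact hWa _ (hWb _ (hWa _ hw))
  have hWcomm : ∀ w : X, (w = 1 ∨ w = p ∨ w = q ∨ w = p * q) → Commute w p ∧ Commute w q := by
    intro w hw
    have hcpq : Commute p q := hpq
    rcases hw with h | h | h | h
    · rw [h]
      exact ⟨Commute.one_left p, Commute.one_left q⟩
    · rw [h]
      exact ⟨Commute.refl p, hcpq⟩
    · rw [h]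
      exact ⟨hcpq.symm, Commute.refl q⟩
    · rw [h]
      exact ⟨(Commute.refl p).mul_left hcpq.symm, hcpq.mul_left (Commute.refl q)⟩
  refine ⟨D, hDcard, ?_⟩
  rw [Subgroup.eq_bot_iff_forall]
  intro n hn
  have hnD : n ∈ D := Subgroup.normalCore_le D hn
  have hnorm : D.normalCore.Normal := inferInstance
  have hkey : ∀ w : X, (w = 1 ∨ w = p ∨ w = q ∨ w = p * q) → Commute n w := by
    intro w hw
    have h1 : w * n⁻¹ * w⁻¹ ∈ D :=
      Subgroup.normalCore_le D (hnorm.conj_mem n⁻¹ (D.normalCore.inv_mem hn) w)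
    have hcD : n * (w * n⁻¹ * w⁻¹) ∈ D := D.mul_mem hnD h1
    have hceq : n * (w * n⁻¹ * w⁻¹) = MulAut.conj n w * w⁻¹ := by
      rw [MulAut.conj_apply]
      simp only [mul_assoc]
    have hW1 := hWcomm _ (hWD n hnD w hw)
    have hW2 := hWcomm w hw
    have hc1 : Commute (n * (w * n⁻¹ * w⁻¹)) p := by
      rw [hceq]
      exact hW1.1.mul_left hW2.1.inv_left
    have hc2 : Commute (n * (w * n⁻¹ * w⁻¹)) q := by
      rw [hceq]
      exact hW1.2.mul_left hW2.2.inv_left
    have h3 := hF _ hcD hc1 hc2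
    rw [hceq, MulAut.conj_apply, mul_inv_eq_one, mul_inv_eq_iff_eq_mul] at h3
    exact h3
  exact hF n hnD (hkey p (Or.inr (Or.inl rfl))) (hkey q (Or.inr (Or.inr (Or.inl rfl))))

end Cfsg.Agent.Lib.Helper55.TUT
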