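import Cfsg.Agent.Lib.Helper55.TusDefs
import Cfsg.Agent.Lib.Helper55.TutCalcCard
import Cfsg.Agent.Lib.Helper55.TutCalcIdxL
import Cfsg.Agent.Lib.Helper55.TutCalcIdxR
import Cfsg.Agent.Lib.Helper55.TutCalcInt
import Cfsg.Agent.Lib.Helper55.TutCalcComm
import Cfsg.Agent.Lib.Helper55.TutCalcAsm
import Cfsg.Agent.Lib.Helper55.TutCalcE
import Cfsg.Agent.Lib.Helper55.TutCalcFinal

/-!
# Project TUS (S3685: structure of the point stabiliser, suborbit of length 3) -- piece `TusRel4a`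

FILLED by helper86 (was a placeholder; statement, name and namespace unchanged);
you may add helper lemmas HERE with names prefixed `tusrel4a_` (lower-case file tag) and import any landed
`Cfsg.Agent` library file.  Notation: `x_i := xs g x₀ i` (involutions, `g x_i g⁻¹ = x_{i+1}`: `xs_conj`),
`Xint g x₀ i j = ⟨x_i..x_j⟩`; proved API: `TutBasic.lean` and the `TutCalc*.lean` files (`card_Xint`,
`comm_mem`, `coset_left/right`, `xs_not_mem_left/right`, `inter_eq`, `calcAsm_mem_single`,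
`calcFinal_shift`, `calcE_ne` is for `s = 7` only).
-/

set_option autoImplicit false

namespace Cfsg.Agent.Lib.Helper55.TUT

open scoped Pointwise


variable {G : Type*} [Group G]

theorem tusrel4a_comm_of {a b : G} (ha : a * a = 1) (hb : b * b = 1)
    (h : a * b * a * b = 1) : a * b = b * a := by
  have h1 : a * b = (a * b)⁻¹ := eq_inv_of_mul_eq_one_left (by rw [← mul_assoc]; exact h)
  rw [h1, mul_inv_rev, inv_eq_of_mul_eq_one_left ha, inv_eq_of_mul_eq_one_left hb]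

/-- `s = 4`: neighbours commute and `[x_i, x_{i+2}] = x_{i+1}`.  Proof.  `comm_mem C 0 1` (`1 - 0 + 2 ≤ 4`): `x_0 x_1 x_0 x_1 ∈ Xint 1 0 = ⊥` (`Xint_empty`), so `x_0 x_1 = x_1 x_0`; shift with `xs_comm_shift`.  `comm_mem C 0 2`: `c := x_0 x_2 x_0 x_2 ∈ Xint 1 1`, so `c = 1 ∨ c = x_1` (`calcAsm_mem_single C.inv 1 c`).  If `c = 1` then `x_0 x_2 = x_2 x_0`, and by `xs_comm_shift` all `x_i, x_j` with `|i - j| ≤ 2` commute; then `x_2` commutes with `x_0, ..., x_4`, contradicting `C.nc 2` (`1 ≤ 2 ≤ 4 - 1`).  So `x_0 x_2 x_0 x_2 = x_1`; conjugating by `g ^ i` (`calcFinal_shift g x₀ 0 2 i`, `xs_conj`): `x_i x_{i+2} x_i x_{i+2} = x_{i+1}`; multiply by `x_{i+2}` on the right resp. `x_i` on the left (`xs_mul_self C.inv`). -/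
theorem tus_rel4a [Finite G] {g x₀ : G} (C : Calc g x₀ 4) :
    (∀ i : ℤ, xs g x₀ i * xs g x₀ (i + 1) = xs g x₀ (i + 1) * xs g x₀ i) ∧
    (∀ i : ℤ, xs g x₀ i * xs g x₀ (i + 2) * xs g x₀ i = xs g x₀ (i + 1) * xs g x₀ (i + 2)) ∧
    (∀ i : ℤ, xs g x₀ (i + 2) * xs g x₀ i * xs g x₀ (i + 2) = xs g x₀ i * xs g x₀ (i + 1)) := by
  have hinv : ∀ i : ℤ, xs g x₀ i * xs g x₀ i = 1 := fun i => xs_mul_self C.inv i
  have h01 : xs g x₀ 0 * xs g x₀ 1 = xs g x₀ 1 * xs g x₀ 0 := by
    have h := comm_mem C 0 1 (by norm_num) (by norm_num)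
    rw [Xint_empty (by norm_num), Subgroup.mem_bot] at h
    exact tusrel4a_comm_of (hinv 0) (hinv 1) h
  have hnb : ∀ i : ℤ, xs g x₀ i * xs g x₀ (i + 1) = xs g x₀ (i + 1) * xs g x₀ i := by
    intro i
    have h := (xs_comm_shift (g := g) (x₀ := x₀) 0 1 i).2 h01
    rw [zero_add, add_comm 1 i] at h
    exact h
  have hc := comm_mem C 0 2 (by norm_num) (by norm_num)
  have hc' : xs g x₀ 0 * xs g x₀ 2 * xs g x₀ 0 * xs g x₀ 2 ∈ Xint g x₀ 1 1 := by
    have e1 : (0 : ℤ) + 1 = 1 := by norm_num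
    have e2 : (2 : ℤ) - 1 = 1 := by norm_num
    rw [e1, e2] at hc
    exact hc
  have hkey : xs g x₀ 0 * xs g x₀ 2 * xs g x₀ 0 * xs g x₀ 2 = xs g x₀ 1 := by
    rcases calcAsm_mem_single C.inv 1 _ hc' with h1 | h1
    · exfalso
      have h02 : xs g x₀ 0 * xs g x₀ 2 = xs g x₀ 2 * xs g x₀ 0 :=
        tusrel4a_comm_of (hinv 0) (hinv 2) h1
      have h2 : ∀ i : ℤ, xs g x₀ i * xs g x₀ (i + 2) = xs g x₀ (i + 2) * xs g x₀ i := by
        intro i
        have h := (xs_comm_shift (g := g) (x₀ := x₀) 0 2 i).2 h02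
        rw [zero_add, add_comm 2 i] at h
        exact h
      obtain ⟨i, hi0, hi4, hne⟩ := C.nc 2 (by norm_num) (by norm_num)
      apply hne
      have hi4' : i ≤ 4 := by exact_mod_cast hi4
      interval_cases i
      · exact h02.symm
      · have h := hnb 1
        norm_num at h
        exact h.symm
      · rfl
      · have h := hnb 2
        norm_num at h
        exact h
      · have h := h2 2
        norm_num at h
        exact h
    · exact h1
  have hsh : ∀ i : ℤ, xs g x₀ i * xs g x₀ (i + 2) * xs g x₀ i * xs g x₀ (i + 2) =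
      xs g x₀ (i + 1) := by
    intro i
    have h := calcFinal_shift g x₀ 0 2 i
    rw [hkey, xs_conj, zero_add, add_comm 2 i, add_comm 1 i] at h
    exact h.symm
  refine ⟨hnb, fun i => ?_, fun i => ?_⟩
  · rw [← hsh i, mul_assoc _ (xs g x₀ (i + 2)) (xs g x₀ (i + 2)), hinv (i + 2), mul_one]
  · rw [← hsh i]
    simp only [← mul_assoc]
    rw [hinv i, one_mul]

end Cfsg.Agent.Lib.Helper55.TUT
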