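import Cfsg.Agent.Lib.Helper55.TusDefs
import Cfsg.Agent.Lib.Helper55.TutCalcCard
import Cfsg.Agent.Lib.Helper55.TutCalcIdxL
import Cfsg.Agent.Lib.Helper55.TutCalcIdxR
import Cfsg.Agent.Lib.Helper55.TutCalcInt
import Cfsg.Agent.Lib.Helper55.TutCalcComm
import Cfsg.Agent.Lib.Helper55.TutCalcAsm
import Cfsg.Agent.Lib.Helper55.TutCalcE
import Cfsg.Agent.Lib.Helper55.TutCalcFinal

/-!
# Project TUS (S3685: structure of the point stabiliser, suborbit of length 3) -- piece `TusRel5a`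

Proved by helper35 (job 4757); statement, name and namespace unchanged.
Helper lemmas may be added HERE with names prefixed `tusrel5a_` (lower-case file tag) and import any landed
`Cfsg.Agent` library file.  Notation: `x_i := xs g x₀ i` (involutions, `g x_i g⁻¹ = x_{i+1}`: `xs_conj`),
`Xint g x₀ i j = ⟨x_i..x_j⟩`; proved API: `TutBasic.lean` and the `TutCalc*.lean` files (`card_Xint`,
`comm_mem`, `coset_left/right`, `xs_not_mem_left/right`, `inter_eq`, `calcAsm_mem_single`,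
`calcFinal_shift`, `calcE_ne` is for `s = 7` only).
-/

set_option autoImplicit false

namespace Cfsg.Agent.Lib.Helper55.TUT

open scoped Pointwise


variable {G : Type*} [Group G]

/-- the case `[x_0, x_2] = x_1` is contradictory -/
theorem tusrel5a_aux {x0 x1 x2 x3 : G} (h0 : x0 * x0 = 1) (h1 : x1 * x1 = 1) (h2 : x2 * x2 = 1)
    (h3 : x3 * x3 = 1) (c01 : x0 * x1 = x1 * x0) (c12 : x1 * x2 = x2 * x1)
    (c23 : x2 * x3 = x3 * x2) (hd : x0 * x2 * x0 * x2 = x1) (h13 : x1 * x3 * x1 * x3 = x2)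
    (hc : x0 * x3 * x0 * x3 = 1 ∨ x0 * x3 * x0 * x3 = x1 ∨ x0 * x3 * x0 * x3 = x2 ∨
      x0 * x3 * x0 * x3 = x1 * x2)
    (n1 : x1 ≠ 1) (n12 : x1 ≠ x2) : False := by
  have h0' : ∀ z, x0 * (x0 * z) = z := fun z => by rw [← mul_assoc, h0, one_mul]
  have h1' : ∀ z, x1 * (x1 * z) = z := fun z => by rw [← mul_assoc, h1, one_mul]
  have h2' : ∀ z, x2 * (x2 * z) = z := fun z => by rw [← mul_assoc, h2, one_mul]
  have r1 : ∀ z, x1 * (x2 * z) = x2 * (x1 * z) := fun z => by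
    rw [← mul_assoc, c12, mul_assoc]
  have r3 : ∀ z, x3 * (x2 * z) = x2 * (x3 * z) := fun z => by
    rw [← mul_assoc, ← c23, mul_assoc]
  have r3' : x3 * x2 = x2 * x3 := c23.symm
  have h13' : x1 * (x3 * (x1 * x3)) = x2 := by
    rw [← h13]
    simp only [mul_assoc]
  have x2inv : x2⁻¹ = x2 := inv_eq_of_mul_eq_one_left h2
  have hy : ∀ c, x0 * x3 * x0 * x3 = c → x0 * x3 * x0 = c * x3 := by
    intro c h
    rw [← h]
    simp only [mul_assoc, h3, mul_one]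
  have hx2 : x0 * x2 * x0 = x1 * x2 := by
    rw [← hd]
    simp only [mul_assoc, h2, mul_one]
  have hE : x1 * (x0 * x3 * x0) * x1 * (x0 * x3 * x0) = x1 * x2 := by
    rw [← hx2]
    have e1 : x1 = x0 * x1 * x0 := by rw [c01, mul_assoc, h0, mul_one]
    calc x1 * (x0 * x3 * x0) * x1 * (x0 * x3 * x0)
        = (x0 * x1 * x0) * (x0 * x3 * x0) * (x0 * x1 * x0) * (x0 * x3 * x0) := by rw [← e1]
      _ = x0 * (x1 * x3 * x1 * x3) * x0 := by simp only [mul_assoc, h0']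
      _ = x0 * x2 * x0 := by rw [h13]
  rcases hc with hc | hc | hc | hc
  · rw [hy _ hc, one_mul, h13] at hE
    exact n1 (mul_eq_right.mp hE.symm)
  · rw [hy _ hc] at hE
    have e : x1 * (x1 * x3) * x1 * (x1 * x3) = 1 := by simp only [mul_assoc, h1', h3]
    rw [e] at hE
    apply n12
    rw [eq_inv_of_mul_eq_one_left hE.symm, x2inv]
  · rw [hy _ hc] at hE
    have e : x1 * (x2 * x3) * x1 * (x2 * x3) = x2 := by
      simp only [mul_assoc, r1, r3, r3', h2', h13']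
    rw [e] at hE
    exact n1 (mul_eq_right.mp hE.symm)
  · rw [hy _ hc] at hE
    have e : x1 * (x1 * x2 * x3) * x1 * (x1 * x2 * x3) = 1 := by
      simp only [mul_assoc, h1', r3, r3', h2', h3]
    rw [e] at hE
    apply n12
    rw [eq_inv_of_mul_eq_one_left hE.symm, x2inv]

/-- `s = 5`: `x_i, x_j` commute for `|i - j| ≤ 2`, and `c := [x_0, x_3] ∈ {x_1, x_2, x_1 x_2}`.  Proof.  `comm_mem C 0 1`: neighbours commute (`Xint_empty`, `xs_comm_shift`).  `comm_mem C 0 2`: `d := x_0 x_2 x_0 x_2 ∈ Xint 1 1`, so `d = 1 ∨ d = x_1` (`calcAsm_mem_single`).  `comm_mem C 0 3` (`3 - 0 + 2 ≤ 5`): `c ∈ Xint 1 2`, whose elements are `1, x_1, x_2, x_1 x_2` (`coset_right C 1 2`, `calcAsm_mem_single`).  CASE `d = x_1` is impossible: then (shift by `g`) `x_1 x_3 x_1 x_3 = x_2`, `x_0 x_2 x_0 = x_1 x_2`, `x_1 x_3 x_1 = x_2 x_3`, `x_3 x_1 x_3 = x_1 x_2`, `x_0 x_3 x_0 = c x_3`.  Conjugating `x_1 x_3 x_1 x_3 = x_2` by `x_0` (which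 commutes with `x_1`): `x_1 (c x_3) x_1 (c x_3) = x_1 x_2`; as `c` commutes with `x_1`, the left side is `c (x_1 x_3 x_1) c x_3 = c x_2 (x_3 c x_3)`; for `c = 1, x_1, x_2, x_1 x_2` this is `x_2, 1, x_2, 1` respectively (`x_3 x_1 x_3 = x_1 x_2`, `x_3 x_2 x_3 = x_2`), never `x_1 x_2` (`x_1 ≠ 1`, `x_1 ≠ x_2`: `xs_not_mem_left`/`card_Xint`).  So `d = 1`: all pairs at distance `≤ 2` commute.  Finally `c ≠ 1`: otherwise all pairs at distance `≤ 3` commute and `x_2` commutes with `x_0, .., x_5`, contradicting `C.nc 2`. -/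
theorem tus_rel5a [Finite G] {g x₀ : G} (C : Calc g x₀ 5) :
    (∀ i j : ℤ, |i - j| ≤ 2 → xs g x₀ i * xs g x₀ j = xs g x₀ j * xs g x₀ i) ∧
    (xs g x₀ 0 * xs g x₀ 3 * xs g x₀ 0 * xs g x₀ 3 = xs g x₀ 1 ∨
     xs g x₀ 0 * xs g x₀ 3 * xs g x₀ 0 * xs g x₀ 3 = xs g x₀ 2 ∨
     xs g x₀ 0 * xs g x₀ 3 * xs g x₀ 0 * xs g x₀ 3 = xs g x₀ 1 * xs g x₀ 2) := by
  have hsq : ∀ i : ℤ, xs g x₀ i * xs g x₀ i = 1 := fun i => xs_mul_self C.inv i
  have hinv : ∀ i : ℤ, (xs g x₀ i)⁻¹ = xs g x₀ i := fun i => xs_inv C.inv i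
  -- neighbours commute
  have h01 : xs g x₀ 0 * xs g x₀ 1 = xs g x₀ 1 * xs g x₀ 0 := by
    have h := comm_mem C 0 1 (by norm_num) (by norm_num)
    rw [Xint_empty (by norm_num), Subgroup.mem_bot] at h
    exact calcAsm_comm_of (hsq 0) (hsq 1) h
  have hn1 : ∀ k : ℤ, xs g x₀ k * xs g x₀ (k + 1) = xs g x₀ (k + 1) * xs g x₀ k := by
    intro k
    have h := (xs_comm_shift (g := g) (x₀ := x₀) 0 1 k).2 h01
    rw [zero_add, add_comm 1 k] at h
    exact h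
  -- the commutators
  have hd : xs g x₀ 0 * xs g x₀ 2 * xs g x₀ 0 * xs g x₀ 2 = 1 ∨
      xs g x₀ 0 * xs g x₀ 2 * xs g x₀ 0 * xs g x₀ 2 = xs g x₀ 1 := by
    have h := comm_mem C 0 2 (by norm_num) (by norm_num)
    rw [show (0 : ℤ) + 1 = 1 by norm_num, show (2 : ℤ) - 1 = 1 by norm_num] at h
    exact calcAsm_mem_single C.inv 1 _ h
  have hc : xs g x₀ 0 * xs g x₀ 3 * xs g x₀ 0 * xs g x₀ 3 = 1 ∨
      xs g x₀ 0 * xs g x₀ 3 * xs g x₀ 0 * xs g x₀ 3 = xs g x₀ 1 ∨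
      xs g x₀ 0 * xs g x₀ 3 * xs g x₀ 0 * xs g x₀ 3 = xs g x₀ 2 ∨
      xs g x₀ 0 * xs g x₀ 3 * xs g x₀ 0 * xs g x₀ 3 = xs g x₀ 1 * xs g x₀ 2 := by
    have h := comm_mem C 0 3 (by norm_num) (by norm_num)
    rw [show (0 : ℤ) + 1 = 1 by norm_num, show (3 : ℤ) - 1 = 2 by norm_num] at h
    have h2 := coset_right C 1 2 (by norm_num) (by norm_num) _ h
    rw [show (2 : ℤ) - 1 = 1 by norm_num] at h2
    rcases h2 with h2 | h2
    · rcases calcAsm_mem_single C.inv 1 _ h2 with h3 | h3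
      · exact Or.inl h3
      · exact Or.inr (Or.inl h3)
    · rcases calcAsm_mem_single C.inv 1 _ h2 with h3 | h3
      · refine Or.inr (Or.inr (Or.inl ?_))
        rw [eq_inv_of_mul_eq_one_left h3, hinv]
      · refine Or.inr (Or.inr (Or.inr ?_))
        rw [eq_mul_inv_of_mul_eq h3, hinv]
  have n1 : xs g x₀ 1 ≠ 1 := by
    intro h
    have h2 := xs_not_mem_left C 1 1 le_rfl (by norm_num)
    rw [h] at h2
    exact h2 (Subgroup.one_mem _)
  have n12 : xs g x₀ 1 ≠ xs g x₀ 2 := by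
    intro h
    have h2 := xs_not_mem_left C 1 2 (by norm_num) (by norm_num)
    rw [h] at h2
    exact h2 (xs_mem_Xint (by norm_num) le_rfl)
  -- `[x_0, x_2] = 1`
  have h02 : xs g x₀ 0 * xs g x₀ 2 = xs g x₀ 2 * xs g x₀ 0 := by
    rcases hd with hd | hd
    · exact calcAsm_comm_of (hsq 0) (hsq 2) hd
    · exfalso
      have h13 : xs g x₀ 1 * xs g x₀ 3 * xs g x₀ 1 * xs g x₀ 3 = xs g x₀ 2 := by
        have h := calcFinal_shift g x₀ 0 2 1
        rw [hd, xs_conj g x₀ 1 1] at h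
        rw [show (1 : ℤ) + 1 = 2 by norm_num, show (0 : ℤ) + 1 = 1 by norm_num,
          show (2 : ℤ) + 1 = 3 by norm_num] at h
        exact h.symm
      have c12 := hn1 1
      have c23 := hn1 2
      rw [show (1 : ℤ) + 1 = 2 by norm_num] at c12
      rw [show (2 : ℤ) + 1 = 3 by norm_num] at c23
      exact tusrel5a_aux (hsq 0) (hsq 1) (hsq 2) (hsq 3) h01 c12 c23 hd h13 hc n1 n12
  have hn2 : ∀ k : ℤ, xs g x₀ k * xs g x₀ (k + 2) = xs g x₀ (k + 2) * xs g x₀ k := by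
    intro k
    have h := (xs_comm_shift (g := g) (x₀ := x₀) 0 2 k).2 h02
    rw [zero_add, add_comm 2 k] at h
    exact h
  have hcomm2 : ∀ i j : ℤ, |i - j| ≤ 2 → xs g x₀ i * xs g x₀ j = xs g x₀ j * xs g x₀ i := by
    intro i j h
    rw [abs_le] at h
    have h5 : j = i ∨ j = i + 1 ∨ j = i + 2 ∨ i = j + 1 ∨ i = j + 2 := by omega
    rcases h5 with rfl | rfl | rfl | rfl | rfl
    · rfl
    · exact hn1 i
    · exact hn2 i
    · exact (hn1 j).symm
    · exact (hn2 j).symm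
  refine ⟨hcomm2, ?_⟩
  rcases hc with hc | hc | hc | hc
  · exfalso
    have h03 : xs g x₀ 0 * xs g x₀ 3 = xs g x₀ 3 * xs g x₀ 0 :=
      calcAsm_comm_of (hsq 0) (hsq 3) hc
    have hn3 : ∀ k : ℤ, xs g x₀ k * xs g x₀ (k + 3) = xs g x₀ (k + 3) * xs g x₀ k := by
      intro k
      have h := (xs_comm_shift (g := g) (x₀ := x₀) 0 3 k).2 h03
      rw [zero_add, add_comm 3 k] at h
      exact h
    have hcomm3 : ∀ i j : ℤ, |i - j| ≤ 3 →
        xs g x₀ i * xs g x₀ j = xs g x₀ j * xs g x₀ i := by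
      intro i j h
      rw [abs_le] at h
      have h5 : |i - j| ≤ 2 ∨ j = i + 3 ∨ i = j + 3 := by
        rw [abs_le]
        omega
      rcases h5 with h5 | rfl | rfl
      · exact hcomm2 i j h5
      · exact hn3 i
      · exact (hn3 j).symm
    obtain ⟨i, hi0, hi5, hne⟩ := C.nc 2 (by norm_num) (by norm_num)
    have hi5' : i ≤ 5 := by exact_mod_cast hi5
    apply hne
    apply hcomm3
    rw [abs_le]
    constructor <;> omega
  · exact Or.inl hc
  · exact Or.inr (Or.inl hc)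
  · exact Or.inr (Or.inr hc)

end Cfsg.Agent.Lib.Helper55.TUT
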