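import Cfsg.Agent.Lib.Helper55.TusDefs

/-!
# Project TUS (S3685: structure of the point stabiliser, suborbit of length 3) -- piece `TusS3`

Filled in by helper17 (statement, name and namespace unchanged).
Helper lemmas HERE with names prefixed `tuss3_` (lower-case file tag) and import any landed
`Cfsg.Agent` library file.  Notation: `x_i := xs g x₀ i` (involutions, `g x_i g⁻¹ = x_{i+1}`: `xs_conj`),
`Xint g x₀ i j = ⟨x_i..x_j⟩`; proved API: `TutBasic.lean` and the `TutCalc*.lean` files (`card_Xint`,
`comm_mem`, `coset_left/right`, `xs_not_mem_left/right`, `inter_eq`, `calcAsm_mem_single`,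
`calcFinal_shift`, `calcE_ne` is for `s = 7` only).
-/

set_option autoImplicit false

namespace Cfsg.Agent.Lib.Helper55.TUT

open scoped Pointwise


variable {G : Type*} [Group G]

/-- elements of the subgroup generated by an involution -/
theorem tuss3_mem {X : Type*} [Group X] {t k : X} (ht : orderOf t = 2)
    (hk : k ∈ Subgroup.zpowers t) : k = 1 ∨ k = t := by
  obtain ⟨n, rfl⟩ := Subgroup.mem_zpowers_iff.1 hk
  have h2 : t ^ 2 = 1 := by rw [← ht]; exact pow_orderOf_eq_one t
  have h2z : t ^ (2 : ℤ) = 1 := by rw [zpow_two, ← pow_two]; exact h2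
  rcases Int.even_or_odd' n with ⟨m, rfl | rfl⟩
  · left
    rw [zpow_mul, h2z, one_zpow]
  · right
    rw [zpow_add, zpow_mul, h2z, one_zpow, one_mul, zpow_one]

/-- A non-commutative group of order 6 is `S_3`.  Proof: Cauchy gives `t` of order 2; `K := zpowers t` has card 2, index 3.  `K.normalCore = ⊥`: the core is a subgroup of `K` (prime order 2) so it is `⊥` or `K`; if `K` were normal then `t` is central (`u t u⁻¹ ∈ {1, t}`), `X / K` has order 3 hence is cyclic and `X` would be commutative (center quotient cyclic; or: take `y` of order 3 (Cauchy), then `t y` has order 6 and `X` is cyclic), contradicting `hab`.  So `MulAction.toPermHom X (X ⧸ K)` is injective (`Subgroup.normalCore_eq_ker`), `Nat.card (X ⧸ K) = 3`, `Nat.card (Equiv.Perm (X ⧸ K)) = 6 = Nat.card X`, so it is bijective; compose with `Equiv.Perm.permCongrHom`-type iso `Perm (X ⧸ K) ≃* Perm (Fin 3)`.  Second disjunct of `Concl`. -/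
theorem tus_s3 {X : Type*} [Group X] [Finite X] (h : Nat.card X = 6) (a b : X) (hab : a * b ≠ b * a) :
    Concl X := by
  classical
  have h2 : 2 ∣ Nat.card X := by rw [h]; norm_num
  have : Fact (Nat.Prime 2) := ⟨Nat.prime_two⟩
  obtain ⟨t, ht⟩ := exists_prime_orderOf_dvd_card' 2 h2
  set K : Subgroup X := Subgroup.zpowers t with hK
  have hKcard : Nat.card K = 2 := by rw [hK, Nat.card_zpowers, ht]
  have hidx : K.index = 3 := by
    have h0 := K.card_mul_index
    rw [hKcard, h] at h0
    omega
  have hcore : K.normalCore = ⊥ := by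
    by_contra hne
    have hle : K.normalCore ≤ K := Subgroup.normalCore_le K
    have hd : Nat.card K.normalCore ∣ 2 := by
      rw [← hKcard]; exact Subgroup.card_dvd_of_le hle
    have hc : Nat.card K.normalCore = 2 := by
      rcases (Nat.dvd_prime Nat.prime_two).1 hd with h1 | h1
      · exact absurd (Subgroup.card_eq_one.1 h1) hne
      · exact h1
    have heq : K.normalCore = K := Subgroup.eq_of_le_of_card_ge hle (by rw [hc, hKcard])
    have hKn : K.Normal := by rw [← heq]; exact Subgroup.normalCore_normal K
    have hcen : K ≤ Subgroup.center X := by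
      intro k hk
      rw [Subgroup.mem_center_iff]
      intro u
      rcases tuss3_mem ht hk with h1 | h1
      · rw [h1, mul_one, one_mul]
      · have hm : u * k * u⁻¹ ∈ K := hKn.conj_mem k hk u
        rcases tuss3_mem ht hm with h3 | h3
        · exfalso
          have h4 : k = 1 := by
            have h5 := congrArg (fun z => u⁻¹ * z * u) h3
            simpa [mul_assoc] using h5
          rw [h1] at h4
          rw [h4, orderOf_one] at ht
          omega
        · calc u * k = u * k * u⁻¹ * u := by group
            _ = k * u := by rw [h3, h1]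
    have : IsCyclic (X ⧸ K) := by
      have h0 : Nat.card (X ⧸ K) = 3 := hidx
      have : Fact (Nat.Prime 3) := ⟨Nat.prime_three⟩
      exact isCyclic_of_prime_card h0
    exact hab (commutative_of_cyclic_center_quotient (QuotientGroup.mk' K)
      (by rw [QuotientGroup.ker_mk']; exact hcen) a b)
  have hinj : Function.Injective (MulAction.toPermHom X (X ⧸ K)) := by
    rw [← MonoidHom.ker_eq_bot_iff, ← Subgroup.normalCore_eq_ker, hcore]
  have hcardQ : Nat.card (X ⧸ K) = 3 := hidx
  have hcardP : Nat.card (Equiv.Perm (X ⧸ K)) = 6 := by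
    rw [Nat.card_perm, hcardQ]
    rfl
  have hbij : Function.Bijective (MulAction.toPermHom X (X ⧸ K)) := by
    rw [Nat.bijective_iff_injective_and_card]
    exact ⟨hinj, by rw [h, hcardP]⟩
  have e : (X ⧸ K) ≃ Fin 3 := Finite.equivFinOfCardEq hcardQ
  exact Or.inr (Or.inl ⟨(MulEquiv.ofBijective (MulAction.toPermHom X (X ⧸ K)) hbij).trans
    (Equiv.permCongrHom e)⟩)

end Cfsg.Agent.Lib.Helper55.TUT
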