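import Cfsg.Agent.Lib.Helper55.TusDefs

/-!
# Project TUS (S3685: structure of the point stabiliser, suborbit of length 3) -- piece `TusSix`

FILLED by helper54 (statement, name and namespace unchanged);
you may add helper lemmas HERE with names prefixed `tussix_` (lower-case file tag) and import any landed
`Cfsg.Agent` library file.  Notation: `x_i := xs g x₀ i` (involutions, `g x_i g⁻¹ = x_{i+1}`: `xs_conj`),
`Xint g x₀ i j = ⟨x_i..x_j⟩`; proved API: `TutBasic.lean` and the `TutCalc*.lean` files (`card_Xint`,
`comm_mem`, `coset_left/right`, `xs_not_mem_left/right`, `inter_eq`, `calcAsm_mem_single`,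
`calcFinal_shift`, `calcE_ne` is for `s = 7` only).
-/

set_option autoImplicit false

namespace Cfsg.Agent.Lib.Helper55.TUT

open scoped Pointwise


variable {G : Type*} [Group G]

/-- two commuting involutions cannot generate a group of order 6 -/
theorem tussix_not_comm {Y : Type*} [Group Y] [Finite Y] (h : Nat.card Y = 6) (α β : Y)
    (hα : α * α = 1) (hβ : β * β = 1) (hgen : Subgroup.closure ({α, β} : Set Y) = ⊤)
    (hc : α * β = β * α) : False := by
  -- `α`, `β` are central
  have hcen : ∀ y : Y, α * y = y * α ∧ β * y = y * β := by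
    intro y
    have hy : y ∈ Subgroup.closure ({α, β} : Set Y) := by rw [hgen]; trivial
    induction hy using Subgroup.closure_induction with
    | mem x hx =>
      rcases hx with rfl | hx
      · exact ⟨rfl, hc.symm⟩
      · rw [Set.mem_singleton_iff] at hx
        subst hx
        exact ⟨hc, rfl⟩
    | one => simp
    | mul a b _ _ iha ihb =>
      constructor
      · rw [← mul_assoc, iha.1, mul_assoc, ihb.1, mul_assoc]
      · rw [← mul_assoc, iha.2, mul_assoc, ihb.2, mul_assoc]
    | inv a _ iha =>
      constructor
      · calc α * a⁻¹ = a⁻¹ * (a * α) * a⁻¹ := by group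
          _ = a⁻¹ * (α * a) * a⁻¹ := by rw [iha.1]
          _ = a⁻¹ * α := by group
      · calc β * a⁻¹ = a⁻¹ * (a * β) * a⁻¹ := by group
          _ = a⁻¹ * (β * a) * a⁻¹ := by rw [iha.2]
          _ = a⁻¹ * β := by group
  -- the group is commutative
  have hcomm : ∀ y w : Y, y * w = w * y := by
    intro y w
    have hy : y ∈ Subgroup.closure ({α, β} : Set Y) := by rw [hgen]; trivial
    induction hy using Subgroup.closure_induction with
    | mem x hx =>
      rcases hx with rfl | hx
      · exact (hcen w).1
      · rw [Set.mem_singleton_iff] at hx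
        subst hx
        exact (hcen w).2
    | one => simp
    | mul a b _ _ iha ihb =>
      rw [mul_assoc, ihb, ← mul_assoc, iha, mul_assoc]
    | inv a _ iha =>
      calc a⁻¹ * w = a⁻¹ * (w * a) * a⁻¹ := by group
        _ = a⁻¹ * (a * w) * a⁻¹ := by rw [iha]
        _ = w * a⁻¹ := by group
  -- every element squares to one
  have hsq : ∀ y : Y, y * y = 1 := by
    intro y
    have hy : y ∈ Subgroup.closure ({α, β} : Set Y) := by rw [hgen]; trivial
    induction hy using Subgroup.closure_induction with
    | mem x hx =>
      rcases hx with rfl | hx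
      · exact hα
      · rw [Set.mem_singleton_iff] at hx
        subst hx
        exact hβ
    | one => simp
    | mul a b _ _ iha ihb =>
      calc a * b * (a * b) = a * (b * a) * b := by group
        _ = a * (a * b) * b := by rw [hcomm b a]
        _ = (a * a) * (b * b) := by group
        _ = 1 := by rw [iha, ihb, one_mul]
    | inv a _ iha =>
      calc a⁻¹ * a⁻¹ = (a * a)⁻¹ := by group
        _ = 1 := by rw [iha, inv_one]
  -- an element of order 3
  have : Fact (Nat.Prime 3) := ⟨by norm_num⟩
  obtain ⟨c, hc3⟩ := exists_prime_orderOf_dvd_card' (G := Y) 3 (by rw [h]; norm_num)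
  have h2 : orderOf c ∣ 2 := orderOf_dvd_of_pow_eq_one (by rw [pow_two]; exact hsq c)
  rw [hc3] at h2
  omega

/-- In a group of order 6 generated by two elements `α`, `β` with `α² = β² = 1`, `(αβ)^3 = 1`.  Proof: `n := orderOf (α * β)` divides 6.  If `(α * β) ^ 2 = 1` (covers `n = 1, 2`) then `α β = β α`, so `{1, α, β, αβ}` is a subgroup containing `α, β`, so `⊤ = closure {α, β}` has at most 4 elements, contradiction with card 6.  If `n = 6` then `Y` is cyclic (`isCyclic_of_orderOf_eq_card`), hence commutative, so again `α β = β α`: contradiction as before.  So `n = 3`. -/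
theorem tus_six {Y : Type*} [Group Y] [Finite Y] (h : Nat.card Y = 6) (α β : Y) (hα : α * α = 1)
    (hβ : β * β = 1) (hgen : Subgroup.closure ({α, β} : Set Y) = ⊤) : (α * β) ^ 3 = 1 := by
  have hαi : α⁻¹ = α := inv_eq_of_mul_eq_one_left hα
  have hβi : β⁻¹ = β := inv_eq_of_mul_eq_one_left hβ
  have h6 : orderOf (α * β) ∣ 6 := by
    rw [← h]
    exact orderOf_dvd_natCard (α * β)
  have hmem : orderOf (α * β) ∈ Nat.divisors 6 := Nat.mem_divisors.2 ⟨h6, by norm_num⟩
  have hdiv : Nat.divisors 6 = {1, 2, 3, 6} := by decide
  rw [hdiv] at hmem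
  simp only [Finset.mem_insert, Finset.mem_singleton] at hmem
  have hsq2 : (α * β) ^ 2 = 1 → False := by
    intro h2
    apply tussix_not_comm h α β hα hβ hgen
    have h3 : α * β = (α * β)⁻¹ := by
      rw [pow_two] at h2
      exact (inv_eq_of_mul_eq_one_left h2).symm
    rw [mul_inv_rev, hαi, hβi] at h3
    exact h3
  rcases hmem with h1 | h1 | h1 | h1
  · exfalso
    apply hsq2
    have := pow_orderOf_eq_one (α * β)
    rw [h1, pow_one] at this
    rw [this, one_pow]
  · exfalso
    apply hsq2
    have := pow_orderOf_eq_one (α * β)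
    rw [h1] at this
    exact this
  · have := pow_orderOf_eq_one (α * β)
    rw [h1] at this
    exact this
  · exfalso
    have hcyc : IsCyclic Y := isCyclic_of_orderOf_eq_card (α * β) (by rw [h1, h])
    have hcm : IsMulCommutative Y := hcyc.isMulCommutative
    exact tussix_not_comm h α β hα hβ hgen (hcm.is_comm.comm α β)

end Cfsg.Agent.Lib.Helper55.TUT
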